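import Mathlib
import Cfsg.Agent.Chev.AltBlk
import Cfsg.Agent.Chev.AltLinC

/-!
# Alternating sections of `E₆`
-/

set_option autoImplicit false
set_option maxRecDepth 100000

namespace Cfsg.Agent.Chev.AS

open Cfsg.Lie Cfsg.Lie.ChevalleyDatum Alc Chk Subgroup

section

variable {α H : Type*} [Fintype α] [DecidableEq α] [Group H] [Finite H] {f : H →* alternatingGroup α}

theorem isConj_of_supp_map {l : ℕ} [Fact l.Prime] (hf : Function.Surjective f)
    (hk : ¬ l ∣ Nat.card f.ker) {a b : H} (ha : a ^ l = 1) (hb : b ^ l = 1)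
    (h : (f a).1.support.card = (f b).1.support.card)
    (h2 : (f a).1.support.card + 2 ≤ Fintype.card α) : IsConj a b :=
  isConj_of_map hf hk ha hb (alternatingGroup.isConj_of (isConj_of_supp (l := l)
    (by rw [← coe_pow, ← map_pow, ha, map_one, coe_one])
    (by rw [← coe_pow, ← map_pow, hb, map_one, coe_one]) h) h2)

theorem MinCov.exists_central (hf : MinCov f) (h5 : 5 ≤ Fintype.card α) (h2 : 2 ∣ Nat.card f.ker)
    {b c : ℕ} (hb : ∀ E : Subgroup H, (∀ x ∈ E, x ^ 2 = 1) → Nat.card E ≤ 2 ^ b) (hc : c.Coprime 2)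
    (hc1 : 2 * c ∣ (Fintype.card α).factorial)
    (hc2 : ∀ r ≤ b, ¬ c ∣ ∏ i ∈ Finset.range r, (2 ^ r - 2 ^ i)) :
    ∃ t : H, t ≠ 1 ∧ t ^ 2 = 1 ∧ ∀ g, Commute t g := by
  have := alternatingGroup.isSimpleGroup (α := α) (by rw [Nat.card_eq_fintype_card]; omega)
  obtain ⟨T, hT, h3, h4, h6⟩ := hf.exists_normal (p := 2) (V := ⊥) IsPGroup.of_bot
  let E : Subgroup H :=
    { carrier := {z | z ∈ T ∧ z ^ 2 = 1 ∧ ∀ y ∈ T, Commute y z}
      one_mem' := ⟨one_mem _, by simp, by simp⟩
      mul_mem' := fun {a b} ha hb => ⟨mul_mem ha.1 hb.1, by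
        rw [(hb.2.2 a ha.1).mul_pow, ha.2.1, hb.2.1, mul_one],
        fun y hy => (ha.2.2 y hy).mul_right (hb.2.2 y hy)⟩
      inv_mem' := fun {a} ha => ⟨inv_mem ha.1, by rw [inv_pow, ha.2.1, inv_one],
        fun y hy => (ha.2.2 y hy).inv_right⟩ }
  have hE : E.Normal := ⟨fun z hz g => ⟨hT.conj_mem z hz.1 g, by rw [conj_pow, hz.2.1]; simp,
    fun y hy => by simpa [mul_assoc] using (hz.2.2 _ (hT.conj_mem' y hy g)).conj g⟩⟩
  rcases hf.eq_top_or_le (MulAut.conjNormal (H := E)).ker with h | h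
  · have : Nontrivial T := (nontrivial_iff_ne_bot T).2 (by
      rintro rfl
      exact h6 (by rwa [relIndex_bot_left]))
    obtain ⟨n, hn, h7⟩ := (h3.to_subgroup (center T)).nontrivial_iff_card.1 h3.center_nontrivial
    obtain ⟨z, hz⟩ := exists_prime_orderOf_dvd_card' (G := center T) 2 (h7 ▸ dvd_pow_self 2 hn.ne')
    have h8 : ((z : T) : H) ^ 2 = 1 :=
      congrArg (fun x : center T => ((x : T) : H)) (hz ▸ pow_orderOf_eq_one z : z ^ 2 = 1)
    refine ⟨z, fun e => ?_, h8, fun g => ?_⟩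
    · rw [show z = 1 from Subtype.ext (Subtype.ext e), orderOf_one] at hz
      omega
    · have h9 : MulAut.conjNormal g = (1 : MulAut E) := (h ▸ mem_top g : g ∈ MonoidHom.ker _)
      exact (mul_inv_eq_iff_eq_mul.1 (congrArg (fun φ : MulAut E => ((φ ⟨z, z.1.2, h8, fun y hy =>
        congrArg Subtype.val (mem_center_iff.1 z.2 ⟨y, hy⟩)⟩ : E) : H)) h9)).symm
  · have hp : IsPGroup 2 E := h3.to_le fun _ hz => hz.1
    obtain ⟨n, hn⟩ := IsPGroup.iff_card.1 hp
    obtain ⟨r, hr⟩ := hp.index (frattini E)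
    have h6 := index_dvd_of_le h
    rw [index_ker, index_ker, MonoidHom.range_eq_top.2 hf.surj, card_top] at h6
    have h7 : c ∣ Nat.card (alternatingGroup α) := by
      have : Nontrivial α := Fintype.one_lt_card_iff_nontrivial.1 (by omega)
      rwa [← Fintype.card_perm, ← two_mul_card_alternatingGroup, ← Nat.card_eq_fintype_card,
        mul_dvd_mul_iff_left two_ne_zero] at hc1
    exact absurd ((hc.pow_right _).dvd_of_dvd_mul_left ((h7.trans h6).trans
      ((card_subgroup_dvd_card _).trans (S4208.result hn hr))))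
      (hc2 r ((Nat.pow_le_pow_iff_right one_lt_two).1 (hr ▸ (Nat.le_of_dvd Nat.card_pos
        (frattini E).index_dvd_card).trans (hb E fun x hx => hx.2.1))))

end

theorem chkE6_10' : ratChk tlE6 [1, 2, 2, 3, 2, 1] 10 7 [2, 5] (fun s =>
    decide (sumT (ind 0) tlE6 s 10 5 = 11 ∧ sumT (ind 0) tlE6 s 10 1 ≤ 7 ∨
      sumT (ind 0) tlE6 s 10 5 = 15 ∧ sumT (ind 5) tlE6 s 10 5 = 12 ∧ sumT (ind 5) tlE6 s 10 1 = 4)) =
    true := by decide +kernel

/-- a regular elementary abelian group on eight points -/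
def j222 : MZ 2 × MZ 2 × MZ 2 →* alternatingGroup (Fin 12) where
  toFun x := (sw 0 1 2 3 * sw 4 5 6 7) ^ x.1.toAdd.val * (sw 0 2 1 3 * sw 4 6 5 7) ^ x.2.1.toAdd.val *
    (sw 0 4 1 5 * sw 2 6 3 7) ^ x.2.2.toAdd.val
  map_one' := by simp
  map_mul' := by decide +kernel

/-- the product of two four-groups -/
def j2222 : MZ 2 × MZ 2 × MZ 2 × MZ 2 →* alternatingGroup (Fin 12) where
  toFun x := sw 0 1 2 3 ^ x.1.toAdd.val * sw 0 2 1 3 ^ x.2.1.toAdd.val *
    (sw 4 5 6 7 ^ x.2.2.1.toAdd.val * sw 4 6 5 7 ^ x.2.2.2.toAdd.val)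
  map_one' := by simp
  map_mul' := by decide +kernel

/-- a Sylow `5`-subgroup -/
def j55 : MZ 5 × MZ 5 →* alternatingGroup (Fin 12) where
  toFun x := (sw 0 1 1 2 * sw 2 3 3 4) ^ x.1.toAdd.val * (sw 5 6 6 7 * sw 7 8 8 9) ^ x.2.toAdd.val
  map_one' := by simp
  map_mul' := by decide +kernel

theorem j55_inj : ∀ a, 1 = j55 (a ^ 2) → a = 1 := by decide +kernel

attribute [local instance] fact_five

variable (p : ℕ) [hp : Fact p.Prime] {F : Type} [Field F] [Finite F] [CharP F p]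
  [DecidableEq (AlgebraicClosure F)] {H : Subgroup (chevE6.SteinbergGroup F)}
  {f : H →* alternatingGroup (Fin 12)}

variable (H) in
/-- the representation of degree 27 -/
noncomputable def ψ6 : H →* chevE6.SteinbergGroup (AlgebraicClosure F) :=
  (chevE6.stMap (algebraMap _ _)).comp H.subtype

omit hp [Finite F] [DecidableEq (AlgebraicClosure F)] in
theorem prim_two (h2 : p ≠ 2) : IsPrimitiveRoot (-1 : AlgebraicClosure F) 2 :=
  IsPrimitiveRoot.neg_one p h2

theorem count_E6 (h2 : p ≠ 2) {x : H} (hx : x ^ 2 = 1) (h1 : x ≠ 1) :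
    ((rep27 _).ev (ψ6 H x)).count 1 ∈ [11, 15] := by
  obtain ⟨s, h3, h4⟩ := (rep27 _).rat_fin p (tab27 _) hiE6 (by norm_num) (by norm_num)
    (coprime_of_ne p Nat.prime_two h2) (center_E6 _) (stTor_injective_E6 _) (prim_two p h2) chkE6_2
    (x := x.1) (congrArg Subtype.val hx) (by rw [pow_one]) (by simpa using h1)
  have h5 := h4 1
  rw [pow_one] at h5
  have h6 := count_eq_sumT (prim_two (F := F) p h2) tlE6 s 1 two_pos
  rw [pow_zero] at h6
  rw [ψ6, MonoidHom.comp_apply, coe_subtype, h5, h6]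
  exact of_decide_eq_true h3

theorem not_E6_odd (h2 : p ≠ 2) (hf : Function.Surjective f) : 2 ∣ Nat.card f.ker := by
  by_contra hk
  have := chevE6.finite_stGroup F
  have hV : ∀ v : MZ 2 × MZ 2 × MZ 2, v ^ 2 = 1 := by decide +kernel
  have hW : ∀ v : MZ 2 × MZ 2 × MZ 2 × MZ 2, v ^ 2 = 1 := by decide +kernel
  obtain ⟨j, hj, -⟩ := exists_lift hf hk (isPGroup_of_pow hV) j222
  obtain ⟨j', hj', -⟩ := exists_lift hf hk (isPGroup_of_pow hW) j2222
  obtain ⟨k, e1⟩ := exists_count_one ((rep27 _).ρ.comp (ψ6 H)) j (fun a b => mul_comm a b)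
    Nat.prime_two (prim_two p h2) hV
  obtain ⟨k', e2⟩ := exists_count_one ((rep27 _).ρ.comp (ψ6 H)) j' (fun a b => mul_comm a b)
    Nat.prime_two (prim_two p h2) hW
  have h1 : ∀ a, j a ^ 2 = 1 := fun a => by rw [← map_pow, hV, map_one]
  have h1' : ∀ a, j' a ^ 2 = 1 := fun a => by rw [← map_pow, hW, map_one]
  have h3 := count_E6 p h2 (h1' (.ofAdd 1, 1)) fun e => absurd (hj' (.ofAdd 1, 1))
    (by rw [e, map_one]; decide +kernel)
  have h4 := count_E6 p h2 (h1' (.ofAdd 1, 1, .ofAdd 1, 1)) fun e => absurd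
    (hj' (.ofAdd 1, 1, .ofAdd 1, 1)) (by rw [e, map_one]; decide +kernel)
  have h5 : ∀ x, x ^ 2 = 1 → (f x).1.support.card ∈ [0, 4, 8] → ((rep27 _).ev (ψ6 H x)).count 1 =
      (if (f x).1.support.card = 0 then 1 else 0) * 27 +
      (if (f x).1.support.card = 4 then 1 else 0) * ((rep27 _).ev (ψ6 H (j' (.ofAdd 1, 1)))).count 1 +
      (if (f x).1.support.card = 8 then 1 else 0) *
        ((rep27 _).ev (ψ6 H (j' (.ofAdd 1, 1, .ofAdd 1, 1)))).count 1 := fun x hx h => by
    simp only [List.mem_cons, List.not_mem_nil, or_false] at h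
    have h6 : ∀ b, (f x).1.support.card = (j2222 b).1.support.card →
        (rep27 _).ev (ψ6 H x) = (rep27 _).ev (ψ6 H (j' b)) := fun b e =>
      (rep27 _).ev_conj ((ψ6 H).map_isConj (isConj_of_supp_map hf hk hx (h1' b) (by rw [hj', e])
        (by rw [Fintype.card_fin]; omega)))
    rcases h with e | e | e
    · rw [h6 1 (by rw [e]; decide +kernel), e, map_one, map_one, WtRep.ev, map_one, count_roots_one]
      simp
    · rw [h6 (.ofAdd 1, 1) (by rw [e]; decide +kernel), e]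
      simp
    · rw [h6 (.ofAdd 1, 1, .ofAdd 1, 1) (by rw [e]; decide +kernel), e]
      simp
  change 2 * ∑ a, ((rep27 _).ev (ψ6 H (j a))).count 1 = _ at e1
  change 2 * ∑ a, ((rep27 _).ev (ψ6 H (j' a))).count 1 = _ at e2
  rw [Finset.sum_congr rfl fun a _ => h5 _ (h1 a) (by rw [hj]; revert a; decide +kernel)] at e1
  rw [Finset.sum_congr rfl fun a _ => h5 _ (h1' a) (by rw [hj']; revert a; decide +kernel)] at e2
  generalize ((rep27 _).ev (ψ6 H (j' (.ofAdd 1, 1)))).count 1 = A at h3 e1 e2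
  generalize ((rep27 _).ev (ψ6 H (j' (.ofAdd 1, 1, .ofAdd 1, 1)))).count 1 = B at h4 e1 e2
  simp only [hj, hj', Finset.sum_add_distrib, ← Finset.sum_mul] at e1 e2
  rw [show ∑ a, (if (j222 a).1.support.card = 0 then 1 else 0) = 1 by decide +kernel,
    show ∑ a, (if (j222 a).1.support.card = 4 then 1 else 0) = 0 by decide +kernel,
    show ∑ a, (if (j222 a).1.support.card = 8 then 1 else 0) = 7 by decide +kernel] at e1
  rw [show ∑ a, (if (j2222 a).1.support.card = 0 then 1 else 0) = 1 by decide +kernel,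
    show ∑ a, (if (j2222 a).1.support.card = 4 then 1 else 0) = 6 by decide +kernel,
    show ∑ a, (if (j2222 a).1.support.card = 8 then 1 else 0) = 9 by decide +kernel] at e2
  simp only [List.mem_cons, List.not_mem_nil, or_false, Fintype.card_prod, Fintype.card_multiplicative,
    ZMod.card, Fintype.card_fin] at h3 h4 e1 e2
  omega

theorem card_le_E6 (h2 : p ≠ 2) (E : Subgroup H) (hE : ∀ x ∈ E, x ^ 2 = 1) : Nat.card E ≤ 2 ^ 8 := by
  have := chevE6.finite_stGroup F
  have h1 := card_dvd_of_two ((rep27 _).ρ.comp (ψ6 H)) E.subtype (prim_two p h2)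
    (fun a => Subtype.ext (hE a a.2)) (x := 11) (y := 15) fun a ha => by
      have := count_E6 p h2 (hE a a.2) fun e => ha (Subtype.ext e)
      simp only [List.mem_cons, List.not_mem_nil, or_false] at this ⊢
      exact this.imp (congrArg Nat.cast) (congrArg Nat.cast)
  obtain ⟨n, hn⟩ := IsPGroup.iff_card.1 (isPGroup_of_pow (l := 2) fun a : E => Subtype.ext (hE a a.2))
  rw [hn] at h1 ⊢
  refine Nat.pow_le_pow_right two_pos ?_
  by_contra hc
  have h3 : ((2 ^ 9 : ℕ) : ℤ) ∣ (2 ^ n : ℕ) := Int.natCast_dvd_natCast.2 (pow_dvd_pow 2 (by omega))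
  exact absurd (h3.trans h1) (by norm_num)

theorem not_E6_block (h2 : p ≠ 2) (h3 : p ≠ 3) (h5 : p ≠ 5) (hf : MinCov f) {t : H} (ht : t ^ 2 = 1)
    (hc : ∀ g, Commute t g) (h : ((rep27 _).ev (ψ6 H t)).count 1 = 11) (x : H) :
    10 ≤ ((rep27 _).ev (ψ6 H x)).count 1 := by
  classical
  have := chevE6.finite_stGroup F
  have := Fintype.ofFinite F
  obtain ⟨ζ, hζ⟩ := exists_primRoot F p (coprime_of_ne p fact_five.out h5)
  obtain ⟨-, -, χ, -, h1⟩ := chevE6.exists_isConj_torC F (stTor_injective_E6 _) p t.1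
    ((coprime_of_ne p Nat.prime_two h2).coprime_dvd_left
      (orderOf_dvd_of_pow_eq_one (congrArg Subtype.val ht)))
  change IsConj (ψ6 H t) _ at h1
  obtain ⟨P, h4, h6⟩ := exists_block6 (prim_two p h2) hζ (χ := χ) (chevE6.torC_injective
    (stTor_injective_E6 _) (by
      have := h1.pow 2
      rw [← map_pow, ht, map_one, isConj_one_right] at this
      rw [map_pow, this, map_one])) (by rw [← (rep27 _).ev_conj h1, h])
  obtain ⟨c, h7⟩ := isConj_iff.1 h1
  let ψ := (MulAut.conj c).toMonoidHom.comp (ψ6 H)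
  have h8 : ∀ g a b, P a → ¬ P b → (rep27 _).ρ (ψ g) a b = 0 := fun g => h6 _ (by
    rw [← h7]; exact ((hc g).map ψ).eq)
  let ρ := subHom ((rep27 _).ρ.comp ψ) (Subtype.val : {a // P a} → Fin 27) Subtype.val_injective
    fun g i b hb => ⟨⟨b, not_not.1 fun e => hb (h8 g _ _ i.2 e)⟩, rfl⟩
  rw [Nat.card_eq_fintype_card] at h4
  have := alternatingGroup.isSimpleGroup (α := Fin 12) (by simp)
  rcases hf.eq_top_or_le ρ.ker with h9 | h9
  · rw [(rep27 _).ev_conj (isConj_iff.2 ⟨c, rfl⟩ : IsConj _ (ψ x)), ← h4]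
    exact card_le_count_roots _ P (h8 x) (h9 ▸ mem_top x : x ∈ ρ.ker)
  · have := AL.degree_bound p (k := AlgebraicClosure F)
      (Matrix.toLinAlgEquiv'.toMulEquiv.toMonoidHom.comp ρ) ((alternatingGroup _).subtype.comp f)
      (by rw [MonoidHom.range_comp, MonoidHom.range_eq_top.2 hf.surj, ← MonoidHom.range_eq_map,
        range_subtype])
      (fun g hg => by
        have : f g = 1 := h9 ((map_eq_one_iff _ Matrix.toLinAlgEquiv'.injective).1 hg)
        simp [this]) (by simp)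
    rw [Module.finrank_fintype_fun_eq_card, h4, Fintype.card_fin, if_neg fun e => by
      rcases (Nat.Prime.dvd_mul hp.out (m := 3) (n := 2 ^ 2)).1 e with e | e
      · exact h3 ((Nat.prime_dvd_prime_iff_eq hp.out Nat.prime_three).1 e)
      · exact h2 ((Nat.prime_dvd_prime_iff_eq hp.out Nat.prime_two).1 (hp.out.dvd_of_dvd_pow e))] at this
    omega

theorem not_E6_cover (h2 : p ≠ 2) (h3 : p ≠ 3) (h5 : p ≠ 5) (hf : MinCov f) :
    5 ∣ Nat.card f.ker := by
  by_contra hk
  have := chevE6.finite_stGroup F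
  obtain ⟨t, ht1, ht, hc⟩ := hf.exists_central (by simp) (not_E6_odd p h2 hf.surj) (card_le_E6 p h2)
    (c := 11) (by norm_num) (by decide +kernel) (by decide +kernel)
  have hV : ∀ v : MZ 5 × MZ 5, v ^ 5 = 1 := by decide +kernel
  obtain ⟨j, hj, -⟩ := exists_lift hf.surj hk (isPGroup_of_pow hV) j55
  have h10 : (10 : ℕ).Coprime p :=
    Nat.Coprime.mul_left (coprime_of_ne p Nat.prime_two h2) (coprime_of_ne p fact_five.out h5)
  obtain ⟨ξ, hξ⟩ := exists_primRoot F p h10
  have hξ5 : ξ ^ 5 = -1 := (hξ.pow (by norm_num) (show 10 = 5 * 2 by norm_num)).eq_neg_one_of_two_right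
  have h1 : ∀ a, j a ^ 5 = 1 := fun a => by rw [← map_pow, hV, map_one]
  have h4 : ∀ a, (t * j a) ^ 5 = t := fun a => by
    rw [(hc _).mul_pow, h1, mul_one, show 5 = 2 * 2 + 1 from rfl, pow_succ, pow_mul, ht, one_pow, one_mul]
  have key : ∀ a, a ≠ 1 → ((rep27 _).ev (ψ6 H t)).count 1 = 11 ∧
      ((rep27 _).ev (ψ6 H (t * j a))).count 1 ≤ 7 ∨ ((rep27 _).ev (ψ6 H t)).count 1 = 15 ∧
        ((rep27 _).ev (ψ6 H t)).count (-1) = 12 ∧
        ((rep27 _).ev (ψ6 H (t * j a))).count (-1) = 4 := fun a ha => by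
    obtain ⟨s, e1, e2⟩ := (rep27 _).rat_fin p (tab27 _) hiE6 (by norm_num) (by norm_num) h10
      (center_E6 _) (stTor_injective_E6 _) hξ chkE6_10' (x := (t * j a).1)
      (by rw [← coe_pow, show 10 = 5 * 2 from rfl, pow_mul, h4, ht, coe_one]) (by
        obtain ⟨c, e⟩ := isConj_iff.1 (isConj_of_supp_map hf.surj hk (h1 a) (h1 (a ^ 2))
          (by rw [hj, hj]; clear ha; revert a; decide +kernel)
          (by rw [hj]; clear ha; revert a; decide +kernel))
        refine H.subtype.map_isConj (isConj_iff.2 ⟨c, ?_⟩ : IsConj (t * j a) ((t * j a) ^ 7))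
        rw [show 7 = 5 + 2 from rfl, pow_add, h4, (hc _).mul_pow, ht, one_mul, ← map_pow, ← e,
          ← mul_assoc c, ← (hc c).eq]
        group) (by
        simp only [List.mem_cons, List.not_mem_nil, or_false, forall_eq_or_imp, forall_eq, ← coe_pow,
          h4, Ne, OneMemClass.coe_eq_one]
        refine ⟨fun e => ha ?_, ht1⟩
        have := hj (a ^ 2)
        rw [(hc _).mul_pow, ht, one_mul, ← map_pow] at e
        rw [e, map_one] at this
        exact j55_inj a this)
    have e3 := e2 5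
    have e4 := e2 1
    rw [← coe_pow, h4] at e3
    rw [pow_one] at e4
    rw [ψ6, MonoidHom.comp_apply, MonoidHom.comp_apply, coe_subtype, e3, e4, ← hξ5, ← pow_zero ξ]
    simp only [count_eq_sumT hξ _ _ _ (show 0 < 10 by norm_num),
      count_eq_sumT hξ _ _ _ (show 5 < 10 by norm_num)]
    simpa only [decide_eq_true_eq] using e1
  by_cases h6 : ((rep27 _).ev (ψ6 H t)).count 1 = 11
  · have h7 := key (.ofAdd 1, 1) (by decide +kernel)
    have h8 := not_E6_block p h2 h3 h5 hf ht hc h6 (t * j (.ofAdd 1, 1))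
    omega
  · replace key := fun a ha => ((key a ha).resolve_left fun e => h6 e.1).2
    obtain ⟨k, -, e⟩ := exists_count ((rep27 _).ρ.comp (ψ6 H)) j (fun a b => mul_comm a b)
      fact_five.out two_pos (by norm_num) (hξ.pow (by norm_num) (show 10 = 2 * 5 by norm_num))
      (prim_two p h2) hV ht (fun a => hc _) (c := -1) (by norm_num)
    have h7 := (key (.ofAdd 1, 1) (by decide +kernel)).1
    have h8 : ∀ a, ((rep27 _).ev (ψ6 H (t * j a))).count (-1) = 4 + if a = 1 then 8 else 0 := fun a => by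
      split_ifs with ha
      · rw [ha, map_one, mul_one, h7]
      · exact (key a ha).2
    change 5 * ∑ a, ((rep27 _).ev (ψ6 H (t * j a))).count (-1) =
      _ * (((rep27 _).ev (ψ6 H t)).count (-1) + _) at e
    simp only [h8, Finset.sum_add_distrib] at e
    simp at e
    omega

theorem alt_E6 {F : Type*} [Field F] [Finite F] [CharP F p] {r : ℕ}
    (h : Sec (alternatingGroup (Fin r)) (chevE6.group F)) :
    r ≤ 11 + (if p = 2 ∨ p = 3 ∨ p = 5 then 1 else 0) := by
  classical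
  split_ifs with h1
  · exact alt_E6_13 p h (by omega)
  · by_contra hr
    obtain ⟨n, H, f, hf, hk⟩ := exists_cover chevE6 (fun K _ => stTor_injective_E6 K) p
      (h.alt (Fin 12) (by simp; omega)) (by simp) 5 1 243 (by norm_num) (by omega)
      (by rw [card_weyl_E6]; norm_num) (by norm_num) (by decide +kernel) (by decide +kernel)
    exact hk (not_E6_cover p (by omega) (by omega) (by omega) hf)

theorem genSubgroup_le_group (D : ChevalleyDatum) [D.Good] (F : Type*) [Field F]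
    (S : Set (List (ℕ × F))) : D.genSubgroup F S ≤ D.group F :=
  (closure_le _).2 fun g ⟨w, _, e⟩ => by
    rw [show g = D.wordG F w from Units.ext (e.trans (D.coe_wordG F w).symm)]
    refine Subgroup.list_prod_mem _ fun y hy => ?_
    obtain ⟨q, -, rfl⟩ := List.mem_map.1 hy
    exact D.X_mem_group F _ _

end Cfsg.Agent.Chev.AS
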