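import Mathlib
import Cfsg.Agent.Chev.BglCore

/-!
Finite overgroups of Chevalley groups over subfields, III: type `B₂`.
-/

set_option autoImplicit false

namespace Cfsg.Lie.ChevalleyDatum

open Cfsg.Agent Cfsg.Agent.Chev Matrix

variable {D : ChevalleyDatum} [hG : D.Good] {F : Type*} [Field F] {M : Subgroup (GL D.Idx F)}

theorem X_natCast_mul (r : ℕ) (n : ℕ) (t : F) : D.X F r (n * t) = D.X F r t ^ n := by
  induction n with
  | zero => simp
  | succ n ih => rw [pow_succ, ← ih, ← D.X_add]; congr 1; push_cast; ring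

variable (D) in
/-- The positive roots `a` (short), `b` (long), `c = a + b`, `θ = 2a + b`. -/
structure BglB2 (θ a b c : D.Rt) : Prop where
  top : ∀ s, s ≤ θ
  pos : ∀ r : D.Rt, D.IsPosRoot r ↔ r = a ∨ r = b ∨ r = c ∨ r = θ
  simple : ∃ i : D.Nd, (a : ℕ) = D.simple i
  ne : c ≠ θ
  ab : D.commTerms a b = [((c : ℕ), -1, 1, 1), ((θ : ℕ), -1, 2, 1)]
  ac : D.commTerms a c = [((θ : ℕ), 2, 1, 1)]
  naθ : D.commTerms (D.neg a) θ = [((c : ℕ), 1, 1, 1), ((b : ℕ), -1, 2, 1)]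
  nac : D.commTerms (D.neg a) c = [((b : ℕ), -2, 1, 1)]
  nab : D.commTerms (D.neg a) b = []
  nanθ : D.commTerms (D.neg a) (D.neg θ) = []
  nθc : D.commTerms (D.neg θ) c = [(D.neg a, -1, 1, 1), ((b : ℕ), 1, 1, 2)]
  nθb : D.commTerms (D.neg θ) b = []
  θna : D.commTerms θ (D.neg a) = [((c : ℕ), -1, 1, 1), ((b : ℕ), -1, 1, 2)]
  bc : D.commTerms b c = []
  nba : b ≠ a
  nbθ : b ≠ θ
  pθb : D.pairing θ b = 0
  pθc : D.pairing θ c = 1
  r1 : D.wt a = D.wt c - D.pairing b c • D.wt b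
  r2 : D.wt b = D.wt θ - D.pairing a θ • D.wt a
  r3 : D.pairing a c = 0
  r4 : D.wt c = - D.wt a + D.pairing θ a • D.wt θ
  r5 : D.pairing b θ = 0
  dom : ∀ r : D.Rt, D.IsDom r → r = θ ∨ D.pairing θ r = 1

variable (D F) in
/-- A general element of the abelian radical `X_b X_c X_θ`. -/
def R3 (θ b c : D.Rt) (x y z : F) : GL D.Idx F := D.X F b x * D.X F c y * D.X F θ z

namespace BglB2

variable {θ a b c : D.Rt} (h : D.BglB2 θ a b c)
include h

theorem cb (t u : F) : Commute (D.X F b t) (D.X F θ u) := X_commute_top h.top ((h.pos b).2 (by simp)) t u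

theorem cc (t u : F) : Commute (D.X F c t) (D.X F θ u) := X_commute_top h.top ((h.pos c).2 (by simp)) t u

theorem cbc (t u : F) : Commute (D.X F b t) (D.X F c u) :=
  comm0 h.bc (fun e => (D.isPos_ng b).1 (e ▸ (h.pos c).2 (by simp)) ((h.pos b).2 (by simp))) t u

theorem R3_mul (x y z x' y' z' : F) :
    D.R3 F θ b c x y z * D.R3 F θ b c x' y' z' = D.R3 F θ b c (x + x') (y + y') (z + z') := by
  simp only [R3, D.X_add, mul_assoc]
  rw [(h.cb x' z).symm.left_comm, (h.cbc x' y).symm.left_comm, (h.cc y' z).symm.left_comm]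

theorem R3_b (x : F) : D.X F b x = D.R3 F θ b c x 0 0 := by have := h.ne; simp [R3]

theorem R3_c (x : F) : D.X F c x = D.R3 F θ b c 0 x 0 := by have := h.ne; simp [R3]

theorem R3_θ (x : F) : D.X F θ x = D.R3 F θ b c 0 0 x := by have := h.ne; simp [R3]

theorem R3_inv (x y z : F) : (D.R3 F θ b c x y z)⁻¹ = D.R3 F θ b c (-x) (-y) (-z) := by
  rw [inv_eq_iff_mul_eq_one, h.R3_mul]; simp [R3]

theorem R3_comm (x y z x' y' z' : F) : Commute (D.R3 F θ b c x y z) (D.R3 F θ b c x' y' z') := by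
  rw [Commute, SemiconjBy, h.R3_mul, h.R3_mul, add_comm x, add_comm y, add_comm z]

theorem R3_sub {x y z x' y' z' : F} (h1 : D.R3 F θ b c x y z ∈ M) (h2 : D.R3 F θ b c x' y' z' ∈ M) :
    D.R3 F θ b c (x - x') (y - y') (z - z') ∈ M := by
  simpa [h.R3_inv, h.R3_mul, sub_eq_add_neg] using mul_mem h1 (inv_mem h2)

theorem conj_a (t x y z : F) : D.X F a t * D.R3 F θ b c x y z * (D.X F a t)⁻¹ =
    D.R3 F θ b c x (y - t * x) (z + 2 * t * y - t ^ 2 * x) := by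
  rw [R3, conj_three, conj2 h.ab, conj1 h.ac,
    (X_commute_top h.top ((h.pos a).2 (by simp)) _ _).mul_inv_cancel]
  simp only [h.R3_b, h.R3_c, h.R3_θ, h.R3_mul]
  congr 1 <;> push_cast <;> ring

theorem conj_na (t x y z : F) : D.X F (D.ng a) t * D.R3 F θ b c x y z * (D.X F (D.ng a) t)⁻¹ =
    D.R3 F θ b c (x - 2 * t * y - t ^ 2 * z) (y + t * z) z := by
  rw [R3, conj_three, conj2 (r := D.ng a) h.naθ, conj1 (r := D.ng a) h.nac,
    (comm0 (r := D.ng a) h.nab (by rw [D.ng_ng]; exact h.nba) _ _).mul_inv_cancel]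
  simp only [h.R3_b, h.R3_c, h.R3_θ, h.R3_mul]
  congr 1 <;> push_cast <;> ring

theorem conj_h {τ : F} (hτ : τ ≠ 0) (x y z : F) : D.hE F θ τ * D.R3 F θ b c x y z * (D.hE F θ τ)⁻¹ =
    D.R3 F θ b c x (τ * y) (τ ^ 2 * z) := by
  rw [R3, conj_three, D.hE_conj_X F θ b hτ, D.hE_conj_X F θ c hτ, D.hE_conj_X F θ θ hτ, h.pθb, h.pθc,
    D.pairing_self]
  simp [R3, zpow_ofNat]

theorem step {l x y : F} (h1 : D.X F θ 1 ∈ M) (h2 : D.X F (D.ng θ) l ∈ M) (h3 : D.R3 F θ b c x y 0 ∈ M) :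
    D.R3 F θ b c (-(l * y) ^ 2) (l * y) 0 ∈ M := by
  have h4 := mul_mem (inv_mem h3) (conj_mem' h2 h3)
  rw [R3, D.X_zero, mul_one, ← conj_mul, conj2 (r := D.ng θ) h.nθc,
    (comm0 (r := D.ng θ) h.nθb (by rw [D.ng_ng]; exact h.nbθ) _ _).mul_inv_cancel, ← mul_assoc (D.X F b x),
    ← mul_assoc (D.X F b x), mul_assoc (_ * _), inv_mul_cancel_left] at h4
  have h5 := mul_mem (inv_mem h4) (conj_mem' h1 h4)
  rw [← conj_mul, show D.neg a = (D.ng a : ℕ) from rfl, conj2 (s := D.ng a) h.θna, (h.cb _ _).symm.mul_inv_cancel, _root_.mul_inv_rev,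
    mul_assoc (D.X F b _)⁻¹, mul_assoc (D.X F (D.ng a) _), mul_assoc (D.X F (D.ng a) _),
    inv_mul_cancel_left] at h5
  simp only [h.R3_b, h.R3_c, h.R3_mul, h.R3_inv] at h5
  convert h5 using 2 <;> push_cast <;> ring

theorem core {p : ℕ} [Fact p.Prime] [CharP F p] [Finite M] {E : Subfield F} (hE : (E : Set F).Finite)
    {l s : F} (h2 : D.X F (D.ng θ) l ∈ M)
    (hR : ∀ x y z, D.R3 F θ b c x y z ∈ M ↔ x ∈ E ∧ y - s * x ∈ E ∧ z + 2 * s * y - s ^ 2 * x ∈ E) :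
    l ∈ E := by
  have h1 : ∀ t, D.X F θ t ∈ M ↔ t ∈ E := fun t => by simp [h.R3_θ, hR]
  have h0 := (h1 1).2 (one_mem _)
  rcases eq_or_ne l 0 with rfl | hl
  · exact zero_mem _
  rcases eq_or_ne (2 * s) 0 with e | e
  · have := (hR _ _ _).1 (h.step (x := 0) (y := 1) h0 h2 (by simp [hR, e]))
    rcases mul_eq_zero.1 e with e | rfl
    · have _ : CharP F 2 := CharTwo.of_one_ne_zero_of_two_eq_zero one_ne_zero e
      exact Bgl.mem_of_pow_mem (p := 2) hE (fun a ha => pow_mem ha 2) (by simpa using this.1)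
    · simpa using this.2.1
  have hs := right_ne_zero_of_mul e
  have e1 : D.refl θ (D.ng a) = c := D.wt_inj (by
    rw [D.wt_refl, D.pairing_ng_right, D.wt_ng, h.r4]; simp)
  obtain ⟨τ, x, x', d, hτ, h8, h9⟩ := exists_sylow_elt (p := p) (w := D.ng a) (c := -s⁻¹) (ν := -s ^ 2)
    (comm0 (r := D.ng a) (s := D.ng θ) h.nanθ fun e => (D.isPos_ng θ).1 (by
      rw [e, D.ng_ng]; exact (h.pos a).2 (by simp)) (pos_of_top h.top)) (e1 ▸ h.cc) hl (by simpa) h0 h2 (by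
      rw [h.R3_θ, h.conj_na, hR]
      refine ⟨?_, ?_, ?_⟩
      · convert one_mem E; field_simp; ring
      · convert zero_mem E; field_simp; ring
      · convert zero_mem E; field_simp; ring)
  have h10 := conj_mem' h9 ((hR 0 1 (-2 * s)).2 (by simp))
  simp only [e1, conj_conj] at h10
  rw [h.R3_θ x, h.R3_θ x', h.R3_c d,
    (h.R3_comm _ _ _ _ _ _).mul_inv_cancel, h.conj_h hτ, (h.R3_comm _ _ _ _ _ _).mul_inv_cancel,
    (h.R3_comm _ _ _ _ _ _).mul_inv_cancel, h.conj_na, hR] at h10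
  have h11 : τ ∈ E := by convert neg_mem h10.2.1 using 1; field_simp; ring
  have h12 : s ^ 2 ∈ E := by
    convert neg_mem (mul_mem ((h1 _).1 h8) (pow_mem h11 2)) using 1; field_simp
  obtain ⟨h13, -, h14⟩ := (hR _ _ _).1 (h.step (x := 1) (y := s) h0 h2 ((hR _ _ _).2
    ⟨one_mem _, by simp, by convert h12 using 1; ring⟩))
  have h2' := left_ne_zero_of_mul e
  convert mul_mem (add_mem h14 (mul_mem h12 h13)) (inv_mem (mul_mem (ofNat_mem E 2) h12)) using 1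
  field_simp; ring

theorem exists_field {p : ℕ} [hp : Fact p.Prime] [CharP F p] [Finite M] (h0 : ∀ r : D.Rt, D.X F r 1 ∈ M) :
    ∃ E : Subfield F, (∀ t, D.X F θ t ∈ M ↔ t ∈ E) ∧ ∀ y z, D.R3 F θ b c 0 y z ∈ M → y ∈ E := by
  have e1 : D.refl b c = a := D.wt_inj (by rw [D.wt_refl, h.r1])
  have e2 : D.refl a θ = b := D.wt_inj (by rw [D.wt_refl, h.r2])
  rcases hp.out.eq_two_or_odd' with rfl | hodd
  · have n : ∀ r : D.Rt, D.nE F r 1 ∈ M := fun r => nE_mem_of (h0 r) (by simpa using h0 _)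
    have rule : ∀ y z y' z', D.R3 F θ b c 0 y z ∈ M → D.R3 F θ b c 0 y' z' ∈ M →
        D.R3 F θ b c 0 (y * z') (y ^ 2 * z') ∈ M := fun y z y' z' h1 h2 => by
      have h3 := conj_mem' (n b) h1
      have h4 := conj_mem' (n a) h2
      rw [R3, D.X_zero, one_mul, ← conj_mul, nE_one_conj_X2, nE_one_conj_X2] at h3 h4
      rw [e1, D.refl_eq_self h.r5] at h3
      rw [e2, D.refl_eq_self h.r3, h.R3_b, h.R3_c, h.R3_mul] at h4
      have h5 := conj_mem' h3 h4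
      rw [conj_conj, h.R3_θ, (h.R3_comm _ _ _ _ _ _).mul_inv_cancel, h.conj_a] at h5
      simpa [CharTwo.two_eq_zero, CharTwo.neg_eq] using h.R3_sub h5 h4
    have hθ : D.R3 F θ b c 0 0 1 ∈ M := h.R3_θ (1 : F) ▸ h0 θ
    have hc : D.R3 F θ b c 0 1 0 ∈ M := h.R3_c (1 : F) ▸ h0 c
    set B := {y | ∃ z, D.R3 F θ b c 0 y z ∈ M}
    have hB : B.Finite := by
      refine (Set.Finite.preimage (f := fun q : F × F => D.R3 F θ b c 0 q.1 q.2) (fun q _ q' _ e => ?_)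
        (Set.toFinite (M : Set (GL D.Idx F)))).image Prod.fst |>.subset fun y ⟨z, hz⟩ => ⟨(y, z), hz, rfl⟩
      simp only [R3, D.X_zero, one_mul] at e
      have e3 : D.X F c (-q'.1 + q.1) = D.X F θ (q'.2 + -q.2) := by
        rw [D.X_add, D.X_add, D.X_neg, D.X_neg, inv_mul_eq_iff_eq_mul, ← mul_assoc, ← e, mul_inv_cancel_right]
      have e4 : q.1 = q'.1 := by
        by_contra h3
        exact h.ne (D.eq_of_X_eq_X F (fun h4 => h3 (by linear_combination h4)) e3).1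
      rw [e4, mul_right_inj] at e
      exact Prod.ext e4 (D.X_injective F θ e)
    have h21 : ∀ y z, D.R3 F θ b c 0 y z ∈ M → z ∈ B := fun y z hz => ⟨_, by simpa using rule _ _ _ _ hc hz⟩
    have hsq : ∀ y ∈ B, D.R3 F θ b c 0 y (y ^ 2) ∈ M := fun y ⟨z, hz⟩ => by simpa using rule _ _ _ _ hz hθ
    have hsur : ∀ y ∈ B, ∃ t ∈ B, t ^ 2 = y := fun y hy =>
      ((hB.injOn_iff_bijOn_of_mapsTo (f := fun x => x ^ 2) fun a ha => h21 _ _ (hsq a ha)).1
        (frobenius_inj F 2).injOn).surjOn hy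
    have hmul : ∀ y ∈ B, ∀ y' ∈ B, D.R3 F θ b c 0 (y * y') (y ^ 2 * y') ∈ M := fun y ⟨z, hz⟩ y' hy' => by
      obtain ⟨t, ht, rfl⟩ := hsur y' hy'
      exact rule _ _ _ _ hz (hsq t ht)
    obtain ⟨E, hE⟩ := Bgl.exists_subfield hB ⟨_, hc⟩
      (fun y ⟨z, hz⟩ y' ⟨z', hz'⟩ => ⟨_, by simpa using h.R3_sub hz hz'⟩) fun y hy y' hy' => ⟨_, hmul y hy y' hy'⟩
    have hE' : ∀ t, t ∈ E ↔ t ∈ B := Set.ext_iff.1 hE
    refine ⟨E, fun t => ⟨fun ht => (hE' t).2 (h21 0 t (h.R3_θ t ▸ ht)), fun ht => ?_⟩,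
      fun y z hz => (hE' y).2 ⟨z, hz⟩⟩
    rcases eq_or_ne t 1 with rfl | h1
    · exact h0 θ
    obtain ⟨v, hv, e⟩ := hsur _ ((hE' _).1 (inv_mem (sub_mem ht (one_mem E))))
    have h3 := hmul v hv t ((hE' t).1 ht)
    have := h.R3_sub (hsq _ ⟨_, h3⟩) h3
    rw [mul_pow, e, sub_self, sub_self, ← h.R3_θ] at this
    convert this using 2
    have := sub_ne_zero.2 h1
    field_simp
  · obtain ⟨k, hk⟩ := hodd
    have e : ((k + 1 : ℕ) : F) * 2 = 1 := by
      have := CharP.cast_eq_zero F p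
      rw [hk] at this; push_cast at this ⊢; linear_combination this
    have half : ∀ x, D.X F θ (2 * x) ∈ M → D.X F θ x ∈ M := fun x hx => by
      have := pow_mem hx (k + 1)
      rwa [← X_natCast_mul, ← mul_assoc, e, one_mul] at this
    have h1 : ∀ s y z, D.X F a s ∈ M → D.R3 F θ b c 0 y z ∈ M → D.X F θ (s * y) ∈ M := fun s y z hs hz => by
      have := h.R3_sub (h.conj_a s 0 y z ▸ conj_mem' hs hz) hz
      exact half _ (by simpa [R3, mul_assoc] using this)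
    have h2 : ∀ t, D.X F θ t ∈ M → D.X F c t ∈ M := fun t ht => by
      have h3 : D.R3 F θ b c t 0 0 ∈ M := h.R3_b t ▸ e2 ▸ X_refl_mem h0 a ht
      have := h.R3_sub (h.R3_sub h3 (h.conj_a 1 t 0 0 ▸ conj_mem' (h0 a) h3)) (h.R3_θ t ▸ ht)
      simpa [R3] using this
    obtain ⟨E, hE⟩ := exists_top_subfield (h0 θ) fun s t hs ht =>
      h1 s t 0 (e1 ▸ X_refl_mem h0 b (h2 s hs)) (h.R3_c t ▸ h2 t ht)
    exact ⟨E, hE, fun y z hz => (hE y).1 (by simpa using h1 1 y z (h0 a) hz)⟩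

theorem concl {p : ℕ} [Fact p.Prime] [CharP F p] [IsSimpleGroup (D.group F)] [Finite M]
    (hs : D.SpanDom F θ) (hM : M ≤ D.group F) (h0 : ∀ r : D.Rt, D.X F r 1 ∈ M) : D.BglConcl M := by
  obtain ⟨E, h1, hZ⟩ := h.exists_field (p := p) h0
  have hall := X_mem_of_top h0 h.dom fun t ht => (h1 t).2 ht
  have hR : ∀ x y z, D.R3 F θ b c x y z ∈ M ↔ x ∈ E ∧ y ∈ E ∧ z ∈ E := fun x y z => by
    refine ⟨fun h2 => ?_, fun ⟨hx, hy, hz⟩ => mul_mem (mul_mem (hall b x hx) (hall c y hy)) (hall θ z hz)⟩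
    have h4 := conj_mem' (h0 a) h2
    rw [h.conj_a] at h4
    have h5 := h.R3_sub h2 h4
    rw [sub_self, sub_sub_cancel, one_mul] at h5
    have hx := hZ _ _ h5
    have h3 := h.R3_sub h2 (h.R3_b x ▸ hall b x hx)
    rw [sub_self, sub_zero, sub_zero] at h3
    have hy := hZ _ _ h3
    have h6 := h.R3_sub h3 (h.R3_c y ▸ hall c y hy)
    rw [sub_self, sub_self, sub_zero, ← h.R3_θ] at h6
    exact ⟨hx, hy, (h1 z).1 h6⟩
  refine bglConcl_of_kap hM h.top h.dom hs h0 h1 fun g hg => ?_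
  rcases eq_or_ne (D.kap F θ g) 0 with e | e
  · exact e ▸ zero_mem _
  obtain ⟨u, hu, e1⟩ := exists_conj_top h.top (hM hg) e
  obtain ⟨i, hi⟩ := h.simple
  obtain ⟨x, hx, v, hv, rfl⟩ := (D.rootBN F).factor_simple i hu
  obtain rfl : a = D.sr i := Fin.ext hi
  obtain ⟨s, rfl⟩ := (D.mem_rootSubgroup_iff F _ _).1 hx
  rw [RootBN.Up_s, rootBN_XS] at hv
  rw [rootBN_simple] at e1
  refine h.core (p := p) (M := cj M (D.X F (D.sr i) s * v)) (s := s)
    ((finite_X_mem (M := M) θ).subset fun t ht => (h1 t).2 ht) ?_ fun x y z => ?_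
  · rw [mem_cj, ← mul_one (D.kap F θ g), ← e1]; exact conj_mem' hg (h0 θ)
  · have : Commute v (D.R3 F θ b c x y z) := by
      refine D.XS_monoid_induction F (P := fun v => Commute v (D.R3 F θ b c x y z)) (Commute.one_left _)
        (fun r hr t => ?_) (fun _ _ => Commute.mul_left) hv
      rcases (h.pos r).1 hr.1 with e | rfl | rfl | rfl
      · exact absurd e hr.2
      · rw [h.R3_b]; exact h.R3_comm _ _ _ _ _ _
      · rw [h.R3_c]; exact h.R3_comm _ _ _ _ _ _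
      · rw [h.R3_θ]; exact h.R3_comm _ _ _ _ _ _
    rw [mem_cj, conj_conj, this.mul_inv_cancel, h.conj_a, hR]

end BglB2

end Cfsg.Lie.ChevalleyDatum
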