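import Mathlib
import Cfsg.Agent.Chev.BglB2
import Cfsg.Agent.S1054
import Cfsg.Agent.S1055
import Cfsg.Agent.S1056

/-!
Finite overgroups of Chevalley groups over subfields, IV: type `G₂` in characteristic three, the
tables, and the theorem for all seven types.
-/

set_option autoImplicit false

namespace Cfsg.Lie.ChevalleyDatum

open Cfsg.Agent Cfsg.Agent.Chev Matrix

variable {D : ChevalleyDatum} [hG : D.Good] {F : Type*} [Field F] {M : Subgroup (GL D.Idx F)}

theorem BglData.mem_of_three [CharP F 3] [Finite M] {θ α β γ a e : D.Rt} (h : D.BglData θ α β γ)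
    (c1 : D.commTerms β γ = []) (c2 : D.commTerms (D.neg a) θ = []) (c2' : θ ≠ a)
    (c3 : D.commTerms (D.neg a) γ = [((e : ℕ), -2, 1, 1), ((β : ℕ), 3, 2, 1), ((θ : ℕ), -3, 1, 2)])
    (c4 : D.wt a = D.wt e - D.pairing β e • D.wt β) (c5 : D.IsPosRoot e)
    (c6 : D.commTerms a β = [((e : ℕ), -1, 1, 1), ((γ : ℕ), 1, 2, 1), ((α : ℕ), 1, 3, 1), ((θ : ℕ), 1, 3, 2)])
    (h0 : ∀ r : D.Rt, D.X F r 1 ∈ M) {E : Subfield F} (h1 : ∀ t, D.X F θ t ∈ M ↔ t ∈ E) (t x s : F)
    (h2 : D.X F γ t * D.X F α x * D.X F θ s ∈ M) : t ∈ E := by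
  have : Fact (Nat.Prime 3) := ⟨Nat.prime_three⟩
  have h3 : (3 : F) = 0 := CharP.cast_eq_zero F 3
  have key : ∀ t x s, D.X F γ t * D.X F α x * D.X F θ s ∈ M → x ∈ E := fun t x s h2 => by
    have := conj_mem' (h0 β) h2
    rw [conj_three, conj1 h.c1, (h.cβθ _ _).mul_inv_cancel,
      (comm0 c1 (fun e => (D.isPos_ng β).1 (e ▸ h.posγ) h.posβ) _ _).mul_inv_cancel, ← mul_assoc,
      mul_assoc _ (D.X F θ _), ← D.X_add, add_comm, D.X_add] at this
    exact (h1 x).1 (by simpa [mul_assoc] using mul_mem (inv_mem h2) this)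
  have h4 := mul_mem h2 (inv_mem (X_mem_of_top h0 h.dom (fun t ht => (h1 t).2 ht) α x (key _ _ _ h2)))
  rw [mul_assoc (D.X F γ t), mul_assoc (D.X F γ t), (h.cαθ _ _).mul_inv_cancel] at h4
  have h5 := mul_mem (inv_mem h4) (conj_mem' (h0 (D.ng a)) h4)
  obtain ⟨n1, n2⟩ := ne_of_commTerms (r := D.ng a) (s := γ) (by simp [ng_val, c3])
  rw [← conj_mul, (comm0 (r := D.ng a) c2 (by rwa [D.ng_ng]) _ _).mul_inv_cancel, conjW n1 n2, ng_val,
    c3] at h5
  have h6 : D.X F e t ∈ M := by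
    have h7 : D.X F e (-(2 * t)) ∈ M := by
      simpa [wordG_cons, wordG_nil, h3, mul_assoc, (X_commute_top h.le_top c5 _ s).eq] using h5
    rwa [show -(2 * t) = t by linear_combination (-t) * h3] at h7
  have h7 := X_refl_mem h0 β h6
  rw [show D.refl β e = a from D.wt_inj (by rw [D.wt_refl, c4])] at h7
  have h8 := mul_mem (inv_mem (h0 β)) (conj_mem' h7 (h0 β))
  obtain ⟨n3, n4⟩ := ne_of_commTerms (r := a) (s := β) (by simp [c6])
  rw [conjW n3 n4, c6, inv_mul_cancel_left] at h8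
  have h9 := mul_mem h6 h8
  refine Bgl.mem_of_pow_mem (p := 3) ((finite_X_mem (M := M) θ).subset fun t ht => (h1 t).2 ht)
    (fun a ha => pow_mem ha 3) (key (t ^ 2) _ (t ^ 3) ?_)
  simpa [wordG_cons, wordG_nil, X_neg, mul_assoc] using h9

omit hG in
theorem spanDom_of_sl [D.Good] {θ : D.Rt} (h : ∀ r : D.Rt, D.IsDom r → r = θ) : D.SpanDom F θ :=
  fun _ _ _ hθ r hr => h r hr ▸ hθ

theorem X_mulVec_sub {r s : D.Rt} (h1 : s ≠ r) (h2 : s ≠ D.ng r) :
    (D.X F r 1).val *ᵥ D.eN F s - D.eN F s =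
      ((D.chainEntry r s).map fun q => (q.2 : F) • D.eN F q.1).sum := by
  rw [D.coe_X_eq_xR, D.xR_mulVec_eN_of_ne F h1 h2, add_sub_cancel_left]
  simp only [one_pow, mul_one]
  rw [show (fun q : (ℕ × ℤ) × ℕ => (q.1.2 : F) • D.eN F q.1.1) =
    (fun q : ℕ × ℤ => (q.2 : F) • D.eN F q.1) ∘ Prod.fst from rfl, ← List.map_map, List.zipIdx_map_fst]

theorem spanDom_of_two {θ σ u v : D.Rt} {C C' : ℤ} (h : ∀ r : D.Rt, D.IsDom r → r = θ ∨ r = σ)
    (hne : θ ≠ σ ∧ (θ : ℕ) ≠ D.neg σ) (c : D.chainEntry (D.neg σ) θ = [((u : ℕ), C), ((v : ℕ), C')])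
    (hC : C = 1 ∨ C = -1) (e1 : D.wt v = D.wt θ - D.pairing σ θ • D.wt σ)
    (e2 : D.wt σ = - D.wt u + D.pairing θ u • D.wt θ) : D.SpanDom F θ := by
  intro W hX hr hθ r hd
  rcases h r hd with rfl | rfl
  · exact hθ
  have h1 := hX (D.ng r) _ hθ
  rw [X_mulVec_sub (fun e => hne.2 (congrArg Fin.val e)) (by rw [D.ng_ng]; exact hne.1), ng_val, c] at h1
  have h2 := hr r θ hθ
  rw [show D.refl r θ = v from D.wt_inj (by rw [D.wt_refl, e1])] at h2
  have h3 : D.eN F u ∈ W := by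
    have := sub_mem h1 (W.smul_mem (C' : F) h2)
    rcases hC with rfl | rfl <;> simpa using this
  have := hr θ _ (hr u u h3)
  rwa [D.refl_self, show D.refl θ (D.ng u) = r from D.wt_inj (by
    rw [D.wt_refl, D.pairing_ng_right, D.wt_ng, e2]; simp)] at this

theorem spanDom_of_three {θ σ u v w α : D.Rt} (h : ∀ r : D.Rt, D.IsDom r → r = θ ∨ r = σ)
    (hne : θ ≠ σ ∧ (θ : ℕ) ≠ D.neg σ ∧ u ≠ α ∧ (u : ℕ) ≠ D.neg α ∧ v ≠ α ∧ (v : ℕ) ≠ D.neg α)
    (c : D.chainEntry (D.neg σ) θ = [((u : ℕ), -1), ((v : ℕ), -1), ((w : ℕ), -1)])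
    (e1 : D.wt w = D.wt θ - D.pairing σ θ • D.wt σ) (c1 : D.chainEntry α u = [])
    (c2 : D.chainEntry α v = [((σ : ℕ), -1)]) : D.SpanDom F θ := by
  intro W hX hr hθ r hd
  rcases h r hd with rfl | rfl
  · exact hθ
  obtain ⟨n1, n2, n3, n4, n5, n6⟩ := hne
  have h1 := hX (D.ng r) _ hθ
  rw [X_mulVec_sub (fun e => n2 (congrArg Fin.val e)) (by rw [D.ng_ng]; exact n1), ng_val, c] at h1
  have h2 := hr r θ hθ
  rw [show D.refl r θ = w from D.wt_inj (by rw [D.wt_refl, e1])] at h2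
  have h3 : D.eN F u + D.eN F v ∈ W := by
    convert neg_mem (add_mem h1 h2) using 1
    simp; abel
  have h4 := hX α _ h3
  rw [mulVec_add, add_sub_add_comm, X_mulVec_sub n3 fun e => n4 (congrArg Fin.val e),
    X_mulVec_sub n5 fun e => n6 (congrArg Fin.val e), c1, c2] at h4
  simpa using h4

end Cfsg.Lie.ChevalleyDatum

namespace Cfsg.Agent.Chev.Bgl

open Cfsg.Lie Cfsg.Lie.ChevalleyDatum

instance decIsDom (D : ChevalleyDatum) (r : ℕ) : Decidable (D.IsDom r) := by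
  unfold IsDom; infer_instance

theorem dataG2 : chevG2.BglData ⟨11, by decide⟩ ⟨10, by decide⟩ ⟨6, by decide⟩ ⟨9, by decide⟩ := by
  constructor <;> decide +kernel

theorem dataD4 : chevD4.BglData ⟨23, by decide⟩ ⟨22, by decide⟩ ⟨14, by decide⟩ ⟨21, by decide⟩ := by
  constructor <;> decide +kernel

theorem dataF4 : chevF4.BglData ⟨47, by decide⟩ ⟨46, by decide⟩ ⟨24, by decide⟩ ⟨45, by decide⟩ := by
  constructor <;> decide +kernel

theorem dataE6 : chevE6.BglData ⟨71, by decide⟩ ⟨70, by decide⟩ ⟨46, by decide⟩ ⟨69, by decide⟩ := by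
  constructor <;> decide +kernel

theorem dataE7 : chevE7.BglData ⟨125, by decide⟩ ⟨124, by decide⟩ ⟨93, by decide⟩ ⟨123, by decide⟩ := by
  constructor <;> decide +kernel

theorem dataE8 : chevE8.BglData ⟨239, by decide⟩ ⟨238, by decide⟩ ⟨120, by decide⟩ ⟨237, by decide⟩ := by
  constructor <;> decide +kernel

theorem dataB2 : chevB2.BglB2 ⟨7, by decide⟩ ⟨5, by decide⟩ ⟨4, by decide⟩ ⟨6, by decide⟩ := by
  constructor <;> decide +kernel

variable {F : Type*} [Field F]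

theorem concl_of_zeta {D : ChevalleyDatum} [D.Good] {p : ℕ} [Fact p.Prime] [CharP F p]
    [IsSimpleGroup (D.group F)] {M : Subgroup (GL D.Idx F)} [Finite M] {θ α β γ : D.Rt}
    (h : D.BglData θ α β γ) (ζ : D.Rt) (N : ℤ) (hN : (N : F) ≠ 0) (hs : D.SpanDom F θ)
    (hζ : D.IsPosRoot ζ ∧ D.commTerms ζ γ = [((θ : ℕ), N, 1, 1)] ∧ D.commTerms ζ α = [])
    (hM : M ≤ D.group F) (h0 : ∀ r : D.Rt, D.X F r 1 ∈ M) : D.BglConcl M :=
  h.concl (p := p) hs hM h0 fun _ hE => h.mem_of_zeta hζ.1 hζ.2.1 hζ.2.2 hN (h0 ζ) hE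

/-- The theorem of Burgoyne, Griess and Lyons on finite overgroups of the group over the prime field. -/
theorem bglConcl (p : ℕ) [Fact p.Prime] [CharP F p] (hF : ∃ a : F, a ≠ 0 ∧ a ≠ 1) {D : ChevalleyDatum}
    [D.Good] (hD : D ∈ [chevG2, chevB2, chevD4, chevF4, chevE6, chevE7, chevE8])
    {M : Subgroup (GL D.Idx F)} [Finite M] (hM : M ≤ D.group F) (h0 : ∀ r : D.Rt, D.X F r 1 ∈ M) :
    D.BglConcl M := by
  simp only [List.mem_cons, List.not_mem_nil, or_false] at hD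
  rcases hD with rfl | rfl | rfl | rfl | rfl | rfl | rfl
  · have := (S1055.result hF).1
    have hs : chevG2.SpanDom F ⟨11, by decide⟩ :=
      spanDom_of_three (σ := ⟨9, by decide⟩) (u := ⟨8, by decide⟩) (v := ⟨4, by decide⟩)
        (w := ⟨1, by decide⟩) (α := ⟨10, by decide⟩) (by decide +kernel) (by decide +kernel)
        (by decide +kernel) (by decide +kernel) (by decide +kernel) (by decide +kernel)
    rcases eq_or_ne ((3 : ℤ) : F) 0 with h3 | h3
    · have _ : CharP F 3 := (CharP.charP_iff_prime_eq_zero Nat.prime_three).2 (by simpa using h3)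
      have _ : Fact (Nat.Prime 3) := ⟨Nat.prime_three⟩
      exact dataG2.concl (p := 3) hs hM h0 fun _ hE =>
        dataG2.mem_of_three (a := ⟨7, by decide⟩) (e := ⟨8, by decide⟩) (by decide +kernel)
          (by decide +kernel) (by decide +kernel) (by decide +kernel) (by decide +kernel)
          (by decide +kernel) (by decide +kernel) h0 hE
    · exact concl_of_zeta (p := p) dataG2 ⟨8, by decide⟩ 3 h3 hs (by decide +kernel) hM h0
  · have := (S1056.result hF).1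
    exact dataB2.concl (p := p) (spanDom_of_two (σ := ⟨6, by decide⟩) (u := ⟨5, by decide⟩)
      (v := ⟨3, by decide⟩) (C := -1) (C' := 1) (by decide +kernel) (by decide +kernel)
      (by decide +kernel) (by decide) (by decide +kernel) (by decide +kernel)) hM h0
  · have := (S1054.result (F := F) chevD4 (by simp)).1
    exact concl_of_zeta (p := p) dataD4 ⟨15, by decide⟩ (-1) (by simp) (spanDom_of_sl (by decide +kernel))
      (by decide +kernel) hM h0
  · have := (S1054.result (F := F) chevF4 (by simp)).1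
    exact concl_of_zeta (p := p) dataF4 ⟨26, by decide⟩ 1 (by simp) (spanDom_of_two (σ := ⟨44, by decide⟩)
      (u := ⟨29, by decide⟩) (v := ⟨6, by decide⟩) (C := -1) (C' := -1) (by decide +kernel)
      (by decide +kernel) (by decide +kernel) (by decide) (by decide +kernel) (by decide +kernel))
      (by decide +kernel) hM h0
  · have := (S1054.result (F := F) chevE6 (by simp)).1
    exact concl_of_zeta (p := p) dataE6 ⟨47, by decide⟩ (-1) (by simp) (spanDom_of_sl (by decide +kernel))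
      (by decide +kernel) hM h0
  · have := (S1054.result (F := F) chevE7 (by simp)).1
    exact concl_of_zeta (p := p) dataE7 ⟨94, by decide⟩ (-1) (by simp) (spanDom_of_sl (by decide +kernel))
      (by decide +kernel) hM h0
  · have := (S1054.result (F := F) chevE8 (by simp)).1
    exact concl_of_zeta (p := p) dataE8 ⟨122, by decide⟩ 1 (by simp) (spanDom_of_sl (by decide +kernel))
      (by decide +kernel) hM h0

theorem exists_card_subfield (p : ℕ) [hp : Fact p.Prime] [CharP F p] {E : Subfield F}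
    (hE : (E : Set F).Finite) : ∃ m, 0 < m ∧ Nat.card E = p ^ m ∧ ∀ t, t ∈ E ↔ t ^ p ^ m = t := by
  classical
  have : Finite E := hE
  have := Fintype.ofFinite E
  obtain ⟨m, -, hm⟩ := FiniteField.card E p
  have h1 : ∀ t ∈ E, t ^ p ^ (m : ℕ) = t := fun t ht => by
    simpa [hm] using congrArg Subtype.val (FiniteField.pow_card (⟨t, ht⟩ : E))
  refine ⟨m, m.2, by simpa using hm, fun t => ⟨h1 t, fun ht => ?_⟩⟩
  have h2 : 1 < p ^ (m : ℕ) := Nat.one_lt_pow m.ne_zero hp.out.one_lt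
  have h3 := FiniteField.X_pow_card_sub_X_ne_zero F h2
  have h4 : hE.toFinset ⊆ (Polynomial.X ^ p ^ (m : ℕ) - Polynomial.X : Polynomial F).roots.toFinset :=
    fun x hx => by simpa [h3, sub_eq_zero] using h1 x (by simpa using hx)
  have h5 := Finset.eq_of_subset_of_card_le h4 (((Multiset.toFinset_card_le _).trans
    (Polynomial.card_roots' _)).trans (by
      rw [FiniteField.X_pow_card_sub_X_natDegree_eq F h2, ← hm, ← Set.ncard_eq_toFinset_card _ hE,
        ← Nat.card_coe_set_eq, ← Nat.card_eq_fintype_card]; rfl))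
  simpa using h5.ge (show t ∈ _ by simpa [h3, sub_eq_zero] using ht)

theorem dvd_of_primitiveRoot {p a m : ℕ} (hp : 1 < p) {ζ : F} (h : IsPrimitiveRoot ζ (p ^ a - 1)) (h0 : ζ ≠ 0)
    (h1 : ζ ^ p ^ m = ζ) : a ∣ m := by
  have h2 : p ^ a - 1 ∣ p ^ m - 1 := h.dvd_of_pow_eq_one _ (mul_right_cancel₀ h0 (by
    rw [← pow_succ, Nat.sub_add_cancel (Nat.one_le_pow _ _ (by omega)), h1, one_mul]))
  have h3 := Nat.pow_sub_one_gcd_pow_sub_one p a m
  rw [Nat.gcd_eq_left h2] at h3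
  have h4 : p ^ a = p ^ a.gcd m := by
    have := Nat.one_le_pow a p (by omega); have := Nat.one_le_pow (a.gcd m) p (by omega); omega
  rw [Nat.pow_right_injective hp h4]
  exact Nat.gcd_dvd_right a m

/-- The theorem with the Frobenius map made explicit. -/
theorem exists_pow (p : ℕ) [Fact p.Prime] [CharP F p] (hF : ∃ a : F, a ≠ 0 ∧ a ≠ 1) {D : ChevalleyDatum}
    [D.Good] (hD : D ∈ [chevG2, chevB2, chevD4, chevF4, chevE6, chevE7, chevE8])
    {M : Subgroup (GL D.Idx F)} [Finite M] (hM : M ≤ D.group F) (h0 : ∀ r : D.Rt, D.X F r 1 ∈ M) :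
    ∃ E : Subfield F, ∃ m, 0 < m ∧ Nat.card E = p ^ m ∧ (∀ r t, t ^ p ^ m = t → D.X F r t ∈ M) ∧
      (∀ t, (∀ r, D.X F r t ∈ M) → t ^ p ^ m = t) ∧ ∀ g ∈ M, ∀ i j, g.val i j ^ p ^ m = g.val i j := by
  obtain ⟨E, hE, h1, h2⟩ := bglConcl p hF hD hM h0
  obtain ⟨m, hm, h3, h4⟩ := exists_card_subfield p hE
  have h5 := h2 (iterateFrobenius F p m) fun t ht => (h4 t).1 ht
  refine ⟨E, m, hm, h3, fun r t ht => ?_, fun t ht => ?_, fun g hg i j => ?_⟩
  · by_cases hr : r < D.nroots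
    · exact h1 ⟨r, hr⟩ t ((h4 t).2 ht)
    · rw [D.X_of_not_lt F hr]; exact one_mem _
  · have hn : 0 < D.nroots := by
      simp only [List.mem_cons, List.not_mem_nil, or_false] at hD
      rcases hD with rfl | rfl | rfl | rfl | rfl | rfl | rfl <;> decide
    exact D.X_injective F ⟨0, hn⟩ ((D.glMap_X _ 0 t).symm.trans (h5 _ (ht 0)))
  · exact congrArg (fun x : GL D.Idx F => x.val i j) (h5 g hg)

end Cfsg.Agent.Chev.Bgl
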