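import Mathlib
import Cfsg.Agent.Chev.F4TwInv

/-!
# The large Ree groups are generated by two elements
-/

set_option autoImplicit false
set_option linter.unusedSectionVars false

open Cfsg Cfsg.Lie Cfsg.Lie.ChevalleyDatum Cfsg.Agent.Chev Cfsg.Agent.Chev.Isog

namespace Cfsg.Agent.Chev.F4T

variable {K : Type*} [Field K] [CharP K 2]

theorem hw_flatten_mem {M : Subgroup (Γ K)} (L : List (List ℕ)) (h : ∀ w ∈ L, hw K w ∈ M) :
    hw K L.flatten ∈ M := by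
  induction L with
  | nil => exact one_mem _
  | cons w L ih =>
    rw [List.flatten_cons, hw_append]
    exact mul_mem (h w (by simp)) (ih fun w' hw' => h w' (List.mem_cons_of_mem _ hw'))

namespace Tw

variable (T : Tw K)

theorem m0_conj_y0 (t : K) : m0 K * T.y0 t * (m0 K)⁻¹ = tt K 0 * T.y0 t * (tt K 0)⁻¹ := by
  have e : ∀ h x y : Γ K, h * (x * y) * h⁻¹ = (h * x * h⁻¹) * (h * y * h⁻¹) := fun _ _ _ => by group
  rw [tt_conj_y0]
  change m0 K * (𝐱 33 (T.θ t) * 𝐱 24 t) * (m0 K)⁻¹ = _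
  rw [e, show m0 K = nn K [0, 1, 0, 1, 0, 1, 0, 1] from rfl, nn_eq, nWordS_conj_X2' _ (by decide),
    nWordS_conj_X2' _ (by decide)]
  congr 2 <;> decide +kernel

omit [CharP K 2] in
/-- a one-parameter subgroup of the torus -/
def hhL : Kˣ →* Γ K := MonoidHom.mk' (fun c => T.hh c 1) fun a b => by rw [T.hh_mul, mul_one]

theorem bval_aux (a : Kˣ) : T.bval a (T.θu a ^ 2 * a ^ 2) = a := by
  have h := T.hθu a
  change (T.θu a ^ 2 * a ^ 2) ^ 2 * a⁻¹ * (T.θu (T.θu a ^ 2 * a ^ 2))⁻¹ ^ 2 = a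
  rw [map_mul, map_pow, map_pow, h]
  generalize T.θu a = b
  apply Units.ext
  simp only [Units.val_mul, Units.val_pow_eq_pow_val, Units.val_inv_eq_inv_val]
  field_simp

theorem y1_mem_of_two [Finite K] {g : Kˣ} (hg1 : g ≠ 1) {M : Subgroup (Γ K)}
    (hH : ∀ c, T.hh c 1 ∈ M) (hb : yy K * (tt K 1 * tt K 0) ∈ M) (t u : K) : T.y1 t u ∈ M := by
  have ha := hH g
  have hbv : ∀ a : Kˣ, T.bval a⁻¹ 1 = a := fun a => by
    change 1 ^ 2 * a⁻¹⁻¹ * (T.θu 1)⁻¹ ^ 2 = a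
    simp
  obtain ⟨h', hh', hn⟩ : ∃ h', h' = T.hh g⁻¹ (T.θu g⁻¹ ^ 2 * g⁻¹ ^ 2) ∧
      tt K 1 * tt K 0 * T.hh g 1 * (tt K 1 * tt K 0)⁻¹ = h' := by
    refine ⟨_, rfl, ?_⟩
    rw [show tt K 1 * tt K 0 * T.hh g 1 * (tt K 1 * tt K 0)⁻¹ =
      tt K 1 * (tt K 0 * T.hh g 1 * (tt K 0)⁻¹) * (tt K 1)⁻¹ by group, (T.tt_conj_hh _ _).1,
      (T.tt_conj_hh _ _).2]
    simp
  have hc : T.hh g 1 * h' = h' * T.hh g 1 := by rw [hh', T.hh_mul, T.hh_mul, mul_comm g, mul_comm 1]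
  have h1 : yy K * h' * (yy K)⁻¹ ∈ M := by
    have := mul_mem (mul_mem hb ha) (inv_mem hb)
    rwa [show yy K * (tt K 1 * tt K 0) * T.hh g 1 * (yy K * (tt K 1 * tt K 0))⁻¹ =
      yy K * (tt K 1 * tt K 0 * T.hh g 1 * (tt K 1 * tt K 0)⁻¹) * (yy K)⁻¹ by group, hn] at this
  obtain ⟨t0, u0, ht0, h2⟩ : ∃ t u, t ≠ 0 ∧ T.y1 t u ∈ M := by
    have := mul_mem (mul_mem (mul_mem ha h1) (inv_mem ha)) (inv_mem h1)
    have e : T.hh g 1 * (yy K * h' * (yy K)⁻¹) * (T.hh g 1)⁻¹ * (yy K * h' * (yy K)⁻¹)⁻¹ =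
        T.hh g 1 * yy K * (T.hh g 1)⁻¹ * (h' * ((T.hh g 1 * yy K * (T.hh g 1)⁻¹)⁻¹ * yy K) * h'⁻¹) *
          (yy K)⁻¹ := by
      rw [show T.hh g 1 * yy K * (T.hh g 1)⁻¹ * (h' * ((T.hh g 1 * yy K * (T.hh g 1)⁻¹)⁻¹ * yy K) * h'⁻¹) *
          (yy K)⁻¹ = T.hh g 1 * yy K * (T.hh g 1)⁻¹ * (h' * T.hh g 1) * (yy K)⁻¹ * (T.hh g 1)⁻¹ * yy K *
            h'⁻¹ * (yy K)⁻¹ by group, ← hc]
      group
    rw [e, ← T.y1_one, T.hh_conj_y1, T.y1_inv, T.y1_mul, hh', T.hh_conj_y1, T.y1_inv, T.y1_mul, T.y1_mul,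
      bval_aux, show T.bval g 1 = g⁻¹ from by simpa using hbv g⁻¹] at this
    refine ⟨_, _, ?_, this⟩
    have h3 : ((g⁻¹ : Kˣ) : K) + 1 ≠ 0 := fun h => hg1 (inv_eq_one.1 (Units.ext (by
      rw [Units.val_one, ← CharTwo.neg_eq 1]; exact eq_neg_of_add_eq_zero_left h)))
    have h4 : (2 : K) = 0 := CharP.cast_eq_zero K 2
    intro h
    apply pow_ne_zero 2 h3
    linear_combination h
  have h3 : ∀ t, t ≠ 0 → ∃ u, T.y1 t u ∈ M := fun t ht => by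
    have := mul_mem (mul_mem (hH (Units.mk0 (t / t0) (div_ne_zero ht ht0))⁻¹) h2)
      (inv_mem (hH (Units.mk0 (t / t0) (div_ne_zero ht ht0))⁻¹))
    rw [T.hh_conj_y1, hbv, Units.val_mk0, div_mul_cancel₀ _ ht0] at this
    exact ⟨_, this⟩
  have h4 : ∀ u, T.y1 0 u ∈ M := fun u => by
    by_cases hu : u = 0
    · rw [hu, T.y1_zero]; exact one_mem _
    have hinj : Function.Injective (T.θu * MonoidHom.id Kˣ : Kˣ →* Kˣ) :=
      (injective_iff_map_eq_one _).2 fun a ha => T.θ_mul_self_inj ha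
    obtain ⟨c, hc⟩ := Finite.injective_iff_surjective.1 hinj (Units.mk0 u hu)
    obtain ⟨v, hv⟩ := h3 c c.ne_zero
    have := mul_mem hv hv
    rwa [T.y1_mul_self, show T.θ c * c = u from congrArg Units.val hc] at this
  by_cases ht : t = 0
  · rw [ht]; exact h4 u
  obtain ⟨v, hv⟩ := h3 t ht
  have := mul_mem hv (h4 (v + u))
  rwa [y1_mul, add_zero, mul_zero, add_zero, ← add_assoc, CharTwo.add_self_eq_zero, zero_add] at this

theorem Fix_le_of_two [Finite K] {g : Kˣ} (hg : ∀ c, c ∈ Subgroup.zpowers g) (hg1 : g ≠ 1)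
    {M : Subgroup (Γ K)} (ha : T.hh g 1 ∈ M) (hb : yy K * (tt K 1 * tt K 0) ∈ M) : T.Fix ≤ M := by
  have hH : ∀ c, T.hh c 1 ∈ M := fun c => by
    obtain ⟨k, rfl⟩ := hg c
    have := zpow_mem ha k
    rwa [show T.hh g 1 = T.hhL g from rfl, ← map_zpow] at this
  have h5 := T.y1_mem_of_two hg1 hH hb
  have hy : hw K [1] ∈ M := by
    rw [hw_cons, hw_nil, mul_one, gen_one, ← T.y1_one]; exact h5 _ _
  have hn1 : hw K [3, 2] ∈ M := by
    have := mul_mem (inv_mem hy) hb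
    simpa [hw_cons, hw_nil, gen_one, gen_two, gen_three] using this
  have hn2 : hw K [2, 3] ∈ M := by
    have := inv_mem hn1
    simpa [hw_cons, hw_nil, gen_two, gen_three, tt_inv] using this
  have hw3 : ∀ L : List (List ℕ), (∀ w ∈ L, w = [1] ∨ w = [3, 2] ∨ w = [2, 3]) → hw K L.flatten ∈ M :=
    fun L hL => hw_flatten_mem L fun w hw' => by
      rcases hL w hw' with rfl | rfl | rfl
      exacts [hy, hn1, hn2]
  have hx : xx K ∈ M := by
    have := hw3 [[3, 2], [3, 2], [3, 2], [1], [3, 2], [1], [2, 3], [1], [1], [1], [3, 2], [1], [1], [1],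
      [2, 3], [2, 3], [2, 3], [2, 3]] (by decide)
    rw [hw_eq (w' := [0]) (by decide +kernel)] at this
    simpa [hw_cons, hw_nil, gen_zero] using this
  have h6 : ∀ t, T.y0 t ∈ M := fun t => by
    by_cases ht : t = 0
    · rw [ht, T.y0_zero]; exact one_mem _
    have := mul_mem (mul_mem (hH (T.θu (T.θu (Units.mk0 t ht)))) hx)
      (inv_mem (hH (T.θu (T.θu (Units.mk0 t ht)))))
    rw [← T.y0_one, T.hh_conj_y0, T.hθu] at this
    simpa using this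
  have hm : m0 K ∈ M := by
    have := hw3 [[2, 3], [2, 3], [2, 3], [2, 3]] (by decide)
    have e : m0 K = hw K [2, 3, 2, 3, 2, 3, 2, 3] := by
      rw [show m0 K = nn K [0, 1, 0, 1, 0, 1, 0, 1] from rfl]
      simp [nn_cons, nn_nil, hw_cons, hw_nil, gen_two, gen_three]
    rw [e]; exact this
  refine T.Fix_le h6 h5 (fun t => ?_) ?_
  · rw [← m0_conj_y0]; exact mul_mem (mul_mem hm (h6 t)) (inv_mem hm)
  · have := hw3 [[2, 3], [2, 3], [2, 3], [2, 3], [1], [1], [2, 3], [2, 3], [2, 3], [2, 3]] (by decide)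
    rw [hw_eq (w' := [3, 1, 1, 3]) (by decide +kernel)] at this
    rw [T.y1_zero_one, tt_inv, show zz K = yy K * yy K from rfl]
    simpa [hw_cons, hw_nil, gen_one, gen_three, mul_assoc] using this

theorem two_generated [Finite K] {a : Kˣ} (ha : a ≠ 1) :
    ∃ x y : T.Fix, Subgroup.closure ({x, y} : Set T.Fix) = ⊤ := by
  obtain ⟨g, hg⟩ := IsCyclic.exists_generator (α := Kˣ)
  have hg1 : g ≠ 1 := by
    rintro rfl
    exact ha (by simpa using hg a)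
  let b : T.Fix := ⟨_, T.hh_mem g 1⟩
  let c : T.Fix := ⟨_, mul_mem T.yy_mem (mul_mem (T.tt_mem 1) (T.tt_mem 0))⟩
  refine ⟨b, c, ?_⟩
  rw [eq_top_iff]
  intro x _
  obtain ⟨y, hy, e⟩ := T.Fix_le_of_two hg hg1 (M := (Subgroup.closure {b, c}).map T.Fix.subtype)
    ⟨b, Subgroup.subset_closure (Set.mem_insert _ _), rfl⟩
    ⟨c, Subgroup.subset_closure (Set.mem_insert_of_mem _ rfl), rfl⟩ x.2
  rwa [← show y = x from Subtype.ext e]

end Tw

end Cfsg.Agent.Chev.F4T
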