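import Mathlib
import Cfsg.Agent.Chev.MdE7T
import Cfsg.Agent.Chev.MdE8T
import Cfsg.Agent.Chev.StEmb
import Cfsg.Agent.Pres.TypeD
import Cfsg.Agent.Ch.Integrality
import Cfsg.Agent.S1054
import Cfsg.Agent.S1064
import Cfsg.Agent.S2345

/-!
# Small representations of the groups of types `E₇` and `E₈`
-/

set_option autoImplicit false
set_option backward.isDefEq.respectTransparency false

namespace Cfsg.Lie.ChevalleyDatum

open Cfsg.Agent Cfsg.Agent.Chev Cfsg.Agent.Chev.Md Cfsg.Agent.Ch Cfsg.Agent.Cl Subgroup Module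

variable {K : Type*} [Field K] [Fintype K] {q k : ℕ} (hq : Fintype.card K = q)
include hq

theorem d6_bound (h3 : 3 < q) (k : ℕ) (σ : Representation ℂ (chevE7.LJ K (chevE7.nset cvE7.J)) (Fin k → ℂ))
    (hσ : σ.IsIrreducible) (hk : 2 ≤ k) : q ^ 9 + q ^ 7 + 2 * q ^ 5 + q ^ 3 + q ≤ k := by
  classical
  have h := CD.isCD_bakO (quad_plus_nondeg (m := 4 + 2) (F := K))
  obtain ⟨e⟩ := nonempty_Omega_equiv_EG (quad_plus_nondeg (m := 4 + 2) (F := K))
    (fun h => by have := h.2.1; simp at this) (by simp)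
  obtain ⟨τ, hτ⟩ | ⟨-, h1⟩ := cvE7_chk.le_or slE7 CD.st_sl CD.st_std (h.isModel (framePlus _ K))
    (h.XS_xE _ CD.framePlus_V0 (CD.sr false 0)) (![6, 5, 4, 3, 1, 2] : Fin 6 → Fin 7)
    (by simp only [CD.st_A_sr]; decide +kernel) (by decide +kernel) (by decide +kernel) (by decide +kernel)
    (fun c hc i hi => (Pr.tor_ker_D (CD.bf (framePlus _ K)) (by
      have := congrArg (Subgroup.subtype _) hc
      rwa [StRoot.IsSt.map_tor] at this)).1 i (by revert i; decide +kernel)) hσ
  · have h1 := S2345.result (F := K) 6 (by norm_num) (hq ▸ h3) k (τ.comp e.toMonoidHom)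
      ((isIrreducible_comp_iff _ _ e.surjective).2 hτ) hk
    rwa [hq, Nat.div_eq_of_eq_mul_left (k := q ^ 9 + q ^ 7 + 2 * q ^ 5 + q ^ 3 + q) (by have : 1 < q ^ 2 := Nat.one_lt_pow (by omega) (by omega); omega) (by
      zify [Nat.one_le_pow 2 q (by omega), Nat.one_le_pow 6 q (by omega)]; ring)] at h1
  · rw [finrank_fin_fun, Nat.card_eq_fintype_card, hq] at h1
    change 2 * q ^ 9 ≤ k + 2 * q ^ 8 at h1
    obtain ⟨r, rfl⟩ := Nat.exists_eq_add_of_le' h3
    have : (r + 4) ^ 9 + (r + 4) ^ 7 + 2 * (r + 4) ^ 5 + (r + 4) ^ 3 + (r + 4) + 2 * (r + 4) ^ 8 ≤ 2 * (r + 4) ^ 9 := by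
      ring_nf; omega
    simp only [Nat.succ_eq_add_one, Nat.reduceAdd] at h1 ⊢
    omega

omit hq [Fintype K] in
theorem e7_chk : ∀ c ≤ 6, ndvdChk (binProdL [(63, 0), (2, -1), (6, -1), (8, -1), (10, -1), (12, -1), (14, -1), (18, -1)])
    (if c = 6 then [-1, 1, 0, 0, 0, 1, 0, 1, 0, 1, 0, 1, 0, 1, 0, 0, 0, 1] else
      ((c : ℕ) - 1 : ℤ) :: [0, 0, -1, 0, -1, 0, 0, 0, 0, 0, 1, 0, 1, 0, 0, 0, 1]) 2
    (List.getD [([-1, 1], [1, 1, 1, 2, 2, 3, 3, 3, 3, 3, 3, 2, 2, 1, 1, 1, 1], [-2455173914984738177195, -46136782891225272616,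
    -2292407820560912706789, -2761133343846522263884, -1912114179183637772516, -5672210416079797855487,
    -1407771304959065806415, -6176276439675866552810, -899521882993875226124, -6651961502448825508880,
    -489739633031757511694, -4545386825383619846973, -229690512635238559759, -2291146876059263590143,
    -73986743826998513240, -2423201825599141276747], 212134621089749787, 13),
  ([0, 0, 0, 1], [-1, 0, -1, 0, 0, 0, 0, 0, 1, 0, 1, 0, 0, 0, 1], [0, -62359153, 0, -130945446, 0, -141665813, 0,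
    -155292933, 0, -105443139, 0, -53032635, 0, -57335874], 6512, 2),
  ([1, 1], [1, -1, 1, -2, 2, -3, 3, -3, 3, -3, 3, -2, 2, -1, 1, -1, 1], [2455173914984738177195,
    -46136782891225272616, 2292407820560912706789, -2761133343846522263884, 1912114179183637772516,
    -5672210416079797855487, 1407771304959065806415, -6176276439675866552810, 899521882993875226124,
    -6651961502448825508880, 489739633031757511694, -4545386825383619846973, 229690512635238559759,
    -2291146876059263590143, 73986743826998513240, -2423201825599141276747], 212134621089749787, 13),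
  ([1, 1, 1], [2, -2, 0, 1, -1, -1, 2, -1, -1, 2, -1, 0, 1, 0, -1, 1], [-200804126782297821071028449,
    351890025608254064715193346, -342387220884038328519306588, 236192992612592394160819077,
    -148225780012607947465985269, 251562318975146188662507894, -414644402882070799508621031,
    493899914135077062606149105, -367897079660965315711797253, 196512824503240111393867135,
    -96166980449670863414918843, 112855810521751330462254679, -190248079824794540164242274,
    184153928740041216937378497, -80196090703975668515685304], 774946652535156742553600, 40),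
  ([1], [3, 0, 0, -1, 0, -1, 0, 0, 0, 0, 0, 1, 0, 1, 0, 0, 0, 1], [-25734240171239104491490875300187709513,
    20603511288855518900362872382392526659, -22604870833112076509830827389476340033,
    29428222495313769539726469278099055534, -25360391602274333492802980537205377082,
    36904033133017618063066177609958693505, -28546776529780529160372653920217765547,
    35236090425884733062096222291125612473, -25836894621884200559442143930929303315,
    32784701323185106716067666734317166897, -23205341464073964731370886920167949883,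
    21189514823061935337937589594352718374, -14931079259919844663733326555766734434,
    10840642704155052782414085679977747891, -7465551706852792544550640168475385361,
    9746571560901002053288986565561262043, -6875260664907478343810347221485898441],
    23313162638703034814652589138771968000, 158),
  ([1], [4, 0, 0, -1, 0, -1, 0, 0, 0, 0, 0, 1, 0, 1, 0, 0, 0, 1], [-35800356465152544614130854444228155893553681,
    29277374770805986082688914858106791335890484, -28041194822029890046329861897462390894158326,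
    39403120914499871571717961485280323971449028, -27655302257395230856765191582341789604512117,
    47253334838632815369592754322595736804978052, -29170141461110871324473381180326158687706128,
    43994863795225171319669411305724013244415892, -25362808730789449556518227301343388764023263,
    39369571061867966635130379652475317466891532, -22797337404344939965378775143058486376817098,
    25275350773606918188689714250818577163390208, -14677604086161943917364586134801230351413387,
    12878485617207651586264130144796216778548304, -7164074145386280205399732230718149899552431,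
    10908426108288734458867508746978462384935484, -6976639832809055321451698020053744396741451],
    867471465109623742487062917334381363200000000, 440),
  ([1, 0, 0, 1, 0, 0, 1], [-1, 1, 0, 1, -1, 1, 0, 1, -1, 0, 0, 1], [-5313980464913054782467799,
    -2338931988377836323353418, -3368405630334899286799494, 462981565859879558119597, -4647219003445854884685148,
    -1378697549669810620039085, -1985526994638988039455355, 2454529936154087380069434, -1779096798469656067286977,
    -2562160725176614627792391, -3689887809017694738032753], 436422364364800, 22)] c default) := by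
  decide +kernel

theorem e7_bound (ρ : Representation ℂ (chevE7.group K) (Fin k → ℂ)) (hρ : ρ.IsIrreducible) (hk : 2 ≤ k) :
    q ^ 17 + q ^ 13 + q ^ 11 ≤ k + q ^ 5 + q ^ 3 + 1 ∧
      (3 < q → q ^ 17 + q ^ 13 + q ^ 11 + q ^ 9 + q ^ 7 + q ^ 5 + q ≤ k) := by
  have q2 : 2 ≤ q := hq ▸ Fintype.one_lt_card
  have h1 := (S1054.result (F := K) chevE7 (by simp)).1
  have h2 := S1064.result hq
  have h3 := split_dim (split_mdSet mdE7_chk exE7_chk ⟨rfl, rfl⟩ (by decide +kernel) (by decide +kernel)) cvE7_chk rfl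
    (X := CoxeterMatrix.E₇) (show ∀ i j : Fin 7, i ≠ j → chevE7.bonds i j ≤ 3 ∧
      CoxeterMatrix.E₇ i j = bondOrder (chevE7.bonds i j) by decide +kernel) (μ := ![0, 0, 1, 0, 0, 0, 0])
    (by decide) (by decide +kernel) (m := 16)
    (L := [0, 1, 2, 3, 3, 4, 4, 5, 5, 5, 6, 6, 6, 7, 7, 7, 8, 8, 8, 9, 9, 9, 10, 10, 10, 11, 11, 12, 12, 13, 14, 15])
    (by rw [cartanRows_E7]; decide +kernel) hρ hk hq (d := if 3 < q then q ^ 9 + q ^ 7 + 2 * q ^ 5 + q ^ 3 + q else 0)
    fun k σ hσ hk => by split_ifs with h; exacts [d6_bound hq h k σ hσ hk, Nat.zero_le _]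
  change 2 * q ^ 17 ≤ k + 2 * q ^ 15 ∨ ∃ c, (c ≤ 5 ∨ _) ∧ k + q ^ 16 = q ^ 17 + _ + c at h3
  have h4 := Int.natCast_dvd_natCast.2 (integral_finrank_dvd_card ρ)
  have h5 : ∀ n, 1 ≤ q ^ n := fun n => Nat.one_le_pow _ _ (by omega)
  rw [finrank_fin_fun] at h4
  zify [h5] at h2
  have h7 := fun c hc e => not_dvd_of_chk (e7_chk c hc) q2 (dvd_trans (Eq.dvd e) (h4.trans
    (Dvd.intro_left _ (h2.trans (by simp [evalL_binProdL]; ring)))))
  obtain h | ⟨c, h9, h⟩ := h3
  · obtain ⟨r, rfl⟩ := Nat.exists_eq_add_of_le' q2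
    have : (r + 2) ^ 17 + (r + 2) ^ 13 + (r + 2) ^ 11 + (r + 2) ^ 9 + (r + 2) ^ 7 + (r + 2) ^ 5 + (r + 2) +
      2 * (r + 2) ^ 15 ≤ 2 * (r + 2) ^ 17 := by ring_nf; omega
    omega
  have h8 : k + q ^ 5 + q ^ 3 + 1 = q ^ 17 + q ^ 13 + q ^ 11 + c := by
    simp only [List.map_cons, List.map_nil, List.sum_cons, List.sum_nil] at h
    zify [show 1 ≤ q by omega] at h ⊢
    linear_combination h
  refine ⟨by omega, fun h3 => by_contra fun h10 => ?_⟩
  rw [if_pos h3] at h9
  obtain h9 | h9 := h9
  · zify at h8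
    exact h7 c (by omega) (by rw [if_neg (by omega)]; simp only [evalL, Int.cast_id]; linear_combination -h8)
  · zify at h8 h9 h10
    exact h7 6 le_rfl (by simp only [if_pos, evalL, Int.cast_id]; linarith)

omit hq in
theorem e7_ker {D : ChevalleyDatum} [D.Good] (B : ℕ → ℕ → ℤ) {c : D.Nd → Kˣ} {i : D.Nd}
    (hc : (D.isModel_XG K).toIsSt.tor (D.isModel_XG K).toIsSt.hmul_of_finite c = 1)
    (h : ∀ k : D.Nd, ∑ j : D.Nd, D.cartan k (D.simple j) * B j i = if k = i then 1 else 0) : c i = 1 := by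
  simpa [stRoot_A_sr_sr, h] using prod_zpow_mul_eq_one _ (fun j k : D.Nd => B j k)
    (((D.isModel_XG K).tor_central_iff _ (D.XS_XG_univ K) c).1 (hc ▸ one_mem _)) i

theorem e7sc_bound (k : ℕ) (σ : Representation ℂ (chevE8.LJ K (chevE8.nset cvE8.J)) (Fin k → ℂ))
    (hσ : σ.IsIrreducible) (hk : 2 ≤ k) : q ^ 17 + q ^ 13 + q ^ 11 ≤ k + q ^ 5 + q ^ 3 + 1 ∧
      (3 < q → q ^ 17 + q ^ 13 + q ^ 11 + q ^ 9 + q ^ 7 + q ^ 5 + q ≤ k) := by
  obtain ⟨τ, hτ⟩ | ⟨⟨u, hu⟩, h1⟩ := cvE8_chk.le_or slE8 slE7 chevE7.std (chevE7.isModel_XG K) (chevE7.XS_XG_univ K)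
    (Fin.castSucc : Fin 7 → Fin 8) (by simp only [stRoot_A_sr_sr]; decide +kernel) (by decide +kernel)
    (by decide +kernel) (by decide +kernel) (fun c hc i hi => e7_ker (fun j k => (if k = 0 then
      [2, 2, 3, 4, 3, 2, 1] else [3, 4, 6, 8, 6, 4, 2]).getD j 0) hc (by revert hi; revert i; decide +kernel)) hσ
  · exact e7_bound hq τ hτ hk
  · rw [finrank_fin_fun, Nat.card_eq_fintype_card, hq] at h1
    change 2 * q ^ 17 ≤ k + 2 * q ^ 16 at h1
    have h2 : 3 ≤ q := by
      classical
      have := Fintype.one_lt_card_iff.2 ⟨u, 1, hu⟩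
      rw [Fintype.card_units, hq] at this
      omega
    obtain ⟨r, rfl⟩ := Nat.exists_eq_add_of_le' h2
    have : (r + 3) ^ 17 + (r + 3) ^ 13 + (r + 3) ^ 11 + (r + 3) ^ 9 + (r + 3) ^ 7 + (r + 3) ^ 5 + (r + 3) +
      2 * (r + 3) ^ 16 ≤ 2 * (r + 3) ^ 17 := by ring_nf; omega
    omega

theorem e8_dim (ρ : Representation ℂ (chevE8.group K) (Fin k → ℂ)) (hρ : ρ.IsIrreducible) (hk : 2 ≤ k) :
    2 * q ^ 29 ≤ k + 2 * q ^ 27 ∨ ∃ c, (c ≤ 5 ∨ q ^ 17 + q ^ 13 + q ^ 11 ≤ c + q ^ 5 + q ^ 3 + 1 ∧
      (3 < q → q ^ 17 + q ^ 13 + q ^ 11 + q ^ 9 + q ^ 7 + q ^ 5 + q ≤ c)) ∧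
      k + q ^ 9 + q ^ 5 + 1 = q ^ 29 + q ^ 23 + q ^ 19 + c := by
  have q2 : 2 ≤ q := hq ▸ Fintype.one_lt_card
  have h1 := (S1054.result (F := K) chevE8 (by simp)).1
  have h3 := split_dim (split_mdSet mdE8_chk exE8_chk ⟨rfl, rfl⟩ (by decide +kernel) (by decide +kernel)) cvE8_chk rfl
    (X := CoxeterMatrix.E₈) (show ∀ i j : Fin 8, i ≠ j → chevE8.bonds i j ≤ 3 ∧
      CoxeterMatrix.E₈ i j = bondOrder (chevE8.bonds i j) by decide +kernel) (μ := ![0, 0, 0, 0, 0, 0, 1, 0])
    (by decide) (by decide +kernel) (m := 28)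
    (L := [0, 1, 2, 3, 4, 5, 5, 6, 6, 7, 7, 8, 8, 9, 9, 9, 10, 10, 10, 11, 11, 11, 12, 12, 12, 13, 13, 13, 14, 14, 14,
      15, 15, 15, 16, 16, 16, 17, 17, 17, 18, 18, 18, 19, 19, 20, 20, 21, 21, 22, 22, 23, 24, 25, 26, 27])
    (by rw [cartanRows_E8]; decide +kernel) hρ hk hq
    (d := if 3 < q then q ^ 17 + q ^ 13 + q ^ 11 + q ^ 9 + q ^ 7 + q ^ 5 + q else
      q ^ 17 + q ^ 13 + q ^ 11 - (q ^ 5 + q ^ 3 + 1))
    fun k σ hσ hk => by have := e7sc_bound hq k σ hσ hk; split_ifs <;> omega
  refine h3.imp_right fun ⟨c, h4, h5⟩ => ⟨c, h4.imp_right fun h6 => by split_ifs at h6 <;> omega, ?_⟩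
  change k + q ^ 28 = q ^ 29 + _ + c at h5
  simp only [List.map_cons, List.map_nil, List.sum_cons, List.sum_nil] at h5
  zify [show 1 ≤ q by omega] at h5 ⊢
  linear_combination h5

end Cfsg.Lie.ChevalleyDatum
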