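import Mathlib
import Cfsg.Agent.Chev.MdCov
import Cfsg.Agent.Chev.MdE6
import Cfsg.Agent.Chev.StTrans
import Cfsg.Agent.Chev.BglCore

/-!
# Faster checks for simply laced data, and the degree formula for the untwisted groups
-/

set_option autoImplicit false
set_option backward.isDefEq.respectTransparency false

namespace Cfsg.Lie.ChevalleyDatum

open Cfsg.Agent.Chev Cfsg.Agent.Chev.Md Cfsg.Agent.Ch Cfsg.Agent.Chev.Chk Subgroup Module

/-- An entry of a packed table. -/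
def pk (w P s : ℕ) : ℕ := (P >>> (w * s)) % 2 ^ w

/-- A linear hash of the roots. -/
class Fast (D : ChevalleyDatum) [D.Good] where
  /-- the table and the modulus -/
  (P m : ℕ)
  /-- the linear form -/
  c : List ℤ
  sl : D.stRoot.SL
  ok : ∀ s < D.nroots, (pk 12 P s : ℤ) = D.fl c s % m

/-- The sums avoid the roots outside `T`. -/
noncomputable def cpF (n P m : ℕ) (A B T : List ℕ) : Bool :=
  force (Nat.rec 1 (fun u M => bif T.contains u then M else M ||| 1 <<< pk 12 P u) n) fun M =>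
    A.all fun r => Nat.blt r n && force (pk 12 P r) fun a =>
      B.all fun s => Nat.blt s n && !M.testBit ((a + pk 12 P s) % m)

/-- The action of a word by a table. -/
noncomputable def rfF (k n P : ℕ) (w : List ℕ) (s : ℕ) : ℕ :=
  List.rec s (fun i _ ih => force ih fun t => bif Nat.blt i k && Nat.blt t n then pk 8 P (n * i + t) else t) w

variable {D : ChevalleyDatum}

theorem rfW_eq_rfF {P : ℕ} (h : ∀ i < D.rank, ∀ s < D.nroots, D.reflectRoot i s = pk 8 P (D.nroots * i + s)) :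
    D.rfW = rfF D.rank D.nroots P := by
  funext w s
  induction w with
  | nil => rfl
  | cons i w ih =>
    rw [show D.rfW (i :: w) s = D.rf i (D.rfW w s) from force_eq _ _, ih, rf]
    change _ = force (rfF D.rank D.nroots P w s)
      fun t => bif Nat.blt i D.rank && Nat.blt t D.nroots then pk 8 P (D.nroots * i + t) else t
    rw [force_eq, Bool.cond_eq_ite]
    simp only [Bool.and_eq_true, Nat.blt_eq]
    split_ifs with h1
    exacts [h _ h1.1 _ h1.2, rfl]

variable [D.Good] [F : D.Fast] {p : ℕ} {A B T : List ℕ}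

theorem Cp.of_cpF (h : cpF D.nroots F.P F.m A B T = true) : D.Cp p A B T := fun r hr s hs => by
  simp only [cpF, force_eq, List.all_eq_true, Bool.and_eq_true, Nat.blt_eq, Bool.not_eq_true'] at h
  obtain ⟨h1, h2⟩ := h r hr
  obtain ⟨h3, h4⟩ := h2 s hs
  have h5 : ∀ n, (Nat.rec 1 (fun u M => bif T.contains u then M else M ||| 1 <<< pk 12 F.P u) n : ℕ).testBit 0 ∧
      ∀ u < n, u ∉ T → (Nat.rec 1 (fun u M => bif T.contains u then M else M ||| 1 <<< pk 12 F.P u) n : ℕ).testBit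
        (pk 12 F.P u) := fun n => by
    induction n with
    | zero => simp
    | succ n ih =>
      by_cases h : n ∈ T
      · simp only [List.contains_iff_mem.2 h, cond_true]
        exact ⟨ih.1, fun u hu h' => ih.2 u (lt_of_le_of_ne (by omega) fun e => h' (e ▸ h)) h'⟩
      · simp only [Bool.eq_false_iff.2 (mt List.contains_iff_mem.1 h), cond_false, Nat.testBit_or, ih.1, Bool.true_or,
          true_and]
        intro u hu h'
        rcases (Nat.lt_succ_iff.1 hu).eq_or_lt with rfl | h6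
        · simp [Nat.one_shiftLeft]
        · rw [ih.2 u h6 h', Bool.true_or]
  have h6 : ∀ v, D.dotF (fun i => F.c.getD i 0) v = D.fl F.c r + D.fl F.c s →
      (((pk 12 F.P r + pk 12 F.P s) % F.m : ℕ) : ℤ) = D.dotF (fun i => F.c.getD i 0) v % F.m := fun v e => by
    rw [e]; push_cast; rw [F.ok r h1, F.ok s h3, ← Int.add_emod]
  refine ⟨fun e => ?_, fun c hc => Or.inr (by_contra fun h7 => ?_)⟩
  · have := h6 0 (by rw [e, ← dotF_wt, ← dotF_wt, show D.wt (D.neg r) = _ from D.wt_ng ⟨r, h1⟩]; simp)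
    rw [map_zero, Int.zero_emod, Nat.cast_eq_zero] at this
    rw [this, (h5 _).1] at h4
    exact absurd h4 (by simp)
  obtain ⟨k1, k2⟩ := ne_of_commTerms (r := ⟨r, h1⟩) (s := ⟨s, h3⟩) (List.ne_nil_of_mem hc)
  obtain ⟨u, e, -, -, k3⟩ := D.commTerms_spec k1 k2 hc
  obtain ⟨q, -, rfl⟩ := List.mem_map.1 (D.commTerms_eq_of_sl F.sl k1 k2 ▸ hc)
  have := h6 (D.wt u) (by rw [k3, Nat.cast_one, one_smul, one_smul, map_add, dotF_wt, dotF_wt])
  rw [dotF_wt, ← F.ok u u.2, Nat.cast_inj] at this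
  rw [this, (h5 _).2 u u.2 (e ▸ h7)] at h4
  exact absurd h4 (by simp)

namespace Fast

/-- The fast check first. -/
noncomputable scoped instance (priority := high) dCp : Decidable (D.Cp p A B T) :=
  if h : cpF D.nroots F.P F.m A B T = true then isTrue (Cp.of_cpF h) else decCp D p A B T

omit F in
/-- The fast check first. -/
scoped instance (priority := high) dStab : Decidable (D.StabL id A) :=
  if h : ∀ r ∈ A, D.nroots ≤ 2 * r ∧ r < D.nroots then isTrue fun r hr => ⟨(h r hr).1, r, hr, (h r hr).2, fun _ => rfl⟩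
  else decStabL id A

/-- The fast check first. -/
noncomputable scoped instance (priority := high) dLay {c : List ℤ} : Decidable (D.Lay p id c A B) :=
  inferInstanceAs (Decidable (_ ∧ _))

/-- The fast check first. -/
noncomputable scoped instance (priority := high) dNDeg {m : ℤ} {L : List (ℕ × ℕ)} {ζ : ℕ} :
    Decidable (D.NDeg p m L ζ) := inferInstanceAs (Decidable (_ ∧ _))

end Fast

omit F

variable {K : Type*} [Field K] [Fintype K] {M : MdDat} {E : MdExt}

theorem split_mdSet (h1 : M.Chk D 0 1 id) (h2 : M.ChkE D E 0 1 id) (h3 : E.R0 = [] ∧ E.Sd = [])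
    (h4 : ∀ g ∈ E.G, ∃ j : D.Nd, g = [j.1]) (h5 : (∀ r < D.nroots, r ∈ E.O) ∧ ∀ r ∈ E.O, r < D.nroots) :
    MdSetE (D.fieldTwist (1 : RingAut K)) M E 0 1 (Fintype.card K) 1 := by
  have h0 : ∀ w, D.nW K w ∈ (D.fieldTwist (1 : RingAut K)).G1 := fun w =>
    fieldTwist_G1.ge ((D.rootBN K).N_le_G (nW_spec w).1.1)
  have h6 : ∀ r t, D.X K r t ∈ (D.fieldTwist (1 : RingAut K)).G1 := fun r t => fieldTwist_G1.ge (D.X_mem_group K r t)
  exact ⟨⟨Nat.cast_zero, by simp, fieldTwist_per, h1, h0 _, h0 _, h0 _, fun _ _ => h6 _ _, fun _ _ => h6 _ _,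
    fun j => ((fieldTwist_F0 (D := D)).trans Nat.card_eq_fintype_card).trans (pow_one _).symm,
    fieldTwist_F0.trans Nat.card_eq_fintype_card⟩, h2, fun _ _ => h0 _, h4, h0 _,
    ⟨1, one_ne_zero, 1, one_mem _, mul_mem (h6 _ _) (one_mem _)⟩,
    fun j r hr => h5.1 _ ((nW_spec (K := K) _).2 ⟨r, h5.2 r hr⟩ ▸ Fin.prop _), fun _ _ _ => h3.2 ▸ List.forall_mem_nil _⟩

theorem split_dim (S : MdSetE (D.fieldTwist (1 : RingAut K)) M E 0 1 (Fintype.card K) 1) {C : MdCov} (hC : C.Chk D)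
    (hJ : C.J = M.J) {X : CoxeterMatrix D.Nd} (hX : ∀ i j : D.Nd, i ≠ j → D.bonds i j ≤ 3 ∧ X i j = bondOrder (D.bonds i j))
    {μ : D.Nd → ℤ} (hμ : ∀ j, 0 ≤ μ j) (h : ∀ j : D.Nd, [j.1] ⊆ E.I ↔ [j.1] ⊆ M.J ∧ μ j = 0) {m : ℕ} {L : List ℕ}
    (hE : runLev D.cartanRows (fun j : D.Nd => [j.1] ⊆ M.J) (fun _ => 1) m [(List.ofFn μ, 0)] = (L, true))
    [IsSimpleGroup (D.group K)] {k : ℕ} {ρ : Representation ℂ (D.group K) (Fin k → ℂ)} (hρ : ρ.IsIrreducible)
    (hk : 2 ≤ k) {d q : ℕ} (hq : Fintype.card K = q) (hd : ∀ (k : ℕ)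
      (σ : Representation ℂ (D.LJ K (D.nset C.J)) (Fin k → ℂ)), σ.IsIrreducible → 2 ≤ k → d ≤ k) :
    2 * q ^ (M.Dl.length + 2) ≤ k + 2 * q ^ M.Dl.length ∨ ∃ c, (c ≤ E.W.length ∨ d ≤ c) ∧
      k + q ^ (M.Dl.length + 1) = q ^ (M.Dl.length + 2) + (q - 1) * (L.map (q ^ ·)).sum + c := by
  subst hq
  revert ρ
  rw [← fieldTwist_G1] at *
  intro ρ hρ
  have := S.dim_cases hρ (by simpa using hk) (Twist.card_par_eq _ S.card (M := X) (fun i j => ?_)
    (D.wtAct (D.exists_weylCs X hX).choose_spec) cartanRows_getD hμ h hE) hC.commutator_eq hd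
    (inclusion ((LJ_le_group _).trans fieldTwist_G1.ge)) (fun s => RootBN.L_le_P _ (LJ_le_L _ (hJ ▸ s.2)))
    fun j hj t _ => ?_
  · rw [finrank_fin_fun] at this
    exact this.imp_right fun ⟨c, h3, h4⟩ => ⟨c, h3.imp_left And.left, h4⟩
  · rw [Twist.wOf_t_eq, Twist.wOf_t_eq, ← wordW_append]
    change orderOf (D.wordW [i, j]) = _
    by_cases e : i = j
    · simp [e]
    · simp [D.orderOf_sref_mul e (hX i j e).1, (hX i j e).2]
  · have h3 := cw_sr_of_mem (J := D.nset C.J) (hJ ▸ hj List.mem_cons_self :)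
    exact ⟨⟨⟨_, X_mem_LJ h3 t⟩, Subtype.ext (fieldTwist_y _ _ _).symm⟩,
      ⟨_, X_ng_mem_LJ h3 t⟩, Subtype.ext (fieldTwist_ym _ _ _).symm⟩

end Cfsg.Lie.ChevalleyDatum
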