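import Mathlib
import Cfsg.Agent.Chev.MdMu
import Cfsg.Agent.Chev.GoodG2

/-!
# Weight spaces for `G₂`, and the minimal degree in characteristic three
-/

set_option autoImplicit false
set_option backward.isDefEq.respectTransparency false

namespace Cfsg.Agent.Chev.MdG

open Cfsg.Lie Cfsg.Lie.ChevalleyDatum Cfsg.Agent.Chev.Md Cfsg.Agent.Cl Coll Module

/-- Conjugates of root elements. -/
def tb : ℕ → ℕ → List Let
  | 6, 7 => [(7, 1, [0, 1]), (8, -1, [1, 1]), (9, -1, [1, 2]), (10, 1, [1, 3]), (11, -2, [2, 3])]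
  | 6, 10 => [(10, 1, [0, 1]), (11, -1, [1, 1])]
  | 7, 6 => [(6, 1, [0, 1]), (8, 1, [1, 1]), (9, 1, [2, 1]), (10, -1, [3, 1]), (11, -1, [3, 2])]
  | 7, 8 => [(8, 1, [0, 1]), (9, 2, [1, 1]), (10, -3, [2, 1]), (11, -3, [1, 2])]
  | 7, 9 => [(9, 1, [0, 1]), (10, -3, [1, 1])]
  | 8, 9 => [(9, 1, [0, 1]), (11, -3, [1, 1])]
  | 9, 8 => [(8, 1, [0, 1]), (11, 3, [1, 1])]
  | 5, 1 => [(1, 1, [0, 1]), (0, 1, [1, 1])]
  | 5, 11 => [(11, 1, [0, 1]), (10, -1, [1, 1])]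
  | 6, 0 => [(0, 1, [0, 1]), (1, 1, [1, 1])]
  | _, s => [(s, 1, [0, 1])]

/-- The short simple reflection. -/
def sa : ℕ → ℕ
  | 6 => 10 | 10 => 6 | 8 => 9 | 9 => 8 | 7 => 4 | 4 => 7 | 5 => 1 | 1 => 5 | 3 => 2 | 2 => 3 | r => r

/-- The long simple reflection. -/
def sb : ℕ → ℕ
  | 6 => 5 | 5 => 6 | 7 => 8 | 8 => 7 | 10 => 11 | 11 => 10 | 4 => 3 | 3 => 4 | 1 => 0 | 0 => 1 | r => r

variable {F : Type*} [Field F]

/-- A weight. -/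
def wv (b s c d y z : F) : ℕ → F
  | 6 => b | 7 => s | 8 => c | 9 => d | 10 => y | _ => z

variable {W : Type*} [AddCommGroup W] [Module ℂ W] {ρ : Representation ℂ (chevG2.group F) W} {ψ : AddChar F ℂ}
  {R R' : List ℕ} {a a' : ℕ → F} {b s c d y z b' s' c' d' y' z' : F}

local notation "𝐱" => chevG2.XG F
local notation "μ" => mu ρ ψ (chevG2.XG F)

theorem rel : Rel 0 chevG2.collT 𝐱 := chevG2.rel_XG Nat.cast_zero

theorem mX {p : ℕ} (hp : (p : F) = 0) (r : ℕ) (k : F)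
    (H : ∀ s ∈ R', chk 0 chevG2.collT 30 (cj r s) (tb r s) = true ∧ ∀ L ∈ tb r s, L.1 ∈ R ∨ (p : ℤ) ∣ L.2.1)
    (e : ∀ s ∈ R', ∀ t, val a (v2 k t) (tb r s) = t * a' s) : Mp ρ ψ 𝐱 (𝐱 r k) R a R' a' := mp_X rel hp H e

theorem exists_n (w : List ℕ) {σ : ℕ → ℕ} (h : ∀ r < 12, chevG2.rfW w r = σ r) : ∃ n : chevG2.group F, ∃ ε : ℕ → F,
    n.1 = (chevG2.nW F w)⁻¹ ∧ (∀ r, ε r ≠ 0) ∧ ∀ r < 12, ∀ t, n⁻¹ * 𝐱 r t * n = 𝐱 (σ r) (ε r * t) := by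
  choose ε h1 h2 using (nW_spec (D := chevG2) (K := F) w).1.2
  refine ⟨(⟨_, (chevG2.rootBN F).N_le_G (nW_spec w).1.1⟩ : chevG2.group F)⁻¹, fun r => if h : r < 12 then ε ⟨r, h⟩ else 1,
    rfl, fun r => ?_, fun r hr t => Subtype.ext ?_⟩
  · dsimp only
    split_ifs with hr
    · rcases h1 ⟨r, hr⟩ with e | e <;> simp [e]
    · exact one_ne_zero
  · have := h2 ⟨r, hr⟩ t
    rw [(nW_spec w).2, h r hr] at this
    simpa [hr, coe_XG] using this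

theorem exists_h {α β : F} (hα : α ≠ 0) (hβ : β ≠ 0) : ∃ h ∈ chevG2.HG F, ∀ r ∈ [6, 7, 8, 9, 10, 11], ∀ t,
    h⁻¹ * 𝐱 r t * h = 𝐱 r (wv β α (α * β) (α ^ 2 * β) (α ^ 3 * β) (α ^ 3 * β ^ 2) r * t) := by
  have h1 : α ^ 2 * β ≠ 0 := by simp [hα, hβ]
  have h2 : α ^ 3 * β ^ 2 ≠ 0 := by simp [hα, hβ]
  have h3 := mul_mem (chevG2.hE_mem_diagonal F ⟨7, by decide⟩ h1) (chevG2.hE_mem_diagonal F ⟨6, by decide⟩ h2)
  refine ⟨(⟨_, (chevG2.rootBN F).H_le_G h3⟩ : chevG2.group F)⁻¹, inv_mem h3, fun r hr t => Subtype.ext ?_⟩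
  have h4 : r < 12 := by revert r; decide
  have h5 := chevG2.hE_conj_X F ⟨6, by decide⟩ ⟨r, h4⟩ h2 t
  have h6 := congrArg (fun g => chevG2.hE F 7 (α ^ 2 * β) * g * (chevG2.hE F 7 (α ^ 2 * β))⁻¹) h5
  simp only [chevG2.hE_conj_X F ⟨7, by decide⟩ ⟨r, h4⟩ h1] at h6
  simp only [coe_XG, Subgroup.coe_mul, Subgroup.coe_inv, inv_inv, mul_inv_rev, ← mul_assoc] at h6 ⊢
  rw [h6]
  congr 2
  have h7 : ∀ r ∈ [6, 7, 8, 9, 10, 11], chevG2.pairing 7 r = wv (-3 : ℚ) 2 (-1) 1 3 0 r ∧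
      chevG2.pairing 6 r = wv (2 : ℚ) (-1) 1 0 (-1) 1 r := by decide +kernel
  obtain ⟨k1, k2⟩ := h7 r hr
  simp only [List.mem_cons, List.not_mem_nil, or_false] at hr
  rcases hr with rfl | rfl | rfl | rfl | rfl | rfl <;> simp only [wv] at k1 k2 ⊢ <;> norm_cast at k1 k2 <;>
    simp only [k1, k2, zpow_negSucc, zpow_ofNat, Nat.reduceAdd, pow_one] <;> field_simp

variable [FiniteDimensional ℂ W]

theorem mH (α β : F) (hα : α ≠ 0) (hβ : β ≠ 0) (hR : ∀ r ∈ R, r ∈ [6, 7, 8, 9, 10, 11] ∧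
    a' r = wv β α (α * β) (α ^ 2 * β) (α ^ 3 * β) (α ^ 3 * β ^ 2) r * a r) : μ R a ≤ μ R a' := by
  obtain ⟨h, -, e⟩ := exists_h hα hβ
  exact (mp_of_conj (σ := id) fun r hr => ⟨e r (hR r hr).1, hr, (hR r hr).2⟩).le

variable (ρ ψ) in
theorem mN (w : List ℕ) (σ : ℕ → ℕ) (h : ∀ r < 12, chevG2.rfW w r = σ r) : ∃ ε : ℕ → F, (∀ r, ε r ≠ 0) ∧
    ∀ R a R' a', (∀ r ∈ R', r < 12 ∧ σ r ∈ R ∧ a' r = ε r * a (σ r)) → μ R a ≤ μ R' a' := by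
  obtain ⟨n, ε, -, h0, e⟩ := exists_n (F := F) w h
  exact ⟨ε, h0, fun R a R' a' h => (mp_of_conj (g := n) fun r hr => ⟨e r (h r hr).1, (h r hr).2⟩).le⟩

variable [Fintype F] (hψ : ψ ≠ 1)
include hψ

theorem sp (r : ℕ) {p : ℕ} (hp : (p : F) = 0) (f : F → ℕ → F)
    (H : (∀ s ∈ R, chk 0 chevG2.collT 30 (cj r s) (tb r s) = true ∧ ∀ L ∈ tb r s, L.1 ∈ R ∨ (p : ℤ) ∣ L.2.1) ∧
      R' ⊆ r :: R ∧ r :: R ⊆ R') (e : ∀ k, ∀ s ∈ R, ∀ t, val a (v2 k t) (tb r s) = t * a s)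
    (hf : ∀ u, f u r = u ∧ ∀ s ∈ R, f u s = a s) : μ R a = ∑ u, μ R' (f u) :=
  mu_split hψ (rel.add r) (fun k => mX hp r k H.1 (e k)) H.2 hf

/-- The decomposition with respect to the two highest roots. -/
theorem dim_eq : finrank ℂ W = μ [10, 11] (wv 0 0 0 0 0 0) + (Fintype.card F ^ 2 - 1) * μ [10, 11] (wv 0 0 0 0 0 1) ∧
    ∀ y z : F, ¬ (y = 0 ∧ z = 0) → μ [10, 11] (wv 0 0 0 0 y z) = μ [10, 11] (wv 0 0 0 0 0 1) := by
  have h1 : ∀ y z y' z' : F, z ≠ 0 → z' ≠ 0 → μ [10, 11] (wv 0 0 0 0 y z) ≤ μ [10, 11] (wv 0 0 0 0 y' z') :=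
    fun y z y' z' hz hz' => (mH (z / z') ((z' / z) ^ 2) (by simp [*]) (by simp [*])
      (a' := wv 0 0 0 0 (y * z / z') z') (by simp [wv]; field_simp; simp)).trans
      (mX Nat.cast_zero 6 ((y * z / z' - y') / z') (by decide +kernel)
        (by simp [val, tb, wv, v2, evE]; intros; field_simp; ring)).le
  obtain ⟨ε, h0, hb⟩ := mN ρ ψ [1] sb (by decide +kernel)
  have h2 : ∀ y z : F, ¬ (y = 0 ∧ z = 0) → μ [10, 11] (wv 0 0 0 0 y z) = μ [10, 11] (wv 0 0 0 0 0 1) := fun y z h => by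
    by_cases hz : z = 0
    · have hy : y ≠ 0 := fun e => h ⟨e, hz⟩
      exact le_antisymm ((hb _ _ _ _ (by simp [wv, sb, hz])).trans (h1 0 (ε 11 * y) _ _ (by simp [*]) one_ne_zero))
        ((h1 _ _ 0 (y / ε 10) one_ne_zero (by simp [*])).trans (hb _ _ _ _ (by simp [wv, sb, hz, mul_div_cancel₀, h0])))
    · exact le_antisymm (h1 _ _ _ _ hz one_ne_zero) (h1 _ _ _ _ one_ne_zero hz)
  refine ⟨?_, h2⟩
  rw [← mu_nil (ρ := ρ) (ψ := ψ) (x := 𝐱) (a := 0), sp hψ 11 Nat.cast_zero (fun u => wv 0 0 0 0 0 u) (R' := [11])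
    (by decide +kernel) (by simp) (by simp [wv]), Finset.sum_congr rfl fun z _ => sp hψ 10 Nat.cast_zero
      (fun u => wv 0 0 0 0 u z) (R' := [10, 11]) (by decide +kernel) (by simp [val, tb, wv, v2, evE]) (by simp [wv]),
    sum_eq_add fun z hz => (Finset.sum_congr rfl fun y _ => h2 y z (by simp [hz])).trans (Finset.sum_const _),
    sum_eq_add fun y hy => h2 y 0 (by simp [hy])]
  obtain ⟨q, hq⟩ : ∃ q, Fintype.card F = q + 1 := ⟨_, (Nat.succ_pred_eq_of_pos Fintype.card_pos).symm⟩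
  simp only [Finset.card_univ, hq, smul_eq_mul, show (q + 1) ^ 2 - 1 = q + q * (q + 1) by ring_nf; omega,
    Nat.add_sub_cancel]
  ring

theorem N_ne_zero [IsSimpleGroup (chevG2.group F)] (hρ : ρ.IsIrreducible) (hW : 2 ≤ finrank ℂ W) :
    μ [10, 11] (wv 0 0 0 0 0 1) ≠ 0 := fun H => by
  have h1 := (dim_eq (ρ := ρ) hψ).1
  rw [H, mul_zero, add_zero, ← mu_nil (ρ := ρ) (ψ := ψ) (x := 𝐱) (a := 0)] at h1
  refine exists_ne_one hρ hW (z := 𝐱 11 1) (fun h => one_ne_zero ((chevG2.X_eq_one_iff F ⟨11, by decide⟩ 1).1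
    (congrArg Subtype.val h))) (LinearMap.ext fun w => ?_)
  simpa [wv] using mem_Vw.1 (Vw_le_of_mu (by simp) h1.le (mem_Vw.2 (by simp) : w ∈ _)) 11 (by simp) 1

section Three

local notation "m⟦" c ", " d ", " y ", " z "⟧" => mu ρ ψ (chevG2.XG F) [8, 9, 10, 11] (wv 0 0 c d y z)
local notation "𝐪" => Fintype.card F

variable (hp : ((3 : ℕ) : F) = 0)
include hp

omit hψ [FiniteDimensional ℂ W] in
theorem cube_surj (a : F) : ∃ t, t ^ 3 = a := Finite.injective_iff_surjective.1 (fun s t (h : s ^ 3 = t ^ 3) =>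
  sub_eq_zero.1 (pow_eq_zero_iff three_ne_zero |>.1 (by
    have h3 : (3 : F) = 0 := hp
    linear_combination h + (s * t ^ 2 - s ^ 2 * t) * h3))) a

omit hψ [Fintype F] in
theorem t7 (hd : d ≠ 0) : m⟦c, d, y, z⟧ ≤ m⟦c', d, y, z⟧ := by
  have h3 : (3 : F) = 0 := hp
  refine (mX hp 7 ((c - c') / d) (by decide +kernel) ?_).le
  simp [val, tb, wv, v2, evE, h3]
  intros
  field_simp
  linear_combination (c - c') * _ * h3

omit hψ [Fintype F] hp in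
theorem t6 (hz : z ≠ 0) : m⟦c, d, y, z⟧ ≤ m⟦c, d, y', z⟧ :=
  (mX Nat.cast_zero 6 ((y - y') / z) (by decide +kernel) (by simp [val, tb, wv, v2, evE]; intros; field_simp; ring)).le

omit hψ [Fintype F] in
theorem m1a (hd : d ≠ 0) (hz : z ≠ 0) : m⟦c, d, y, z⟧ = m⟦0, 1, 0, 1⟧ := by
  have : ∀ c d y z c' d' y' z' : F, d ≠ 0 → z ≠ 0 → d' ≠ 0 → z' ≠ 0 → m⟦c, d, y, z⟧ ≤ m⟦c', d', y', z'⟧ :=
    fun c d y z c' d' y' z' h1 h2 h3 h4 => (t7 hp h1).trans ((t6 h2).trans (mH ((d' / d) ^ 2 / (z' / z))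
      ((z' / z) ^ 2 / (d' / d) ^ 3) (by simp [*]) (by simp [*]) (a := wv 0 0 0 d 0 z) (a' := wv 0 0 0 d' 0 z')
        (by simp [wv]; field_simp; simp))) |>.trans ((t7 hp h3).trans (t6 h4))
  exact le_antisymm (this _ _ _ _ _ _ _ _ hd hz one_ne_zero one_ne_zero) (this _ _ _ _ _ _ _ _ one_ne_zero one_ne_zero hd hz)

omit hp in
theorem s8 (c d z : F) : μ [8, 9, 11] (wv 0 0 c d 0 z) = ∑ y, m⟦c, d, y, z⟧ :=
  sp hψ 10 Nat.cast_zero _ (by decide +kernel) (by simp [val, tb, wv, v2, evE]) (by simp [wv])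

theorem s9 (d y z : F) : μ [9, 10, 11] (wv 0 0 0 d y z) = ∑ c, m⟦c, d, y, z⟧ :=
  sp hψ 8 hp _ (by decide +kernel) (by simp [val, tb, wv, v2, evE, show (3 : F) = 0 from hp]) (by simp [wv])

omit hp hψ [Fintype F] in
theorem e8 (hc : c ≠ 0) {n : ℕ} {P : F → Prop} (hP : ∀ ε z, ε ≠ 0 → P z → P (ε * z)) (hz : P z)
    (h : ∀ d z, d ≠ 0 → P z → μ [8, 9, 11] (wv 0 0 0 d 0 z) = n) : μ [8, 9, 11] (wv 0 0 c 0 0 z) = n := by
  obtain ⟨ε, h0, ha⟩ := mN ρ ψ [0] sa (by decide +kernel)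
  exact le_antisymm ((ha _ _ _ _ (by simp [wv, sa])).trans (h (ε 9 * c) _ (by simp [*]) (hP _ _ (h0 11) hz)).le)
    ((h (c / ε 8) _ (by simp [*]) (hP _ _ (inv_ne_zero (h0 11)) hz)).ge.trans
      (ha _ _ _ _ (by simp [wv, sa, mul_div_cancel₀, h0])))

omit hp hψ [Fintype F] in
theorem e9 (hy : y ≠ 0) {n : ℕ} {P : F → Prop} (hP : ∀ ε z, ε ≠ 0 → P z → P (ε * z)) (hd : P d)
    (h : ∀ d z, z ≠ 0 → P d → μ [9, 10, 11] (wv 0 0 0 d 0 z) = n) : μ [9, 10, 11] (wv 0 0 0 d y 0) = n := by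
  obtain ⟨ε, h0, ha⟩ := mN ρ ψ [1] sb (by decide +kernel)
  exact le_antisymm ((ha _ _ _ _ (by simp [wv, sb])).trans (h _ (ε 11 * y) (by simp [*]) (hP _ _ (h0 9) hd)).le)
    ((h _ (y / ε 10) (by simp [*]) (hP _ _ (inv_ne_zero (h0 9)) hd)).ge.trans
      (ha _ _ _ _ (by simp [wv, sb, mul_div_cancel₀, h0])))

theorem m1b (hc : c ≠ 0) (hz : z ≠ 0) : m⟦c, 0, y, z⟧ = m⟦0, 1, 0, 1⟧ := by
  have := e8 (ρ := ρ) (ψ := ψ) hc (P := (· ≠ 0)) (fun _ _ => mul_ne_zero) hz fun d z hd hz =>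
    (s8 hψ 0 d z).trans ((Finset.sum_congr rfl fun y _ => m1a hp hd hz).trans (Finset.sum_const _))
  rw [s8 hψ, Finset.sum_congr rfl fun y' _ => le_antisymm (t6 (y' := y) hz) (t6 hz), Finset.sum_const] at this
  exact Nat.eq_of_mul_eq_mul_left Fintype.card_pos this

theorem m1c (hd : d ≠ 0) (hy : y ≠ 0) : m⟦c, d, y, 0⟧ = m⟦0, 1, 0, 1⟧ := by
  have := e9 (ρ := ρ) (ψ := ψ) hy (P := (· ≠ 0)) (fun _ _ => mul_ne_zero) hd fun d z hz hd =>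
    (s9 hψ hp d 0 z).trans ((Finset.sum_congr rfl fun y _ => m1a hp hd hz).trans (Finset.sum_const _))
  rw [s9 hψ hp, Finset.sum_congr rfl fun c' _ => le_antisymm (t7 (c' := c) hp hd) (t7 hp hd), Finset.sum_const] at this
  exact Nat.eq_of_mul_eq_mul_left Fintype.card_pos this

theorem s10 (y z : F) : μ [10, 11] (wv 0 0 0 0 y z) = ∑ d, ∑ c, m⟦c, d, y, z⟧ :=
  (sp hψ 9 Nat.cast_zero (fun d => wv 0 0 0 d y z) (R' := [9, 10, 11]) (by decide +kernel)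
    (by simp [val, tb, wv, v2, evE]) (by simp [wv])).trans (Finset.sum_congr rfl fun d _ => s9 hψ hp d y z)

theorem N_eq : μ [10, 11] (wv 0 0 0 0 0 1) = m⟦0, 0, 0, 1⟧ + (𝐪 - 1) * m⟦0, 1, 0, 1⟧ + (𝐪 - 1) * (𝐪 * m⟦0, 1, 0, 1⟧) := by
  rw [s10 hψ hp, sum_eq_add fun d hd => (Finset.sum_congr rfl fun c _ => m1a hp hd one_ne_zero).trans (Finset.sum_const _),
    sum_eq_add fun c hc => m1b hψ hp hc one_ne_zero]
  rfl

theorem m1_ne_zero (hq : 4 ≤ 𝐪) (h : μ [10, 11] (wv 0 0 0 0 0 1) ≠ 0) : m⟦0, 1, 0, 1⟧ ≠ 0 := fun h0 => by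
  have h3 : (3 : F) = 0 := hp
  rw [N_eq hψ hp, h0] at h
  obtain ⟨ε, h1, hb⟩ := mN ρ ψ [1] sb (by decide +kernel)
  have key : ∀ y ≠ 0, Vw ρ ψ 𝐱 [8, 9, 10, 11] (wv 0 0 0 0 y 1) ≤ Vw ρ ψ 𝐱 [7, 8, 9, 10, 11] (wv 0 0 0 0 y 1) :=
    fun y hy => Vw_le_of_mu (by simp) (by
      rw [sp hψ 7 hp (fun s => wv 0 s 0 0 y 1) (R' := [7, 8, 9, 10, 11]) (by decide +kernel)
        (by simp [val, tb, wv, v2, evE, h3]) (by simp [wv]), sum_eq_add (m := 0) fun s hs => Nat.le_zero.1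
          ((hb _ _ _ _ (by simp [wv, sb])).trans ((m1b (c := ε 8 * s) (y := ε 10) (z := ε 11 * y) hψ hp (by simp [*])
            (by simp [*])).trans h0).le)]
      rfl)
  obtain ⟨k, k0, k1⟩ := tw_exists_sq_ne_one hq
  obtain ⟨w, hw, w0⟩ := mu_ne_zero.1 ((le_antisymm (t6 one_ne_zero) (t6 one_ne_zero) : m⟦0, 0, 1, 1⟧ = _).trans_ne h)
  have h2 := key (1 - k) (fun e => k1 (by rw [← sub_eq_zero.1 e, one_pow])) (mX Nat.cast_zero 6 k (by decide +kernel)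
    (by simp [val, tb, wv, v2, evE]; intros; ring) w hw)
  refine mul_ne_zero k0 (fun e => k1 (by linear_combination (k - 1) * e)) (addChar_eq_of_forall hψ fun c => ?_ : k * (k + 1) = 0)
  obtain ⟨t, rfl⟩ := cube_surj hp c
  have h4 := ac_evW rel.add Nat.cast_zero (w := tb 6 7) (by decide) (v2 k t) w (key 1 one_ne_zero hw)
  rw [← conj_eq rel (r := 6) (s := 7) (by decide +kernel), map_mul, map_mul, Module.End.mul_apply, Module.End.mul_apply,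
    mem_Vw.1 h2 7 (by simp), map_smul, ← Module.End.mul_apply, ← map_mul, inv_mul_cancel, map_one] at h4
  convert (smul_left_injective ℂ w0 h4).symm using 2 <;> simp [val, tb, wv, v2, evE]
  linear_combination k ^ 2 * t ^ 3 * h3

omit hp hψ [Fintype F] in
theorem m2a (hz : z ≠ 0) : m⟦0, 0, 0, z⟧ = m⟦0, 0, 0, 1⟧ :=
  le_antisymm (mH z (z ^ 2)⁻¹ hz (by simp [hz]) (by simp [wv]; field_simp))
    (mH z⁻¹ (z ^ 2) (by simp [hz]) (by simp [hz]) (by simp [wv]; field_simp))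

omit hψ [Fintype F] in
theorem m3a (hd : d ≠ 0) : m⟦c, d, 0, 0⟧ = m⟦0, 1, 0, 0⟧ :=
  le_antisymm ((t7 hp hd).trans (mH 1 d⁻¹ one_ne_zero (by simp [hd]) (a := wv 0 0 0 d 0 0) (by simp [wv, hd])))
    ((mH 1 d one_ne_zero hd (a' := wv 0 0 0 d 0 0) (by simp [wv])).trans (t7 hp hd))

theorem r1 (hy : y ≠ 0) : ∑ c, m⟦c, 0, y, 0⟧ = m⟦0, 0, 0, 1⟧ + (𝐪 - 1) * m⟦0, 1, 0, 1⟧ :=
  (s9 hψ hp 0 y 0).symm.trans (e9 hy (P := (· = 0)) (fun _ _ _ h => by simp [h]) rfl fun d z hz hd => by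
    rw [hd, s9 hψ hp, sum_eq_add fun c hc => m1b hψ hp hc hz, m2a hz])

theorem r2 (hc : c ≠ 0) : ∑ y, m⟦c, 0, y, 0⟧ = m⟦0, 1, 0, 0⟧ + (𝐪 - 1) * m⟦0, 1, 0, 1⟧ :=
  (s8 hψ c 0 0).symm.trans (e8 hc (P := (· = 0)) (fun _ _ _ h => by simp [h]) rfl fun d z hd hz => by
    rw [hz, s8 hψ, sum_eq_add fun y hy => m1c hψ hp hd hy, m3a hp hd])

omit hp in
theorem s6 (s c y : F) : m⟦c, 0, y, 0⟧ = ∑ b, μ [6, 8, 9, 10, 11] (wv b s c 0 y 0) :=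
  sp hψ 6 Nat.cast_zero _ (by decide +kernel) (by simp [val, tb, wv, v2, evE]) (by simp [wv])

omit hψ [Fintype F] in
theorem t76 (k : F) : μ [6, 8, 9, 10, 11] (wv b 0 c 0 y 0) ≤ μ [6, 8, 9, 10, 11] (wv (b + k * c - k ^ 3 * y) 0 c 0 y 0) :=
  (mX hp 7 k (by decide +kernel) (by simp [val, tb, wv, v2, evE, show (3 : F) = 0 from hp]; intros; ring)).le

theorem m4_big (hq : 4 ≤ 𝐪) (hc : c ≠ 0) (hy : y ≠ 0) (h : m⟦c, 0, y, 0⟧ ≠ 0) : 3 * (𝐪 - 1) ≤ 2 * ∑ c, m⟦c, 0, y, 0⟧ := by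
  classical
  have h3 : (3 : F) = 0 := hp
  have h1 : 3 ≤ m⟦c, 0, y, 0⟧ := by
    rw [s6 hψ 0] at h ⊢
    obtain ⟨b, -, hb⟩ := Finset.exists_ne_zero_of_sum_ne_zero h
    obtain ⟨k, hk⟩ : ∃ k, k * c - k ^ 3 * y ≠ 0 := by
      by_contra! H
      obtain ⟨u, u0, u1⟩ := tw_exists_sq_ne_one hq
      exact mul_ne_zero (mul_ne_zero u0 hy) (sub_ne_zero.2 u1) (by linear_combination u * H 1 - H u)
    refine le_trans ?_ (Finset.sum_le_sum_of_subset (Finset.subset_univ {b, b + k * c - k ^ 3 * y, b + -k * c - (-k) ^ 3 * y}))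
    rw [Finset.sum_insert (by simpa using ⟨fun e => hk (by linear_combination -e), fun e => hk (by linear_combination e)⟩),
      Finset.sum_pair fun e => hk (by linear_combination -e + (k * c - k ^ 3 * y) * h3)]
    have e1 := t76 (ρ := ρ) (ψ := ψ) (b := b) (c := c) (y := y) hp k
    have e2 := t76 (ρ := ρ) (ψ := ψ) (b := b) (c := c) (y := y) hp (-k)
    omega
  have h2 := Finset.card_le_mul_card_image (f := fun u => u ^ 2 * c) (Finset.univ.erase (0 : F)) 2 fun a ha => by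
    obtain ⟨v, -, rfl⟩ := Finset.mem_image.1 ha
    exact (Finset.card_le_card fun u hu => by
      simpa [hc, sq_eq_sq_iff_eq_or_eq_neg] using (Finset.mem_filter.1 hu).2).trans (Finset.card_le_two (a := v) (b := -v))
  have h4 := (Finset.card_nsmul_le_sum _ (fun c => m⟦c, 0, y, 0⟧) 3 fun a ha => by
    obtain ⟨u, hu, rfl⟩ := Finset.mem_image.1 (ha : a ∈ (Finset.univ.erase (0 : F)).image fun u => u ^ 2 * c)
    have u0 := (Finset.mem_erase.1 hu).1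
    exact h1.trans (mH u⁻¹ (u ^ 3) (by simp [u0]) (by simp [u0]) (by simp [wv]; field_simp; simp))).trans
    (Finset.sum_le_sum_of_subset (Finset.subset_univ _))
  rw [Finset.card_erase_of_mem (Finset.mem_univ _), Finset.card_univ] at h2
  rw [smul_eq_mul] at h4
  omega

theorem three_bound [IsSimpleGroup (chevG2.group F)] (hρ : ρ.IsIrreducible) (hW : 2 ≤ finrank ℂ W) (hq : 9 ≤ 𝐪) :
    𝐪 ^ 4 + 𝐪 ^ 2 ≤ finrank ℂ W + 2 := by
  classical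
  have h3 : (3 : F) = 0 := hp
  have h0 := m1_ne_zero hψ hp (by omega) (N_ne_zero hψ hρ hW)
  have h1 := (dim_eq (ρ := ρ) hψ).1
  have h2 := N_eq (ρ := ρ) hψ hp
  obtain ⟨q, hq'⟩ : ∃ q, 𝐪 = q + 9 := ⟨𝐪 - 9, by omega⟩
  have e1 : 𝐪 - 1 = q + 8 := by omega
  have e2 : 𝐪 ^ 2 - 1 = q ^ 2 + 18 * q + 80 := by rw [hq']; ring_nf; omega
  by_contra! H
  have k1 : μ [10, 11] (wv 0 0 0 0 0 1) < 𝐪 ^ 2 + 3 := by
    by_contra! h
    have := Nat.mul_le_mul_left (𝐪 ^ 2 - 1) h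
    rw [e2] at this h1
    rw [hq'] at this H
    nlinarith
  have k2 : m⟦0, 1, 0, 1⟧ = 1 := by
    by_contra h
    obtain ⟨j, hj⟩ : ∃ j, m⟦0, 1, 0, 1⟧ = j + 2 := ⟨m⟦0, 1, 0, 1⟧ - 2, by omega⟩
    rw [h2, hj, e1, hq'] at k1
    nlinarith
  have k3 : m⟦0, 0, 0, 1⟧ < 4 := by rw [h2, k2, e1, hq'] at k1; nlinarith
  have k4 : ∀ c y : F, c ≠ 0 → y ≠ 0 → m⟦c, 0, y, 0⟧ = 0 := fun c y hc hy => by
    by_contra h
    have := m4_big hψ hp (by omega) hc hy h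
    rw [r1 hψ hp hy, k2] at this
    omega
  have k5 : ∀ y ≠ 0, μ [6, 8, 9, 10, 11] (wv 0 0 0 0 y 0) = 1 ∧ 1 ≤ m⟦0, 0, 0, 1⟧ := fun y hy => by
    have e := r1 (ρ := ρ) hψ hp hy
    have t : ∀ b b', μ [6, 8, 9, 10, 11] (wv b 0 0 0 y 0) ≤ μ [6, 8, 9, 10, 11] (wv b' 0 0 0 y 0) := fun b b' => by
      obtain ⟨k, hk⟩ := cube_surj hp ((b - b') / y)
      exact (t76 hp k).trans_eq (by rw [hk, show b + k * 0 - (b - b') / y * y = b' by field_simp; ring])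
    rw [sum_eq_add fun c hc => k4 c y hc hy, s6 hψ 0, Finset.sum_congr rfl fun b _ => le_antisymm (t b 0) (t 0 b),
      Finset.sum_const, Finset.card_univ, k2, e1, hq', smul_eq_mul] at e
    rcases h : μ [6, 8, 9, 10, 11] (wv 0 0 0 0 y 0) with _ | _ | j <;> rw [h] at e
    · omega
    · omega
    · nlinarith
  have k6 : ∀ c ≠ 0, 1 ≤ μ [7, 8, 9, 10, 11] (wv 0 0 c 0 0 0) ∧ 1 ≤ m⟦0, 1, 0, 0⟧ ∧ 𝐪 ≤ m⟦c, 0, 0, 0⟧ := fun c hc => by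
    have e := r2 (ρ := ρ) hψ hp hc
    have t : ∀ s s', μ [7, 8, 9, 10, 11] (wv 0 s c 0 0 0) ≤ μ [7, 8, 9, 10, 11] (wv 0 s' c 0 0 0) := fun s s' =>
      (mX Nat.cast_zero 6 ((s - s') / c) (by decide +kernel) (by simp [val, tb, wv, v2, evE]; intros; field_simp; ring)).le
    have e' := (sp hψ 7 hp (fun s => wv 0 s c 0 0 0) (ρ := ρ) (R := [8, 9, 10, 11]) (R' := [7, 8, 9, 10, 11])
      (a := wv 0 0 c 0 0 0) (by decide +kernel) (by simp [val, tb, wv, v2, evE]) (by simp [wv])).trans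
      ((Finset.sum_congr rfl fun s _ => le_antisymm (t s 0) (t 0 s)).trans (Finset.sum_const _))
    rw [sum_eq_add fun y hy => k4 c y hc hy, k2, e1] at e
    rw [Finset.card_univ, smul_eq_mul, hq'] at e'
    rcases h : μ [7, 8, 9, 10, 11] (wv 0 0 c 0 0 0) with _ | j <;> rw [h] at e'
    · omega
    · exact ⟨by omega, by nlinarith, by nlinarith⟩
  obtain ⟨ε, ε0, ha⟩ := mN ρ ψ [0] sa (by decide +kernel)
  obtain ⟨η, η0, hb⟩ := mN ρ ψ [1] sb (by decide +kernel)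
  have k7 : ∀ b ≠ 0, μ [6, 8, 9, 10, 11] (wv b 0 0 0 0 0) = 1 := fun b hb => le_antisymm
    ((ha _ _ _ _ (by simp [wv, sa])).trans (k5 (ε 10 * b) (by simp [*])).1.le)
    ((k5 (b / ε 6) (by simp [*])).1.ge.trans (ha _ _ _ _ (by simp [wv, sa, mul_div_cancel₀, ε0])))
  have k8 : ∀ b, μ [6, 8, 9, 10, 11] (wv b 0 0 0 0 0) = ∑ s, μ [6, 7, 8, 9, 10, 11] (wv b s 0 0 0 0) := fun b =>
    sp hψ 7 hp _ (by decide +kernel) (by simp [val, tb, wv, v2, evE]) (by simp [wv])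
  have k9 : ∀ s ≠ 0, 1 ≤ μ [6, 7, 8, 9, 10, 11] (wv 0 s 0 0 0 0) := fun s hs => by
    have e := (k6 (s / η 7) (by simp [*])).1.trans (hb _ _ [7, 8, 9, 10, 11] (wv 0 s 0 0 0 0)
      (by simp [wv, sb, mul_div_cancel₀, η0]))
    rwa [sp hψ 6 Nat.cast_zero (fun b => wv b s 0 0 0 0) (R' := [6, 7, 8, 9, 10, 11]) (by decide +kernel)
      (by simp [val, tb, wv, v2, evE]) (by simp [wv]), sum_eq_add (m := 0) fun b hb => ?_] at e
    have e1 := Finset.sum_le_sum_of_subset (f := fun s => μ [6, 7, 8, 9, 10, 11] (wv b s 0 0 0 0))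
      (Finset.subset_univ {s, -s})
    have e2 := mH (ρ := ρ) (ψ := ψ) (-1) 1 (by simp) one_ne_zero (R := [6, 7, 8, 9, 10, 11]) (a := wv b s 0 0 0 0)
      (a' := wv b (-s) 0 0 0 0) (by simp [wv])
    rw [← k8, k7 b hb, Finset.sum_pair fun e => hs (by linear_combination -e + s * h3)] at e1
    omega
  have l1 := add_le_sum k9
  have l2 := add_le_sum fun c hc => (k6 c hc).2.2
  rw [← k8] at l1
  rw [s6 hψ 0, sum_eq_add k7] at l2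
  rw [h2, s10 hψ hp, sum_eq_add fun d hd => (Finset.sum_congr rfl fun c _ => m3a hp hd).trans (Finset.sum_const _), k2,
    Finset.card_univ, smul_eq_mul] at h1
  obtain ⟨i, hi⟩ := Nat.exists_eq_add_of_le (k5 1 one_ne_zero).2
  obtain ⟨j, hj⟩ := Nat.exists_eq_add_of_le (k6 1 one_ne_zero).2.1
  rw [hi, hj, e2, e1, hq'] at h1
  rw [e1] at l1
  rw [e1, hq'] at l2
  rw [hq'] at H
  nlinarith [Nat.zero_le (i * (q ^ 2 + 18 * q + 80)), Nat.zero_le ((q + 8) * (q + 9) * j)]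

end Three

end Cfsg.Agent.Chev.MdG
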