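import Mathlib
import Cfsg.Agent.Chev.MdG2

/-!
# The minimal degree of `G₂` in characteristic different from three
-/

set_option autoImplicit false
set_option backward.isDefEq.respectTransparency false

namespace Cfsg.Agent.Chev.MdG

open Cfsg.Lie Cfsg.Lie.ChevalleyDatum Cfsg.Agent.Chev.Md Cfsg.Agent.Cl Coll Module Subgroup

variable {F : Type*} [Field F] {W : Type*} [AddCommGroup W] [Module ℂ W] {ρ : Representation ℂ (chevG2.group F) W}
  {ψ : AddChar F ℂ} {R R' : List ℕ} {b s c d y z : F}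

local notation "𝐱" => chevG2.XG F
local notation "μ" => mu ρ ψ (chevG2.XG F)
local notation "𝐕" => Vw ρ ψ (chevG2.XG F)
local notation "𝐪" => Fintype.card F

variable (F) in
/-- A product of root subgroups. -/
def Y (R : List ℕ) : Subgroup (chevG2.group F) := (chevG2.XS F (chevG2.lset R)).subgroupOf _

theorem x_mem {r : ℕ} (h : r ∈ R) (t : F) : 𝐱 r t ∈ Y F R := X_mem_lset h t

theorem Y_le {K : Subgroup (chevG2.group F)} (h : ∀ r ∈ R, ∀ t, 𝐱 r t ∈ K) : Y F R ≤ K := fun g hg => by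
  obtain ⟨g', h1, h2⟩ := (XS_le_iff (K := K.map (chevG2.group F).subtype)).2 (fun r hr t => ⟨_, h r hr t, rfl⟩) hg
  rwa [← show g' = g from Subtype.ext h2]

theorem fix_Y {w : W} : w ∈ fix ρ (Y F R) ↔ w ∈ 𝐕 R 0 := by
  simp only [mem_fix, mem_Vw, Pi.zero_apply, mul_zero, AddChar.map_zero_eq_one, one_smul]
  exact ⟨fun h r hr t => h _ (x_mem hr t), fun h => Y_le (K := stb ρ w) h⟩

theorem x_norm {r : ℕ} (h : chevG2.Cp 0 [r] R R) (t : F) : 𝐱 r t ∈ normalizer (Y F R : Set (chevG2.group F)) :=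
  le_normalizer_of_conj (E := Y F [r]) (fun _ hg a ha => h.norm Nat.cast_zero hg _ ha) (x_mem (by simp) t)

/-- The reflection attached to a root. -/
def nG (r : ℕ) (c : F) : chevG2.group F := 𝐱 r c * 𝐱 (chevG2.neg r) (-c⁻¹) * 𝐱 r c

theorem nG_inv : (nG 6 1)⁻¹ = nG 6 (-1 : F) := Subtype.ext (chevG2.nE_neg F 6 1).symm

theorem x5_eq (t : F) : 𝐱 5 t = 𝐱 6 t⁻¹ * nG 6 (-t⁻¹) * 𝐱 6 t⁻¹ := by
  simp [nG, (rel.add 6).neg, mul_assoc, show chevG2.neg 6 = 5 from rfl]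

theorem nG_conj {c : F} (hc : c ≠ 0) {r : ℕ} (hr : r < 12) (t : F) : ∃ u, 𝐱 r t * nG 6 c = nG 6 c * 𝐱 (sb r) u := by
  have := chevG2.nE_conj_X F (chevG2.sr ⟨1, by decide⟩) ⟨r, hr⟩ (neg_ne_zero.2 hc) t
  rw [refl_sr, sref_val, (by decide +kernel : ∀ r < 12, chevG2.reflectRoot 1 r = sb r) r hr, nE_neg, inv_inv, mul_assoc,
    inv_mul_eq_iff_eq_mul] at this
  exact ⟨_, Subtype.ext this⟩

theorem eq_one_of_sum [Fintype F] {f : F → ℕ} (h : ∑ u, f u = 1) {e : F} (he : e ≠ 1) (h' : ∀ u, f u ≤ f (e * u)) :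
    f 0 = 1 := by
  classical
  rw [← h, sum_eq_add (m := 0) fun u hu => ?_, mul_zero, add_zero]
  have := Finset.sum_le_sum_of_subset (f := f) (Finset.subset_univ {u, e * u})
  rw [Finset.sum_pair fun e' => he (mul_right_cancel₀ hu (by rw [one_mul, ← e']))] at this
  have := h' u
  omega

variable [FiniteDimensional ℂ W] [Fintype F] (hψ : ψ ≠ 1) (h3 : (3 : F) ≠ 0)
include hψ

omit hψ [Fintype F] in
include h3 in
theorem k_eq (h : ¬ (y = 0 ∧ z = 0)) : μ [9, 10, 11] (wv 0 0 0 d y z) = μ [9, 10, 11] (wv 0 0 0 0 0 1) := by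
  have h1 : ∀ d y z d' y' z' : F, z ≠ 0 → z' ≠ 0 → μ [9, 10, 11] (wv 0 0 0 d y z) ≤ μ [9, 10, 11] (wv 0 0 0 d' y' z') :=
    fun d y z d' y' z' hz hz' => (mH (z / z') ((z' / z) ^ 2) (by simp [*]) (by simp [*])
      (a' := wv 0 0 0 d (y * z / z') z') (by simp [wv]; field_simp; simp)).trans
      ((mX Nat.cast_zero 6 ((y * z / z' - y') / z') (R' := [9, 10, 11]) (a' := wv 0 0 0 d y' z') (by decide +kernel)
        (by simp [val, tb, wv, v2, evE]; intros; field_simp; ring)).le.trans (mX Nat.cast_zero 8 ((d - d') / (3 * z'))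
        (by decide +kernel) (by simp [val, tb, wv, v2, evE]; intros; field_simp; ring)).le)
  obtain ⟨ε, h0, hb⟩ := mN ρ ψ [1] sb (by decide +kernel)
  by_cases hz : z = 0
  · have hy : y ≠ 0 := fun e => h ⟨e, hz⟩
    exact le_antisymm ((hb _ _ _ _ (by simp [wv, sb, hz])).trans (h1 (ε 9 * d) 0 (ε 11 * y) _ _ _ (by simp [*]) one_ne_zero))
      ((h1 _ _ _ (d / ε 9) 0 (y / ε 10) one_ne_zero (by simp [*])).trans
        (hb _ _ _ _ (by simp [wv, sb, hz, mul_div_cancel₀, h0])))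
  · exact le_antisymm (h1 _ _ _ _ _ _ hz one_ne_zero) (h1 _ _ _ _ _ _ one_ne_zero hz)

theorem N_eq' (y z : F) : μ [10, 11] (wv 0 0 0 0 y z) = ∑ d, μ [9, 10, 11] (wv 0 0 0 d y z) :=
  sp hψ 9 Nat.cast_zero _ (by decide +kernel) (by simp [val, tb, wv, v2, evE]) (by simp [wv])

theorem pure {u v : F} (u0 : u ≠ 0) (hu : u ^ 2 ≠ 1) (v0 : v ≠ 0) (hv : v ^ 3 ≠ 1)
    (h : μ [9, 10, 11] (wv 0 0 0 0 y 0) = 1) : μ [6, 8, 9, 10, 11] (wv 0 0 0 0 y 0) = 1 := by
  rw [sp hψ 8 Nat.cast_zero (fun c => wv 0 0 c 0 y 0) (R' := [8, 9, 10, 11]) (by decide +kernel)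
    (by simp [val, tb, wv, v2, evE]) (by simp [wv])] at h
  have h1 := eq_one_of_sum h hu fun c => mH u⁻¹ (u ^ 3) (by simp [u0]) (by simp [u0]) (by simp [wv]; field_simp; simp)
  rw [s6 hψ 0] at h1
  exact eq_one_of_sum h1 hv fun c => mH v⁻¹ (v ^ 3) (by simp [v0]) (by simp [v0]) (by simp [wv]; field_simp)

omit hψ in
theorem exists_generic (h0 : μ [6, 10, 11] 0 = 0) (b : F) (h : μ [6, 10, 11] (wv 0 0 0 0 y 0) ≠ 0) :
    μ [10, 0, 5] (wv 0 0 0 0 y 0 + Pi.single 0 b) ≠ 0 := by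
  classical
  have := Fintype.ofFinite (Y F [6, 11])
  let Z : chevG2.group F → Prop := fun g => ∀ m ∈ fix ρ (Y F [6, 11]), eS ρ (Y F [6, 11]) (ρ g m) = 0
  have h1 : ∀ {g k}, k ∈ normalizer (Y F [6, 11] : Set (chevG2.group F)) → Z g → Z (k⁻¹ * g * k) := fun hk hg m hm => by
    rw [map_mul, map_mul, Module.End.mul_apply, Module.End.mul_apply, eS_comm (inv_mem hk), hg _ (apply_mem_fix hk hm),
      map_zero]
  have h2 : ∀ t ≠ 0, Z (𝐱 5 t) := fun t ht m hm => by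
    rw [x5_eq, map_mul, map_mul, Module.End.mul_apply, Module.End.mul_apply, eS_mul (x_mem (by simp) _),
      mem_fix.1 hm _ (x_mem (by simp) _)]
    refine (Submodule.finrank_eq_zero.1 h0).le (mem_Vw.2 fun r hr s => ?_)
    simp only [Pi.zero_apply, mul_zero, AddChar.map_zero_eq_one, one_smul]
    refine eS_fixed ((by decide : ∀ r ∈ [6, 10, 11], r ∈ [6, 11] ∨ r = 10) r hr |>.imp (x_mem · s) ?_)
    rintro rfl
    obtain ⟨u, e⟩ := nG_conj (c := -t⁻¹) (by simp [ht]) (by decide : 10 < 12) s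
    exact ⟨x_norm (by decide +kernel) s, by
      rw [← Module.End.mul_apply, ← map_mul, e, map_mul, Module.End.mul_apply, mem_fix.1 hm _ (x_mem (by decide) _)]⟩
  have h4 : ∀ k t u, (𝐱 10 k)⁻¹ * (𝐱 5 t * 𝐱 0 u) * 𝐱 10 k = 𝐱 5 (t - k * u) * 𝐱 0 u := fun k t u => by
    simpa [evW, ev, evE, (rel.add _).neg, mul_assoc, sub_eq_add_neg, rel.add 5 t] using rel.eq_of_chk (n := 30)
      (w := [(10, -1, [1, 0, 0]), (5, 1, [0, 1, 0]), (0, 1, [0, 0, 1]), (10, 1, [1, 0, 0])])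
      (w' := [(5, 1, [0, 1, 0]), (5, -1, [1, 0, 1]), (0, 1, [0, 0, 1])]) (by decide +kernel) fun i => [k, t, u].getD i 0
  have h5 : ∀ t ≠ 0, ∀ u, Z (𝐱 5 t * 𝐱 0 u) := fun t ht u => by
    convert h1 (x_norm (r := 1) (by decide +kernel) (-u / t)) (h2 t ht) using 1
    rw [conj_eq rel (w := [(5, 1, [0, 1]), (0, -1, [1, 1])]) (by decide +kernel)]
    simp [evW, ev, evE, v2, neg_div, div_mul_cancel₀ _ ht]
  have h6 : ∀ p : F × F, p ≠ 0 → Z (𝐱 5 p.1 * 𝐱 0 p.2) := fun ⟨t, u⟩ hp => by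
    by_cases ht : t = 0
    · simpa [h4, ht] using h1 (x_norm (r := 10) (by decide +kernel) 1) (h5 u (fun e => hp (by simp [ht, e])) u)
    · exact h5 t ht u
  obtain ⟨m, hm, m0⟩ := mu_ne_zero.1 h
  have h7 : m ∈ fix ρ (Y F [6, 11]) := (fix_Y (ψ := ψ)).2 (mem_Vw.2 (by
    simpa [wv] using And.intro (mem_Vw.1 hm 6 (by simp)) (mem_Vw.1 hm 11 (by simp))))
  have h8 : ∀ t u, 𝐱 5 t * 𝐱 0 u = 𝐱 0 u * 𝐱 5 t := fun t u => by
    rw [← inv_mul_eq_iff_eq_mul, ← mul_assoc, conj_eq rel (w := [(5, 1, [0, 1])]) (by decide +kernel)]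
    simp [evW, ev, evE, v2]
  refine mu_ne_zero.2 ⟨∑ p : F × F, ψ (-p.2 * b) • ρ (𝐱 5 p.1 * 𝐱 0 p.2) m, mem_Vw.2 fun r hr s => ?_, fun e => ?_⟩
  · simp only [map_sum, map_smul, ← Module.End.mul_apply, ← map_mul, Finset.smul_sum]
    simp only [List.mem_cons, List.not_mem_nil, or_false] at hr
    rcases hr with rfl | rfl | rfl
    · refine Fintype.sum_equiv (Equiv.prodShear (Equiv.refl F) (fun u => Equiv.addRight (s * u)) |>.trans
        (Equiv.prodComm ..) |>.trans (Equiv.refl _) |> (Equiv.prodComm ..).trans) _ _ fun p => ?_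
      have := h4 (-s) p.1 p.2
      rw [(rel.add _).neg, inv_inv, mul_inv_eq_iff_eq_mul] at this
      simp [this, mem_Vw.1 hm 10 (by simp), wv, smul_smul, mul_comm]
    · refine Fintype.sum_equiv (Equiv.addRight (0, s)) _ _ fun p => ?_
      rw [← mul_assoc, ← h8, mul_assoc, ← rel.add 0]
      simp [wv, smul_smul, ← AddChar.map_add_eq_mul, add_comm, add_mul]
    · refine Fintype.sum_equiv (Equiv.addRight (s, 0)) _ _ fun p => ?_
      rw [← mul_assoc, ← rel.add 5]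
      simp [wv, add_comm]
  · have := congrArg (eS ρ (Y F [6, 11])) e
    rw [map_sum, Finset.sum_eq_single 0 (fun p _ hp => by rw [map_smul, h6 p hp m h7, smul_zero]) (by simp)] at this
    simp [(rel.add _).zero, eS_fix h7, m0] at this

include h3 in
theorem cube_of_generic (h1 : ∀ d : F, ∀ y ≠ 0, μ [9, 10, 11] (wv 0 0 0 d y 0) = 1)
    (h2 : ∀ y ≠ 0, μ [6, 8, 9, 10, 11] (wv 0 0 0 0 y 0) = 1) (hy : y ≠ 0) (h : μ [6, 10, 11] (wv b 0 0 0 y 0) ≠ 0) :
    ∃ k, b = k ^ 3 * y := by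
  rw [sp hψ 9 Nat.cast_zero (fun d => wv b 0 0 d y 0) (R' := [6, 9, 10, 11]) (by decide +kernel)
    (by simp [val, tb, wv, v2, evE]) (by simp [wv])] at h
  obtain ⟨d, -, hd⟩ := Finset.exists_ne_zero_of_sum_ne_zero h
  obtain ⟨w, hw, w0⟩ := mu_ne_zero.1 hd
  have h4 := Vw_le_of_mu (ρ := ρ) (ψ := ψ) (R := [9, 10, 11]) (a := wv 0 0 0 d y 0) (R' := [6, 9, 10, 11])
    (a' := wv ((d / (3 * y)) ^ 3 * y) 0 0 d y 0) (by simp [wv]) ((h1 d y hy).trans_le ((h2 y hy).ge.trans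
      (mX Nat.cast_zero 7 (-(d / (3 * y))) (by decide +kernel)
        (by simp [val, tb, wv, v2, evE]; constructor <;> intros <;> field_simp)).le))
  have h5 := mem_Vw.1 (h4 (mem_Vw.2 fun r hr t => by
    have := mem_Vw.1 hw r (List.mem_cons_of_mem _ hr) t
    simp only [List.mem_cons, List.not_mem_nil, or_false] at hr
    rcases hr with rfl | rfl | rfl <;> exact this)) 6 (by simp)
  exact ⟨_, addChar_eq_of_forall hψ fun c => smul_left_injective ℂ w0 ((mem_Vw.1 hw 6 (by simp) c).symm.trans (h5 c))⟩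

theorem dvd_of_one (hρ : ρ.IsIrreducible) {u : F} (u0 : u ≠ 0) (hu : u ^ 2 ≠ 1) (h : μ [6, 10, 11] 0 = 1) :
    finrank ℂ W ∣ 𝐪 * (chevG2.bnPair F).B.index := by
  classical
  have u1 : u ≠ 1 := fun e => hu (by simp [e])
  have h1 : μ [6, 7, 8, 9, 10, 11] (wv 0 0 0 0 0 0) = 1 := by
    rw [sp hψ 8 Nat.cast_zero (fun c => wv 0 0 c 0 0 0) (R' := [6, 8, 10, 11]) (by decide +kernel)
      (by simp [val, tb]) (by simp [wv])] at h
    replace h := eq_one_of_sum h u1 fun c => mH u 1 u0 one_ne_zero (by simp [wv])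
    rw [sp hψ 9 Nat.cast_zero (fun d => wv 0 0 0 d 0 0) (R' := [6, 8, 9, 10, 11]) (by decide +kernel)
      (by simp [val, tb, wv]) (by simp [wv])] at h
    replace h := eq_one_of_sum h hu fun c => mH u 1 u0 one_ne_zero (by simp [wv])
    rw [sp hψ 7 Nat.cast_zero (fun s => wv 0 s 0 0 0 0) (R' := [6, 7, 8, 9, 10, 11]) (by decide +kernel)
      (by simp [val, tb, wv]) (by simp [wv])] at h
    exact eq_one_of_sum h u1 fun c => mH u 1 u0 one_ne_zero (by simp [wv])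
  obtain ⟨v, hv, v0⟩ := mu_ne_zero.1 (h1.trans_ne one_ne_zero)
  have h2 : ∀ r ∈ [6, 7, 8, 9, 10, 11], ∀ t, 𝐱 r t ∈ stb ρ v := by
    simpa [wv, stb] using mem_Vw.1 hv
  have h4 : fix ρ (Y F [6, 10, 11]) = ℂ ∙ v := by
    have e : fix ρ (Y F [6, 10, 11]) = 𝐕 [6, 10, 11] 0 := Submodule.ext fun _ => fix_Y
    refine (Submodule.eq_of_le_of_finrank_le ((Submodule.span_singleton_le_iff_mem _ _).2 (mem_fix.2
      (Y_le (K := stb ρ v) fun r hr => h2 r (by revert r; decide)))) ?_).symm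
    rw [e, finrank_span_singleton v0]; exact h.le
  have h5 : ∀ t, 𝐱 4 t ∈ stb ρ v := fun t => by
    obtain ⟨ε, -, ha⟩ := mN ρ ψ [0] sa (by decide +kernel)
    simpa [stb] using mem_Vw.1 (Vw_le_of_mu (R' := [4, 6, 10, 11]) (a' := 0) (by simp) (h.trans_le (h1.ge.trans
      (ha _ _ _ _ (by simp [wv, sa])))) (fix_Y.1 (h4.ge (Submodule.mem_span_singleton_self v)))) 4 (by simp) t
  have h6 : ∀ c, nG 7 c ∈ stb ρ v := fun c => mul_mem (mul_mem (h2 7 (by simp) _) (h5 _)) (h2 7 (by simp) _)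
  have := Fintype.ofFinite (Y F [6])
  have h7 : ∀ w ∈ fix ρ (Y F [10, 11]), eS ρ (Y F [6]) w ∈ ℂ ∙ v := fun w hw => h4.le (mem_fix.2
    (Y_le (K := stb ρ _) fun r hr t => by
      rcases List.mem_cons.1 hr with rfl | hr
      · exact eS_fixed (Or.inl (x_mem (by simp) t))
      change ρ _ _ = _
      rw [eS, LinearMap.sum_apply, map_sum]
      exact Finset.sum_congr rfl fun g _ => mem_fix.1 (apply_mem_fix (Y_le (fun r hr t => by
        rw [List.mem_singleton.1 hr]; exact x_norm (by decide +kernel) t) g.2) hw) _ (x_mem hr t)))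
  have h8 : ∀ c ≠ 0, ∀ r ∈ [5, 10, 11], ∀ t, 𝐱 r t ∈ stb ρ (ρ (nG 6 c) v) := fun c hc r hr t => by
    obtain ⟨u, e⟩ := nG_conj hc (r := r) (by revert r; decide) t
    change ρ _ _ = _
    rw [← Module.End.mul_apply, ← map_mul, e, map_mul, Module.End.mul_apply, h2 _ (by clear e; revert r; decide)]
  have h9 : ∀ {R} (g : chevG2.group F), g.1 ∈ chevG2.diagonalSubgroup F → g ∈ normalizer (Y F R : Set (chevG2.group F)) :=
    fun g hg => le_normalizer_of_conj (E := chevG2.HG F) (fun _ hg a ha => H_conj hg ha) hg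
  have hv6 : v ∈ fix ρ (Y F [6]) := mem_fix.2 (Y_le (K := stb ρ v) fun r hr => h2 r (by revert r; decide))
  have k1 : eS ρ (Y F [6]) (ρ (nG 6 1) v) ≠ 0 := fun e => by
    obtain ⟨κ, hκ⟩ := Submodule.mem_span_singleton.1 (h4.le (mem_fix.2 (Y_le (K := stb ρ (ρ (nG 6 1)⁻¹
      (∑ t, ρ (𝐱 5 t) v))) fun r hr t => by
        have hr' : sb r = 5 ∨ sb r ∈ [10, 11] := by revert r; decide
        obtain ⟨u, e⟩ := nG_conj (c := -1) (by simp) (r := r) (by clear hr'; revert r; decide) t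
        change ρ _ _ = _
        rw [nG_inv, ← Module.End.mul_apply, ← map_mul, e, map_mul, Module.End.mul_apply, map_sum]
        congr 1
        rcases hr' with hr | hr
        · exact Fintype.sum_equiv (Equiv.addLeft u) _ _ fun t => by simp [hr, rel.add 5 u t]
        exact Finset.sum_congr rfl fun t _ => mem_fix.1 (apply_mem_fix (x_norm (R := [10, 11]) (by decide +kernel) t)
          (mem_fix.2 (Y_le (K := stb ρ v) fun r hr => h2 r (by revert r; decide)))) _ (x_mem hr u))))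
    have e' := congrArg (fun w => eS ρ (Y F [6]) (ρ (nG 6 1) w)) hκ
    simp only [map_smul, e, smul_zero, ← Module.End.mul_apply, ← map_mul ρ, mul_inv_cancel, map_one, mul_one] at e'
    rw [map_sum, Finset.sum_eq_single 0 (fun t _ ht => ?_) (by simp), (rel.add 5).zero, map_one, Module.End.one_apply,
      eS_fix hv6] at e'
    · exact smul_ne_zero (Nat.cast_ne_zero.2 Fintype.card_ne_zero) v0 e'.symm
    rw [x5_eq, map_mul, map_mul, Module.End.mul_apply, Module.End.mul_apply, eS_mul (x_mem (by simp) _), h2 6 (by simp),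
      show nG 6 (-t⁻¹) = nG 6 (-t⁻¹) * (nG 6 1)⁻¹ * nG 6 1 by group, map_mul, Module.End.mul_apply, eS_comm (h9 _ ?_),
      e, map_zero]
    rw [nG_inv]
    exact chevG2.nE_mul_nE_mem_diagonal F ⟨6, by decide⟩ (c := -t⁻¹) (d := -1) (by simp [ht]) (by simp)
  have k2 : ∀ g g' : chevG2.group F, g'.1 ∈ chevG2.diagonalSubgroup F → nG 6 1 * g = g' * nG 6 1 → ∀ η : ℂ,
      ρ g v = η • v → ρ g' v = η • v := fun g g' hg e η hη => by
    obtain ⟨f, hf⟩ := Submodule.mem_span_singleton.1 (h7 (ρ (nG 6 1) v) (mem_fix.2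
      (Y_le (K := stb ρ _) fun r hr => h8 1 one_ne_zero r (List.mem_cons_of_mem _ hr))))
    refine smul_right_injective W (show f ≠ 0 from fun e => k1 (by rw [← hf, e, zero_smul])) ?_
    simp only [← map_smul, smul_comm f η, hf, ← eS_comm (h9 g' hg)]
    rw [← Module.End.mul_apply (ρ g'), ← map_mul, ← e, map_mul, Module.End.mul_apply, hη]
  let hG : ℕ → Fˣ → chevG2.group F := fun r c => nG r (c : F) * nG r (-1)
  have k3 : ∀ (r : chevG2.Rt) c, (hG r c).1 = chevG2.charG F fun s => c ^ chevG2.pairing r s := chevG2.hE_eq_charG F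
  have k4 : ∀ (r : chevG2.Rt) c, (hG r c).1 ∈ chevG2.diagonalSubgroup F := fun r c => chevG2.hE_mem_diagonal F r c.ne_zero
  have k5 : ∀ c, hG 7 c ∈ stb ρ v := fun c => mul_mem (h6 _) (h6 _)
  have k6 : ∀ c, hG 6 c ∈ stb ρ v := fun c => by
    have e1 := k2 (hG 7 c) (hG 7 c * (hG 6 c * hG 6 c * hG 6 c)) (mul_mem (k4 ⟨7, by decide⟩ c) (mul_mem (mul_mem
      (k4 ⟨6, by decide⟩ c) (k4 ⟨6, by decide⟩ c)) (k4 ⟨6, by decide⟩ c))) (Subtype.ext (by
        simp only [coe_mul, k3 ⟨6, by decide⟩, k3 ⟨7, by decide⟩, ← charG_mul, ← mul_inv_eq_iff_eq_mul]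
        refine chevG2.nE_conj_charG F (chevG2.sr ⟨1, by decide⟩) one_ne_zero _ _ fun s => ?_
        simp only [Pi.mul_apply, ← zpow_add, refl_sr, sref_val]
        congr 1
        revert s; decide +kernel)) 1 ((k5 c).trans (one_smul _ _).symm)
    obtain ⟨η, hη⟩ := Submodule.mem_span_singleton.1 (h4.le (apply_mem_fix (h9 _ (k4 ⟨6, by decide⟩ c))
      (h4.ge (Submodule.mem_span_singleton_self v))))
    have e2 := k2 (hG 6 c) (hG 6 c)⁻¹ (inv_mem (k4 ⟨6, by decide⟩ c)) (Subtype.ext (by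
      change chevG2.nE F (chevG2.sr ⟨1, by decide⟩) 1 * (hG 6 c).1 = (hG 6 c).1⁻¹ * chevG2.nE F (chevG2.sr ⟨1, by decide⟩) 1
      rw [← mul_inv_eq_iff_eq_mul, k3 ⟨6, by decide⟩, chevG2.nE_conj_charG F _ one_ne_zero _
        (fun s => c ^ (-chevG2.pairing 6 s)) fun s => ?_, eq_inv_iff_mul_eq_one, ← charG_mul, ← charG_one]
      · congr 1; ext s; simp
      · simp only [refl_sr, sref_val]
        congr 1
        revert s; decide +kernel)) η hη.symm
    have e3 : hG 6 c * hG 6 c ∈ stb ρ v := show _ = _ by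
      rw [map_mul, Module.End.mul_apply, ← hη, ← e2, ← Module.End.mul_apply, ← map_mul, mul_inv_cancel, map_one]; rfl
    exact (mul_mem_cancel_left e3).1 ((mul_mem_cancel_left (k5 c)).1 (e1.trans (one_smul _ _)))
  have := Fintype.ofFinite (chevG2.group F)
  refine BNPair.dvd_of_fix hρ (fun s => by rw [cq_simple, Nat.card_eq_fintype_card]) Fintype.card_ne_zero v0
    (le_antisymm (fun w hw => h4.le (mem_fix.2 fun g hg => mem_fix.1 hw g (chevG2.UG_le_B F (Y_le (fun r hr t =>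
      X_mem_U (r := ⟨r, by revert r; decide⟩) (by revert r; decide +kernel) t) hg))))
      ((Submodule.span_singleton_le_iff_mem _ _).2 (mem_fix.2 fun g hg => ?_))) (s := chevG2.nodeEquiv F ⟨0, by decide⟩)
    (h6 1) fun s s' e e' => ?_
  · obtain ⟨a, ha, k, hk, rfl⟩ := chevG2.exists_UG_mul_HG F hg
    refine mul_mem (s := stb ρ v) (Y_le h2 (XS_mono' (fun r => ?_) ((chevG2.posUnipotent_eq_XS F).le ha))) ?_
    · exact (by decide +kernel : ∀ r : chevG2.Rt, chevG2.IsPosRoot r → r.1 ∈ [6, 7, 8, 9, 10, 11]) r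
    obtain ⟨c, hc⟩ := (chevG2.range_torusHom F).ge hk
    rw [show k = hG 7 (c ⟨0, by decide⟩) * hG 6 (c ⟨1, by decide⟩) from Subtype.ext ?_]
    · exact mul_mem (k5 _) (k6 _)
    refine hc.symm.trans ?_
    rw [coe_mul, k3 ⟨6, by decide⟩, k3 ⟨7, by decide⟩, ← charG_mul, torusHom_apply, charG_eq_iff]
    intro r
    rw [show ∏ i, c i ^ chevG2.cartan i r = _ from Fin.prod_univ_two _, Pi.mul_apply]
    congr 2 <;> revert r <;> decide +kernel
  · obtain ⟨i, rfl⟩ := (chevG2.nodeEquiv F).surjective s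
    obtain ⟨j, rfl⟩ := (chevG2.nodeEquiv F).surjective s'
    simp only [ne_eq, EmbeddingLike.apply_eq_iff_eq] at e e' ⊢
    revert i j; decide

include h3 in
theorem ne_three_bound [IsSimpleGroup (chevG2.group F)] (hρ : ρ.IsIrreducible) (hW : 2 ≤ finrank ℂ W) (hq : 4 < 𝐪) :
    𝐪 ^ 3 ≤ finrank ℂ W + 1 ∧ (𝐪 % 3 = 1 → 𝐪 ^ 3 + 1 ≤ finrank ℂ W) := by
  classical
  obtain ⟨u, u0, hu⟩ := tw_exists_sq_ne_one (K := F) hq.le
  obtain ⟨v, v0, hv⟩ := tw_exists_pow_ne_one (K := F) (e := 3) (by omega) hq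
  have h0 := N_ne_zero hψ hρ hW
  have h1 := (dim_eq (ρ := ρ) hψ).1
  rw [N_eq' hψ 0 1, Finset.sum_congr rfl fun d _ => k_eq h3 (by simp), Finset.sum_const, Finset.card_univ,
    smul_eq_mul] at h0 h1
  obtain ⟨q, hq'⟩ : ∃ q, 𝐪 = q + 5 := ⟨𝐪 - 5, by omega⟩
  have e2 : 𝐪 ^ 2 - 1 = q ^ 2 + 10 * q + 24 := by rw [hq']; ring_nf; omega
  by_cases h2 : μ [9, 10, 11] (wv 0 0 0 0 0 1) = 1
  swap
  · obtain ⟨j, hj⟩ : ∃ j, μ [9, 10, 11] (wv 0 0 0 0 0 1) = j + 2 := ⟨μ [9, 10, 11] (wv 0 0 0 0 0 1) - 2, by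
      have := right_ne_zero_of_mul h0
      omega⟩
    rw [hj, e2, hq'] at h1
    rw [hq']
    have : (q + 5) ^ 3 + 1 ≤ (q ^ 2 + 10 * q + 24) * ((q + 5) * (j + 2)) := by ring_nf; omega
    omega
  have h4 : ∀ d : F, ∀ y ≠ 0, μ [9, 10, 11] (wv 0 0 0 d y 0) = 1 := fun d y hy => (k_eq h3 (by simp [hy])).trans h2
  have h5 := fun y hy => pure hψ u0 hu v0 hv (h4 0 y hy)
  obtain ⟨ε, ε0, ha⟩ := mN ρ ψ [0] sa (by decide +kernel)
  have h6 := add_le_sum (f := fun b => μ [6, 10, 11] (wv b 0 0 0 0 0)) fun b hb =>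
    (h5 (b / ε 6) (by simp [*])).ge.trans (ha _ _ _ _ (by simp [wv, sa, mul_div_cancel₀, ε0]))
  rw [← sp hψ 6 Nat.cast_zero (fun b => wv b 0 0 0 0 0) (R := [10, 11]) (a := wv 0 0 0 0 0 0) (by decide +kernel)
    (by simp [val, tb, wv]) (by simp [wv]), le_antisymm (mu_mono (R' := [6, 10, 11]) (a' := 0) (by simp [wv]))
      (mu_mono (by simp [wv]))] at h6
  rw [h2, e2, hq'] at h1
  have h7 : 𝐪 ^ 3 + μ [6, 10, 11] 0 ≤ finrank ℂ W + 1 := by rw [hq'] at h6 ⊢; simp at h6; nlinarith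
  refine ⟨by omega, fun h8 => by_contra fun h9 => ?_⟩
  rcases h : μ [6, 10, 11] 0 with _ | _ | j
  · obtain ⟨η, η0, hc⟩ := mN ρ ψ [1, 0, 1] (fun r => sb (sa (sb r))) (by decide +kernel)
    have inj : Function.Injective fun k : F => k ^ 3 := Finite.injective_iff_surjective.2 fun b => by
      obtain ⟨k, hk⟩ := cube_of_generic hψ h3 h4 h5 (b := b) one_ne_zero fun e => exists_generic h (b / η 6)
        (y := 1 / η 10) (fun e => one_ne_zero ((h5 (1 / η 10) (by simp [η0])).ge.trans (mu_mono (by simp)) |>.trans_eq e |>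
          Nat.le_zero.1)) (Nat.le_zero.1 ((hc _ _ _ _ (by simp [wv, sa, sb, mul_div_cancel₀, η0])).trans_eq e))
      exact ⟨k, by simp [hk]⟩
    have := Fact.mk Nat.prime_three
    obtain ⟨ω, hω⟩ := exists_prime_orderOf_dvd_card (G := Fˣ) 3 (by rw [Fintype.card_units]; omega)
    rw [show ω = 1 from Units.ext (inj (a₁ := ω) (a₂ := 1) (by simp [← Units.val_pow_eq_pow_val, ← hω]))] at hω
    simp at hω
  · obtain ⟨p, hp⟩ := CharP.exists F
    have := Fact.mk (CharP.char_is_prime F p)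
    have e := dvd_of_one hψ hρ u0 hu h
    rw [show finrank ℂ W = 𝐪 ^ 3 by omega, pow_succ', Nat.mul_dvd_mul_iff_left Fintype.card_pos] at e
    obtain ⟨n, -, hn⟩ := FiniteField.card F p
    exact chevG2.not_dvd_index_UG F p (((hn ▸ dvd_pow_self p n.ne_zero).trans ((dvd_pow_self _ two_ne_zero).trans e)).trans
      (index_dvd_of_le (chevG2.UG_le_B F)))
  · omega

end Cfsg.Agent.Chev.MdG
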