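import Mathlib
import Cfsg.Agent.Chev.ReeCount2
import Cfsg.Agent.GT.Fitting

/-!
# Abstract small Ree groups: solvable subgroups
-/

set_option autoImplicit false

namespace Cfsg.Agent.Chev

open Subgroup

namespace ReeGroup

variable {K : Type*} [Field K] {Γ : Type*} [Group Γ] (R : ReeGroup K Γ) [Fintype K]

/-- `S` normalises a Sylow 2- or 3-subgroup or the odd part of a maximal torus. -/
def Loc (S : Subgroup Γ) : Prop :=
  ∃ A : Subgroup Γ, S ≤ normalizer (A : Set Γ) ∧ ((∃ P : Sylow 2 Γ, A = P) ∨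
    (∃ P : Sylow 3 Γ, A = P) ∨ ∃ (y : Γ) (hy : Big (orderOf y)), A = R.oddPart hy)

theorem Loc.mono {S T : Subgroup Γ} (h : R.Loc T) (hS : S ≤ T) : R.Loc S :=
  let ⟨A, h1, h2⟩ := h
  ⟨A, hS.trans h1, h2⟩

theorem normalizer_oddPart {y : Γ} (hy : Big (orderOf y)) :
    normalizer (R.oddPart hy : Set Γ) = normalizer (centralizer {y} : Set Γ) := by
  obtain ⟨k, h1, h2⟩ := R.exists_pow_prime hy
  refine R.normalizer_eq_of_le_oddPart hy le_rfl fun e => ?_
  have h3 : y ^ k ∈ R.oddPart hy :=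
    ⟨pow_mem (self_mem_centralizer y) k, h1.odd_of_ne_two (by omega)⟩
  rw [e, mem_bot] at h3
  rw [h3, orderOf_one] at h2
  omega

theorem loc_of_three {M : Subgroup Γ} (hM : IsPGroup 3 M) (h : M ≠ ⊥) :
    R.Loc (normalizer (M : Set Γ)) := by
  have : Fact (Nat.Prime 3) := ⟨Nat.prime_three⟩
  obtain ⟨P, hP⟩ := hM.exists_le_sylow
  refine ⟨P, fun k hk => ?_, Or.inr (Or.inl ⟨P, rfl⟩)⟩
  refine Sylow.smul_eq_iff_mem_normalizer.1 ?_
  by_contra e
  refine h (le_bot_iff.1 (R.sylow_three_inf _ _ e ▸ le_inf (fun z hz => ?_) hP))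
  rw [Sylow.coe_subgroup_smul, mem_pointwise_smul_iff_inv_smul_mem]
  exact hP ((mem_normalizer_iff''.1 hk z).1 hz)

theorem loc_of_big {p : ℕ} (hp : p.Prime) (h3 : 3 < p) {M : Subgroup Γ} (hM : IsPGroup p M)
    (h : M ≠ ⊥) : R.Loc (normalizer (M : Set Γ)) := by
  obtain ⟨w, -, h1, h2⟩ := R.exists_le_centralizer hp hM h
  have hw : Big (orderOf w) := h1 ▸ big_of_prime hp h3
  refine ⟨_, ?_, Or.inr (Or.inr ⟨w, hw, rfl⟩)⟩
  rw [normalizer_oddPart, R.normalizer_eq_of_le_oddPart hw (fun z hz => ⟨h2 hz, ?_⟩) h]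
  obtain ⟨k, hk⟩ := hM ⟨z, hz⟩
  exact ((hp.odd_of_ne_two (by omega)).pow (n := k)).of_dvd_nat
    (orderOf_dvd_iff_pow_eq_one.2 (congrArg Subtype.val hk))

include R in
theorem exists_big_of_four (hq : 3 < Fintype.card K) {t s : Γ} (ht : t * t = 1) (ht1 : t ≠ 1)
    (hs : s * s = 1) (hs1 : s ≠ 1) (hst : s ≠ t) (h : s * t = t * s) :
    ∃ y, Big (orderOf y) ∧ t ∈ centralizer {y} ∧ s ∈ centralizer {y} ∧
      ∀ z, z * t = t * z → z * s = s * z → z * z ≠ 1 → z ∈ centralizer {y} := by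
  obtain ⟨g, rfl⟩ := isConj_iff.1 (R.isConj_a ht ht1)
  obtain ⟨s, rfl⟩ := (MulAut.conj g).surjective s
  simp only [MulAut.conj_apply, conj_mul, mul_left_inj, mul_right_inj, ne_eq, conj_eq_one_iff]
    at hs hs1 hst h
  obtain ⟨k, hk, e⟩ := R.exists_conj_centralizer (R.mem_centralizer_a.2 h) hs hs1 hst
  have hk' : k⁻¹ * R.a * k = R.a := by
    rw [mul_assoc, ← R.mem_centralizer_a.1 hk, inv_mul_cancel_left]
  obtain ⟨y, hy, hb⟩ := R.exists_big_Cp hq
  have key : ∀ z, MulAut.conj (g * k⁻¹) z ∈ centralizer {MulAut.conj (g * k⁻¹) y} ↔ z ∈ R.Cp :=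
    fun z => by
      rw [← R.centralizer_eq_Cp hb hy, mem_centralizer_singleton_iff, mem_centralizer_singleton_iff,
        ← map_mul, ← map_mul, (MulAut.conj (g * k⁻¹)).injective.eq_iff]
  have e1 : g * R.a * g⁻¹ = MulAut.conj (g * k⁻¹) R.a := by
    conv_lhs => rw [← hk']
    simp [mul_assoc]
  have e2 : MulAut.conj g s = MulAut.conj (g * k⁻¹) (k * s * k⁻¹) := by simp [mul_assoc]
  refine ⟨MulAut.conj (g * k⁻¹) y, by rwa [MulEquiv.orderOf_eq], ?_, ?_, fun z h1 h2 h3 => ?_⟩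
  · rw [e1, key]
    exact R.a_mem_Cp
  · rw [e2, key]
    rcases e with e | e <;> rw [e]
    · exact R.n_mem_Cp
    · exact mul_mem R.a_mem_Cp R.n_mem_Cp
  · obtain ⟨z, rfl⟩ := (MulAut.conj (g * k⁻¹)).surjective z
    rw [e1, ← map_mul, ← map_mul, (MulAut.conj (g * k⁻¹)).injective.eq_iff] at h1
    rw [e2, ← map_mul, ← map_mul, (MulAut.conj (g * k⁻¹)).injective.eq_iff] at h2
    rw [← map_mul, Ne, map_eq_one_iff _ (MulAut.conj (g * k⁻¹)).injective] at h3
    rw [key]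
    refine R.mem_Cp_of_mul_self_ne_one h1 ?_ h3
    rcases e with e | e <;> rw [e] at h2
    · exact h2
    · rwa [← mul_assoc, h1, mul_assoc, mul_assoc, mul_right_inj] at h2

theorem loc_of_four (hq : 3 < Fintype.card K) {M : Subgroup Γ} (h : Nat.card M = 4) :
    R.Loc (normalizer (M : Set Γ)) := by
  have := R.finite
  have hM : IsPGroup 2 M := IsPGroup.of_card (n := 2) h
  have hsq := fun {z : Γ} (hz : z ∈ M) => R.mul_self_eq_one_of_isPGroup hM hz
  have h4 : (M : Set Γ).ncard = 4 := h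
  obtain ⟨t, ht, ht1⟩ := Set.exists_mem_notMem_of_ncard_lt_ncard (s := {1}) (t := (M : Set Γ))
    (by rw [h4, Set.ncard_singleton]; decide)
  obtain ⟨s, hs, hs1⟩ := Set.exists_mem_notMem_of_ncard_lt_ncard (s := {1, t}) (t := (M : Set Γ))
    (by rw [h4, Set.ncard_pair (Ne.symm ht1)]; decide)
  obtain ⟨y, hy, h1, h2, h3⟩ := R.exists_big_of_four hq (hsq ht) ht1 (hsq hs)
    (fun e => hs1 (Or.inl e)) (fun e => hs1 (Or.inr e)) (R.comm_of_isPGroup_two hM hs ht)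
  have hle : M ≤ centralizer {y} := by
    have h5 : Nat.card ↥(M ⊓ centralizer {y}) ∣ 2 ^ 2 := (card_dvd_of_le inf_le_left).trans h.dvd
    have h6 : 3 ≤ Nat.card ↥(M ⊓ centralizer {y}) := by
      rw [← Set.ncard_eq_three.2 ⟨s, 1, t, fun e => hs1 (Or.inl e), fun e => hs1 (Or.inr e),
        Ne.symm ht1, rfl⟩]
      refine Set.ncard_le_ncard (t := ((M ⊓ centralizer {y} : Subgroup Γ) : Set Γ)) ?_
      rintro _ (rfl | rfl | rfl)
      exacts [⟨hs, h2⟩, one_mem _, ⟨ht, h1⟩]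
    obtain ⟨i, hi, e⟩ := (Nat.dvd_prime_pow Nat.prime_two).1 h5
    refine inf_eq_left.1 (eq_of_le_of_card_ge inf_le_left ?_)
    interval_cases i <;> omega
  refine ⟨_, fun k hk => ?_, Or.inr (Or.inr ⟨y, hy, rfl⟩)⟩
  have key : ∀ z ∈ M, k * y * k⁻¹ * z = z * (k * y * k⁻¹) := fun z hz => by
    have := mem_centralizer_singleton_iff.1 (hle ((mem_normalizer_iff''.1 hk z).1 hz))
    rw [show k * y * k⁻¹ * z = k * (y * (k⁻¹ * z * k)) * k⁻¹ by group, ← this]
    group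
  rw [normalizer_oddPart]
  exact R.mem_normalizer_of_conj_mem hy hy (self_mem_centralizer y) (h3 _ (key t ht) (key s hs)
    (by rw [conj_mul, Ne, conj_eq_one_iff]; exact hy.mul_self_ne_one))

theorem loc_of_isSolvable (hq : 3 < Fintype.card K) (S : Subgroup Γ) [Group.IsSolvable S] :
    R.Loc S := by
  have := R.finite
  have : Fact (Nat.Prime 2) := ⟨Nat.prime_two⟩
  by_cases h : ∃ p : Nat.Primes, (p : ℕ) ≠ 2 ∧ pCoreOf p S ≠ ⊥
  · obtain ⟨⟨p, hp⟩, h2, h⟩ := h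
    refine Loc.mono R ?_ (GT.le_normalizer_pCoreOf (p := p) S)
    by_cases h3 : p = 3
    · subst h3
      exact R.loc_of_three (GT.isPGroup_pCoreOf 3 S) h
    · exact R.loc_of_big hp (by have := hp.two_le; have : p ≠ 2 := h2; omega) (GT.isPGroup_pCoreOf p S) h
  push Not at h
  have hF : fittingOf S = pCoreOf 2 S := by
    refine le_antisymm ?_ (GT.pCoreOf_le_fittingOf Nat.prime_two S)
    rw [GT.fittingOf_eq_iSup_pCoreOf]
    refine iSup_le fun p => ?_
    by_cases h2 : (p : ℕ) = 2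
    · rw [h2]
    · rw [h p h2]
      exact bot_le
  have hM := GT.isPGroup_pCoreOf 2 S
  have hN := GT.le_normalizer_pCoreOf (p := 2) S
  obtain ⟨P, hP⟩ := hM.exists_le_sylow
  have h8 := R.card_sylow_two P
  obtain ⟨i, hi, e⟩ := (Nat.dvd_prime_pow Nat.prime_two).1
    (show Nat.card (pCoreOf 2 S) ∣ 2 ^ 3 from (card_dvd_of_le hP).trans h8.dvd)
  by_cases h2 : i ≤ 1
  · refine ⟨P, (le_trans ?_ hP).trans le_normalizer, Or.inl ⟨P, rfl⟩⟩
    rw [← hF]
    refine fun g hg => GT.inf_centralizer_fittingOf_le S ⟨hg, fun z hz => ?_⟩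
    rw [hF] at hz
    by_contra hne
    have h3 : ({1, z, g * z * g⁻¹} : Set Γ).ncard ≤ Nat.card (pCoreOf 2 S) := by
      refine Set.ncard_le_ncard (t := ((pCoreOf 2 S : Subgroup Γ) : Set Γ)) ?_
      rintro _ (rfl | rfl | rfl)
      exacts [one_mem _, hz, (mem_normalizer_iff.1 (hN hg) z).1 hz]
    rw [Set.ncard_eq_three.2 ⟨_, _, _, by rintro rfl; simp at hne,
      fun e => hne (by rw [conj_eq_one_iff.1 e.symm]; simp),
      fun e => hne (eq_mul_inv_iff_mul_eq.1 e), rfl⟩] at h3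
    interval_cases i <;> omega
  · push Not at h2
    interval_cases i
    · exact (R.loc_of_four hq e).mono R hN
    · exact ⟨P, eq_of_le_of_card_ge hP (h8.trans e.symm).le ▸ hN, Or.inl ⟨P, rfl⟩⟩

end ReeGroup

end Cfsg.Agent.Chev
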