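import Mathlib
import Cfsg.Agent.Chev.SzLocal

/-!
# A non-trivial word is not a law in large Suzuki groups
-/

set_option autoImplicit false
set_option linter.unusedSectionVars false

namespace Cfsg.Agent.Chev.Sz

open Matrix Polynomial

theorem top_coeff_eq_zero {F n ι : Type*} [Field F] [Finite F] [Fintype n] [DecidableEq n]
    (L : List ι) (M : ι → Matrix n n F[X]) {d e : ℕ} (hd : ∀ y, (matPolyEquiv (M y)).natDegree ≤ d)
    (he : e < d) (hL : L ≠ []) (hcard : L.length * d < Nat.card F - 1)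
    (hev : ∀ s : F, s ≠ 0 → (L.map fun y => (M y).map (eval s)).prod = s ^ (L.length * e) • 1) :
    (L.map fun y => (matPolyEquiv (M y)).coeff d).prod = 0 := by
  classical
  have := Fintype.ofFinite F
  have h1 := coeff_list_prod_of_natDegree_le (L.map fun y => matPolyEquiv (M y)) d (by simp [hd])
  have h2 := natDegree_list_prod_le (L.map fun y => matPolyEquiv (M y))
  have h3 := List.sum_le_card_nsmul ((L.map fun y => matPolyEquiv (M y)).map natDegree) d
    (by simp [hd])
  have h4 : (L.map fun y => matPolyEquiv (M y)).prod = matPolyEquiv (L.map M).prod := by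
    rw [map_list_prod, List.map_map]; rfl
  rw [List.map_map, List.length_map] at h1 h3
  rw [h4] at h1 h2
  refine h1.symm.trans ?_
  ext i j
  have hlen : 0 < L.length := List.length_pos_iff.2 hL
  have hlt : L.length * e < L.length * d := Nat.mul_lt_mul_of_pos_left he hlen
  have h5 : (L.map M).prod i j - C ((1 : Matrix n n F) i j) * X ^ (L.length * e) = 0 := by
    apply eq_zero_of_natDegree_lt_card_of_eval_eq_zero' _ (Finset.univ.erase 0)
    · intro s hs
      have h6 := map_list_prod (evalRingHom s).mapMatrix (L.map M)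
      rw [List.map_map] at h6
      have h7 := congrFun (congrFun (h6.trans (hev s (Finset.ne_of_mem_erase hs))) i) j
      rw [eval_sub, sub_eq_zero]
      rw [eval_mul, eval_C, eval_pow, eval_X, mul_comm]
      exact h7
    · rw [Finset.card_erase_of_mem (Finset.mem_univ _), Finset.card_univ,
        ← Nat.card_eq_fintype_card]
      refine lt_of_le_of_lt ((natDegree_sub_le _ _).trans (max_le ?_ ?_)) hcard
      · rw [natDegree_le_iff_coeff_eq_zero]
        intro N hN
        rw [← matPolyEquiv_coeff_apply, coeff_eq_zero_of_natDegree_lt, Matrix.zero_apply]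
        simp only [List.map_map, smul_eq_mul] at h2 h3
        omega
      · exact (natDegree_C_mul_X_pow_le _ _).trans hlt.le
  rw [matPolyEquiv_coeff_apply, sub_eq_zero.1 h5, coeff_C_mul, coeff_X_pow, if_neg hlt.ne',
    mul_zero, Matrix.zero_apply]

variable {F : Type*} [Field F] {m : ℕ} [SzF F m]

/-- The diagonal polynomial matrix. -/
noncomputable def lawD (F : Type*) [Field F] (r : ℕ) : Matrix (Fin 4) (Fin 4) F[X] :=
  diagonal ![X ^ (2 + 2 * r), X ^ (2 + r), X ^ r, 1]

theorem coeff_lawD {r : ℕ} (hr : 0 < r) {N : ℕ} (hN : 2 + 2 * r ≤ N) :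
    (matPolyEquiv (lawD F r)).coeff N =
      if N = 2 + 2 * r then vecMulVec ![1, 0, 0, 0] ![1, 0, 0, 0] else 0 := by
  ext i j
  rw [matPolyEquiv_coeff_apply]
  have h1 : N ≠ 2 + r := by omega
  have h2 : N ≠ r := by omega
  have h3 : N ≠ 0 := by omega
  split_ifs with h
  · fin_cases i <;> fin_cases j <;> simp [lawD, coeff_X_pow, coeff_one, h1, h2, h3, ← h]
  · fin_cases i <;> fin_cases j <;> simp [lawD, coeff_X_pow, coeff_one, h1, h2, h3, h]

theorem eval_lawD {s : F} (hs : s ≠ 0) : (lawD F (2 ^ (m + 1))).map (eval s) =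
    s ^ (1 + 2 ^ (m + 1)) • hMat (Units.mk0 (th F s) (by simpa using hs)) := by
  have h1 : th F s ≠ 0 := by simpa using hs
  ext i j
  fin_cases i <;> fin_cases j <;>
    simp [lawD, hMat, pow_add s, mul_comm 2 (2 ^ (m + 1)), pow_mul, ← th_apply] <;>
    field_simp

theorem mat_zero_zero_ne {g : Cfsg.Sz F m} (h : g • (inf : Ov F m) ≠ pt 0 0) : mat g 0 0 ≠ 0 := by
  have key : ∀ {c : F} {v : Fin 4 → F}, mat g *ᵥ ![1, 0, 0, 0] = c • v → v 0 ≠ 0 →
      mat g 0 0 ≠ 0 := by
    intro c v hc hv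
    have h1 : c ≠ 0 := by
      rintro rfl
      rw [zero_smul] at hc
      simpa using congrFun (Matrix.eq_zero_of_mulVec_eq_zero (by rw [det_mat]; simp) hc) 0
    have h2 := congrFun hc 0
    simp only [mulVec, dotProduct, Fin.sum_univ_four] at h2
    simp at h2
    rw [h2]
    exact mul_ne_zero h1 hv
  rcases ov_cases (g • (inf : Ov F m)) with h1 | ⟨x, y, h1⟩
  · obtain ⟨c, hc⟩ := (smul_inf_eq_inf_iff g).1 h1
    exact key hc (by simp)
  · obtain ⟨c, hc⟩ := (smul_inf_eq_pt_iff g x y).1 h1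
    refine key hc fun h2 => h ?_
    obtain ⟨rfl, rfl⟩ := nrm_eq_zero.1 (show nrm x y = 0 from h2)
    exact h1

theorem prod_top_ne_zero (c : ℕ × Bool → Cfsg.Sz F m) (S : Set (ℕ × Bool))
    (hc : ∀ y ∈ S, ∀ z ∈ S, c y • (pt 0 0 : Ov F m) = c z • inf → z = (y.1, !y.2))
    (y : ℕ × Bool) (L : List (ℕ × Bool)) (hS : ∀ z ∈ y :: L, z ∈ S)
    (hL : FreeGroup.IsReduced (y :: L)) : ∃ φ : Fin 4 → F, φ ≠ 0 ∧
      ((y :: L).map fun z => vecMulVec (fun i => mat (c z) i 0) fun j => mat (c z)⁻¹ 0 j).prod =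
        vecMulVec (fun i => mat (c y) i 0) φ := by
  induction L generalizing y with
  | nil =>
    refine ⟨_, fun h => ?_, by simp; rfl⟩
    have h1 : (mat (c y)⁻¹ * mat (c y)) 0 0 = 1 := by rw [← mat_mul, inv_mul_cancel, mat_one]; rfl
    rw [mul_apply] at h1
    simp [show ∀ j, mat (c y)⁻¹ 0 j = 0 from congrFun h] at h1
  | cons z L ih =>
    rw [FreeGroup.isReduced_cons_cons] at hL
    obtain ⟨φ, h1, h2⟩ := ih z (fun x hx => hS x (List.mem_cons_of_mem _ hx)) hL.2
    rw [List.map_cons, List.prod_cons, h2, vecMulVec_mul_vecMulVec]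
    refine ⟨_, smul_ne_zero ?_ h1, rfl⟩
    refine mat_zero_zero_ne (g := (c y)⁻¹ * c z) fun h => ?_
    rw [mul_smul, inv_smul_eq_iff] at h
    have h3 := hc y (hS _ (by simp)) z (hS _ (by simp)) h.symm
    have h4 := hL.1 (by rw [h3])
    rw [h3] at h4
    simp at h4

theorem exists_lift_ne_one {w : FreeGroup ℕ} (hw : w ≠ 1) : ∃ N : ℕ, ∀ (F : Type*) [Field F]
    (m : ℕ) [SzF F m], N ≤ m → ∃ f : ℕ → Cfsg.Sz F m, FreeGroup.lift f w ≠ 1 := by
  classical
  set L := w.toWord with hLdef
  have hL0 : L ≠ [] := fun e => hw (FreeGroup.toWord_eq_nil_iff.1 e)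
  obtain ⟨k, hk⟩ : ∃ k, ∀ y ∈ L, y.1 < k := by
    refine ⟨(L.map Prod.fst).sum + 1, fun y hy => Nat.lt_succ_of_le ?_⟩
    exact List.single_le_sum (fun _ _ => Nat.zero_le _) _ (List.mem_map_of_mem hy)
  refine ⟨2 * L.length + 2 + k, fun F _ m _ hm => ?_⟩
  by_contra hlaw
  push Not at hlaw
  have hx : m < 2 ^ m := Nat.lt_two_pow_self
  have hq : Nat.card F = 2 * (2 ^ m) ^ 2 := by rw [card_F F]; ring
  obtain ⟨a⟩ : Nonempty (Fin k ↪ F) := by
    have := Fintype.ofFinite F
    refine Function.Embedding.nonempty_of_card_le ?_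
    rw [Fintype.card_fin, ← Nat.card_eq_fintype_card, hq]
    nlinarith
  let a' : ℕ → F := fun i => if h : i < k then a ⟨i, h⟩ else 0
  have ha : ∀ {i j}, i < k → j < k → a' i = a' j → i = j := by
    intro i j hi hj h
    simp only [a', dif_pos hi, dif_pos hj] at h
    exact congrArg Fin.val (a.injective h)
  let c : ℕ × Bool → Cfsg.Sz F m := fun y => ue (a' y.1) 0 * we * ue 1 0 * cond y.2 1 we
  have h1 : (we : Cfsg.Sz F m) • (pt 1 0 : Ov F m) = pt 0 1 := by
    rw [we_smul_pt (by simp [nrm_zero_right])]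
    simp [nrm_zero_right]
  have hc : ∀ y ∈ {y : ℕ × Bool | y.1 < k}, ∀ z ∈ {y : ℕ × Bool | y.1 < k},
      c y • (pt 0 0 : Ov F m) = c z • inf → z = (y.1, !y.2) := by
    rintro ⟨i, b⟩ hi ⟨j, d⟩ hj h
    cases b <;> cases d <;> simp [c, mul_smul, h1] at h ⊢
    · exact (ha hi hj h).symm
    · exact (ha hi hj h).symm
  obtain ⟨y, L', hL⟩ := List.exists_cons_of_ne_nil hL0
  obtain ⟨φ, hφ, h2⟩ := prod_top_ne_zero c _ hc y L' (hL ▸ hk) (hL ▸ FreeGroup.isReduced_toWord)
  have hr : 0 < 2 ^ (m + 1) := by positivity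
  have h3 := top_coeff_eq_zero L
    (fun z => (mat (c z)).map C * lawD F (2 ^ (m + 1)) * (mat (c z)⁻¹).map C)
    (d := 2 + 2 * 2 ^ (m + 1)) (e := 1 + 2 ^ (m + 1)) (fun z => by
      rw [map_mul, map_mul, matPolyEquiv_map_C, matPolyEquiv_map_C, natDegree_le_iff_coeff_eq_zero]
      intro N hN
      rw [coeff_mul_C, coeff_C_mul, coeff_lawD hr hN.le, if_neg hN.ne', mul_zero, zero_mul])
    (by omega) hL0 (by rw [hq, pow_succ, Nat.lt_sub_iff_add_lt]; nlinarith) fun s hs => by
      let t : Fˣ := Units.mk0 (th F s) (by simpa using hs)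
      have h4 := hlaw fun i => c (i, true) * he t * (c (i, true))⁻¹
      rw [← FreeGroup.mk_toWord (x := w), FreeGroup.lift_mk] at h4
      have h5 := congrArg (matHom F m) h4
      rw [map_list_prod, List.map_map, map_one] at h5
      rw [← h5, mul_comm, pow_mul, ← hLdef]
      generalize L = L1
      induction L1 with
      | nil => simp
      | cons z L1 ih =>
        rw [List.map_cons, List.prod_cons, ih, List.map_cons, List.prod_cons, List.length_cons,
          pow_succ (s ^ _), mul_smul, mul_smul_comm, ← smul_mul_assoc (s ^ (1 + _))]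
        congr 2
        have h6 : ∀ A : Matrix (Fin 4) (Fin 4) F, (A.map C).map (eval s) = A := fun A => by
          ext i j; simp
        have h7 : cond z.2 (c (z.1, true) * he t * (c (z.1, true))⁻¹)
            (c (z.1, true) * he t * (c (z.1, true))⁻¹)⁻¹ = c z * he t * (c z)⁻¹ := by
          obtain ⟨i, _ | _⟩ := z
          · simp only [c, cond, mul_one, _root_.mul_inv_rev, inv_inv, ← he_inv, ← we_conj_he, we_inv,
              mul_assoc]
          · rfl
        change (evalRingHom s).mapMatrix _ = _ • mat _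
        beta_reduce
        rw [h7, map_mul, map_mul, mat_mul (c z * he t), mat_mul (c z), mat_he, ← smul_mul_assoc, ← mul_smul_comm,
          ← eval_lawD hs]
        exact congrArg₂ _ (congrArg₂ _ (h6 _) rfl) (h6 _)
  have h4 : vecMulVec (fun i => mat (c y) i 0) φ = 0 := by
    rw [← h2, ← hL, ← h3]
    refine congrArg (fun f => (L.map f).prod) (funext fun z => ?_)
    rw [map_mul, map_mul, matPolyEquiv_map_C, matPolyEquiv_map_C, coeff_mul_C, coeff_C_mul,
      coeff_lawD hr le_rfl, if_pos rfl, mul_vecMulVec, vecMulVec_mul]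
    generalize mat (c z) = A
    generalize mat (c z)⁻¹ = B
    ext i j
    simp [vecMulVec_apply, mulVec, vecMul, dotProduct, Fin.sum_univ_four]
  refine hφ ((vecMulVec_eq_zero.1 h4).resolve_left fun h => ?_)
  have h5 : (mat (c y)⁻¹ * mat (c y)) 0 0 = 1 := by rw [← mat_mul, inv_mul_cancel, mat_one]; rfl
  rw [mul_apply] at h5
  simp [show ∀ j, mat (c y) j 0 = 0 from congrFun h] at h5

end Cfsg.Agent.Chev.Sz
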