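import Mathlib
import Cfsg.Agent.Chev.SzSol

/-!
# The Suzuki group: solubilizers
-/

namespace Cfsg.Agent.Chev.Sz

open MulAction

/-- The solubilizer of `x`. -/
def solSet {G : Type*} [Group G] (x : G) : Set G :=
  {y | Group.IsSolvable (Subgroup.closure ({x, y} : Set G))}

theorem mem_solSet_map {G H : Type*} [Group G] [Group H] (e : G ≃* H) {x y : G} :
    e y ∈ solSet (e x) ↔ y ∈ solSet x := by
  have h : (Subgroup.closure ({x, y} : Set G)).map (e : G →* H) =
      Subgroup.closure ({e x, e y} : Set H) := by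
    rw [MonoidHom.map_closure, Set.image_pair]; rfl
  have e' := (e.subgroupMap _).trans (MulEquiv.subgroupCongr h)
  exact ⟨fun (h : Group.IsSolvable _) =>
      Group.isSolvable_of_surjective (f := e'.symm.toMonoidHom) e'.symm.surjective,
    fun (h : Group.IsSolvable _) =>
      Group.isSolvable_of_surjective (f := e'.toMonoidHom) e'.surjective⟩

theorem ncard_solSet_map {G H : Type*} [Group G] [Group H] (e : G ≃* H) (x : G) :
    (solSet (e x)).ncard = (solSet x).ncard := by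
  rw [← Set.ncard_image_of_injective (solSet x) e.injective]
  congr 1
  ext y
  obtain ⟨y, rfl⟩ := e.surjective y
  rw [mem_solSet_map, e.injective.mem_set_image]

variable {F : Type*} [Field F] {m : ℕ} [SzF F m]
include m

theorem mem_solSet {x y : Cfsg.Sz F m} : y ∈ solSet x ↔
    ∃ U : Subgroup (Cfsg.Sz F m), IsPart U ∧ x ∈ Subgroup.normalizer (U : Set (Cfsg.Sz F m)) ∧
      y ∈ Subgroup.normalizer (U : Set (Cfsg.Sz F m)) := isSolvable_closure_iff

theorem Fpf.ncard_solSet {x : Cfsg.Sz F m} (hx : Fpf x) :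
    (solSet x).ncard = 4 * Nat.card (Subgroup.centralizer {x}) := by
  rw [← hx.card_normalizer, ← Nat.card_coe_set_eq]
  have hm := Subgroup.mem_centralizer_singleton_iff.mpr (rfl : x * x = x * x)
  have : solSet x = Subgroup.normalizer (Subgroup.centralizer {x} : Set (Cfsg.Sz F m)) := by
    ext y
    rw [mem_solSet]
    refine ⟨?_, fun h => ⟨_, hx.isTorus.isPart, Subgroup.le_normalizer hm, h⟩⟩
    rintro ⟨U, ⟨P, rfl⟩ | hU, h1, h2⟩
    · rw [normalizer_sylAt] at h1
      exact absurd h1 (hx P)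
    · have h3 := IsTorus.mem_of_odd hU h1 (hx.isTorus.odd_orderOf hm)
      rwa [IsTorus.centralizer_eq hU h3 hx.ne_one]
  rw [this]
  rfl

theorem ncard_solSet_torAt {P Q : Ov F m} (hPQ : P ≠ Q) {x : Cfsg.Sz F m} (hx : x ∈ torAt P Q)
    (h1 : x ≠ 1) : (solSet x).ncard = 2 * Nat.card F ^ 2 * (Nat.card F - 1) := by
  have : solSet x = ((stabilizer (Cfsg.Sz F m) P : Set (Cfsg.Sz F m)) ∪ stabilizer (Cfsg.Sz F m) Q) ∪
      ((Subgroup.normalizer (torAt P Q : Set (Cfsg.Sz F m)) : Set (Cfsg.Sz F m)) \ torAt P Q) := by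
    ext y
    rw [mem_solSet]
    constructor
    · rintro ⟨U, ⟨R, rfl⟩ | hU, h2, h3⟩
      · rw [normalizer_sylAt] at h2 h3
        rcases fix_of_mem_torAt hPQ hx h1 h2 with rfl | rfl
        · exact Or.inl (Or.inl h3)
        · exact Or.inl (Or.inr h3)
      · have h4 := IsTorus.mem_of_odd hU h2 ((isTorus_torAt hPQ).odd_orderOf hx)
        rw [← IsTorus.centralizer_eq hU h4 h1, centralizer_eq_torAt hPQ hx h1] at h3
        by_cases h5 : y ∈ torAt P Q
        · exact Or.inl (Or.inl h5.1)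
        · exact Or.inr ⟨h3, h5⟩
    · rintro ((h | h) | h)
      · exact ⟨_, isPart_sylAt P, by rw [normalizer_sylAt]; exact ⟨hx.1, h⟩⟩
      · exact ⟨_, isPart_sylAt Q, by rw [normalizer_sylAt]; exact ⟨hx.2, h⟩⟩
      · exact ⟨_, (isTorus_torAt hPQ).isPart, Subgroup.le_normalizer hx, h.1⟩
  have h2 := Set.ncard_union_add_ncard_inter (stabilizer (Cfsg.Sz F m) P : Set (Cfsg.Sz F m))
    (stabilizer (Cfsg.Sz F m) Q)
  have h3 := Set.ncard_sdiff_add_ncard_of_subset
    (show (torAt P Q : Set (Cfsg.Sz F m)) ⊆ Subgroup.normalizer (torAt P Q : Set (Cfsg.Sz F m)) from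
      Subgroup.le_normalizer)
  have h4 : ∀ K : Subgroup (Cfsg.Sz F m), (K : Set (Cfsg.Sz F m)).ncard = Nat.card K :=
    fun K => (Nat.card_coe_set_eq _).symm
  rw [show (stabilizer (Cfsg.Sz F m) P : Set (Cfsg.Sz F m)) ∩ stabilizer (Cfsg.Sz F m) Q = torAt P Q
    from rfl, h4, h4, h4, card_stabilizer, card_stabilizer, card_torAt hPQ] at h2
  rw [h4, h4, card_normalizer_torAt hPQ, card_torAt hPQ] at h3
  rw [this, Set.ncard_union_eq, mul_assoc]
  · omega
  · rw [Set.disjoint_left]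
    rintro y h ⟨h5, h6⟩
    rcases (mem_normalizer_torAt hPQ).mp h5 with h5 | h5
    · exact h6 h5
    · rcases h with h | h
      · exact hPQ (h.symm.trans h5.1)
      · exact hPQ (h5.2.symm.trans h)

theorem solSet_eq_of_mem_sylU {x : Cfsg.Sz F m} {c : F} (hc : c ≠ 0) (hx : x ∈ sylU F m)
    (hxc : ue 0 c ∈ Subgroup.zpowers x) :
    solSet x = (borel F m : Set (Cfsg.Sz F m)) ∪ solPart {a ∈ oddInv (ue 0 c : Cfsg.Sz F m) |
      x ∈ Subgroup.normalizer (Subgroup.centralizer {a} : Set (Cfsg.Sz F m))} := by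
  have ht1 : (ue 0 c : Cfsg.Sz F m) ≠ 1 := by simp [hc]
  have hx1 : x ≠ 1 := by
    rintro rfl
    exact ht1 (by simpa using hxc)
  ext y
  rw [mem_solSet]
  constructor
  · rintro ⟨U, ⟨R, rfl⟩ | hU, h2, h3⟩
    · rw [normalizer_sylAt] at h2 h3
      obtain rfl := eq_inf_of_mem_sylU hx hx1 h2
      exact Or.inl h3
    · have h4 := (Subgroup.zpowers_le.mpr h2) hxc
      obtain ⟨a, ha, s, hs, rfl⟩ := IsTorus.exists_mul hU h4 ht1 (ue_zero_mem_sylAt c) h3
      by_cases h1 : a = 1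
      · subst h1
        exact Or.inl (by simpa using hs.2.1)
      · have h5 := IsTorus.centralizer_eq hU ha h1
        exact Or.inr ⟨a, ⟨⟨h1, IsTorus.odd_orderOf hU ha,
          IsTorus.inverts hU h4 ht1 (ue_zero_mul_self c) ha⟩, h5 ▸ h2⟩, s, h5 ▸ hs, rfl⟩
  · rintro (h | ⟨a, ha, s, hs, rfl⟩)
    · exact ⟨_, isPart_sylAt inf, by rw [normalizer_sylAt]; exact ⟨sylU_le_borel hx, h⟩⟩
    · exact ⟨_, (isTorus_centralizer ha.1.1 ha.1.2.1).isPart, ha.2, mul_mem
        (Subgroup.le_normalizer (Subgroup.mem_centralizer_singleton_iff.mpr rfl)) hs.1⟩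

theorem ncard_borel : (borel F m : Set (Cfsg.Sz F m)).ncard = Nat.card F ^ 2 * (Nat.card F - 1) := by
  rw [← card_borel (m := m), ← Nat.card_coe_set_eq]
  rfl

theorem ncard_solSet_ue_zero {c : F} (hc : c ≠ 0) :
    (solSet (ue 0 c : Cfsg.Sz F m)).ncard = Nat.card F ^ 2 * (4 * Nat.card F - 3) := by
  have ht1 : (ue 0 c : Cfsg.Sz F m) ≠ 1 := by simp [hc]
  have h1 : solPart {a ∈ oddInv (ue 0 c : Cfsg.Sz F m) |
      ue 0 c ∈ Subgroup.normalizer (Subgroup.centralizer {a} : Set (Cfsg.Sz F m))} =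
      solPart {a ∈ oddInv (ue 0 c : Cfsg.Sz F m) | Fpf a} ∪
        solPart {a ∈ oddInv (ue 0 c : Cfsg.Sz F m) | ¬ Fpf a} := by
    ext y
    constructor
    · rintro ⟨a, ha, h⟩
      by_cases h2 : Fpf a
      · exact Or.inl ⟨a, ⟨ha.1, h2⟩, h⟩
      · exact Or.inr ⟨a, ⟨ha.1, h2⟩, h⟩
    · rintro (⟨a, ha, h⟩ | ⟨a, ha, h⟩) <;>
      exact ⟨a, ⟨ha.1, mem_normalizer_of_oddInv (ue_zero_mul_self c) ha.1⟩, h⟩
  have h2 := ncard_oddInv_fpf (m := m) hc
  have h3 := ncard_oddInv_not_fpf (m := m) hc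
  rw [solSet_eq_of_mem_sylU hc (ue_mem_sylU _ _) (Subgroup.mem_zpowers _),
    Set.ncard_union_eq (disjoint_borel_solPart (Set.sep_subset _ _)), h1, Set.ncard_union_eq,
    ncard_solPart (k := 4) (Set.sep_subset _ _), ncard_solPart (k := 2) (Set.sep_subset _ _),
    ncard_borel]
  · have h8 := eight_le_card F
    obtain ⟨n, hn⟩ : ∃ n, Nat.card F = n + 2 := ⟨Nat.card F - 2, by omega⟩
    rw [hn] at h2 h3 ⊢
    rw [Nat.add_sub_cancel] at h3
    rw [show n + 2 - 1 = n + 1 by omega, show 4 * (n + 2) - 3 = 4 * n + 5 by omega]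
    nlinarith
  · exact fun a ha => card_normalizer_inf_of_not_fpf ha.1.1 ha.1.2.1 ha.2
      (mem_normalizer_of_oddInv (ue_zero_mul_self c) ha.1) ht1 (ue_zero_mem_sylAt c)
  · exact fun a ha => card_normalizer_inf_of_fpf ha.2
      (mem_normalizer_of_oddInv (ue_zero_mul_self c) ha.1) ht1 (ue_zero_mem_sylAt c)
  · rw [Set.disjoint_left]
    rintro _ ⟨a, ha, s, hs, rfl⟩ ⟨a', ha', s', hs', h⟩
    exact ha'.2 (eq_of_mul_eq_oddInv ha.1 ha'.1 hs.2 hs'.2 h ▸ ha.2)

theorem exists_add_th_eq (e : F) : ∃ d : F, d + th F d = e ∨ d + th F d = e + 1 := by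
  let φ : F →+ F := AddMonoidHom.id F + (th F).toAddMonoidHom
  have h1 : Nat.card φ.ker = 2 := by
    rw [← Set.ncard_pair (zero_ne_one' F), ← Nat.card_coe_set_eq]
    apply Nat.card_congr (Equiv.setCongr _)
    ext d
    refine ⟨fun h => th_eq_self (t := d) ?_, ?_⟩
    · have h : d + th F d = 0 := h
      grind
    · rintro (rfl | rfl)
      · exact zero_mem φ.ker
      · change (1 : F) + th F 1 = 0
        rw [map_one]
        grind
  have h2 : φ.range.index = 2 := by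
    have h3 := φ.range.card_mul_index
    rw [← φ.ker.card_mul_index, AddSubgroup.index_ker, h1, mul_comm 2] at h3
    exact Nat.eq_of_mul_eq_mul_left Nat.card_pos h3
  by_cases h : e ∈ φ.range
  · obtain ⟨d, hd⟩ := h
    exact ⟨d, Or.inl hd⟩
  · obtain ⟨d, hd⟩ : e + 1 ∈ φ.range := by
      rw [AddSubgroup.add_mem_iff_of_index_two h2]
      exact iff_of_false h fun ⟨d, hd⟩ => add_th_ne_one d hd
    exact ⟨d, Or.inr hd⟩

/-- All elements of a non-trivial coset of `Z` in `U` are conjugate in `U` to `x` or to `x⁻¹`. -/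
theorem exists_conj_ue {a : F} (ha : a ≠ 0) (b b' : F) :
    ∃ u ∈ sylU F m, u * ue a b * u⁻¹ = ue a b' ∨ u * (ue a b)⁻¹ * u⁻¹ = ue a b' := by
  have h0 : a * th F a ≠ 0 := by simp [ha]
  obtain ⟨d, hd⟩ := exists_add_th_eq ((b + b') / (a * th F a))
  refine ⟨ue (a * d) 0, ue_mem_sylU _ _, ?_⟩
  rw [ue_inv a b, ue_conj_ue, ue_conj_ue, ue_inj, ue_inj, map_mul]
  rcases hd with hd | hd
  · left
    field_simp at hd
    grind
  · right
    field_simp at hd
    grind

theorem ncard_oddInv_normalizer_conj {c : F} {u : Cfsg.Sz F m} (hu : u ∈ sylU F m)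
    (x : Cfsg.Sz F m) :
    {a ∈ oddInv (ue 0 c : Cfsg.Sz F m) |
      u * x * u⁻¹ ∈ Subgroup.normalizer (Subgroup.centralizer {a} : Set (Cfsg.Sz F m))}.ncard =
    {a ∈ oddInv (ue 0 c : Cfsg.Sz F m) |
      x ∈ Subgroup.normalizer (Subgroup.centralizer {a} : Set (Cfsg.Sz F m))}.ncard := by
  rw [← Set.ncard_image_of_injective {a ∈ oddInv (ue 0 c : Cfsg.Sz F m) |
      x ∈ Subgroup.normalizer (Subgroup.centralizer {a} : Set (Cfsg.Sz F m))}
    (MulAut.conj u).injective]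
  congr 1
  ext a
  obtain ⟨a, rfl⟩ := (MulAut.conj u).surjective a
  rw [(MulAut.conj u).injective.mem_set_image]
  have h1 : MulAut.conj u (ue 0 c) = ue 0 c := by
    obtain ⟨y, z, rfl⟩ := hu
    rw [MulAut.conj_apply, ← ue_zero_comm, mul_inv_cancel_right]
  refine and_congr ?_ ?_
  · refine and_congr (by simp) (and_congr (by rw [MulEquiv.orderOf_eq]) ?_)
    conv_lhs => rw [← h1, ← map_mul, ← map_mul, ← map_inv, (MulAut.conj u).injective.eq_iff]
  · rw [MulAut.conj_apply, ← map_conj_centralizer, ← Subgroup.map_equiv_normalizer_eq]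
    exact Subgroup.mem_map_iff_mem (f := (MulAut.conj u).toMonoidHom) (MulAut.conj u).injective

theorem fpf_of_ue_mem_normalizer {a b : F} (ha : a ≠ 0) {s : Cfsg.Sz F m} (h1 : s ≠ 1)
    (hodd : Odd (orderOf s))
    (h : ue a b ∈ Subgroup.normalizer (Subgroup.centralizer {s} : Set (Cfsg.Sz F m))) : Fpf s := by
  by_contra hc
  have h2 : (ue a b : Cfsg.Sz F m) ∈ sylAt inf := by rw [sylAt_inf]; exact ue_mem_sylU _ _
  have h3 := card_normalizer_inf_of_not_fpf h1 hodd hc h (by simp [ha]) h2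
  have h4 := Subgroup.orderOf_dvd_natCard _ (Subgroup.mem_inf.mpr ⟨h, h2⟩)
  rw [h3, orderOf_dvd_iff_pow_eq_one, pow_two, ue_mul_self] at h4
  simp [ha] at h4

theorem ncard_oddInv_normalizer {a : F} (ha : a ≠ 0) (b : F) :
    {s ∈ oddInv (ue 0 (a * th F a) : Cfsg.Sz F m) |
      ue a b ∈ Subgroup.normalizer (Subgroup.centralizer {s} : Set (Cfsg.Sz F m))}.ncard =
      Nat.card F ^ 2 := by
  classical
  have hc : a * th F a ≠ 0 := by simp [ha]
  set t : Cfsg.Sz F m := ue 0 (a * th F a)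
  have hroot : {x : Cfsg.Sz F m | x * x = t} = Set.range (ue a) := by
    ext x
    refine ⟨fun (h : x * x = t) => ?_, by rintro ⟨b', rfl⟩; exact ue_mul_self _ _⟩
    obtain ⟨a', b', rfl⟩ := mem_sylU_of_commute (g := t) (x := x) (ue_mem_sylU _ _) (by simp [t, ha])
      (by rw [← h, mul_assoc])
    rw [ue_mul_self, ue_inj] at h
    exact ⟨b', by rw [mul_th_injective h.2]⟩
  have key := Finset.card_mul_eq_card_mul (fun (s x : Cfsg.Sz F m) =>
      x ∈ Subgroup.normalizer (Subgroup.centralizer {s} : Set (Cfsg.Sz F m)))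
    (s := (Set.toFinite {s ∈ oddInv t | Fpf s}).toFinset)
    (t := (Set.toFinite {x : Cfsg.Sz F m | x * x = t}).toFinset) (m := 2)
    (n := {s ∈ oddInv t |
      ue a b ∈ Subgroup.normalizer (Subgroup.centralizer {s} : Set (Cfsg.Sz F m))}.ncard) ?_ ?_
  · rw [← Set.ncard_eq_toFinset_card, ← Set.ncard_eq_toFinset_card, mul_comm, ncard_oddInv_fpf hc,
      hroot, Set.ncard_range_of_injective (fun _ _ h => (ue_inj.mp h).2), pow_succ'] at key
    exact (Nat.eq_of_mul_eq_mul_left Nat.card_pos key).symm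
  · intro s hs
    simp only [Set.Finite.mem_toFinset, Set.mem_ofPred_eq] at hs
    rw [← ncard_sqrt_normalizer hc hs.2 (mem_normalizer_of_oddInv (ue_zero_mul_self _) hs.1),
      ← Set.ncard_coe_finset]
    congr 1
    ext x
    simp [t]
  · intro x hx
    simp only [Set.Finite.mem_toFinset] at hx
    rw [hroot] at hx
    obtain ⟨b', rfl⟩ := hx
    have h1 : ((Finset.bipartiteBelow (fun (s x : Cfsg.Sz F m) =>
        x ∈ Subgroup.normalizer (Subgroup.centralizer {s} : Set (Cfsg.Sz F m)))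
        (Set.toFinite {s ∈ oddInv t | Fpf s}).toFinset (ue a b') : Finset _) : Set (Cfsg.Sz F m)) =
        {s ∈ oddInv t |
          ue a b' ∈ Subgroup.normalizer (Subgroup.centralizer {s} : Set (Cfsg.Sz F m))} := by
      ext s
      simp only [Finset.coe_bipartiteBelow, Set.Finite.mem_toFinset, Set.mem_ofPred_eq]
      exact ⟨fun h => ⟨h.1.1, h.2⟩, fun h =>
        ⟨⟨h.1, fpf_of_ue_mem_normalizer ha h.1.1 h.1.2.1 h.2⟩, h.2⟩⟩
    rw [← Set.ncard_coe_finset, h1]
    obtain ⟨u, hu, h | h⟩ := exists_conj_ue (m := m) ha b b'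
    · rw [← h, ncard_oddInv_normalizer_conj hu]
    · rw [← h, ncard_oddInv_normalizer_conj hu]
      simp only [inv_mem_iff, t]

theorem ncard_solSet_ue {a : F} (ha : a ≠ 0) (b : F) :
    (solSet (ue a b : Cfsg.Sz F m)).ncard = Nat.card F ^ 2 * (Nat.card F + 3) := by
  have hc : a * th F a ≠ 0 := by simp [ha]
  rw [solSet_eq_of_mem_sylU hc (ue_mem_sylU _ _)
      (ue_mul_self (m := m) a b ▸ mul_mem (Subgroup.mem_zpowers _) (Subgroup.mem_zpowers _)),
    Set.ncard_union_eq (disjoint_borel_solPart (Set.sep_subset _ _)),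
    ncard_solPart (k := 4) (Set.sep_subset _ _), ncard_borel, ncard_oddInv_normalizer ha]
  · have h8 := eight_le_card F
    rw [← mul_add]
    congr 1
    omega
  · exact fun s hs => card_normalizer_inf_of_fpf (fpf_of_ue_mem_normalizer ha hs.1.1 hs.1.2.1 hs.2)
      (mem_normalizer_of_oddInv (ue_zero_mul_self _) hs.1) (by simp [ha]) (ue_zero_mem_sylAt _)

theorem exists_conj_eq_ue {x : Cfsg.Sz F m} (h : x ^ 4 = 1) :
    ∃ (g : Cfsg.Sz F m) (a b : F), x = MulAut.conj g (ue a b) := by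
  obtain ⟨P, hP⟩ := exists_mem_sylAt h
  obtain ⟨g, rfl⟩ := exists_smul_inf_eq P
  obtain ⟨a, b, h⟩ := mem_sylAt_smul_inf.mp hP
  exact ⟨g, a, b, by simp [← h, mul_assoc]⟩

theorem ncard_solSet_of_orderOf_two {x : Cfsg.Sz F m} (h : orderOf x = 2) :
    (solSet x).ncard = Nat.card F ^ 2 * (4 * Nat.card F - 3) := by
  obtain ⟨g, a, b, rfl⟩ := exists_conj_eq_ue (x := x) (orderOf_dvd_iff_pow_eq_one.mp (by simp [h]))
  rw [MulEquiv.orderOf_eq, orderOf_eq_prime_iff, pow_two, ue_mul_self] at h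
  obtain rfl : a = 0 := by simpa using h.1
  rw [ncard_solSet_map, ncard_solSet_ue_zero (by simpa using h.2)]

theorem ncard_solSet_of_orderOf_four {x : Cfsg.Sz F m} (h : orderOf x = 4) :
    (solSet x).ncard = Nat.card F ^ 2 * (Nat.card F + 3) := by
  obtain ⟨g, a, b, rfl⟩ := exists_conj_eq_ue (x := x) (orderOf_dvd_iff_pow_eq_one.mp (by simp [h]))
  rw [MulEquiv.orderOf_eq] at h
  rw [ncard_solSet_map, ncard_solSet_ue]
  rintro rfl
  have := orderOf_dvd_of_pow_eq_one (n := 2) ((pow_two _).trans (ue_zero_mul_self (m := m) b))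
  rw [h] at this
  omega

end Cfsg.Agent.Chev.Sz
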