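import Mathlib
import Cfsg.Agent.Chev.ThFpf
import Cfsg.Agent.Chev.IsogBase

/-!
Coefficients of unipotent elements read off from the action on a vector of the Cartan subalgebra.
-/

set_option autoImplicit false

namespace Cfsg.Agent.Chev.Th

open Matrix RootBN Cfsg.Lie Cfsg.Lie.ChevalleyDatum

variable {D : ChevalleyDatum} [hG : D.Good] {K : Type*} [Field K]

theorem dot_wt (c : D.Lat) (r : D.Rt) : c ⬝ᵥ D.wt r = ∑ j, D.coef r j * (c ⬝ᵥ D.wt (D.sr j)) := by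
  rw [wt_eq_sum_coef, dotProduct_sum]; simp only [dotProduct_smul, smul_eq_mul]

theorem dot_eq_zero {S : Set D.Nd} {c : D.Lat} (h : ∀ i ∈ S, c ⬝ᵥ D.wt (D.sr i) = 0) {r : D.Rt}
    (hr : (D.rootBN K).supp r ⊆ S) : c ⬝ᵥ D.wt r = 0 := by
  rw [dot_wt]
  refine Finset.sum_eq_zero fun j _ => ?_
  by_cases hj : j ∈ S
  · rw [h j hj, mul_zero]
  · rw [(D.coef_eq_zero_iff r j).2 ((D.rootBN_supp_subset K r S).1 hr j hj), zero_mul]

theorem dot_pos {S : Set D.Nd} {c : D.Lat} (h : ∀ i ∈ S, c ⬝ᵥ D.wt (D.sr i) = 0)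
    (h' : ∀ i, i ∉ S → 0 < c ⬝ᵥ D.wt (D.sr i)) {r : D.Rt} (hp : D.IsPosRoot r)
    (hr : ¬ (D.rootBN K).supp r ⊆ S) : 0 < c ⬝ᵥ D.wt r := by
  rw [dot_wt]
  obtain ⟨i, hi, hiS⟩ := Set.not_subset.1 hr
  have h1 := (D.isPos_iff_coef r).1 hp
  refine Finset.sum_pos' (fun j _ => mul_nonneg (h1 j) ?_) ⟨i, Finset.mem_univ _, mul_pos
    ((h1 i).lt_of_ne' (mt (D.coef_eq_zero_iff r i).1 hi)) (h' i hiS)⟩
  by_cases hj : j ∈ S
  exacts [(h j hj).ge, (h' j hj).le]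

theorem X_mulVec_hV (r : D.Rt) (t : K) (c : D.Lat) : (D.X K r t : Matrix D.Idx D.Idx K) *ᵥ D.hV K c =
    D.hV K c - (((c ⬝ᵥ D.wt r : ℤ) : K) * t) • D.eN K r := by
  rw [coe_X_eq_xR, xR_mulVec_hV]

theorem L_mulVec_hV {S : Set D.Nd} {c : D.Lat} (h : ∀ i ∈ S, c ⬝ᵥ D.wt (D.sr i) = 0) {g : GL D.Idx K}
    (hg : g ∈ (D.rootBN K).L S) : (g : Matrix D.Idx D.Idx K) *ᵥ D.hV K c = D.hV K c := by
  refine (sup_le (fun g hg => ?_) (RootBN.XS_le fun r hr x hx => ?_) :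
    (D.rootBN K).L S ≤ MulAction.stabilizer (GL D.Idx K) (D.hV K c)) hg
  · obtain ⟨χ, -, rfl⟩ := D.exists_char_of_mem_diagonal K hg
    exact D.charDiag_mulVec_hV K χ c
  · obtain ⟨t, rfl⟩ := (D.mem_rootSubgroup_iff K _ _).1 hx
    exact (X_mulVec_hV r t c).trans (by simp [dot_eq_zero h hr])

/-- The coefficient of `e_r` in `u h_c`. -/
def cf (c : D.Lat) (u : GL D.Idx K) (r : D.Rt) : K :=
  ((u : Matrix D.Idx D.Idx K) *ᵥ D.hV K c) (Sum.inr r)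

theorem cf_X (c : D.Lat) (r : D.Rt) (t : K) : cf c (D.X K r t) r = -((c ⬝ᵥ D.wt r : ℤ) * t) := by
  rw [cf, X_mulVec_hV]; simp [hV_inr, eN_inr]

theorem cf_mul_right {S : Set D.Nd} {c : D.Lat} (h : ∀ i ∈ S, c ⬝ᵥ D.wt (D.sr i) = 0) (u : GL D.Idx K)
    {g : GL D.Idx K} (hg : g ∈ (D.rootBN K).L S) : cf c (u * g) = cf c u := by
  funext r
  rw [cf, Units.val_mul, ← mulVec_mulVec, L_mulVec_hV h hg, cf]

theorem cf_mul_Q {S : Set D.Nd} {v : D.Lat} (h : ∀ i ∈ S, v ⬝ᵥ D.wt (D.sr i) = 0)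
    (h' : ∀ i, i ∉ S → 0 < v ⬝ᵥ D.wt (D.sr i)) (c : D.Lat) {x y : GL D.Idx K}
    (hx : x ∈ (D.rootBN K).US S) (hy : y ∈ (D.rootBN K).Q S) {r : D.Rt}
    (hr : (D.rootBN K).supp r ⊆ S) : cf c (x * y) r = cf c x r := by
  rw [RootBN.US, rootBN_XS] at hx
  rw [RootBN.Q, rootBN_XS] at hy
  rw [cf, Units.val_mul, ← mulVec_mulVec, cf, mulVec, mulVec]
  refine Finset.sum_congr rfl fun b _ => ?_
  by_cases hb : (x : Matrix D.Idx D.Idx K) (Sum.inr r) b = 0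
  · simp only [hb, zero_mul]
  congr 1
  have h1 : v ⬝ᵥ D.wtI b = 0 := by
    have h2 : AddSubmonoid.closure ((fun r : D.Rt => D.wt r) '' {r | (D.rootBN K).pos r ∧
        (D.rootBN K).supp r ⊆ S}) ≤ AddMonoidHom.mker (D.dotF v) :=
      AddSubmonoid.closure_le.2 (by rintro _ ⟨s, hs, rfl⟩; exact dot_eq_zero h hs.2)
    have h3 : v ⬝ᵥ (D.wt r - D.wtI b) = 0 := h2 (D.XS_entry K hx hb)
    rwa [dotProduct_sub, dot_eq_zero h hr, zero_sub, neg_eq_zero] at h3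
  rw [mulVec, dotProduct, Finset.sum_eq_single b]
  · rw [D.XS_entry_of_pos K (D.dotF v) (fun s hs => dot_pos h h' hs.1 hs.2) hy le_rfl, if_pos rfl, one_mul]
  · rintro (j | s) - hj
    · rw [D.XS_entry_of_pos K (D.dotF v) (fun s hs => dot_pos h h' hs.1 hs.2) hy
        (by rw [dotF_apply, h1]; simp [wtI]), if_neg hj.symm, zero_mul]
    · rw [hV_inr, mul_zero]
  · simp

variable (D) in
/-- The row of `x_r(t)` at `u` has only one off-diagonal entry, `ε t` at `s`. -/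
def Row (r u s : D.Rt) (ε : ℤ) : Prop := ∀ b,
  Isog.ent D r (Sum.inr u) b = (if b = Sum.inr u then [(0, 1)] else []) ++
    if b = Sum.inr s ∧ ε ≠ 0 then [(1, ε)] else []

instance (r u s : D.Rt) (ε : ℤ) : Decidable (Row D r u s ε) := by unfold Row; infer_instance

theorem cf_X_mul {r u s : D.Rt} {ε : ℤ} (h : Row D r u s ε) (c : D.Lat) (t : K) (g : GL D.Idx K) :
    cf c (D.X K r t * g) u = cf c g u + ε * t * cf c g s := by
  rw [cf, Units.val_mul, ← mulVec_mulVec, mulVec, dotProduct]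
  have e : ∀ b, (D.X K r t : Matrix D.Idx D.Idx K) (Sum.inr u) b =
      (if b = Sum.inr u then 1 else 0) + if b = Sum.inr s then ε * t else 0 := fun b => by
    rw [coe_X, x, dif_pos r.2, Isog.xMat_eq_evalL, h, Isog.evalL_append]
    congr 1
    · split_ifs <;> simp [Isog.evalL]
    · by_cases h0 : ε = 0
      · simp [h0, Isog.evalL]
      · simp only [h0, ne_eq, not_false_iff, and_true]
        split_ifs <;> simp [Isog.evalL]
  simp only [e]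
  simp [add_mul, Finset.sum_add_distrib, cf]

theorem cf_N_mul {n : GL D.Idx K} (hn : n ∈ D.monomialSubgroup K) (s : D.Rt) (c : D.Lat)
    {g : GL D.Idx K} (h : cf c g s = 0) : cf c (n * g) (D.wOf K n s) = 0 := by
  rw [cf, Units.val_mul, ← mulVec_mulVec, mulVec, dotProduct]
  refine Finset.sum_eq_zero ?_
  rintro (i | u) -
  · rw [D.monomial_entry_inl K ⟨n, hn⟩, zero_mul]
  · by_cases e : u = s
    · rw [e, show ((g : Matrix D.Idx D.Idx K) *ᵥ D.hV K c) (Sum.inr s) = 0 from h, mul_zero]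
    · obtain ⟨a, ha⟩ := D.monomial_entry_wOf K hn u
      rw [ha, if_neg (by simpa using Ne.symm e), zero_mul]

theorem wOf_nWordS_eq_ng {l : List D.Nd} (h : ∀ r < D.nroots, D.actN l r = D.neg r) (r : D.Rt) :
    D.wOf K (D.nWordS K l) r = D.ng r := by
  rw [wOf_eq _ _ (D.nWordS_mem K l), toWeyl_nWordS]
  exact Fin.ext ((D.wordW_val l r).trans (h r r.2))

theorem conj_H_eq_inv {m h : GL D.Idx K} (hm : m ∈ D.monomialSubgroup K) (e : ∀ r, D.wOf K m r = D.ng r)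
    (hh : h ∈ D.diagonalSubgroup K) : m * h * m⁻¹ = h⁻¹ := by
  obtain ⟨χ, hχ, rfl⟩ := D.exists_char_of_mem_diagonal K hh
  rw [← charG_inv]
  exact D.conj_charG K ⟨m, hm⟩ _ _ fun s => by
    rw [← D.wOf_eq K hm, e, Pi.inv_apply, ng_val, hχ.1 s s.2, inv_inv]

theorem X_hE_nE_X (r : D.Rt) (c : Kˣ) : D.X K r (-c) * D.hE K r c * D.nE K r 1 * D.X K r (-c) =
    D.X K (D.ng r) (-(c : K)⁻¹) := by
  rw [D.X_ng_eq K r (by simp), mul_assoc _ (D.hE K r c), ← nE_eq_hE_mul]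
  simp

end Cfsg.Agent.Chev.Th
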