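import Mathlib
import Cfsg.Agent.Chev.ThCoef
import Cfsg.Agent.Chev.TwLie
import Cfsg.Agent.Chev.TwD4

/-!
Thompson's conjecture for `³D₄(q)`.
-/

set_option autoImplicit false

namespace Cfsg.Agent.Chev.Th

open Cfsg.Agent.Cl.GL2 Cfsg.Agent.GT RootBN Cfsg.Lie Cfsg.Lie.ChevalleyDatum
open scoped MatrixGroups Matrix

theorem mem_X_neg_iff {Γ Φ I : Type*} [Group Γ] {R : RootBN Γ Φ I} {i : I} {g : Γ} :
    g ∈ R.X (R.neg (R.simple i)) ↔ ∃ x ∈ R.X (R.simple i), g = R.s i * x * (R.s i)⁻¹ :=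
  ⟨fun h => ⟨_, conj_s_inv_X_neg h, by group⟩, by rintro ⟨x, hx, rfl⟩; exact conj_s_X hx⟩

theorem exists_neg_one {D : ChevalleyDatum} [D.Good] {K J : Type*} [Field K] (T : (D.rootBN K).Sub J)
    (hc : ∀ i, ∃ j, i ∈ T.S j) {l : List D.Nd} (h : ∀ r < D.nroots, D.actN l r = D.neg r) :
    ∃ m ∈ (T.rel hc).N, (∀ r, D.wOf K m r = D.ng r) ∧ ∀ A, (T.rel hc).w m A = (T.rel hc).neg A := by
  obtain ⟨m, hm, e⟩ := T.exists_longest_NK hc
  have h1 : ∀ r, D.wOf K m r = D.ng r := fun r => by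
    rw [← wOf_nWordS_eq_ng (K := K) h, ← rootBN_w, ← rootBN_w, e,
      w_eq_of_Inv_eq (R := D.rootBN K) n0_mem (D.nWordS_mem K l)]
    ext s
    rw [Inv_n0, mem_Inv, rootBN_w, wOf_nWordS_eq_ng h, rootBN_pos, rootBN_pos, isPos_ng]
    simp [rootBN_pos]
  exact ⟨m, hm, h1, fun A => Subtype.ext ((Sub.coe_relW hm A).trans (Set.image_congr fun r _ => h1 r))⟩

theorem IsSl.ch_map {D : ChevalleyDatum} [D.Good] {K F : Type*} [Field K] [Field F] {r : D.Rt}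
    {φ : SL(2, K) →* GL D.Idx K} (hφ : IsSl D r φ) (ι : F →+* K) (c : D.Nd → Kˣ) (e : Fˣ) :
    Ch (φ.comp (Matrix.SpecialLinearGroup.map ι)) (D.torusHom K c) e ↔ ι e = (tv c (D.wt r) : Kˣ) := by
  refine ⟨fun h => ?_, fun h t => ?_⟩
  · have := (h 1).1
    simp only [MonoidHom.comp_apply, map_slUp, (hφ.ch c _).1] at this
    simpa using (D.X_injective K r (((hφ.1 _).symm.trans this).trans (hφ.1 _))).symm
  · simp [map_slUp, map_slLo, (hφ.ch c _).1, (hφ.ch c _).2, h]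

theorem exists_root_cube {K : Type*} [Field K] [Fintype K] {q : ℕ} (hq : 2 ≤ q) (hK : Fintype.card K = q ^ 3)
    (a b c d e f g h : K) (h0 : h ≠ 0) (P : K → K) (hP : ∀ s, P s ^ q = P s) (hP' : ∀ s, P s =
      a + b * s ^ q ^ 2 + c * s ^ q + d * s ^ (q + q ^ 2) + e * s ^ 1 + f * s ^ (1 + q ^ 2) +
        g * s ^ (1 + q) + h * s ^ (1 + q + q ^ 2)) : ∃ s, P s = 0 := by
  by_contra! h1
  open Polynomial in
  let p : K[X] := monomial 0 a + monomial (q ^ 2) b + monomial q c + monomial (q + q ^ 2) d + monomial 1 e +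
    monomial (1 + q ^ 2) f + monomial (1 + q) g + monomial (1 + q + q ^ 2) h
  have h2 : q < q ^ 2 := by nlinarith
  have h3 : p.natDegree = 1 + q + q ^ 2 := by
    refine Polynomial.natDegree_eq_of_le_of_coeff_ne_zero
      (Polynomial.natDegree_le_iff_coeff_eq_zero.2 fun N hN => ?_) ?_ <;>
    simp only [p, Polynomial.coeff_add, Polynomial.coeff_monomial] <;>
    (repeat rw [if_neg (by omega)]) <;> simp [h0]
  obtain ⟨k, rfl⟩ : ∃ k, q = k + 1 := ⟨q - 1, by omega⟩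
  have h4 : (p ^ k).natDegree = k * (1 + (k + 1) + (k + 1) ^ 2) := by rw [Polynomial.natDegree_pow, h3]
  have h5 := Polynomial.eq_zero_of_natDegree_lt_card_of_eval_eq_zero (p ^ k - 1) Function.injective_id
    (fun s => by
      have : p.eval s = P s := by simp [p, hP']
      rw [id, Polynomial.eval_sub, Polynomial.eval_pow, this, Polynomial.eval_one, sub_eq_zero]
      exact mul_right_cancel₀ (h1 s) (by rw [← pow_succ, hP, one_mul]))
    (by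
      refine (Polynomial.natDegree_sub_le _ _).trans_lt ?_
      rw [h4, hK, Polynomial.natDegree_one, Nat.max_zero]
      nlinarith)
  rw [sub_eq_zero.1 h5, Polynomial.natDegree_one] at h4
  nlinarith

namespace D4

variable {K : Type*} [Field K] (f : RingAut K)

/-- The fixed field. -/
abbrev Fx : Subfield K := (f : K →+* K).eqLocusField (RingHom.id K)

/-- The root data. -/
noncomputable abbrev R := (twD4 f).sub.rel (twD4 f).cover_S

variable {f}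

theorem mem_X {j : Fin 2} {g : GL chevD4.Idx K} :
    g ∈ (R f).X ((R f).simple j) ↔ ∃ t, (f ^ (twD4 f).d j) t = t ∧ g = (twD4 f).y j t := by
  erw [Sub.rel_X_simple]; exact (twD4 f).mem_US_G1_iff

theorem mem_H {h : GL chevD4.Idx K} : h ∈ (R f).H ↔ ∃ c ∈ (twD4 f).C, chevD4.torusHom K c = h := by
  erw [Sub.rel_H, rootBN_H, Twist.sub_K, twD4_H]; rfl

theorem mem_S (j : Fin 2) (i : chevD4.Nd) : i ∈ (twD4 f).S j ↔ (j = 0 ↔ i = d4n 1) := by
  change (∃ k < ![1, 3] j, (d4Sym.π ^ k) (![d4n 1, d4n 0] j) = i) ↔ _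
  revert i j
  decide +kernel

theorem tv_eq {G : Type*} [CommGroup G] (c : chevD4.Nd → G) (v : chevD4.Lat) : tv c v =
    c (d4n 0) ^ v (d4n 0) * c (d4n 1) ^ v (d4n 1) * c (d4n 2) ^ v (d4n 2) * c (d4n 3) ^ v (d4n 3) :=
  Fin.prod_univ_four _

theorem tv_wt {G : Type*} [CommGroup G] (c : chevD4.Nd → G) :
    tv c (chevD4.wt (d4r 14)) = (c (d4n 0))⁻¹ * c (d4n 1) ^ 2 * (c (d4n 2))⁻¹ * (c (d4n 3))⁻¹ ∧
    tv c (chevD4.wt (d4r 18)) = c (d4n 0) ^ 2 * (c (d4n 1))⁻¹ ∧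
    tv c (chevD4.wt (d4r 13)) = (c (d4n 1))⁻¹ * c (d4n 2) ^ 2 ∧
    tv c (chevD4.wt (d4r 12)) = (c (d4n 1))⁻¹ * c (d4n 3) ^ 2 ∧
    tv c (chevD4.wt (d4r 17)) = (c (d4n 0))⁻¹ * c (d4n 2) * c (d4n 3) ∧
    tv c (chevD4.wt (d4r 20)) = c (d4n 0) * (c (d4n 2))⁻¹ * c (d4n 3) ∧
    tv c (chevD4.wt (d4r 21)) = c (d4n 0) * c (d4n 2) * (c (d4n 3))⁻¹ := by
  have : ∀ i : Fin 4, chevD4.wt (d4r 14) (d4n i) = ![-1, 2, -1, -1] i ∧
    chevD4.wt (d4r 18) (d4n i) = ![2, -1, 0, 0] i ∧ chevD4.wt (d4r 13) (d4n i) = ![0, -1, 2, 0] i ∧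
    chevD4.wt (d4r 12) (d4n i) = ![0, -1, 0, 2] i ∧ chevD4.wt (d4r 17) (d4n i) = ![-1, 0, 1, 1] i ∧
    chevD4.wt (d4r 20) (d4n i) = ![1, 0, -1, 1] i ∧ chevD4.wt (d4r 21) (d4n i) = ![1, 0, 1, -1] i := by
    decide +kernel
  simp [tv_eq, this, zpow_ofNat]

theorem memC {c : chevD4.Nd → Kˣ} (hc : c ∈ (twD4 f).C) : ∃ g : Kˣ →* Kˣ, (∀ u, (g u : K) = f u) ∧
    g (c (d4n 0)) = c (d4n 2) ∧ g (c (d4n 1)) = c (d4n 1) ∧ g (c (d4n 2)) = c (d4n 3) ∧
      g (c (d4n 3)) = c (d4n 0) ∧ ∀ u, u ^ 2 = 1 → g u = u := by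
  obtain ⟨h1, h2, h3, h4⟩ := (twD4_mem_C f).1 hc
  exact ⟨Units.map (f : K →* K), fun _ => rfl, Units.ext h1.symm, Units.ext h2.symm, Units.ext h3.symm,
    Units.ext h4.symm, fun _ => tw_map_of_sq f⟩

theorem eq_one_of_tv {c : chevD4.Nd → Kˣ} (hc : c ∈ (twD4 f).C) (h1 : tv c (chevD4.wt (d4r 18)) = 1)
    (h2 : tv c (chevD4.wt (d4r 14)) = 1) : chevD4.torusHom K c = 1 := by
  obtain ⟨g, -, e0, e1, e2, -⟩ := memC hc
  have h3 := congrArg g ((tv_wt c).2.1.symm.trans h1)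
  rw [map_mul, map_pow, map_inv, e0, e1, map_one, mul_comm] at h3
  have h4 := congrArg g h3
  rw [map_mul, map_pow, map_inv, e2, e1, map_one] at h4
  exact (chevD4.mem_ker_torusHom K c).2 (twD4_forall.2 ⟨h1, h2, (tv_wt c).2.2.1.trans h3,
    (tv_wt c).2.2.2.1.trans h4⟩)

theorem comm18 {h : GL chevD4.Idx K} (hf : ∀ t, (f ^ 3) t = t) (hh : h ∈ (R f).H)
    (h1 : ∀ x ∈ (R f).X ((R f).simple 1), h * x = x * h) (t : K) :
    h * chevD4.X K (d4r 18) t = chevD4.X K (d4r 18) t * h := by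
  obtain ⟨a, -, h2, h3, -⟩ := (twD4 f).exists_conj_y hh.1 ((twD4 f).G1_le_Fix hh.2).2 1
  have h4 := h3 t
  rw [h1 _ (mem_X.2 ⟨t, hf t, rfl⟩), mul_inv_cancel_right] at h4
  rw [← mul_inv_eq_iff_eq_mul]
  exact (h2 t).trans (by rw [← (twD4 f).y_injective 1 h4]; rfl)

theorem eq_one_of_orth {c : chevD4.Nd → Kˣ} (hc : c ∈ (twD4 f).C) (h : tv c (chevD4.wt (d4r 17)) = 1 ∨
    tv c (chevD4.wt (d4r 20)) = 1 ∨ tv c (chevD4.wt (d4r 21)) = 1) : c (d4n 0) = 1 := by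
  obtain ⟨g, -, e0, -, e2, e3, e4⟩ := memC hc
  obtain ⟨-, -, -, -, a1, a2, a3⟩ := tv_wt c
  rw [a1, a2, a3] at h
  generalize c (d4n 0) = x, c (d4n 2) = y, c (d4n 3) = z at *
  have k1 : x⁻¹ * y * z = 1 → x * y⁻¹ * z = 1 := fun h => by
    simpa [e0, e2, e3, mul_comm, mul_left_comm, mul_assoc] using congrArg g h
  have k2 : x * y⁻¹ * z = 1 → x * y * z⁻¹ = 1 := fun h => by
    simpa [e0, e2, e3, mul_comm, mul_left_comm, mul_assoc] using congrArg g h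
  have k3 : x * y * z⁻¹ = 1 → x⁻¹ * y * z = 1 := fun h => by
    simpa [e0, e2, e3, mul_comm, mul_left_comm, mul_assoc] using congrArg g h
  have h1 : x * y⁻¹ * z = 1 := by tauto
  have h2 := k2 h1
  have h3 : x ^ 2 = 1 := calc
    x ^ 2 = x * y⁻¹ * z * (x * y * z⁻¹) := by simp [sq, mul_comm, mul_left_comm, mul_assoc]
    _ = 1 := by rw [h1, h2, mul_one]
  rw [e4 x h3] at e0
  subst e0
  rw [e4 x h3] at e2
  subst e2
  simpa using h1

theorem no_root (hf : ∀ t, (f ^ 3) t = t) {T e : Fx f} (h : ∀ r, r ^ 2 - T * r + e ≠ 0) (r : K) :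
    r ^ 2 - T * r + e ≠ 0 := fun h1 => by
  have hT : f T = T := T.2
  have h2 : ∀ r : K, r ^ 2 - T * r + e = 0 → f r = T - r := fun r h1 => by
    have h2 := congrArg f h1
    rw [map_add, map_sub, map_pow, map_mul, hT, show f e = e from e.2, map_zero] at h2
    refine (mul_eq_zero.1 (show (f r - r) * (f r - (T - r)) = 0 by linear_combination h2 - h1)).elim
      (fun h3 => absurd (Subtype.ext h1) (h ⟨r, sub_eq_zero.1 h3⟩)) sub_eq_zero.1
  have h3 := hf r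
  rw [pow_succ', pow_two, RingAut.mul_apply, RingAut.mul_apply, h2 r h1, map_sub, hT, h2 r h1,
    sub_sub_cancel] at h3
  exact h ⟨r, h3⟩ (Subtype.ext h1)

variable {φ : SL(2, K) →* GL chevD4.Idx K} (hφ : IsSl chevD4 (d4r 14) φ)
include hφ

theorem eq_diag {c : chevD4.Nd → Kˣ} (hc : c ∈ (twD4 f).C) (h : c (d4n 0) = 1) :
    chevD4.torusHom K c ∈ (φ.comp (Matrix.SpecialLinearGroup.map (Fx f).subtype)).range := by
  obtain ⟨g, -, e0, -, e2, -⟩ := memC hc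
  rw [h, map_one] at e0
  rw [← e0, map_one] at e2
  refine ⟨uppS (Units.mk0 ⟨c (d4n 1), ((twD4_mem_C f).1 hc).2.1.symm⟩
    fun e => (c (d4n 1)).ne_zero (congrArg Subtype.val e)) 0, ?_⟩
  rw [MonoidHom.comp_apply, show Matrix.SpecialLinearGroup.map _ _ = uppS (c (d4n 1)) 0 by
    simp [sl_ext_iff], hφ.diag]
  exact congrArg _ (funext (twD4_forall.2 ⟨(zpow_zero _).trans h.symm, zpow_one _, (zpow_zero _).trans e0,
    (zpow_zero _).trans e2⟩))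

theorem fpf [Finite K] (hf : ∀ t, (f ^ 3) t = t) {c : chevD4.Nd → Kˣ} (hC : c ∈ (twD4 f).C)
    (hc : c (d4n 0) ≠ 1) {A : SL(2, Fx f)} {e : (Fx f)ˣ} (he : (e : K) = (tv c (chevD4.wt (d4r 14)) : Kˣ))
    (h : IsEll ((Matrix.SpecialLinearGroup.toGL A * dg e : GL (Fin 2) (Fx f)) : Mat (Fx f)))
    {v : GL chevD4.Idx K} (hv : v ∈ (chevD4.rootBN K).Q ((twD4 f).S 0))
    (e : φ (Matrix.SpecialLinearGroup.map (Fx f).subtype A) * chevD4.torusHom K c * v =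
      v * (φ (Matrix.SpecialLinearGroup.map (Fx f).subtype A) * chevD4.torusHom K c)) : v = 1 := by
  obtain ⟨h1, h2⟩ := ell_entries h
  obtain ⟨L, _, ι, τ, μ, h3, h4, h5, h6⟩ := exists_quad (no_root hf h2)
  obtain ⟨ψ, hψ⟩ : ∃ ψ, IsSl chevD4 (d4r 14) ψ := chevD4.exists_sl2Hom L (d4r 14)
  set c' : chevD4.Nd → Lˣ := fun i => Units.map (ι : K →* L) (c i)
  have h7 : ∀ w, ((tv c' w : Lˣ) : L) = ι (tv c w : Kˣ) := fun w => by rw [tv_map]; rfl
  obtain ⟨E, hE⟩ := hψ.exists_diag c' (μ := μ)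
    (A := Matrix.SpecialLinearGroup.map ι (Matrix.SpecialLinearGroup.map (Fx f).subtype A))
    (by simpa using h1) (by simpa [h7, ← he] using h4)
    (fun e => h6 (mul_left_cancel₀ μ.ne_zero (by rw [h5, ← sq, e, h7, he])))
  have hs : (chevD4.rootBN L).supp (d4r 14) ⊆ (twD4 f).S 0 :=
    ((chevD4.rootBN L).supp_simple (d4n 1)).le.trans (by rintro _ rfl; simp [mem_S])
  refine fpf_of_conj ι (hψ.mem_L hs E)
    (by rw [map_mul, hφ.map ι hψ, glMap_torus]; exact hE) (fun r hr e => ?_) hv e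
  have key : ∀ r : chevD4.Rt, 12 ≤ (r : ℕ) → r = d4r 14 ∨ chevD4.pairing (d4r 14) r = 1 ∨
      chevD4.pairing (d4r 14) r = -1 ∨ chevD4.pairing (d4r 14) r = 0 ∧
        (r = d4r 17 ∨ r = d4r 20 ∨ r = d4r 21) := by
    decide +kernel
  rw [tv_mul, tv_cw] at e
  have e1 := congrArg Units.val e
  rw [Units.val_mul, h7, Units.val_zpow_eq_zpow_val, Units.val_inv_eq_inv_val, inv_zpow,
    Units.val_one, inv_mul_eq_one₀ (zpow_ne_zero _ μ.ne_zero)] at e1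
  have e2 := congrArg τ e1
  rw [map_zpow₀, h3, ← e1] at e2
  rcases key r (by have := (chevD4.isPos_iff_le r).1 hr; change 24 ≤ _ at this; omega) with
    rfl | h8 | h8 | ⟨h8, h9⟩
  · exact hs
  · exact absurd (by simpa [h8] using e2) h6
  · exact absurd (by simpa [h8] using e2) h6
  · rw [h8, zpow_zero, ← map_one ι] at e1
    have e3 := Units.val_eq_one.1 (ι.injective e1).symm
    refine absurd (eq_one_of_orth hC ?_) hc
    rcases h9 with rfl | rfl | rfl <;> simp [e3]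

omit hφ in
theorem unip [Fintype K] {q : ℕ} (hq : 2 ≤ q) (hK : Fintype.card K = q ^ 3) (hf : ∀ t, f t = t ^ q)
    {u : GL chevD4.Idx K} (hu : u ∈ (R f).Q {1}) : ∃ g ∈ (R f).G, g * u * g⁻¹ ∈ (R f).Q {0} := by
  have h0 : ∀ i ∈ (twD4 f).S 1, chevD4.cw 23 ⬝ᵥ chevD4.wt (chevD4.sr i) = 0 := by
    simp only [mem_S]; decide +kernel
  have key : ∀ g ∈ (R f).L {1}, g ∈ (chevD4.rootBN K).L ((twD4 f).S 1) → ∃ t, f t = t ∧
      cf (chevD4.cw 23) (g * u) (d4r 14) = -t ∧ (t = 0 → g * u * g⁻¹ ∈ (R f).Q {0}) := fun g hg hg' => by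
    obtain ⟨x, hx, y, hy, e⟩ := factor_US_Q {0} (Q_le_U _ (Data.conj_L_Q hg hu))
    rw [RootBN.US_singleton] at hx
    have hx' := hx
    obtain ⟨t, ht, rfl⟩ := mem_X.1 hx
    refine ⟨t, ht, ?_, by rintro rfl; rwa [e, Twist.y_zero, one_mul]⟩
    erw [Sub.rel_X_simple] at hx'
    erw [Sub.rel_Q_singleton] at hy
    rw [← cf_mul_right h0 _ (inv_mem hg'), e, cf_mul_Q (v := fun i => [2, 3, 2, 2].getD i 0)
      (S := (twD4 f).S 0) (by simp only [mem_S]; decide +kernel) (by simp only [mem_S]; decide +kernel)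
      _ hx'.1 hy.1 (r := d4r 14)
      (((chevD4.rootBN K).supp_simple (d4n 1)).le.trans (by rintro _ rfl; simp [mem_S])), (twD4_y f t).1]
    refine (cf_X (chevD4.cw 23) (d4r 14) t).trans ?_
    rw [show chevD4.cw 23 ⬝ᵥ chevD4.wt (d4r 14) = 1 by decide +kernel]
    simp
  have hf3 := twD4_f_cube hK hf
  by_cases h : cf (chevD4.cw 23) u (d4r 22) = 0
  · obtain ⟨t, -, h1, h2⟩ := key _ (s_mem_L (R := R f) (i := 1) rfl)
      (NS_le_L _ ((twD4 f).sub.t_mem_NS 1))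
    refine ⟨_, (twD4 f).t_mem_G1 1, h2 (neg_eq_zero.1 (h1.symm.trans ?_))⟩
    have := cf_N_mul ((twD4 f).t_mem_N 1) _ _ h
    rwa [show chevD4.wOf K ((twD4 f).t 1) (d4r 22) = d4r 14 from Fin.ext (by
      rw [Twist.wOf_t_val, twD4_lw]; decide +kernel)] at this
  have h1 : ∀ s, (twD4 f).ym 1 s ∈ (R f).X ((R f).neg ((R f).simple 1)) := fun s =>
    mem_X_neg_iff.2 ⟨_, mem_X.2 ⟨-s, hf3 _, rfl⟩, ((twD4 f).t_conj_y 1 (-s)).symm ▸ by rw [_root_.neg_neg]⟩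
  have h2 : ∀ s, (twD4 f).ym 1 s ∈ (chevD4.rootBN K).L ((twD4 f).S 1) := fun s => by
    rw [← _root_.neg_neg s, ← Twist.t_conj_y]
    have := NS_le_L _ ((twD4 f).sub.t_mem_NS 1)
    exact mul_mem (mul_mem this (US_le_L _ ((twD4 f).y_mem_US 1 _))) (inv_mem this)
  set w := cf (chevD4.cw 23) u
  obtain ⟨s, hs⟩ := exists_root_cube hq hK (w (d4r 14)) (w (d4r 15)) (w (d4r 16)) (w (d4r 17))
    (-w (d4r 19)) (-w (d4r 20)) (-w (d4r 21)) (-w (d4r 22)) (neg_ne_zero.2 h)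
    (fun s => cf (chevD4.cw 23) ((twD4 f).ym 1 s * u) (d4r 14))
    (fun s => by
      obtain ⟨t, ht, h3, -⟩ := key _ (X_neg_le_L _ (h1 s)) (h2 s)
      rw [h3, ← hf, map_neg, ht])
    (fun s => by
      rw [(twD4_ym f s).2, mul_assoc, mul_assoc]
      change cf _ (chevD4.X K (d4r 5) _ * (chevD4.X K (d4r 10) _ * (chevD4.X K (d4r 11) _ * u))) _ = _
      rw [cf_X_mul (s := d4r 19) (ε := -1) (by decide +kernel),
        cf_X_mul (u := d4r 14) (s := d4r 16) (ε := 1) (by decide +kernel),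
        cf_X_mul (u := d4r 19) (s := d4r 21) (ε := 1) (by decide +kernel),
        cf_X_mul (u := d4r 14) (s := d4r 15) (ε := 1) (by decide +kernel),
        cf_X_mul (u := d4r 16) (s := d4r 17) (ε := 1) (by decide +kernel),
        cf_X_mul (u := d4r 19) (s := d4r 20) (ε := 1) (by decide +kernel),
        cf_X_mul (u := d4r 21) (s := d4r 22) (ε := 1) (by decide +kernel), tw_frob_pow hf, hf]
      push_cast
      ring)
  obtain ⟨t, -, h3, h4⟩ := key _ (X_neg_le_L _ (h1 s)) (h2 s)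
  exact ⟨_, (h1 s).2, h4 (neg_eq_zero.1 (h3.symm.trans hs))⟩

theorem main [Fintype K] {q : ℕ} (hq : 2 ≤ q) (hK : Fintype.card K = q ^ 3) (hf : ∀ t, f t = t ^ q) :
    Nonempty (Data (R f) (Fx f)) := by
  classical
  have hf3 := twD4_f_cube hK hf
  obtain ⟨m, hm, hm1, hm2⟩ := exists_neg_one (twD4 f).sub (twD4 f).cover_S
    (l := (List.replicate 3 [d4n 0, d4n 2, d4n 3, d4n 1]).flatten) (by decide +kernel)
  obtain ⟨d, hd⟩ := Fintype.exists_ne_of_one_lt_card (α := Kˣ) (by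
    have := Nat.pow_le_pow_left hq 3
    rw [Fintype.card_units]; omega) 1
  have hX : ∀ g, g ∈ (R f).X ((R f).simple 0) ↔ ∃ t : Fx f, g = chevD4.X K 14 t := fun g => by
    simp only [mem_X, (twD4_y f _).1]
    exact ⟨fun ⟨t, h, e⟩ => ⟨⟨t, h⟩, e⟩, fun ⟨t, e⟩ => ⟨t, t.2, e⟩⟩
  have hY : ∀ g, g ∈ (R f).X ((R f).neg ((R f).simple 0)) ↔ ∃ t : Fx f, g = chevD4.X K 9 t := fun g => by
    have : ∀ t, (R f).s 0 * chevD4.X K 14 t * ((R f).s 0)⁻¹ = chevD4.X K 9 (-t) := fun t => by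
      rw [← (twD4_y f _).1, ← (twD4_ym f _).1]; exact (twD4 f).t_conj_y 0 t
    simp only [mem_X_neg_iff, hX]
    exact ⟨by rintro ⟨_, ⟨t, rfl⟩, e⟩; exact ⟨-t, e.trans (this t)⟩,
      fun ⟨t, e⟩ => ⟨_, ⟨-t, rfl⟩, by simpa [this] using e⟩⟩
  have hch : ∀ c ∈ (twD4 f).C, ∃ e : (Fx f)ˣ, ((e : Fx f) : K) = (tv c (chevD4.wt (d4r 14)) : Kˣ) :=
    fun c hc => by
    obtain ⟨g, hg, e0, e1, e2, e3, -⟩ := memC hc
    refine ⟨Units.mk0 ⟨(tv c (chevD4.wt (d4r 14)) : Kˣ), (hg _).symm.trans (congrArg Units.val ?_)⟩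
      fun e => Units.ne_zero _ (congrArg Subtype.val e), rfl⟩
    simp [(tv_wt c).1, e0, e1, e2, e3, mul_comm, mul_left_comm, mul_assoc]
  exact ⟨{
    a := 1
    b := 0
    ne := by decide
    all := by decide
    φ := φ.comp (Matrix.SpecialLinearGroup.map (Fx f).subtype)
    memX g := by simp only [MonoidHom.comp_apply, map_slUp, hφ.1]; exact hX g
    memY g := by simp only [MonoidHom.comp_apply, map_slLo, hφ.2]; exact hY g
    comm _ hh _ hk := chevD4.diagonal_comm K hh.1 hk.1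
    ch h hh := by
      obtain ⟨c, hc, rfl⟩ := mem_H.1 hh
      exact (hch c hc).imp fun e he => (hφ.ch_map _ c e).2 he
    ch_surj e := by
      let u := Units.map ((Fx f).subtype : Fx f →* K) e
      have hu : f u = u := (e : Fx f).2
      refine ⟨_, mem_H.2 ⟨fun i => if i = d4n 1 then u ^ 2 else u, ?_, rfl⟩, (hφ.ch_map _ _ e).2 ?_⟩
      · simp +decide [twD4_mem_C, hu]
      · rw [(tv_wt _).1]
        exact congrArg Units.val (show u = u⁻¹ * (u ^ 2) ^ 2 * u⁻¹ * u⁻¹ by group)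
    m := m
    m_mem := hm
    w_m_a := hm2 _
    m_H _ hh := conj_H_eq_inv hm.1 hm1 hh.1
    m_φ := by
      obtain ⟨a, h1, h2⟩ := chevD4.exists_conj_X_wOf K hm.1 (d4r 14)
      rw [hm1] at h1 h2
      obtain ⟨t, ht⟩ := (hY _).1 (hm2 _ ▸ (R f).conj_X hm ((hX _).2 ⟨1, rfl⟩))
      have h3 : (a : K) = t := by simpa using chevD4.X_injective K _ ((h1 1).symm.trans ht)
      refine ⟨Units.mk0 t fun e => a.ne_zero (by simp [h3, e]), fun t => ?_⟩
      simp [map_slUp, map_slLo, hφ.1, hφ.2, h1, h2, h3]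
    tor k hk := by
      obtain ⟨c, hc, rfl⟩ := mem_H.1 hk
      have h1 := (twD4 f).cvec_mem_C 1 (u := c (d4n 0)) (hf3 _)
      refine ⟨_, mem_H.2 ⟨_, h1, rfl⟩, _, mem_X.2 ⟨-c (d4n 0), hf3 _, rfl⟩, _,
        mem_X.2 ⟨-c (d4n 0), hf3 _, rfl⟩,
        mem_X_neg_iff.2 ⟨_, mem_X.2 ⟨(c (d4n 0))⁻¹, hf3 _, rfl⟩, ?_⟩, ?_⟩
      · refine Eq.trans ?_ ((twD4 f).t_conj_y 1 _).symm
        rw [Twist.ym_eq _ _ (by simp), Twist.nn_eq_hh_mul, Twist.torusHom_cvec]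
        simp [mul_assoc]
        rfl
      · rw [← map_inv, ← map_mul]
        refine eq_diag hφ (mul_mem (inv_mem h1) hc) (inv_mul_eq_one.2 ?_)
        exact ((twD4 f).cvec_node 1 _ (k := 0) ((twD4 f).d_pos 1)).trans (Units.ext rfl)
    S := {h | ∃ c ∈ (twD4 f).C, h = chevD4.torusHom K c ∧ c (d4n 0) ≠ 1}
    mem_S h hh := by
      obtain ⟨c, hc, rfl⟩ := mem_H.1 hh
      exact (em _).imp (eq_diag hφ hc) fun h => ⟨c, hc, rfl, h⟩
    exists_S := by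
      have h1 := (twD4 f).cvec_mem_C 1 (u := d) (hf3 _)
      exact ⟨_, mem_H.2 ⟨_, h1, rfl⟩, _, h1, rfl, fun e => hd
        ((((twD4 f).cvec_node 1 _ (k := 0) ((twD4 f).d_pos 1)).trans (Units.ext rfl)).symm.trans e)⟩
    fpf := by
      rintro _ - ⟨c, hC, rfl, hc⟩ e A he hA v hv h
      erw [Sub.rel_Q_singleton] at hv
      exact fpf hφ hf3 hC hc ((hφ.ch_map _ c e).1 he) hA hv.1 h
    cent1 h hh h1 h2 := by
      obtain ⟨c, hc, rfl⟩ := mem_H.1 hh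
      exact eq_one_of_tv hc (tv_eq_one_of_commute (comm18 hf3 hh h1 1))
        (Units.ext (by simpa using ((hφ.ch_map _ c 1).1 h2).symm))
    cent2 h hh h1 h2 := by
      have hs := (R f).s_mem 0
      obtain ⟨a, ha, -⟩ := chevD4.exists_conj_X_wOf K hs.1 (d4r 18)
      have h3 := comm18 hf3 (conj_H (inv_mem hs) hh) (fun x hx => by
        calc _ = ((R f).s 0)⁻¹ * (h * ((R f).s 0 * x * ((R f).s 0)⁻¹)) * (R f).s 0 := by group
          _ = _ := by rw [h2 x hx]; group) (a⁻¹ : Kˣ)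
      obtain ⟨c, hc, rfl⟩ := mem_H.1 hh
      have h4 := tv_eq_one_of_commute (comm18 hf3 hh h1 1)
      have h5 := tv_eq_one_of_commute (c := c) (r := chevD4.wOf K ((R f).s 0) (d4r 18)) (by
        rw [← a.mul_inv, ← ha]
        calc _ = (R f).s 0 * (((R f).s 0)⁻¹ * chevD4.torusHom K c * ((R f).s 0)⁻¹⁻¹ *
            chevD4.X K (d4r 18) (a⁻¹ : Kˣ)) * ((R f).s 0)⁻¹ := by group
          _ = _ := by rw [h3]; group)
      rw [show chevD4.wt (chevD4.wOf K ((R f).s 0) (d4r 18)) = chevD4.wt (d4r 18) + chevD4.wt (d4r 14) by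
        erw [Twist.wOf_t_val, twD4_lw]; decide +kernel, tv_add, h4, one_mul] at h5
      exact Or.inl (eq_one_of_tv hc h4 h5)
    unip _ := unip hq hK hf }⟩

end D4

end Cfsg.Agent.Chev.Th
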