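import Mathlib
import Cfsg.Agent.Chev.ThD4
import Cfsg.Agent.Chev.F4TwMult
import Cfsg.Agent.Chev.F4TwGen

/-!
Thompson's conjecture for the large Ree groups.
-/

set_option autoImplicit false

namespace Cfsg.Agent.Chev.Th.F4

open Cfsg.Agent.Cl.GL2 Cfsg.Agent.GT RootBN Cfsg.Lie Cfsg.Lie.ChevalleyDatum F4T
open scoped MatrixGroups Matrix

variable {K : Type*} [Field K] [CharP K 2] (T : Tw K) {φ φ' : SL(2, K) →* Γ K}

theorem tv_eq {G : Type*} [CommGroup G] (c : chevF4.Nd → G) (v : chevF4.Lat) : tv c v =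
    c (nd 0) ^ v (nd 0) * c (nd 1) ^ v (nd 1) * c (nd 2) ^ v (nd 2) * c (nd 3) ^ v (nd 3) :=
  Fin.prod_univ_four _

theorem comm (hφ : IsSl chevF4 (rt 33) φ) (hφ' : IsSl chevF4 (rt 24) φ') (a b : SL(2, K)) :
    Commute (φ a) (φ' b) := by
  refine commute_of_gen (fun s => (commute_of_gen (fun t => ?_) (fun t => ?_) b).symm)
    (fun s => (commute_of_gen (fun t => ?_) (fun t => ?_) b).symm) a <;>
  simp only [hφ.1, hφ.2, hφ'.1, hφ'.2] <;> exact F4T.cm (by decide +kernel) _ _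

theorem unip {u : Γ K} (hu : u ∈ T.relBN.Q {1}) : ∃ g ∈ T.relBN.G, g * u * g⁻¹ ∈ T.relBN.Q {0} := by
  have h0 : ∀ i ∈ S 1, chevF4.cw 44 ⬝ᵥ chevF4.wt (chevF4.sr i) = 0 := by
    simp only [S, Finset.mem_coe]; decide +kernel
  have key : ∀ g ∈ T.relBN.L {1}, g ∈ (R K).L (S 1) → cf (chevF4.cw 44) (g * u) (rt 33) = 0 →
      g * u * g⁻¹ ∈ T.relBN.Q {0} := fun g hg hg' h => by
    obtain ⟨x, hx, y, hy, e⟩ := factor_US_Q {0} (Q_le_U _ (Data.conj_L_Q hg hu))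
    rw [RootBN.US_singleton, T.mem_relBN_simple] at hx
    obtain ⟨t, rfl⟩ := T.exists_y0 hx.1 hx.2
    have hy' := hy
    erw [Sub.rel_Q_singleton] at hy'
    rw [← cf_mul_right h0 _ (inv_mem hg'), e, cf_mul_Q (v := fun i => [5, 10, 14, 7].getD i 0) (S := S 0)
      (by simp only [S, Finset.mem_coe]; decide +kernel) (by simp only [S, Finset.mem_coe]; decide +kernel)
      _ hx.1 hy'.1 ((supp_iff 0 _).2 (by decide)).2] at h
    have h1 := (cf_X (chevF4.cw 44) (rt 33) (T.θ t)).symm.trans ((congrFun (cf_mul_right (S := {nd 3})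
      (by rintro _ rfl; decide +kernel) _
      (X_simple_le_L (R := R K) (nd 3) (chevF4.X_mem_rootSubgroup K (rt 24) t))) _).symm.trans h)
    rw [show chevF4.cw 44 ⬝ᵥ chevF4.wt (rt 33) = 1 by decide +kernel] at h1
    rwa [e, show t = 0 by simpa using h1, T.y0_zero, one_mul]
  set w := cf (chevF4.cw 44) u
  by_cases h : w (rt 33) = 0
  · exact ⟨1, one_mem _, key 1 (one_mem _) (one_mem _) (by rwa [one_mul])⟩
  have h1 : ∀ t v, T.y1 t v ∈ T.relBN.L {1} := fun t v =>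
    X_simple_le_L _ (T.mem_relBN_simple.2 ⟨T.y1_mem_US t v, T.y1_mem t v⟩)
  have h2 : ∀ t v, T.y1 t v ∈ (R K).L (S 1) := fun t v => US_le_L _ (T.y1_mem_US t v)
  have r1 : ∀ t v (g : Γ K), cf (chevF4.cw 44) (T.y1 t v * g) (rt 33) = cf (chevF4.cw 44) g (rt 33) ∧
      cf (chevF4.cw 44) (T.y1 t v * g) (rt 34) =
        cf (chevF4.cw 44) g (rt 34) + T.θ t * cf (chevF4.cw 44) g (rt 33) := fun t v g => by
    simp only [Tw.y1, q4, mul_assoc]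
    have k : ∀ r ∈ [27, 25, 28, 30], ∀ (t : K) (g : Γ K),
        cf (chevF4.cw 44) (𝐱 (rt r) t * g) (rt 33) = cf (chevF4.cw 44) g (rt 33) := fun r hr t g => by
      simpa using cf_X_mul (r := rt r) (u := rt 33) (s := rt 0) (ε := 0) (by revert r; decide +kernel) _ t g
    have k' : ∀ r ∈ [25, 28, 30], ∀ (t : K) (g : Γ K),
        cf (chevF4.cw 44) (𝐱 (rt r) t * g) (rt 34) = cf (chevF4.cw 44) g (rt 34) := fun r hr t g => by
      simpa using cf_X_mul (r := rt r) (u := rt 34) (s := rt 0) (ε := 0) (by revert r; decide +kernel) _ t g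
    change cf _ (𝐱 (rt 27) _ * (𝐱 (rt 25) _ * (𝐱 (rt 28) _ * (𝐱 (rt 30) _ * g)))) _ = _ ∧
      cf _ (𝐱 (rt 27) _ * (𝐱 (rt 25) _ * (𝐱 (rt 28) _ * (𝐱 (rt 30) _ * g)))) _ = _
    rw [cf_X_mul (u := rt 34) (s := rt 33) (ε := 1) (by decide +kernel)]
    simp [k, k']
  obtain ⟨t, ht⟩ : ∃ t, cf (chevF4.cw 44) (T.y1 t 0 * u) (rt 34) = 0 :=
    ⟨T.θ (w (rt 34) / w (rt 33)) ^ 2, by rw [(r1 _ _ _).2, T.θ_sq, div_mul_cancel₀ _ h, CharTwo.add_self_eq_zero]⟩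
  obtain ⟨v, hv⟩ : ∃ v, cf (chevF4.cw 44) (T.y1 0 v * (T.y1 t 0 * u)) (rt 37) = 0 := by
    refine ⟨T.θ (cf (chevF4.cw 44) (T.y1 t 0 * u) (rt 37) / w (rt 33)), ?_⟩
    generalize hg : T.y1 t 0 * u = g at ht
    have h3 : cf (chevF4.cw 44) g (rt 33) = w (rt 33) := hg ▸ (r1 _ _ _).1
    rw [Tw.y1, q4, T.hθ, map_zero, X_zero, X_zero, one_mul, one_mul, mul_assoc]
    change cf _ (𝐱 (rt 28) _ * (𝐱 (rt 30) _ * g)) _ = _
    rw [cf_X_mul (s := rt 34) (ε := -1) (by decide +kernel), cf_X_mul (s := rt 33) (ε := 1) (by decide +kernel),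
      cf_X_mul (u := rt 34) (s := rt 0) (ε := 0) (by decide +kernel), ht, h3]
    simp [h, CharTwo.add_self_eq_zero]
  refine ⟨tt K 1 * (T.y1 0 v * T.y1 t 0), mul_mem (T.tt_mem 1) (mul_mem (T.y1_mem _ _) (T.y1_mem _ _)),
    key _ (mul_mem (s_mem_L (R := T.relBN) (i := 1) rfl) (mul_mem (h1 _ _) (h1 _ _)))
      (mul_mem (NS_le_L _ (T.sub.t_mem_NS 1)) (mul_mem (h2 _ _) (h2 _ _))) ?_⟩
  have := cf_N_mul (tt_mem_N 1) _ _ hv
  rwa [show chevF4.wOf K (tt K 1) (rt 37) = rt 33 from Fin.ext (by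
    rw [tt, wOf_nWordS_val]; decide +kernel), ← mul_assoc (T.y1 0 v), ← mul_assoc] at this

variable (hφ : IsSl chevF4 (rt 33) φ) (hφ' : IsSl chevF4 (rt 24) φ')

/-- The Levi factor `SL₂(q)`. -/
def psi : SL(2, K) →* Γ K :=
  MonoidHom.mk' (fun g => φ (Matrix.SpecialLinearGroup.map T.θ g) * φ' g) fun a b => by
    simp only [map_mul, mul_assoc]
    rw [← mul_assoc (φ' a), ← (comm hφ hφ' _ a).eq, mul_assoc]

theorem psi_up (t : K) : psi T hφ hφ' (slUp t) = T.y0 t := by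
  rw [psi, MonoidHom.mk'_apply, map_slUp, hφ.1, hφ'.1]; rfl

theorem psi_lo (t : K) : psi T hφ hφ' (slLo t) = tt K 0 * T.y0 t * (tt K 0)⁻¹ := by
  rw [psi, MonoidHom.mk'_apply, map_slLo, hφ.2, hφ'.2, T.tt_conj_y0]; rfl

theorem ch (a b : Kˣ) : Ch (psi T hφ hφ') (T.hh a b) (a ^ 2 * b⁻¹) := fun t => by
  rw [psi_up, psi_up, psi_lo, psi_lo, T.hh_conj_y0, show (a ^ 2 * b⁻¹)⁻¹ = (a⁻¹ * b) ^ 2 * b⁻¹ by
    simp [sq, mul_comm, mul_left_comm], ← T.hh_conj_y0 (a⁻¹ * b), ← (T.tt_conj_hh a b).1, and_iff_right rfl]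
  simp [tt_inv, mul_assoc, ← mul_assoc (tt K 0) (tt K 0), tt_mul_self]

theorem eq_of_ch {a b e : Kˣ} (h : Ch (psi T hφ hφ') (T.hh a b) e) : a ^ 2 * b⁻¹ = e := by
  have := ((ch T hφ hφ' a b 1).1.symm.trans (h 1).1)
  rw [psi_up, psi_up] at this
  exact Units.ext (by simpa using T.y0_inj this)

theorem hh_mem_range (a : Kˣ) : T.hh a 1 ∈ (psi T hφ hφ').range := by
  have h : ∀ a : Kˣ, T.hh a 1 * tt K 0 ∈ (psi T hφ hφ').range := fun a => by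
    rw [← T.y0_rank_one, ← psi_lo T hφ hφ', ← psi_up T hφ hφ', ← map_mul, ← map_mul]
    exact ⟨_, rfl⟩
  simpa [T.hh_one] using mul_mem (h a) (inv_mem (h 1))

theorem fpf [Finite K] {m : ℕ} (hθ : ∀ x, T.θ x = x ^ 2 ^ m) {a b : Kˣ} (hb : b ≠ 1) {A : SL(2, K)}
    (h : IsEll ((Matrix.SpecialLinearGroup.toGL A * dg (a ^ 2 * b⁻¹) : GL (Fin 2) K) : Mat K))
    {v : Γ K} (hv : v ∈ (R K).Q (S 0))
    (e : psi T hφ hφ' A * T.hh a b * v = v * (psi T hφ hφ' A * T.hh a b)) : v = 1 := by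
  obtain ⟨h1, h2⟩ := ell_entries h
  obtain ⟨L, _, ι, τ, μ, h3, h4, h5, h6⟩ := exists_quad h2
  have := charP_of_injective_ringHom ι.injective 2
  obtain ⟨ψ, hψ⟩ : ∃ ψ, IsSl chevF4 (rt 33) ψ := chevF4.exists_sl2Hom L (rt 33)
  obtain ⟨ψ', hψ'⟩ : ∃ ψ, IsSl chevF4 (rt 24) ψ := chevF4.exists_sl2Hom L (rt 24)
  set c : chevF4.Nd → Kˣ := fun i => [T.θu a, T.θu b, b, a].getD i 1 with hc
  set c' : chevF4.Nd → Lˣ := fun i => Units.map (ι : K →* L) (c i)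
  set d := a ^ 2 * b⁻¹ with hd
  have h7 : ∀ w, tv c' w = Units.map (ι : K →* L) (tv c w) := fun w => tv_map _ _ _
  have h8 : tv c (chevF4.wt (rt 24)) = d ∧ tv c (chevF4.wt (rt 33)) = T.θu d := by
    have : ∀ i : Fin 4, chevF4.wt (rt 24) (nd i) = ![0, 0, -1, 2] i ∧
      chevF4.wt (rt 33) (nd i) = ![2, -1, 0, 0] i := by decide +kernel
    simp only [tv_eq, this]
    simp [hd, hc, nd, zpow_ofNat, mul_comm]
  have h9 : (μ : L) ^ 2 ≠ ι d := fun e => h6 (mul_left_cancel₀ μ.ne_zero (by rw [h5, ← sq, e]))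
  let ϑ := iterateFrobenius L 2 m
  have hϑ : ∀ x, ϑ (ι x) = ι (T.θ x) := fun x => by rw [iterateFrobenius_def, hθ, map_pow]
  obtain ⟨E', hE'⟩ := hψ'.exists_diag c' (μ := μ) (A := Matrix.SpecialLinearGroup.map ι A)
    (by simpa using h1) (by simpa [h7, h8] using h4) (by simpa [h7, h8] using h9)
  have h10 : tv ((fun i => μ⁻¹ ^ chevF4.cw (rt 24) i) * c') (chevF4.wt (rt 33)) =
      Units.map (ι : K →* L) (T.θu d) := by
    rw [tv_mul, tv_cw, show chevF4.pairing (rt 24) (rt 33) = 0 by decide +kernel, zpow_zero, one_mul, h7, h8.2]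
  obtain ⟨E, hE⟩ := hψ.exists_diag ((fun i => μ⁻¹ ^ chevF4.cw (rt 24) i) * c') (μ := μ ^ 2 ^ m)
    (A := Matrix.SpecialLinearGroup.map ι (Matrix.SpecialLinearGroup.map T.θ A)) (by simpa using h1)
    (by rw [h10]; simpa [hϑ, ← iterateFrobenius_def] using congrArg ϑ h4)
    (fun e => h9 (ϑ.injective (by rw [map_pow, hϑ]; rwa [h10] at e)))
  have hs : ∀ r : chevF4.Rt, (r : ℕ) ∈ posS 0 → (R L).supp r ⊆ S 0 := fun r hr => ((supp_iff 0 r).2 hr).2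
  refine fpf_of_conj ι (mul_mem (hψ.mem_L (hs _ (by decide)) E) (hψ'.mem_L (hs _ (by decide)) E'))
    (Eq.trans ?_ hE) (fun r hr e => ?_) hv e
  · rw [← hE', psi, MonoidHom.mk'_apply, map_mul, map_mul, hφ.map ι hψ, hφ'.map ι hψ', Tw.hh, tor, glMap_torus,
      mul_assoc (ψ E), ← mul_assoc (ψ' E'), ← mul_assoc (ψ' E'), ← (comm hψ hψ' _ _).eq]
    simp only [_root_.mul_inv_rev, mul_assoc]
    rfl
  have key : ∀ r : chevF4.Rt, 24 ≤ (r : ℕ) → (r : ℕ) ∈ posS 0 ∨ ∀ v, v = (2 : ℤ) • chevF4.wt r +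
      (-chevF4.pairing (rt 33) r) • chevF4.wt (rt 33) + (-chevF4.pairing (rt 24) r) • chevF4.wt (rt 24) →
      v (nd 0) = 0 ∧ v (nd 3) = 0 ∧ v (nd 1) ^ 2 - 2 * v (nd 2) ^ 2 ∣ 8 := by
    simp only [forall_eq]; decide +kernel
  refine (key r ((pos_iff r).1 hr)).elim (hs r) fun k => absurd (T.eq_one_of_θ_zpow (k _ rfl).2.2 ?_) hb
  rw [tv_mul, tv_mul, tv_cw, tv_cw, h7] at e
  have e1 := congrArg (Units.map (τ : L →* L)) e
  have e2 : Units.map (τ : L →* L) μ = Units.map (ι : K →* L) d * μ⁻¹ :=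
    eq_mul_inv_of_mul_eq (Units.ext ((mul_comm _ _).trans h5))
  have e3 : ∀ x, Units.map (τ : L →* L) (Units.map (ι : K →* L) x) = Units.map (ι : K →* L) x :=
    fun x => Units.ext (h3 x)
  have e4 : Units.map (ι : K →* L) d ^ 2 ^ m = Units.map (ι : K →* L) (T.θu d) :=
    Units.ext (by simp [hθ])
  simp only [map_mul, map_zpow, map_inv, map_pow, e2, e3, mul_pow, e4, map_one] at e1
  have e5 := tv_eq c ((2 : ℤ) • chevF4.wt r + (-chevF4.pairing (rt 33) r) • chevF4.wt (rt 33) +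
    (-chevF4.pairing (rt 24) r) • chevF4.wt (rt 24))
  rw [(k _ rfl).1, (k _ rfl).2.1, zpow_zero, zpow_zero, one_mul, mul_one, tv_add, tv_add, tv_smul, tv_smul,
    tv_smul, h8.1, h8.2] at e5
  refine e5.symm.trans (Units.map_injective (f := (ι : K →* L)) ι.injective ?_)
  refine Eq.trans ?_ ((congrArg₂ (· * ·) e e1).trans (by simp))
  simp [mul_zpow, zpow_ofNat, sq, mul_comm, mul_left_comm, mul_assoc]

/-- The data for the large Ree groups. -/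
noncomputable def data [Finite K] {m : ℕ} (hθ : ∀ x, T.θ x = x ^ 2 ^ m) {d : Kˣ} (hd : d ≠ 1) :
    Data T.relBN K where
  a := 1
  b := 0
  ne := by decide
  all := by decide
  φ := psi T hφ hφ'
  memX g := by
    simp only [psi_up, T.mem_relBN_simple]
    exact ⟨fun h => T.exists_y0 h.1 h.2, by rintro ⟨t, rfl⟩; exact ⟨T.y0_mem_US t, T.y0_mem t⟩⟩
  memY g := by
    simp only [psi_lo, mem_X_neg_iff, T.mem_relBN_simple]
    exact ⟨fun ⟨x, h, e⟩ => (T.exists_y0 h.1 h.2).imp fun t e' => by rwa [← e'],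
      fun ⟨t, e⟩ => ⟨_, ⟨T.y0_mem_US t, T.y0_mem t⟩, e⟩⟩
  comm _ hh _ hk := chevF4.diagonal_comm K hh.1 hk.1
  ch h hh := by
    obtain ⟨a, b, rfl⟩ := T.exists_hh hh.1 hh.2
    exact ⟨_, ch T hφ hφ' a b⟩
  ch_surj c := ⟨_, ⟨T.hh_mem_H 1 c⁻¹, T.hh_mem _ _⟩, by simpa using ch T hφ hφ' 1 c⁻¹⟩
  m := m0 K
  m_mem := ⟨m0_mem_N, T.m0_mem⟩
  w_m_a := Subtype.ext ((Sub.coe_relW ⟨m0_mem_N, T.m0_mem⟩ _).trans (Set.image_congr fun r _ => by
    rw [m0, nn_eq]; exact wOf_nWordS_eq_ng (by decide +kernel) r))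
  m_H _ hh := conj_H_eq_inv m0_mem_N (by rw [m0, nn_eq]; exact wOf_nWordS_eq_ng (by decide +kernel)) hh.1
  m_φ := ⟨1, fun t => by
    simp [psi_up, psi_lo, ← T.m0_conj_y0, inv_eq_of_mul_eq_one_right m0_mul_self, mul_assoc,
      ← mul_assoc (m0 K) (m0 K), m0_mul_self]⟩
  tor k hk := by
    obtain ⟨a, b, rfl⟩ := T.exists_hh hk.1 hk.2
    obtain ⟨x, hx, hxF, h, hh, hF, y, hy, hyF, e⟩ := T.sub.rank_one (T.y1_mem_US 0 1) (T.y1_mem 0 1)
      fun h => one_ne_zero (T.y1_eq_one.1 h).2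
    obtain ⟨c, d, rfl⟩ := T.exists_hh hh hF
    obtain ⟨v, hv⟩ : ∃ v, d * (v * v) = b := ⟨T.θu (T.θu (d⁻¹ * b)), by rw [← sq, T.hθu, mul_inv_cancel_left]⟩
    have hv' : T.hh 1 v ∈ T.relBN.H := ⟨T.hh_mem_H _ _, T.hh_mem _ _⟩
    refine ⟨_, ⟨T.hh_mem_H c b, T.hh_mem _ _⟩, _, conj_H_X hv' (T.mem_relBN_simple.2 ⟨hx, hxF⟩), _,
      conj_H_X hv' (T.mem_relBN_simple.2 ⟨hy, hyF⟩), ?_, ?_⟩
    · convert conj_H_X hv' (conj_s_X (T.mem_relBN_simple.2 ⟨T.y1_mem_US 0 1, T.y1_mem 0 1⟩)) using 1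
      have e1 : tt K 1 * T.hh 1 v⁻¹ * (tt K 1)⁻¹ = T.hh 1 v := by simpa using (T.tt_conj_hh 1 v⁻¹).2
      have e2 : T.hh 1 v⁻¹ = (T.hh 1 v)⁻¹ := eq_inv_of_mul_eq_one_left (by simp [T.hh_mul, T.hh_one])
      have e3 : T.hh c b = T.hh 1 v * T.hh c d * T.hh 1 v := by simp [T.hh_mul, ← hv, mul_comm, mul_left_comm]
      erw [e]
      rw [e3]
      nth_rw 4 [← e1]
      rw [e2]
      change _ * _ * tt K 1 * _ = _ * (_ * _ * tt K 1 * _) * _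
      group
    · rw [show (T.hh c b)⁻¹ * T.hh a b = T.hh (c⁻¹ * a) 1 by rw [inv_mul_eq_iff_eq_mul, T.hh_mul]; simp]
      exact hh_mem_range T hφ hφ' _
  S := {h | ∃ a b, h = T.hh a b ∧ b ≠ 1}
  mem_S h hh := by
    obtain ⟨a, b, rfl⟩ := T.exists_hh hh.1 hh.2
    exact (em (b = 1)).imp (by rintro rfl; exact hh_mem_range T hφ hφ' a) fun h => ⟨a, b, rfl, h⟩
  exists_S := ⟨_, ⟨T.hh_mem_H 1 d, T.hh_mem _ _⟩, 1, d, rfl, hd⟩
  fpf := by
    rintro _ - ⟨a, b, rfl, hb⟩ e A he hA v hv h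
    erw [Sub.rel_Q_singleton] at hv
    exact fpf T hφ hφ' hθ hb (eq_of_ch T hφ hφ' he ▸ hA) hv.1 h
  cent1 h hh h1 h2 := by
    obtain ⟨a, b, rfl⟩ := T.exists_hh hh.1 hh.2
    have := T.hh_conj_y1 a b 1 0
    rw [h1 _ (T.mem_relBN_simple.2 ⟨T.y1_mem_US 1 0, T.y1_mem 1 0⟩), mul_inv_cancel_right] at this
    exact T.hh_eq_one (eq_of_ch T hφ hφ' h2) (Units.ext (by simpa using (T.y1_inj this).1.symm))
  cent2 h hh h1 h2 := by
    obtain ⟨a, b, rfl⟩ := T.exists_hh hh.1 hh.2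
    have h3 := T.mem_relBN_simple.2 ⟨T.y1_mem_US 1 0, T.y1_mem 1 0⟩
    have h4 := T.hh_conj_y1 a b 1 0
    have h5 := T.hh_conj_y1 (a⁻¹ * b) b 1 0
    rw [h1 _ h3, mul_inv_cancel_right] at h4
    rw [← (T.tt_conj_hh a b).1, show tt K 0 * T.hh a b * (tt K 0)⁻¹ * T.y1 1 0 =
      tt K 0 * (T.hh a b * (tt K 0 * T.y1 1 0 * (tt K 0)⁻¹)) * tt K 0 by rw [tt_inv]; simp [mul_assoc, tt_mul_self],
      show T.hh a b * (tt K 0 * _ * (tt K 0)⁻¹) = _ from h2 _ h3] at h5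
    have h6 : T.bval a b = 1 := Units.ext (by simpa using (T.y1_inj h4).1.symm)
    have h7 : T.bval (a⁻¹ * b) b = 1 := Units.ext (by
      simpa using (T.y1_inj (Eq.trans (by
        change _ = tt K 0 * (tt K 0 * _ * (tt K 0)⁻¹ * _) * _ * _
        simp [tt_inv, mul_assoc, ← mul_assoc (tt K 0) (tt K 0), tt_mul_self]) h5 : T.y1 1 0 = _)).1.symm)
    refine Or.inl (T.hh_eq_one ?_ h6)
    have h8 := h6.trans h7.symm
    simp only [Tw.bval, mul_left_inj, mul_right_inj, inv_inj] at h8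
    rw [sq, mul_inv_eq_one]
    exact mul_eq_of_eq_inv_mul h8
  unip _ := unip T

end Cfsg.Agent.Chev.Th.F4
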