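import Mathlib
import Cfsg.Agent.Chev.ThCoef
import Cfsg.Agent.Chev.ChevLie
import Cfsg.Agent.Chev.Good

/-!
Thompson's conjecture for `G₂(q)`.
-/

set_option autoImplicit false

namespace Cfsg.Agent.Chev.Th.G2

open Cfsg.Agent.Cl.GL2 Cfsg.Agent.GT RootBN Cfsg.Lie Cfsg.Lie.ChevalleyDatum
open scoped MatrixGroups Matrix

/-- The nodes. -/
def nd (i : Fin 2) : chevG2.Nd := i

/-- The roots. -/
def rt (i : Fin 12) : chevG2.Rt := i

theorem nd_cases : ∀ i : chevG2.Nd, i = nd 1 ∨ i = nd 0 := by decide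

theorem tv_eq {G : Type*} [CommGroup G] (c : chevG2.Nd → G) (v : chevG2.Lat) :
    tv c v = c (nd 0) ^ v (nd 0) * c (nd 1) ^ v (nd 1) := Fin.prod_univ_two _

theorem tv_wt {G : Type*} [CommGroup G] (c : chevG2.Nd → G) :
    tv c (chevG2.wt (rt 7)) = c (nd 0) ^ 2 * (c (nd 1))⁻¹ ∧
    tv c (chevG2.wt (rt 6)) = (c (nd 0) ^ 3)⁻¹ * c (nd 1) ^ 2 ∧
    tv c (chevG2.wt (rt 10)) = c (nd 0) ^ 3 * (c (nd 1))⁻¹ ∧ tv c (chevG2.wt (rt 11)) = c (nd 1) := by
  have : ∀ i : Fin 2, chevG2.wt (rt 7) (nd i) = ![2, -1] i ∧ chevG2.wt (rt 6) (nd i) = ![-3, 2] i ∧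
    chevG2.wt (rt 10) (nd i) = ![3, -1] i ∧ chevG2.wt (rt 11) (nd i) = ![0, 1] i := by decide +kernel
  simp [tv_eq, this, zpow_ofNat]

variable {F : Type*} [Field F] {φ : SL(2, F) →* GL chevG2.Idx F} (hφ : IsSl chevG2 (rt 7) φ)
include hφ

theorem eq_diag {c : chevG2.Nd → Fˣ} (h : c (nd 1) = 1) :
    chevG2.torusHom F c = φ (uppS (c (nd 0)) 0) := by
  rw [hφ.diag]
  refine congrArg _ (funext fun i => ?_)
  rcases nd_cases i with rfl | rfl
  · exact h.trans (zpow_zero _).symm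
  · exact (zpow_one _).symm

theorem fpf [Finite F] {c : chevG2.Nd → Fˣ} (hc : c (nd 1) ≠ 1) {A : SL(2, F)}
    (h : IsEll ((Matrix.SpecialLinearGroup.toGL A * dg (tv c (chevG2.wt (rt 7))) : GL (Fin 2) F) : Mat F))
    {v : GL chevG2.Idx F} (hv : v ∈ (chevG2.rootBN F).Q {nd 0})
    (e : φ A * chevG2.torusHom F c * v = v * (φ A * chevG2.torusHom F c)) : v = 1 := by
  obtain ⟨h1, h2⟩ := ell_entries h
  obtain ⟨L, _, ι, τ, μ, h3, h4, h5, h6⟩ := exists_quad h2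
  obtain ⟨ψ, hψ⟩ : ∃ ψ, IsSl chevG2 (rt 7) ψ := chevG2.exists_sl2Hom L (rt 7)
  set c' : chevG2.Nd → Lˣ := fun i => Units.map (ι : F →* L) (c i)
  have h7 : ∀ w, ((tv c' w : Lˣ) : L) = ι (tv c w : Fˣ) := fun w => by rw [tv_map]; rfl
  obtain ⟨E, hE⟩ := hψ.exists_diag c' (A := Matrix.SpecialLinearGroup.map ι A) (μ := μ)
    (by simpa using h1) (by simpa [h7] using h4)
    (fun e => h6 (mul_left_cancel₀ μ.ne_zero (by rw [h5, ← sq, e, h7])))
  refine fpf_of_conj ι (hψ.mem_L ((chevG2.rootBN L).supp_simple (nd 0)).le E)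
    (by rw [map_mul, hφ.map ι hψ, glMap_torus]; exact hE) (fun r hr e => ?_) hv e
  have key : ∀ r : chevG2.Rt, 6 ≤ (r : ℕ) → r = rt 7 ∨ r = rt 11 ∨
      (2 : ℤ) • chevG2.wt r = chevG2.wt (rt 11) + chevG2.pairing (rt 7) r • chevG2.wt (rt 7) := by
    decide +kernel
  rw [tv_mul, tv_cw] at e
  rcases key r (by have := (chevG2.isPos_iff_le r).1 hr; change 12 ≤ _ at this; omega) with
    rfl | rfl | h8
  · exact ((chevG2.rootBN L).supp_simple (nd 0)).le
  · rw [show chevG2.pairing (rt 7) (rt 11) = 0 by decide +kernel, zpow_zero, one_mul, (tv_wt _).2.2.2] at e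
    exact absurd (Units.map_injective ι.injective (e.trans (map_one _).symm)) hc
  · refine absurd (Units.ext (ι.injective ?_)) hc
    have h9 := congrArg (tv c) h8
    rw [tv_smul, tv_add, tv_smul, (tv_wt _).2.2.2] at h9
    have e1 := congrArg Units.val e
    rw [Units.val_mul, h7, Units.val_zpow_eq_zpow_val, Units.val_inv_eq_inv_val, inv_zpow,
      Units.val_one, inv_mul_eq_one₀ (zpow_ne_zero _ μ.ne_zero)] at e1
    have e2 := congrArg τ e1
    rw [map_zpow₀, h3] at e2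
    have e3 := congrArg (fun x : Fˣ => ι x) h9
    simp only [Units.val_mul, Units.val_zpow_eq_zpow_val, map_mul, map_zpow₀] at e3
    rw [zpow_two, ← h5, mul_zpow, e2, e1, eq_comm, mul_eq_right₀ (by simp)] at e3
    simpa using e3

omit hφ in
theorem unip {u : GL chevG2.Idx F} (hu : u ∈ (chevG2.rootBN F).Q {nd 1}) :
    ∃ g ∈ (chevG2.rootBN F).G, g * u * g⁻¹ ∈ (chevG2.rootBN F).Q {nd 0} := by
  have h0 : ∀ i ∈ ({nd 1} : Set chevG2.Nd), chevG2.cw 9 ⬝ᵥ chevG2.wt (chevG2.sr i) = 0 := by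
    rintro _ rfl; decide +kernel
  have key : ∀ g ∈ (chevG2.rootBN F).L {nd 1}, cf (chevG2.cw 9) (g * u) (rt 7) = 0 →
      ∃ g ∈ (chevG2.rootBN F).G, g * u * g⁻¹ ∈ (chevG2.rootBN F).Q {nd 0} := fun g hg h => by
    refine ⟨g, L_le_G _ hg, ?_⟩
    obtain ⟨x, hx, y, hy, e⟩ := factor_US_Q {nd 0} (Q_le_U _ (Data.conj_L_Q hg hu))
    rw [← cf_mul_right h0 _ (inv_mem hg), e, cf_mul_Q (v := chevG2.cw 11)
      (by rintro _ rfl; decide +kernel) (by simp only [Set.mem_singleton_iff]; decide +kernel) _ hx hy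
      (r := rt 7) ((chevG2.rootBN F).supp_simple (nd 0)).le] at h
    rw [US_singleton] at hx
    obtain ⟨t, rfl⟩ := (chevG2.mem_rootSubgroup_iff F _ _).1 hx
    have h1 := (cf_X (chevG2.cw 9) (rt 7) t).symm.trans h
    rw [show chevG2.cw 9 ⬝ᵥ chevG2.wt (rt 7) = 1 by decide +kernel] at h1
    rwa [e, show t = 0 by simpa using h1, X_zero, one_mul]
  by_cases h : cf (chevG2.cw 9) u (rt 7) = 0
  · exact key 1 (one_mem _) (by rwa [one_mul])
  refine key (chevG2.nE F (rt 6) 1 * chevG2.X F (rt 6) (-cf (chevG2.cw 9) u (rt 8) / cf (chevG2.cw 9) u (rt 7)))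
    (mul_mem (s_mem_L (R := chevG2.rootBN F) (i := nd 1) rfl)
      (X_simple_le_L (R := chevG2.rootBN F) (nd 1) (chevG2.X_mem_rootSubgroup F _ _))) ?_
  rw [mul_assoc]
  convert cf_N_mul (chevG2.nE_mem_monomial F _ one_ne_zero) (rt 8) _ ?_
  · rw [chevG2.wOf_nE F _ one_ne_zero, show rt 6 = chevG2.sr (nd 1) from rfl, refl_sr]; decide +kernel
  rw [cf_X_mul (s := rt 7) (ε := 1) (by decide +kernel)]
  field_simp
  simp

/-- The data for `G₂`. -/
noncomputable def data [Finite F] {d : Fˣ} (hd : d ≠ 1) : Data (chevG2.rootBN F) F where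
  a := nd 1
  b := nd 0
  ne := by decide
  all := nd_cases
  φ := φ
  memX g := by simp only [hφ.1]; exact chevG2.mem_rootSubgroup_iff F _ g
  memY g := by simp only [hφ.2]; exact chevG2.mem_rootSubgroup_iff F _ g
  comm _ hh _ hk := chevG2.diagonal_comm F hh hk
  ch h hh := by obtain ⟨c, rfl⟩ := exists_torus hh; exact ⟨_, hφ.ch c⟩
  ch_surj c := ⟨_, torus_mem _, by
    convert hφ.ch (Pi.mulSingle (nd 1) c⁻¹)
    simp [(tv_wt _).1, Pi.mulSingle_eq_of_ne (show nd 0 ≠ nd 1 by decide)]⟩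
  m := chevG2.nWordS F [nd 0, nd 1, nd 0, nd 1, nd 0, nd 1]
  m_mem := chevG2.nWordS_mem F _
  w_m_a := wOf_nWordS_eq_ng (by decide +kernel) _
  m_H _ := conj_H_eq_inv (chevG2.nWordS_mem F _) (wOf_nWordS_eq_ng (by decide +kernel))
  m_φ := by
    obtain ⟨c, h1, h2⟩ := chevG2.exists_conj_X_wOf F
      (chevG2.nWordS_mem F [nd 0, nd 1, nd 0, nd 1, nd 0, nd 1]) (rt 7)
    rw [wOf_nWordS_eq_ng (by decide +kernel)] at h1 h2
    exact ⟨c, fun t => by rw [hφ.1, hφ.2, hφ.1, hφ.2, h1, h2, ng_ng]; exact ⟨rfl, rfl⟩⟩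
  tor k hk := by
    obtain ⟨c, rfl⟩ := exists_torus hk
    refine ⟨_, chevG2.hE_mem_diagonal F (rt 6) (c (nd 1)).ne_zero, _, chevG2.X_mem_rootSubgroup F _ _, _,
      chevG2.X_mem_rootSubgroup F _ _, (X_hE_nE_X (rt 6) (c (nd 1))).symm ▸
        chevG2.X_mem_rootSubgroup F _ _, _, (eq_diag hφ (c := (Pi.mulSingle (nd 1) (c (nd 1)))⁻¹ * c)
          (by simp)).symm.trans ?_⟩
    rw [map_mul, map_inv, torusHom_single]; rfl
  S := {h | ∃ c, h = chevG2.torusHom F c ∧ c (nd 1) ≠ 1}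
  mem_S h hh := by
    obtain ⟨c, rfl⟩ := exists_torus hh
    exact (em _).imp (fun h => ⟨_, (eq_diag hφ h).symm⟩) fun h => ⟨c, rfl, h⟩
  exists_S := ⟨_, torus_mem _, fun _ => d, rfl, hd⟩
  fpf := by
    rintro _ - ⟨c, rfl, hc⟩ e A he hA v hv h
    obtain rfl := hφ.eq_of_ch he
    exact fpf hφ hc hA hv h
  cent1 h hh h1 h2 := by
    obtain ⟨c, rfl⟩ := exists_torus hh
    have h3 := tv_eq_one_of_commute (r := rt 6) (h1 _ (chevG2.X_mem_rootSubgroup F _ _))
    have h4 := tv_eq_one_of_commute (c := c) (r := rt 7) (by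
      rw [← mul_inv_eq_iff_eq_mul, ← hφ.1, (h2 1).1]; simp)
    rw [(tv_wt _).2.1] at h3
    rw [(tv_wt _).1, mul_inv_eq_one] at h4
    have h5 : c (nd 0) = 1 := by rw [← h3, ← h4]; group
    rw [h5, one_pow] at h4
    rw [eq_diag hφ h4.symm, h5, uppS_one, uniS_zero, map_one]
  cent2 h hh h1 h2 := by
    obtain ⟨c, rfl⟩ := exists_torus hh
    have h3 := tv_eq_one_of_commute (r := rt 6) (h1 _ (chevG2.X_mem_rootSubgroup F _ _))
    obtain ⟨a, ha, -⟩ := chevG2.exists_nE_conj_X F (rt 7) (rt 6) one_ne_zero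
    have h4 := tv_eq_one_of_commute (c := c) (r := rt 10) (by
      have := h2 _ (chevG2.X_mem_rootSubgroup F _ ((a⁻¹ : Fˣ) : F))
      erw [ha] at this
      rwa [Units.mul_inv, show rt 7 = chevG2.sr (nd 0) from rfl, refl_sr] at this)
    rw [(tv_wt _).2.1] at h3
    rw [(tv_wt _).2.2.1, mul_inv_eq_one] at h4
    have h5 : c (nd 1) = 1 := by rw [← h3, h4]; group
    rw [eq_diag hφ h5]
    refine (em (c (nd 0) = 1)).imp (fun h => by rw [h, uppS_one, uniS_zero, map_one]) fun h => ?_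
    have h6 : (c (nd 0) : F) ^ 2 + c (nd 0) + 1 = 0 := by
      refine mul_left_cancel₀ (a := (c (nd 0) : F) - 1) (sub_ne_zero.2 fun e => h (Units.ext e)) ?_
      have := congrArg Units.val (h4.trans h5)
      rw [Units.val_pow_eq_pow_val, Units.val_one] at this
      linear_combination this
    have h7 : ((uppS (c (nd 0)) 0 : SL(2, F)) : Mat F).trace = -1 := by
      simp only [Matrix.trace_fin_two, uppS00, uppS11]
      field_simp
      linear_combination h6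
    refine ⟨_, rfl, fun e => h (Units.ext ?_), fun e => one_ne_zero (α := F) ?_⟩
    · rw [h7] at e
      exact sub_eq_zero.1 (pow_eq_zero_iff two_ne_zero |>.1
        (show (c (nd 0) - 1 : F) ^ 2 = 0 by linear_combination h6 + (c (nd 0) : F) * e))
    · linear_combination e - h7
  unip _ := unip

end Cfsg.Agent.Chev.Th.G2
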