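import Mathlib
import Cfsg.Agent.Chev.TqOp
import Cfsg.Agent.Chev.StTorus
import Cfsg.Agent.Ch.MultSub

/-!
Gauss decomposition with prescribed torus part (Ellers, Gordeev) over fields with at least seven
elements.
-/

set_option autoImplicit false

namespace Cfsg.Agent.Chev.Tq

open RootBN Tim Cfsg.Agent.Ch

variable {Γ : Type*} [Group Γ] {Φ I : Type*} {F : Type*} [Field F]

/-- Split rank one data. -/
structure GD (R : RootBN Γ Φ I) (F : Type*) [Field F] where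
  x : I → F → Γ
  y : I → F → Γ
  rel : ∀ i, SL2Rel (x i) (y i)
  memX : ∀ i g, g ∈ R.X (R.simple i) ↔ ∃ t, g = x i t
  s_eq : ∀ i, R.s i = stW (x i) (y i) 1
  h_mem : ∀ i μ, μ ≠ 0 → stH (x i) (y i) μ ∈ R.H
  A : I → I → ℤ
  hx : ∀ i j μ, μ ≠ 0 → ∀ t, stH (x i) (y i) μ * x j t * (stH (x i) (y i) μ)⁻¹ = x j (μ ^ A i j * t)
  hy : ∀ i j μ, μ ≠ 0 → ∀ t, stH (x i) (y i) μ * y j t * (stH (x i) (y i) μ)⁻¹ = y j (μ ^ (-A i j) * t)
  A_self : ∀ i, A i i = 2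
  A_le : ∀ i j, (A i j).natAbs ≤ 3
  conn : ∃ (i0 : I) (rk : I → ℕ), ∀ j ≠ i0, ∃ k, rk k < rk j ∧ A k j ≠ 0 ∧ A j k ≠ 0
  gen : R.U ⊔ R.V = ⊤

theorem exists_avoid [Fintype F] (hF : 7 ≤ Fintype.card F) {n : ℤ} (h0 : n ≠ 0) (h3 : n.natAbs ≤ 3)
    (a b : Fˣ) : ∃ μ : Fˣ, μ ^ n * a ≠ 1 ∧ μ ^ (2 : ℤ) * b ≠ 1 := by
  classical
  have key : ∀ (n : ℤ) (a : Fˣ), n ≠ 0 → (Finset.univ.filter fun μ : Fˣ => μ ^ n * a = 1).card ≤ n.natAbs := by
    intro n a h0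
    obtain ⟨a', ha⟩ : ∃ a' : Fˣ, ∀ μ : Fˣ, μ ^ n * a = 1 → μ ^ n.natAbs = a' := by
      rcases Int.natAbs_eq n with e | e
      · exact ⟨a⁻¹, fun μ h => by rw [← zpow_natCast, ← e, eq_inv_iff_mul_eq_one, h]⟩
      · exact ⟨a, fun μ h => by rwa [e, zpow_neg, zpow_natCast, inv_mul_eq_one] at h⟩
    refine le_trans (Finset.card_le_card_of_injOn (t := (Polynomial.nthRoots n.natAbs (a' : F)).toFinset)
      Units.val (fun μ hμ => ?_) Units.val_injective.injOn)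
      ((Multiset.toFinset_card_le _).trans (Polynomial.card_nthRoots _ _))
    simp only [Finset.coe_filter, Finset.mem_univ, true_and, Set.mem_ofPred_eq] at hμ
    simp [Polynomial.mem_nthRoots (Int.natAbs_pos.2 h0), ← ha μ hμ]
  by_contra! h
  have h1 : (Finset.univ : Finset Fˣ) ⊆ (Finset.univ.filter fun μ : Fˣ => μ ^ n * a = 1) ∪
      Finset.univ.filter fun μ : Fˣ => μ ^ (2 : ℤ) * b = 1 := fun μ _ => by
    simpa [or_iff_not_imp_left] using h μ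
  have h2 := (Finset.card_le_card h1).trans (Finset.card_union_le _ _)
  have h4 := key n a h0
  have h5 := key 2 b two_ne_zero
  rw [Finset.card_univ, Fintype.card_units] at h2
  omega

namespace GD

variable {R : RootBN Γ Φ I} (D : GD R F)

theorem memY (i : I) (g : Γ) : g ∈ R.X (R.neg (R.simple i)) ↔ ∃ t, g = D.y i t := by
  have key : ∀ t, R.s i * D.x i t * (R.s i)⁻¹ = D.y i (-t) := fun t => by
    simpa [D.s_eq] using (D.rel i).w_x 1 one_ne_zero t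
  refine ⟨fun h => ?_, ?_⟩
  · obtain ⟨t, e⟩ := (D.memX i _).1 (conj_s_inv_X_neg h)
    exact ⟨-t, by rw [← key, ← e]; group⟩
  · rintro ⟨t, rfl⟩
    simpa [key] using conj_s_X ((D.memX i _).2 ⟨-t, rfl⟩)

theorem x_mem (i : I) (t : F) : D.x i t ∈ R.X (R.simple i) := (D.memX i _).2 ⟨t, rfl⟩

theorem y_mem (i : I) (t : F) : D.y i t ∈ R.X (R.neg (R.simple i)) := (D.memY i _).2 ⟨t, rfl⟩

theorem x_mem_U (i : I) (t : F) : D.x i t ∈ R.U := X_le_U (R.pos_simple i) (D.x_mem i t)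

theorem y_mem_V (i : I) (t : F) : D.y i t ∈ R.V := X_le_V (not_pos_neg_simple i) (D.y_mem i t)

theorem x_eq_one {i : I} {t : F} (h : D.x i t = 1) : t = 0 := by
  by_contra ht
  obtain ⟨_, hz, hz1⟩ := exists_mem_X_ne_one (R := R) (R.simple i)
  obtain ⟨u, rfl⟩ := (D.memX i _).1 hz
  have h1 := (D.rel i).w_x t ht u
  rw [stW, h, one_mul, mul_one, mul_inv_eq_iff_eq_mul, ← eq_inv_mul_iff_mul_eq] at h1
  exact hz1 (eq_one_of_mem_U_V (D.x_mem_U i u) (h1 ▸ mul_mem (inv_mem (D.y_mem_V _ _))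
    (mul_mem (D.y_mem_V _ _) (D.y_mem_V _ _))))

theorem y_eq_one {i : I} {t : F} (h : D.y i t = 1) : t = 0 := by
  have := (D.rel i).w_y 1 one_ne_zero t
  rw [h, mul_one, mul_inv_cancel] at this
  simpa using D.x_eq_one this.symm

theorem x_inj (i : I) : Function.Injective (D.x i) := fun a b e => sub_eq_zero.1 (D.x_eq_one (i := i) (by
  rw [sub_eq_add_neg, (D.rel i).x_add, (D.rel i).x_neg, e, mul_inv_cancel]))

/-- `h` acts on the `j`-th root groups through `c`. -/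
def Cc (h : Γ) (j : I) (c : Fˣ) : Prop :=
  ∀ t, h * D.x j t * h⁻¹ = D.x j (c * t) ∧ h * D.y j t * h⁻¹ = D.y j ((c⁻¹ : Fˣ) * t)

variable {D}

theorem Cc.mul {h h' : Γ} {j : I} {c c' : Fˣ} (hc : D.Cc h j c) (hc' : D.Cc h' j c') :
    D.Cc (h * h') j (c * c') := fun t => by
  constructor
  · rw [show h * h' * D.x j t * (h * h')⁻¹ = h * (h' * D.x j t * h'⁻¹) * h⁻¹ by group,
      (hc' t).1, (hc _).1, Units.val_mul, mul_assoc]
  · rw [show h * h' * D.y j t * (h * h')⁻¹ = h * (h' * D.y j t * h'⁻¹) * h⁻¹ by group,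
      (hc' t).2, (hc _).2, mul_inv, Units.val_mul, mul_assoc]

theorem Cc.conj_w {h : Γ} {j : I} {c : Fˣ} (hc : D.Cc h j c) (t : F) :
    h * stW (D.x j) (D.y j) t * h⁻¹ = stW (D.x j) (D.y j) (c * t) := by
  rw [stW, stW, ← (hc t).1, show -((c : F) * t)⁻¹ = (c⁻¹ : Fˣ) * -t⁻¹ by simp [mul_comm], ← (hc _).2]
  group

variable (D) [Fintype F]

/-- The rank one tori. -/
def hH (i : I) : Fˣ →* Γ where
  toFun μ := stH (D.x i) (D.y i) μ
  map_one' := SL2Rel.h_one _ _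
  map_mul' a b := (D.rel i).h_mul_of_finite a.ne_zero b.ne_zero

theorem cc_hH (i j : I) (μ : Fˣ) : D.Cc (D.hH i μ) j (μ ^ D.A i j) := fun t =>
  ⟨by simpa [hH] using D.hx i j μ μ.ne_zero t, by simpa [hH] using D.hy i j μ μ.ne_zero t⟩

variable {D} in
theorem Cc.commute {h : Γ} {j : I} {c : Fˣ} (hc : D.Cc h j c) (μ : Fˣ) : Commute h (D.hH j μ) := by
  have : D.hH j μ = stW (D.x j) (D.y j) (c * μ) * (stW (D.x j) (D.y j) (c * 1))⁻¹ := by
    rw [eq_mul_inv_of_mul_eq (show D.hH j μ * D.hH j c = D.hH j (c * μ) by rw [← map_mul, mul_comm])]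
    simp [hH, stH]
  rw [← hc.conj_w, ← hc.conj_w] at this
  rw [Commute, SemiconjBy, ← mul_inv_eq_iff_eq_mul]
  exact Eq.trans (by simp [hH, stH, mul_assoc]) this.symm

variable [Fintype I] [DecidableEq I]

/-- The torus. -/
def tor : (I → Fˣ) →* Γ := MonoidHom.noncommPiCoprod D.hH fun i j _ a b => (D.cc_hH i j a).commute b

theorem tor_single (i : I) (μ : Fˣ) : D.tor (Pi.mulSingle i μ) = D.hH i μ :=
  MonoidHom.noncommPiCoprod_mulSingle (N := fun _ => Fˣ) D.hH i μ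

/-- The simple roots as characters. -/
def χ (c : I → Fˣ) (j : I) : Fˣ := ∏ i, c i ^ D.A i j

omit [Fintype F] [DecidableEq I] in
theorem χ_mul (c c' : I → Fˣ) (j : I) : D.χ (c * c') j = D.χ c j * D.χ c' j := by
  simp [χ, mul_zpow, Finset.prod_mul_distrib]

omit [Fintype F] in
theorem χ_single (i j : I) (μ : Fˣ) : D.χ (Pi.mulSingle i μ) j = μ ^ D.A i j := by
  rw [χ, Finset.prod_eq_single i] <;> simp +contextual

theorem tor_spec (c : I → Fˣ) : D.tor c ∈ R.H ∧ ∀ j, D.Cc (D.tor c) j (D.χ c j) := by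
  rw [← Finset.univ_prod_mulSingle c]
  refine Finset.prod_induction _ (fun c => D.tor c ∈ R.H ∧ ∀ j, D.Cc (D.tor c) j (D.χ c j))
    (fun a b ha hb => ?_) ⟨by simp, fun j t => by simp [χ]⟩ fun i _ => ?_
  · rw [map_mul]
    exact ⟨mul_mem ha.1 hb.1, fun j => by rw [χ_mul]; exact (ha.2 j).mul (hb.2 j)⟩
  · rw [tor_single]
    exact ⟨D.h_mem i _ (c i).ne_zero, fun j => by rw [χ_single]; exact D.cc_hH i j _⟩

theorem tor_mem (c : I → Fˣ) : D.tor c ∈ R.H := (D.tor_spec c).1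

theorem cc_tor (c : I → Fˣ) (j : I) : D.Cc (D.tor c) j (D.χ c j) := (D.tor_spec c).2 j

variable [Finite Φ]

theorem exists_tor {p : ℕ} (hU : IsPGroup p R.U) {h : Γ} (hh : h ∈ R.H) : ∃ c, D.tor c = h := by
  have hX : ∀ j, ∀ a ∈ R.X (R.simple j), IsPEl p a := fun j a ha => by
    obtain ⟨k, hk⟩ := hU ⟨a, X_le_U (R.pos_simple j) ha⟩
    exact ⟨k, congrArg Subtype.val hk⟩
  have hY : ∀ j, ∀ a ∈ R.X (R.neg (R.simple j)), IsPEl p a := fun j a ha => by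
    simpa [mul_assoc] using (hX j _ (conj_s_inv_X_neg ha)).conj (R.s j)
  have hs0 : ∀ j (H : Subgroup Γ), (∀ t, D.x j t ∈ H) → (∀ t, D.y j t ∈ H) → R.s j ∈ H :=
    fun j H h1 h2 => D.s_eq j ▸ mul_mem (mul_mem (h1 _) (h2 _)) (h1 _)
  let S := SplitSys.ofRootBN R D.gen fun j => hs0 j _
    (fun _ => Subgroup.subset_closure (Or.inl (D.x_mem _ _)))
    fun _ => Subgroup.subset_closure (Or.inr (conj_s_inv_X_neg (D.y_mem _ _)))
  have hA : ∀ j, S.A j = R.X (R.simple j) := SplitSys.ofRootBN_A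
  have l1 : ∀ j, ∀ a ∈ R.X (R.simple j), a ∈ S.Lt p (MonoidHom.id Γ) j := fun j a ha =>
    Subgroup.subset_closure ⟨hX j a ha, Or.inl (hA j ▸ ha)⟩
  have l2 : ∀ j, ∀ a ∈ R.X (R.neg (R.simple j)), a ∈ S.Lt p (MonoidHom.id Γ) j := fun j a ha =>
    Subgroup.subset_closure ⟨hY j a ha, Or.inr (hA j ▸ conj_s_inv_X_neg ha)⟩
  have ht : ∀ j, R.s j ∈ S.Lt p (MonoidHom.id Γ) j ∧ MonoidHom.id Γ (R.s j) = S.s j := fun j =>
    ⟨hs0 j _ (fun _ => l1 _ _ (D.x_mem _ _)) fun _ => l2 _ _ (D.y_mem _ _), rfl⟩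
  set T := ⨆ j, S.Tt p (MonoidHom.id Γ) j
  have hT : T ≤ R.H := SplitSys.iSup_Tt_le
  have hTj : ∀ j a, a ∈ S.Lt p (MonoidHom.id Γ) j → a ∈ R.H → a ∈ T := fun j a h1 h2 =>
    le_iSup (S.Tt p (MonoidHom.id Γ)) j ⟨h1, h2⟩
  let N0 := Subgroup.closure ((T : Set Γ) ∪ Set.range R.s)
  have hN : N0 ≤ R.N := (Subgroup.closure_le _).2 (by
    rintro a (ha | ⟨j, rfl⟩)
    exacts [R.H_le_N (hT ha), R.s_mem j])
  have hs : Set.range R.s ⊆ N0 := fun a ha => Subgroup.subset_closure (Or.inr ha)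
  obtain ⟨u, hu, n, hn, u', hu', e⟩ := closure_lemma (U0 := R.U) le_rfl hN hs
    ((Subgroup.closure_le _).2 (by
      rintro a (ha | ha)
      exacts [Subgroup.mem_sup_right ⟨hT ha, Subgroup.subset_closure (Or.inl ha)⟩,
        Subgroup.mem_sup_left (Subgroup.subset_closure ha)]))
    (by rintro _ ⟨j, rfl⟩; exact s_mul_s j) (fun _ _ _ _ h => h)
    (by
      rintro _ ⟨j, rfl⟩ u hu
      obtain ⟨y, hy, x, hx, e⟩ := factor' (R.s_mem j) hu
      exact ⟨y, hy, x, hx, Um_le_U _ hx, e⟩)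
    (by rintro _ ⟨j, rfl⟩ n _; simpa [Inv_s] using em _)
    (by
      rintro _ ⟨j, rfl⟩ x hx _ hx1
      rw [Um_s] at hx ⊢
      obtain ⟨a, ha, k, hk, b, hb, e⟩ := R.rank_one j hx hx1
      refine ⟨a, X_le_U (R.pos_simple j) ha, k, hk, Subgroup.subset_closure (Or.inl (hTj j k ?_ hk)), b, hb,
        X_le_U (R.pos_simple j) hb, e⟩
      rw [show k = a⁻¹ * (R.s j * x * (R.s j)⁻¹) * b⁻¹ * (R.s j)⁻¹ by rw [e]; group]
      exact mul_mem (mul_mem (mul_mem (inv_mem (l1 _ _ ha)) (l2 _ _ (conj_s_X hx))) (inv_mem (l1 _ _ hb)))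
        (inv_mem (ht j).1))
    (g := h) (sup_le_sup_left ((Subgroup.closure_le _).2 hs) _ (by rw [sup_closure_s_eq_top D.gen]; trivial))
  obtain rfl := eq_of_UNU (one_mem _) hu (R.H_le_N hh) (hN hn) (one_mem _) hu' (by simpa using e)
  have key : ∀ n ∈ N0, ∃ τ ∈ T, ∃ l : List I, n = τ * (l.map R.s).prod := fun n hn => by
    induction hn using Subgroup.closure_induction_right with
    | one => exact ⟨1, one_mem _, [], by simp⟩
    | mul_right x _ y hy ih =>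
      obtain ⟨τ, hτ, l, rfl⟩ := ih
      rcases hy with hy | ⟨j, rfl⟩
      · exact ⟨_, mul_mem hτ (SplitSys.word_conj_mem ht l hy), l, by group⟩
      · exact ⟨τ, hτ, l ++ [j], by simp [mul_assoc]⟩
    | mul_inv_cancel x _ y hy ih =>
      obtain ⟨τ, hτ, l, rfl⟩ := ih
      rcases hy with hy | ⟨j, rfl⟩
      · exact ⟨_, mul_mem hτ (SplitSys.word_conj_mem ht l (inv_mem hy)), l, by group⟩
      · exact ⟨_, mul_mem hτ (SplitSys.word_conj_mem ht l (inv_mem (hTj j _ (mul_mem (ht j).1 (ht j).1)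
          (s_mul_s j)))), l ++ [j], by simp [mul_assoc]⟩
  obtain ⟨τ, hτ, l, rfl⟩ := key _ hn
  refine (iSup_le fun j a ha => ?_ : T ≤ D.tor.range) (mul_mem hτ (SplitSys.word_mem_of_map_mem ht l
    ((mul_mem_cancel_left (hT hτ)).1 hh)))
  obtain ⟨c, hc, rfl⟩ := S.exists_stH (π := MonoidHom.id Γ) (p := p) (by simp) (by simp) (D.rel j)
    (hA j ▸ D.memX j) (D.s_eq j) (D.h_mem j) (D.rel j) (fun t => ⟨hX j _ (D.x_mem j t), rfl⟩)
    (fun t => ⟨hY j _ (D.y_mem j t), rfl⟩) ha.1 ha.2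
  exact ⟨_, D.tor_single j (Units.mk0 c hc)⟩

/-- `g` is conjugate to an element of `V * tor c * U`. -/
def St (g : Γ) (c : I → Fˣ) : Prop := ∃ v ∈ R.V, ∃ u ∈ R.U, IsConj g (v * D.tor c * u)

/-- The same with a `V`-part that involves the `i`-th negative simple root. -/
def Act (g : Γ) (c : I → Fˣ) (i : I) : Prop :=
  ∃ v ∈ R.V, ∃ u ∈ R.U, v ∉ R.op.Q {i} ∧ IsConj g (v * D.tor c * u)

omit [Fintype F] [Fintype I] [DecidableEq I] in
theorem factor_V (i : I) {v : Γ} (hv : v ∈ R.V) : ∃ a, ∃ q ∈ R.op.Q {i}, v = D.y i a * q := by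
  obtain ⟨x, hx, q, hq, rfl⟩ := factor_simple (R := R.op) i hv
  obtain ⟨a, rfl⟩ := (D.memY i x).1 hx
  exact ⟨a, q, Up_s_eq_Q (R := R.op) i ▸ hq, rfl⟩

omit [Fintype F] [Fintype I] [DecidableEq I] in
theorem factor_U (i : I) {u : Γ} (hu : u ∈ R.U) : ∃ a, ∃ q ∈ R.Q {i}, u = D.x i a * q := by
  obtain ⟨x, hx, q, hq, rfl⟩ := factor_simple i hu
  obtain ⟨a, rfl⟩ := (D.memX i x).1 hx
  exact ⟨a, q, Up_s_eq_Q (R := R) i ▸ hq, rfl⟩

omit [Fintype F] [Fintype I] [DecidableEq I] in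
theorem y_mul_not_mem {i : I} {a : F} (ha : a ≠ 0) {q : Γ} (hq : q ∈ R.op.Q {i}) :
    D.y i a * q ∉ R.op.Q {i} := fun h =>
  ha (D.y_eq_one (eq_one_of_mem_X_Q (R := R.op) (D.y_mem i a) ((mul_mem_cancel_right hq).1 h)))

omit [Fintype I] [DecidableEq I] [Finite Φ] in
theorem x_mul_y (i : I) {a : F} (ha : a ≠ 0) (μ : Fˣ) :
    D.x i ((μ - 1) / a) * D.y i a = D.y i (a / μ) * D.hH i μ * D.x i ((1 - μ⁻¹) / a) := by
  have h := D.rel i
  have hμ := μ.ne_zero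
  have e1 : D.hH i μ = stW (D.x i) (D.y i) (μ / a) * stW (D.x i) (D.y i) (-a⁻¹) := by
    have := map_mul (D.hH i) μ (Units.mk0 a ha)⁻¹
    rw [← mul_inv_eq_iff_eq_mul] at this
    rw [← this, h.w_neg]
    simp [hH, stH, div_eq_mul_inv]
  have e2 : D.y i (a / μ) * stW (D.x i) (D.y i) (μ / a) = D.x i (μ / a) * D.y i (-(a / μ)) := by
    rw [h.w_eq (div_ne_zero hμ ha), inv_div, ← mul_assoc, ← mul_assoc, ← h.y_add, add_neg_cancel,
      h.y_zero, one_mul]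
  have e3 := h.w_x _ (neg_ne_zero.2 (inv_ne_zero ha)) ((μ : F)⁻¹ / a)
  rw [show (μ : F)⁻¹ / a / (-a⁻¹) ^ 2 = a / μ by field_simp] at e3
  have e4 : D.x i (μ / a) = D.x i ((μ - 1) / a) * D.x i a⁻¹ := by
    rw [← h.x_add]; congr 1; field_simp; ring
  have e5 : D.x i ((1 - μ⁻¹) / a) = (D.x i ((μ : F)⁻¹ / a))⁻¹ * D.x i a⁻¹ := by
    rw [← h.x_neg, ← h.x_add]; congr 1; simp; field_simp; ring
  rw [e1, ← mul_assoc, e2, ← e3, e4, e5, h.y_eq (s := a)]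
  group

variable {D}

omit [DecidableEq I] in
theorem Act.st {g : Γ} {c : I → Fˣ} {i : I} (h : D.Act g c i) : D.St g c :=
  let ⟨v, hv, u, hu, _, e⟩ := h; ⟨v, hv, u, hu, e⟩

theorem Act.set {g : Γ} {c : I → Fˣ} {i : I} (h : D.Act g c i) (μ : Fˣ) :
    D.Act g (Pi.mulSingle i μ * c) i := by
  obtain ⟨v, hv, u, hu, hv', e⟩ := h
  obtain ⟨a, q, hq, rfl⟩ := D.factor_V i hv
  have ha : a ≠ 0 := by rintro rfl; exact hv' (by rwa [(D.rel i).y_zero, one_mul])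
  have hk : D.hH i μ ∈ R.H := D.h_mem i _ μ.ne_zero
  have h1 := conj_L_Q_op (mul_mem (H_le_L _ hk) (X_simple_le_L i (D.x_mem i ((1 - μ⁻¹) / a)))) hq
  refine ⟨_, mul_mem (D.y_mem_V i _) (Q_le_U (R := R.op) _ h1), _,
    mul_mem (mul_mem (conj_H_U (inv_mem (D.tor_mem c)) (D.x_mem_U i ((1 - μ⁻¹) / a))) hu)
      (inv_mem (D.x_mem_U i ((μ - 1) / a))), D.y_mul_not_mem (div_ne_zero ha μ.ne_zero) h1,
    e.trans (isConj_iff.2 ⟨D.x i ((μ - 1) / a), ?_⟩)⟩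
  rw [← mul_assoc, ← mul_assoc, ← mul_assoc, D.x_mul_y i ha, map_mul, tor_single]
  group

theorem St.act {g : Γ} {c : I → Fˣ} (h : D.St g c) {j : I} (hj : D.χ c j ≠ 1) : D.Act g c j := by
  obtain ⟨v, hv, u, hu, e⟩ := h
  by_cases hv' : v ∈ R.op.Q {j}
  swap
  · exact ⟨v, hv, u, hu, hv', e⟩
  obtain ⟨t, q, hq, rfl⟩ := D.factor_U j hu
  set χ : F := (D.χ c j : F)
  have h0 : χ ≠ 0 := (D.χ c j).ne_zero
  have h1 : χ - 1 ≠ 0 := fun h => hj (Units.ext (sub_eq_zero.1 h))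
  set z := t / (χ - 1)
  have hx : ∀ s, D.x j s ∈ R.L {j} := fun s => X_simple_le_L j (D.x_mem j s)
  have hy : ∀ s, D.y j s ∈ R.L {j} := fun s => X_neg_le_L j (D.y_mem j s)
  have e1 : D.tor c * D.x j (χ⁻¹ * (χ * z)) * (D.tor c)⁻¹ = D.x j (χ * z) := by
    rw [(D.cc_tor c j _).1, mul_inv_cancel_left₀ h0]
  have e2 : D.tor c * D.y j (-1) * (D.tor c)⁻¹ = D.y j (-χ⁻¹) := by
    rw [(D.cc_tor c j _).2]; simp [χ]
  have e3 : D.x j t = (D.x j (χ⁻¹ * (χ * z)))⁻¹ * D.x j (χ * z) := by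
    rw [← (D.rel j).x_neg, ← (D.rel j).x_add]; congr 1; simp only [z]; field_simp; ring
  have e4 : D.y j (1 - χ⁻¹) = D.y j 1 * D.y j (-χ⁻¹) := by rw [← (D.rel j).y_add, sub_eq_add_neg]
  have h2 := conj_L_Q_op (inv_mem (hy (-χ⁻¹))) (conj_L_Q_op (hx (χ * z)) hv')
  refine ⟨_, mul_mem (D.y_mem_V j _) (Q_le_U (R := R.op) _ h2), _,
    Q_le_U _ (conj_L_Q (hy 1) (conj_L_Q (hx (χ * z)) hq)),
    D.y_mul_not_mem (a := 1 - χ⁻¹) (fun h => h1 (by field_simp at h; simpa using h)) h2,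
    e.trans (isConj_iff.2 ⟨D.y j 1 * D.x j (χ * z), ?_⟩)⟩
  rw [e3, e4, ← e2, (D.rel j).y_neg, ← e1]
  group

theorem Act.step (hF : 7 ≤ Fintype.card F) {g : Γ} {c : I → Fˣ} {i j : I} (h : D.Act g c i)
    (hA : D.A i j ≠ 0) : ∃ μ, D.Act g (Pi.mulSingle i μ * c) j := by
  obtain ⟨μ, h1, -⟩ := exists_avoid hF hA (D.A_le i j) (D.χ c j) 1
  exact ⟨μ, (h.set μ).st.act (by rwa [χ_mul, χ_single])⟩

theorem Act.all (hF : 7 ≤ Fintype.card F) {g : Γ} {c : I → Fˣ} {i : I} (h : D.Act g c i)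
    (c0 : I → Fˣ) : D.St g c0 := by
  obtain ⟨i0, rk, hrk⟩ := D.conn
  choose! par h1 h2 h3 using hrk
  let Inv (S : Finset I) (i : I) : Prop := ∃ c, (∀ j ∉ S, c j = c0 j) ∧ D.Act g c i
  have st : ∀ S i j, i ∈ S → D.A i j ≠ 0 → Inv S i → Inv S j := by
    rintro S i j hi hA ⟨c, hc, h⟩
    obtain ⟨μ, h⟩ := h.step hF hA
    exact ⟨_, fun k hk => by simp [hc k hk, Pi.mulSingle_eq_of_ne (ne_of_mem_of_not_mem hi hk).symm], h⟩
  have W : ∀ S : Finset I, (∀ j ∈ S, j ≠ i0 → par j ∈ S) → ∀ j ∈ S, (Inv S j ↔ Inv S i0) := by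
    intro S hS j
    induction hk : rk j using Nat.strong_induction_on generalizing j with
    | _ k ih =>
    intro hj
    by_cases e : j = i0
    · rw [e]
    rw [← ih _ (hk ▸ h1 j e) _ rfl (hS j hj e)]
    exact ⟨st S _ _ hj (h3 j e), st S _ _ (hS j hj e) (h2 j e)⟩
  have key : ∀ S : Finset I, (∀ j ∈ S, j ≠ i0 → par j ∈ S) → i0 ∈ S → Inv S i0 → D.St g c0 := by
    intro S
    induction S using Finset.strongInduction with
    | H S ih =>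
    intro hS hi hI
    rcases (S.erase i0).eq_empty_or_nonempty with e | e
    · obtain ⟨c, hc, h⟩ := hI
      convert (h.set (c0 i0 / c i0)).st
      ext j
      by_cases e' : j = i0
      · simp [e']
      · simp [e', hc j fun h => Finset.notMem_empty j (e ▸ Finset.mem_erase.2 ⟨e', h⟩)]
    obtain ⟨l, hl, hm⟩ := Finset.exists_max_image _ rk e
    obtain ⟨hl0, hl⟩ := Finset.mem_erase.1 hl
    have hS' : ∀ j ∈ S.erase l, j ≠ i0 → par j ∈ S.erase l := fun j hj e => Finset.mem_erase.2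
      ⟨fun e' => (hm j (Finset.mem_erase.2 ⟨e, Finset.mem_of_mem_erase hj⟩)).not_gt (e' ▸ h1 j e),
        hS j (Finset.mem_of_mem_erase hj) e⟩
    have hk : par l ≠ l := fun e => (h1 l hl0).ne (congrArg rk e)
    have hk' := Finset.mem_erase.2 ⟨hk, hS l hl hl0⟩
    refine ih _ (Finset.erase_ssubset hl) hS' (Finset.mem_erase.2 ⟨hl0.symm, hi⟩) ((W _ hS' _ hk').1 ?_)
    obtain ⟨c, hc, h⟩ := (W S hS _ (hS l hl hl0)).2 hI
    obtain ⟨μ, h4, h5⟩ := exists_avoid hF (h2 l hl0) (D.A_le _ _) (D.χ c l)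
      ((c0 l / c l) ^ D.A l (par l) * D.χ c (par l))
    refine ⟨_, fun j hj => ?_, (((h.set μ).st.act (by rwa [χ_mul, χ_single])).set (c0 l / c l)).st.act
      (by rwa [χ_mul, χ_mul, χ_single, χ_single, D.A_self, mul_left_comm])⟩
    by_cases e' : j = l
    · simp [e', hk.symm]
    · simp [e', (ne_of_mem_of_not_mem hk' hj).symm, hc j fun h => hj (Finset.mem_erase.2 ⟨e', h⟩)]
  exact key Finset.univ (by simp) (by simp) ((W _ (by simp) i (by simp)).1 ⟨c, by simp, h⟩)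

variable (D)

omit [Fintype F] [Fintype I] [DecidableEq I] in
theorem mem_center {h : Γ} (h1 : ∀ j, D.Cc h j 1) : h ∈ Subgroup.center Γ := by
  refine Subgroup.mem_center_iff.2 fun g => Subgroup.mem_centralizer_singleton_iff.1
    (U_sup_V_le_of_simple (R := R) (fun j x hx => ?_) (fun j x hx => ?_) (D.gen ▸ Subgroup.mem_top g))
  · obtain ⟨t, rfl⟩ := (D.memX j x).1 hx
    exact Subgroup.mem_centralizer_singleton_iff.2 (mul_inv_eq_iff_eq_mul.1 (by simpa using (h1 j t).1)).symm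
  · obtain ⟨t, rfl⟩ := (D.memY j x).1 hx
    exact Subgroup.mem_centralizer_singleton_iff.2 (mul_inv_eq_iff_eq_mul.1 (by simpa using (h1 j t).2)).symm

include D in
/-- Gauss decomposition with prescribed torus part. -/
theorem gauss [Finite Γ] (hF : 7 ≤ Fintype.card F) {p : ℕ} [Fact p.Prime] (hU : IsPGroup p R.U) {g : Γ}
    (hg : g ∉ Subgroup.center Γ) {h : Γ} (hh : h ∈ R.H) : ∃ v ∈ R.V, ∃ u ∈ R.U, IsConj g (v * h * u) := by
  obtain ⟨c0, rfl⟩ := D.exists_tor hU hh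
  suffices ∃ c i, D.Act g c i from let ⟨_, _, h⟩ := this; h.all hF c0
  obtain ⟨y, -, h1⟩ := exists_conj_mem_PW hU (l := Finset.univ.toList) (by simp)
    ((sup_le U_le_G V_le_G : R.U ⊔ R.V ≤ R.G) (D.gen ▸ Subgroup.mem_top g))
  obtain ⟨u, hu, v, hv, b, hb, e, h2⟩ := exists_of_mem_PW (Finset.nodup_toList _) h1
  obtain ⟨u', hu', k, hk, rfl⟩ := mem_B.1 hb
  obtain ⟨c, rfl⟩ := D.exists_tor hU hk
  obtain ⟨w, hw, h3⟩ : ∃ w ∈ R.U, IsConj g (v * D.tor c * w) :=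
    ⟨_, mul_mem (conj_H_U (inv_mem hk) hu') hu, isConj_iff.2 ⟨u⁻¹ * y⁻¹, by
      rw [show u⁻¹ * y⁻¹ * g * (u⁻¹ * y⁻¹)⁻¹ = u⁻¹ * (y⁻¹ * g * y) * u by group, e]; group⟩⟩
  have hV : v ∈ R.V := (iSup₂_le fun i _ => X_le_V (not_pos_neg_simple i) : _ ≤ R.V) hv
  rcases h2 with rfl | ⟨i, hi⟩
  swap
  · exact ⟨c, i, v, hV, w, hw, hi, h3⟩
  by_cases h4 : ∀ j, D.χ c j = 1
  swap
  · obtain ⟨j, hj⟩ := not_forall.1 h4
    exact ⟨c, j, St.act ⟨1, hV, w, hw, h3⟩ hj⟩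
  have hz := Subgroup.mem_center_iff.1 (D.mem_center fun j => h4 j ▸ D.cc_tor c j)
  obtain ⟨n, -, h5, i, h6⟩ := exists_conj_not_mem_Q hw (by
    rintro e
    obtain ⟨a, ha⟩ := isConj_iff.1 h3.symm
    rw [e, one_mul, mul_one, hz a, mul_inv_cancel_right] at ha
    exact hg (ha ▸ Subgroup.mem_center_iff.2 hz))
  obtain ⟨t, q, hq, e⟩ := D.factor_U i h5
  have ht : t ≠ 0 := by rintro rfl; exact h6 (by rwa [e, (D.rel i).x_zero, one_mul])
  refine ⟨c, i, D.y i (-t) * 1, mul_mem (D.y_mem_V i _) (one_mem _), R.s i * q * (R.s i)⁻¹,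
    Q_le_U _ (conj_L_Q (s_mem_L (Set.mem_singleton i)) hq),
    D.y_mul_not_mem (neg_ne_zero.2 ht) (one_mem _), h3.trans (isConj_iff.2 ⟨R.s i * n, ?_⟩)⟩
  have h7 : R.s i * D.x i t * (R.s i)⁻¹ = D.y i (-t) := by
    simpa [D.s_eq] using (D.rel i).w_x 1 one_ne_zero t
  rw [one_mul, mul_one, ← mul_assoc, hz (R.s i * n), hz (D.y i (-t)), ← h7]
  calc _ = D.tor c * (R.s i * (n * w * n⁻¹) * (R.s i)⁻¹) := by group
    _ = _ := by rw [e]; group

end GD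

end Cfsg.Agent.Chev.Tq
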