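import Mathlib
import Cfsg.Agent.Cl.LevC
import Cfsg.Agent.Cl.CharGL2Conj
import Cfsg.Agent.Cl.CharBlockSL
import Cfsg.Agent.Chev.RootBNCent
import Cfsg.Agent.Chev.CTFin
import Cfsg.Agent.Chev.TimSL2

/-!
Regular unipotent elements of `SL_n`; homomorphisms from `SL_n`.
-/

set_option autoImplicit false

namespace Cfsg.Agent.Chev.Tq

open Cfsg.Agent.Ch Cfsg.Agent.Cl.Lev Matrix Tim
open scoped MatrixGroups

variable {F : Type*} [Field F] {n : ℕ}

/-- Upper unitriangular with superdiagonal `s`. -/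
def Tri (X : Matrix (Fin (n + 1)) (Fin (n + 1)) F) (s : Fin n → F) : Prop :=
  (∀ i j, j ≤ i → X i j = if i = j then 1 else 0) ∧ ∀ i, X i.castSucc i.succ = s i

theorem tri_one : Tri (1 : Matrix (Fin (n + 1)) (Fin (n + 1)) F) 0 :=
  ⟨fun _ _ _ => one_apply, fun _ => one_apply_ne Fin.castSucc_lt_succ.ne⟩

theorem Tri.mul {X Y : Matrix (Fin (n + 1)) (Fin (n + 1)) F} {s t : Fin n → F} (hX : Tri X s)
    (hY : Tri Y t) : Tri (X * Y) (s + t) := by
  refine ⟨fun i j h => ?_, fun i => ?_⟩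
  · rw [mul_apply, Finset.sum_eq_single i (fun l _ hl => ?_) (by simp), hX.1 i i le_rfl, hY.1 i j h]
    · simp
    · rcases hl.lt_or_gt with h' | h'
      · rw [hX.1 i l h'.le, if_neg hl.symm, zero_mul]
      · rw [hY.1 l j (h.trans h'.le), if_neg (h.trans_lt h').ne', mul_zero]
  · rw [mul_apply, Finset.sum_eq_add i.castSucc i.succ Fin.castSucc_lt_succ.ne (fun l _ hl => ?_)
      (by simp) (by simp), hX.1 _ _ le_rfl, hY.1 _ _ le_rfl, hX.2, hY.2]
    · simp [add_comm]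
    · rcases hl.1.lt_or_gt with h' | h'
      · rw [hX.1 _ l h'.le, if_neg hl.1.symm, zero_mul]
      · rw [hY.1 l _ (Fin.castSucc_lt_iff_succ_le.1 h'), if_neg hl.2, mul_zero]

theorem Tri.reg {X : Matrix (Fin (n + 1)) (Fin (n + 1)) F} {s : Fin n → F} (hX : Tri X s)
    (hs : ∀ i, s i ≠ 0) : Reg X := by
  have h0 : ∀ i j, j ≤ i → (X - 1) i j = 0 := fun i j h => by
    rw [Matrix.sub_apply, hX.1 i j h, one_apply, sub_self]
  have key : ∀ k (i j : Fin (n + 1)), ((j : ℕ) < i + k → ((X - 1) ^ k) i j = 0) ∧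
      ((j : ℕ) = i + k → ((X - 1) ^ k) i j ≠ 0) := by
    intro k
    induction k with
    | zero => exact fun i j => ⟨fun h => one_apply_ne (by rintro rfl; omega), fun h => by
        obtain rfl : j = i := Fin.ext h
        simp⟩
    | succ k ih =>
      intro i j
      have h1 : ∀ l : Fin (n + 1), (j : ℕ) ≤ i + (k + 1) → ¬ ((l : ℕ) = i + k ∧ (j : ℕ) = l + 1) →
          ((X - 1) ^ k) i l * (X - 1) l j = 0 := fun l h h' => by
        by_cases e : (l : ℕ) < i + k
        · rw [(ih i l).1 e, zero_mul]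
        · rw [h0 l j (by rw [Fin.le_def]; omega), mul_zero]
      rw [pow_succ, mul_apply]
      refine ⟨fun h => Finset.sum_eq_zero fun l _ => h1 l h.le (by omega), fun h => ?_⟩
      obtain ⟨l, rfl⟩ := Fin.exists_succ_eq.2 (show j ≠ 0 by rintro rfl; simp at h)
      rw [Finset.sum_eq_single l.castSucc (fun l' _ hl => h1 l' h.le fun e => hl (Fin.ext (by
        simp at e ⊢; omega))) (by simp), Matrix.sub_apply, hX.2, one_apply_ne Fin.castSucc_lt_succ.ne, sub_zero]
      exact mul_ne_zero ((ih _ _).2 (by simp at h ⊢; omega)) (hs l)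
  refine ⟨Matrix.ext fun i j => (key _ i j).1 (by omega), fun h => (key n 0 (Fin.last n)).2 (by simp) ?_⟩
  rw [h]; rfl

theorem tri_x (i : Fin n) (a : F) : Tri (xA F (srA i) a).1 (Pi.single i a) := by
  refine ⟨fun j k h => ?_, fun j => ?_⟩
  · rw [coe_xA, Matrix.add_apply, single_apply, if_neg, add_zero, one_apply]
    rintro ⟨rfl, rfl⟩
    exact Fin.castSucc_lt_succ.not_ge h
  · simp [coe_xA, srA, single_apply, Pi.single_apply, Fin.castSucc_lt_succ.ne, eq_comm]

theorem tri_y (i : Fin n) (a : F) : Tri (xA F (srA i).ng a).1ᵀ (Pi.single i a) := by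
  convert tri_x i a using 1
  simp [coe_xA, RtA.ng]

theorem sum_single_ne_zero {σ : Fin n → Fin n} (hσ : Function.Injective σ) {c : Fin n → F}
    (hc : ∀ i, c i ≠ 0) (j : Fin n) :
    ((List.finRange n).map fun i => Pi.single (σ i) (c i) : List (Fin n → F)).sum j ≠ 0 := by
  obtain ⟨j, rfl⟩ := Finite.injective_iff_surjective.1 hσ j
  rw [← Fin.sum_univ_def, Finset.sum_apply, Finset.sum_eq_single j (fun i _ h => by
    rw [Pi.single_eq_of_ne fun e => h (hσ e).symm]) (by simp)]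
  simpa using hc j

theorem reg_prod_x : Reg ((List.finRange n).map fun i => xA F (srA i) 1).prod.1 := by
  have : ∀ l : List (Fin n), Tri (l.map fun i => xA F (srA i) 1).prod.1
      (l.map fun i => Pi.single i 1).sum := fun l => by
    induction l with
    | nil => exact tri_one
    | cons i l ih => exact (tri_x i 1).mul ih
  exact (this _).reg (sum_single_ne_zero Function.injective_id fun _ => one_ne_zero)

theorem reg_prod_y {σ : Fin n → Fin n} (hσ : Function.Injective σ) {c : Fin n → F} (hc : ∀ i, c i ≠ 0) :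
    Reg ((List.finRange n).map fun i => xA F (srA (σ i)).ng (c i)).prod.1 := by
  have : ∀ l : List (Fin n), Tri (l.map fun i => xA F (srA (σ i)).ng (c i)).prod.1ᵀ
      (l.map fun i => Pi.single (σ i) (c i)).sum := fun l => by
    induction l with
    | nil => simpa using tri_one
    | cons i l ih => simpa [add_comm] using ih.mul (tri_y (σ i) (c i))
  obtain ⟨h1, h2⟩ := (this _).reg (sum_single_ne_zero hσ hc)
  rw [← transpose_one, ← transpose_sub, ← transpose_pow, transpose_eq_zero] at h1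
  rw [← transpose_one, ← transpose_sub, ← transpose_pow, Ne, transpose_eq_zero] at h2
  exact ⟨h1, h2⟩

theorem reg_inv {X : SL(n + 1, F)} (h : Reg X.1) : Reg (X⁻¹).1 := by
  have e : (X⁻¹).1 * X.1 = 1 := by rw [← Matrix.SpecialLinearGroup.coe_mul, inv_mul_cancel]; rfl
  generalize (X⁻¹).1 = Y at e ⊢
  have e' : X.1 * Y = 1 := mul_eq_one_comm.1 e
  have : ∀ k, (Y - 1) ^ k = (-Y) ^ k * (X.1 - 1) ^ k := fun k => by
    rw [← Commute.mul_pow (by rw [Commute, SemiconjBy]; simp [mul_sub, sub_mul, e, e', neg_add_eq_sub])]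
    simp [mul_sub, e, neg_add_eq_sub]
  refine ⟨by rw [this, h.1, mul_zero], fun h' => h.2 ?_⟩
  rwa [this, ((IsUnit.of_mul_eq_one _ e).neg.pow n).mul_right_eq_zero] at h'

theorem reg_pow {p : ℕ} [Fact p.Prime] [CharP F p] {X : SL(n + 1, F)} (h : Reg X.1) : X ^ p ^ (n + 1) = 1 := by
  have := sub_pow_char_pow_of_commute p (n + 1) (Commute.one_right X.1)
  rw [pow_eq_zero_of_le (Nat.lt_pow_self (Fact.out : p.Prime).one_lt).le h.1, one_pow, eq_comm,
    sub_eq_zero] at this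
  exact Subtype.ext (by rw [Matrix.SpecialLinearGroup.coe_pow, this]; rfl)

theorem exists_reg_mul_sl (hF : 4 ≤ Cardinal.mk F) {g : SL(n + 1, F)} (hg : g = 1 ∨ ∀ c : F, g.1 ≠ c • 1) :
    ∃ X Y : SL(n + 1, F), Reg X.1 ∧ Reg Y.1 ∧ g = X * Y := by
  rcases hg with rfl | hg
  · exact ⟨_, _, reg_prod_x, reg_inv reg_prod_x, (mul_inv_cancel _).symm⟩
  have hd : ∀ X : Matrix (Fin (n + 1)) (Fin (n + 1)) F, Reg X → X.det = 1 := fun X hX => by
    obtain ⟨c, hc⟩ := hX.isConj reg_prod_x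
    have := congrArg det hc.eq
    rwa [det_mul, det_mul, Matrix.SpecialLinearGroup.det_coe, one_mul,
      mul_eq_left₀ (Matrix.GeneralLinearGroup.det_ne_zero c)] at this
  suffices ∃ X Y, Reg X ∧ Reg Y ∧ g.1 = X * Y from let ⟨X, Y, hX, hY, e⟩ := this
    ⟨⟨X, hd X hX⟩, ⟨Y, hd Y hY⟩, hX, hY, Subtype.ext e⟩
  rcases n with _ | _ | n
  · exact absurd (by ext i j; simp [Fin.fin_one_eq_zero i, Fin.fin_one_eq_zero j]) (hg (g 0 0))
  swap
  · exact exists_reg_mul hF hg g.2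
  have hs : ¬ Cl.GL2.IsScal (Matrix.SpecialLinearGroup.toGL g : GL (Fin 2) F).1 := fun h => hg (g 0 0) (by
    ext i j
    fin_cases i <;> fin_cases j
    exacts [by simp, by simpa using h.1, by simpa using h.2.1, by simpa using h.2.2.symm])
  have hx : ∀ a : F, a ≠ 0 → Reg (xA F (srA (0 : Fin 1)) a).1 := fun a ha =>
    (tri_x 0 a).reg fun i => by simpa [Subsingleton.elim i 0] using ha
  obtain ⟨Y, hY, h1⟩ : ∃ Y : SL(2, F), Reg Y.1 ∧ IsConj (Matrix.SpecialLinearGroup.toGL (xA F (srA 0) 1 * Y))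
      (Matrix.SpecialLinearGroup.toGL g) := by
    by_cases e : g.1.trace = 2
    · obtain ⟨a, h0, h1⟩ : ∃ a : F, a ≠ 0 ∧ a ≠ -1 := by
        by_contra! h
        have : (Set.univ : Set F) ⊆ {0, -1} := fun a _ => by simpa [or_iff_not_imp_left] using h a
        have h1 := (Cardinal.mk_le_mk_of_subset this).trans (Cardinal.mk_insert_le)
        rw [Cardinal.mk_univ, Cardinal.mk_singleton] at h1
        exact absurd (hF.trans h1) (by norm_num)
      refine ⟨_, hx a h0, Cl.GL2.isConj_of_trace_det (fun h => h1 ?_) hs ?_ (by simp)⟩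
      · simpa [coe_xA, srA, mul_apply, add_eq_zero_iff_eq_neg] using h.1
      · simp [coe_xA, srA, mul_apply, e, trace_fin_two]; norm_num
    · refine ⟨xA F (srA 0).ng (g.1.trace - 2), ?_, Cl.GL2.isConj_of_trace_det (fun h => ?_) hs ?_ (by simp)⟩
      · simpa [List.finRange_succ] using reg_prod_y (n := 1) (c := fun _ => g.1.trace - 2)
          Function.injective_id fun _ => sub_ne_zero.2 e
      · simpa [coe_xA, srA, RtA.ng, mul_apply] using h.1
      · simp [coe_xA, srA, RtA.ng, mul_apply, trace_fin_two]; ring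
  obtain ⟨P, hP⟩ := isConj_iff.1 h1
  refine ⟨_, _, (hx 1 one_ne_zero).conj P, hY.conj P, ?_⟩
  have := congrArg Units.val hP
  simp only [Units.val_mul, map_mul, Matrix.SpecialLinearGroup.coe_GL_coe_matrix] at this
  rw [← this]
  simp [mul_assoc]

theorem sl_eq_top {H : Subgroup SL(n + 1, F)} (h1 : ∀ i a, xA F (srA i) a ∈ H)
    (h2 : ∀ i a, xA F (srA i).ng a ∈ H) : H = ⊤ :=
  top_unique (XS_xA_univ (K := F) ▸ XS_le fun r _ a => RootBN.X_le_of_simple
    (R := Cl.CT.isStrong_xA.rootBN) (fun i => rsub_le (h1 i)) (fun i => rsub_le (h2 i)) r (x_mem_rsub _ r a))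

/-- Conjugation by a diagonal matrix. -/
def cjd (d : Fin n → Fˣ) : SL(n, F) →* SL(n, F) where
  toFun M := ⟨diagonal (fun i => (d i : F)) * M.1 * diagonal fun i => (d i : F)⁻¹, by
    rw [det_mul_comm, ← mul_assoc, diagonal_mul_diagonal]; simp⟩
  map_one' := Subtype.ext (by simp)
  map_mul' M M' := Subtype.ext (by
    change _ * (M.1 * M'.1) * _ = _ * M.1 * _ * (_ * M'.1 * _)
    simp only [mul_assoc]
    rw [← mul_assoc (diagonal fun i => (d i : F)⁻¹), diagonal_mul_diagonal]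
    simp)

theorem coe_cjd (d : Fin n → Fˣ) (M : SL(n, F)) :
    (cjd d M).1 = diagonal (fun i => (d i : F)) * M.1 * diagonal fun i => (d i : F)⁻¹ := rfl

theorem cjd_xA (d : Fin n → Fˣ) (r : RtA n) (a : F) :
    cjd d (xA F r a) = xA F r ((d r.1.1 / d r.1.2 : Fˣ) * a) := by
  ext i j
  simp only [coe_cjd, coe_xA, mul_diagonal, diagonal_mul, Matrix.add_apply, one_apply, single_apply]
  split_ifs with h1 h2 h2
  · exact absurd (h2.1.trans (h1.trans h2.2.symm)) r.2
  · simp [h1]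
  · simp [h2.1, h2.2]; ring
  · simp

theorem exists_cjd {X Y : SL(n, F)} (h : IsConj X.1 Y.1) : ∃ δ : Fˣ, ∀ d : Fin n → Fˣ, ∏ i, d i = δ →
    IsConj (cjd d X) Y := by
  obtain ⟨P, hP⟩ := h
  refine ⟨GeneralLinearGroup.det P, fun d hd => isConj_iff.2 ⟨⟨P.1 * diagonal fun i => (d i : F)⁻¹, ?_⟩, ?_⟩⟩
  · rw [det_mul, det_diagonal, Finset.prod_inv_distrib, ← Units.coe_prod, hd]
    exact mul_inv_cancel₀ (Matrix.GeneralLinearGroup.det_ne_zero P)
  · refine mul_inv_eq_iff_eq_mul.2 (Subtype.ext ?_)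
    change _ * (cjd d X).1 = Y.1 * (_ * _)
    simp only [coe_cjd, ← mul_assoc, ← hP.eq]
    rw [mul_assoc P.1, diagonal_mul_diagonal]
    simp

variable [Finite F] {G : Type*} [Group G]

theorem exists_hom_of_isSt {y : RtA (n + 1) → F → G} (h : (stA n).IsSt y) :
    ∃ Φ : SL(n + 1, F) →* G, ∀ r t, Φ (xA F r t) = y r t := by
  have h₀ := isSt_xA (K := F) (m := n)
  let p : RtA (n + 1) → F → G × SL(n + 1, F) := fun r t => (y r t, xA F r t)
  let q : RtA (n + 1) → F → XS p Set.univ := fun r t => ⟨p r t, x_mem_XS p (Set.mem_univ r) t⟩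
  let π₀ : XS p Set.univ →* SL(n + 1, F) := (MonoidHom.snd _ _).comp (Subgroup.subtype _)
  let π : XS p Set.univ →* G := (MonoidHom.fst _ _).comp (Subgroup.subtype _)
  have hinj : ∀ a b, π a = π b → π₀ a = π₀ b → a = b := fun a b e e' => Subtype.ext (Prod.ext e e')
  have hq : (stA n).IsSt q := ⟨⟨fun r t u => hinj _ _ (h.add r t u) (h₀.add r t u), fun r s h1 h2 t u =>
    hinj _ _ (by rw [map_stWord]; exact h.comm r s h1 h2 t u) (by rw [map_stWord]; exact h₀.comm r s h1 h2 t u)⟩,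
    fun r s t ht u => hinj _ _ (h.nconj r s t ht u) (h₀.nconj r s t ht u)⟩
  let e := MulEquiv.ofBijective _ (bijective_of_isSt hq (by
    apply Subgroup.map_injective (XS p Set.univ).subtype_injective
    rw [map_XS, ← MonoidHom.range_eq_map, Subgroup.range_subtype]; rfl) π₀ fun _ _ => rfl)
  refine ⟨π.comp e.symm.toMonoidHom, fun r t => ?_⟩
  have : e.symm (xA F r t) = q r t := e.symm_apply_eq.2 rfl
  simp [this, q, p, π]

theorem exists_hom_two {X Y : Fin 1 → F → G} (h : SL2Rel (X 0) (Y 0)) :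
    ∃ Φ : SL(1 + 1, F) →* G, ∀ i t, Φ (xA F (srA i) t) = X i t ∧ Φ (xA F (srA i).ng t) = Y i t := by
  obtain ⟨Φ, h1, h2⟩ := h.exists_hom fun t u ht hu => h.h_mul_of_finite ht hu
  refine ⟨Φ, fun i t => ?_⟩
  rw [Fin.fin_one_eq_zero i, ← h1, ← h2]
  constructor <;> congr 1 <;> ext a b <;> fin_cases a <;> fin_cases b <;>
    simp [coe_xA, srA, RtA.ng, GT.slUp, GT.slLo]

theorem exists_hom_of_slRel {y : RtA (n + 1) → F → G} (h : SLRel y) (h1 : ∀ r, SL2Rel (y r) (y r.ng)) :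
    ∃ Φ : SL(n + 1, F) →* G, ∀ i t, Φ (xA F (srA i) t) = y (srA i) t ∧ Φ (xA F (srA i).ng t) = y (srA i).ng t := by
  rcases n with _ | _ | n
  · exact ⟨1, fun i => i.elim0⟩
  · exact exists_hom_two (h1 _)
  · obtain ⟨Φ, h⟩ := slRel_exists_hom (by omega) h
    exact ⟨Φ, fun i t => ⟨h _ _, h _ _⟩⟩

theorem exists_hom_of_edges (X Y : Fin n → F → G) (h1 : ∀ i, SL2Rel (X i) (Y i))
    (hE : ∀ i k : Fin n, (k : ℕ) = i + 1 ∨ (i : ℕ) = k + 1 → Edge (X i) (Y i) (X k) (Y k))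
    (hc : ∀ i k : Fin n, (i : ℕ) + 1 < k ∨ (k : ℕ) + 1 < i → ∀ a b, Commute (X i a) (X k b) ∧
      Commute (X i a) (Y k b) ∧ Commute (Y i a) (Y k b)) :
    ∃ Φ : SL(n + 1, F) →* G, ∀ i t, Φ (xA F (srA i) t) = X i t ∧ Φ (xA F (srA i).ng t) = Y i t := by
  rcases n with _ | _ | _ | n
  · exact ⟨1, fun i => i.elim0⟩
  · exact exists_hom_two (h1 _)
  · obtain ⟨Φ, h⟩ := hE 0 1 (Or.inl rfl)
    refine ⟨Φ, fun i t => ?_⟩
    fin_cases i
    exacts [⟨h.1 t, h.2.1 t⟩, ⟨h.2.2.1 t, h.2.2.2 t⟩]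
  obtain ⟨y, h2, h3⟩ := (isModel_xA (m := n + 3) (K := F)).exists_isSt_of_edges stA_sl stA_std (fun i => by
      simp only [stA_A_sr]
      by_cases h : i.val = 0
      · exact ⟨⟨1, by omega⟩, by simp [h]⟩
      · exact ⟨⟨i - 1, by omega⟩, by simp; omega⟩)
    (fun i k h => by
      suffices ∃ j, ¬ (3 : ℤ) ∣ (stA (n + 3)).A ((stA _).sr i) ((stA _).sr j) +
          2 * (stA _).A ((stA _).sr k) ((stA _).sr j) from let ⟨j, hj⟩ := this; ⟨_, hj⟩
      simp only [stA_A_sr] at h ⊢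
      have := i.2
      have := k.2
      by_cases h' : i.val = 0 ∨ k.val = 0
      · refine ⟨⟨2, by omega⟩, ?_⟩
        simp only
        split_ifs at h ⊢ <;> omega
      · refine ⟨⟨min i.val k.val - 1, by omega⟩, ?_⟩
        simp only
        split_ifs at h ⊢ <;> omega) X Y
    (fun i k h => hE i k (by rw [stA_A_sr] at h; split_ifs at h <;> omega))
    (fun i => Subgroup.closure (Set.range (X i) ∪ Set.range (Y i)))
    (fun i t => Subgroup.subset_closure (Or.inl ⟨t, rfl⟩)) (fun i t => Subgroup.subset_closure (Or.inr ⟨t, rfl⟩))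
    fun i k h a ha b hb => by
      have h4 : (i : ℕ) + 1 < k ∨ (k : ℕ) + 1 < i := by rw [stA_A_sr] at h; split_ifs at h <;> omega
      refine ((Subgroup.closure_le _).2 ?_ : _ ≤ Subgroup.centralizer
        ((Subgroup.closure (Set.range (X i) ∪ Set.range (Y i)) : Subgroup G) : Set G)) hb a ha
      rw [Subgroup.centralizer_closure]
      rintro _ (⟨b, rfl⟩ | ⟨b, rfl⟩) _ (⟨a, rfl⟩ | ⟨a, rfl⟩)
      exacts [(hc i k h4 a b).1, (hc k i h4.symm b a).2.1.symm, (hc i k h4 a b).2.1, (hc i k h4 a b).2.2]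
  obtain ⟨Φ, h⟩ := exists_hom_of_isSt h3
  exact ⟨Φ, fun i t => ⟨by rw [h, ← (h2 i).1]; rfl, by rw [h, ← (h2 i).2]; rfl⟩⟩

end Cfsg.Agent.Chev.Tq
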