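import Mathlib
import Cfsg.Agent.Chev.TqGauss
import Cfsg.Agent.Chev.TqMat
import Cfsg.Agent.Chev.ThRank2

/-!
Thompson's conjecture from a Levi factor of type `A` (Ellers, Gordeev).
-/

set_option autoImplicit false

namespace Cfsg.Agent.Chev.Tq

open RootBN Tim Cfsg.Agent.Ch Cfsg.Agent.Cl.Lev
open scoped MatrixGroups

variable {Γ : Type*} [Group Γ] {Φ I : Type*} {F : Type*} [Field F] {R : RootBN Γ Φ I}

theorem US_le_of_simple [Finite Φ] {S : Set I} {M : Subgroup Γ} (h1 : ∀ i ∈ S, R.X (R.simple i) ≤ M)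
    (h2 : ∀ i ∈ S, R.X (R.neg (R.simple i)) ≤ M) : R.US S ≤ M := by
  rw [← Um_nS]
  suffices ∀ n ∈ R.N, n ∈ R.NS S → R.Um n ≤ M from this _ (nS_mem_N S) (nS_mem S)
  intro n hn
  refine simple_induction (P := fun n => n ∈ R.NS S → R.Um n ≤ M)
    (fun h hh _ => by rw [Um_H hh]; exact bot_le) (fun n hn i hi ih hS => ?_) hn
  have hI := Inv_mul hn (R.s_mem i) (by simpa [Inv_s_inv] using hi)
  have hiS : i ∈ S := by
    have := supp_subset_of_mem_Inv hS (r := R.simple i) (by rw [hI, Inv_s]; exact Or.inl rfl)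
    simpa [R.supp_simple] using this
  refine RootBN.XS_le fun r hr x hx => ?_
  rw [hI, Inv_s] at hr
  rcases hr with rfl | ⟨r', hr', rfl⟩
  · exact h1 i hiS hx
  obtain ⟨k, hk, h3⟩ := mem_nodes_of_X_le (h1 i hiS) (h2 i hiS)
  have h4 := R.conj_X (R.s_mem i) (conj_H_X hk hx)
  rw [w_apply_inv (R.s_mem i)] at h4
  have h5 : n ∈ R.NS S := by simpa using mul_mem hS (inv_mem (s_mem_NS hiS))
  have h6 := ih h5 (X_le_XS hr' h4)
  rw [show x = (R.s i * k)⁻¹ * (R.s i * (k * x * k⁻¹) * (R.s i)⁻¹) * (R.s i * k) by group]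
  exact mul_mem (mul_mem (inv_mem h3) h6) h3

/-- The square of a class is everything. -/
def ThSq (G : Type*) [Group G] : Prop := ∃ c : G, ∀ g : G, ∃ x y : G, g = (x * c * x⁻¹) * (y * c * y⁻¹)

theorem ThSq.of_equiv {G G' : Type*} [Group G] [Group G'] (h : ThSq G') (e : G ≃* G') : ThSq G := by
  obtain ⟨c, hc⟩ := h
  refine ⟨e.symm c, fun g => ?_⟩
  obtain ⟨x, y, h⟩ := hc (e g)
  exact ⟨e.symm x, e.symm y, e.injective (by simpa using h)⟩

/-- A Levi factor of type `A_n` with a central element that is regular on the unipotent radical. -/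
structure LD (D : GD R F) (n : ℕ) where
  ψ : SL(n + 1, F) →* Γ
  ρ : Fin n → I
  ρ_inj : Function.Injective ρ
  ψ_x : ∀ i a, ψ (xA F (srA i) a) = D.x (ρ i) a ∧ ψ (xA F (srA i).ng a) = D.y (ρ i) a
  diag : ∀ δ : Fˣ, ∃ d : Fin (n + 1) → Fˣ, ∏ i, d i = δ ∧
    ∃ h ∈ R.H, ∀ i, D.Cc h (ρ i) (d i.castSucc / d i.succ)
  t : Γ
  t_mem : t ∈ R.H
  t_ρ : ∀ i, D.Cc t (ρ i) 1
  fpf : ∀ r, ¬ R.supp r ⊆ Set.range ρ → ∀ x ∈ R.X r, t * x = x * t → x = 1
  m : Γ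
  m_mem : m ∈ R.N
  m_t : m * t * m⁻¹ * t ∈ Subgroup.center Γ
  m_ρ : ∀ i, ∃ j, R.w m (R.simple (ρ i)) = R.neg (R.simple (ρ j))

namespace LD

variable {D : GD R F} {n : ℕ} (L : LD D n)

theorem conj_ψ {h : Γ} {d : Fin (n + 1) → Fˣ} (hd : ∀ i, D.Cc h (L.ρ i) (d i.castSucc / d i.succ))
    (M : SL(n + 1, F)) : h * L.ψ M * h⁻¹ = L.ψ (cjd d M) :=
  (sl_eq_top (H := ((MulAut.conj h).toMonoidHom.comp L.ψ).eqLocus (L.ψ.comp (cjd d)))
    (fun i a => show h * L.ψ _ * h⁻¹ = L.ψ (cjd d _) by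
      rw [cjd_xA, (L.ψ_x i _).1, (L.ψ_x i _).1, (hd i a).1]; rfl)
    fun i a => show h * L.ψ _ * h⁻¹ = L.ψ (cjd d _) by
      rw [cjd_xA, (L.ψ_x i _).2, (L.ψ_x i _).2, (hd i a).2, inv_div]; rfl).ge (Subgroup.mem_top M)

theorem commute_t (M : SL(n + 1, F)) : Commute L.t (L.ψ M) :=
  ((sl_eq_top (H := (Subgroup.centralizer {L.t}).comap L.ψ)
    (fun i a => Subgroup.mem_centralizer_singleton_iff.2 (by
      rw [(L.ψ_x i a).1, eq_comm, ← mul_inv_eq_iff_eq_mul]; simpa using (L.t_ρ i a).1))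
    fun i a => Subgroup.mem_centralizer_singleton_iff.2 (by
      rw [(L.ψ_x i a).2, eq_comm, ← mul_inv_eq_iff_eq_mul]; simpa using (L.t_ρ i a).2)).ge
      (Subgroup.mem_top M) L.t rfl :)

theorem ψ_mem (M : SL(n + 1, F)) : L.ψ M ∈ R.L (Set.range L.ρ) :=
  (sl_eq_top (H := (R.L (Set.range L.ρ)).comap L.ψ)
    (fun i a => X_le_L (by simp [R.supp_simple]) ((L.ψ_x i a).1 ▸ D.x_mem _ a))
    fun i a => X_le_L (by simp [R.supp_neg, R.supp_simple]) ((L.ψ_x i a).2 ▸ D.y_mem _ a)).ge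
      (Subgroup.mem_top M)

variable [Finite Φ] [Fintype F] [Finite I] {p : ℕ} [Fact p.Prime] [CharP F p] (hU : IsPGroup p R.U)
include hU

omit [CharP F p] [Fact p.Prime] in
theorem isConj {X Y : SL(n + 1, F)} (hX : Reg X.1) (hY : Reg Y.1) :
    IsConj (L.t * L.ψ X) (L.t * L.ψ Y) := by
  classical
  have := Fintype.ofFinite I
  obtain ⟨δ, h1⟩ := exists_cjd (hX.isConj hY)
  obtain ⟨d, hd, h, hh, h2⟩ := L.diag δ
  obtain ⟨A, rfl⟩ := isConj_iff.1 (h1 d hd)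
  obtain ⟨c, rfl⟩ := D.exists_tor hU hh
  obtain ⟨c', e⟩ := D.exists_tor hU L.t_mem
  have h3 : D.tor c * L.t = L.t * D.tor c := by rw [← e, ← map_mul, mul_comm, map_mul]
  refine isConj_iff.2 ⟨L.ψ A * D.tor c, ?_⟩
  rw [map_mul, map_mul, map_inv, ← L.conj_ψ h2, ← mul_assoc, mul_assoc _ _ L.t, h3, ← mul_assoc,
    ← (L.commute_t A).eq]
  group

omit hU [Finite Φ] [Finite I] [Fact p.Prime] in
theorem coprime_orderOf {g : Γ} (h : g ^ (Fintype.card F - 1) = 1) (k : ℕ) : (p ^ k).Coprime (orderOf g) := by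
  obtain ⟨l, -, e⟩ := FiniteField.card F p
  refine (Nat.Coprime.coprime_dvd_right (orderOf_dvd_of_pow_eq_one h) (Nat.Coprime.coprime_dvd_left
    (e ▸ dvd_pow_self p l.ne_zero) ?_)).pow_left k
  obtain ⟨q, hq⟩ := Nat.exists_eq_succ_of_ne_zero (Fintype.card_ne_zero (α := F))
  simp [hq]

theorem commute_of {X : SL(n + 1, F)} (hX : Reg X.1) {v : Γ} (h : Commute (L.t * L.ψ X) v) :
    Commute L.t v := by
  classical
  have := Fintype.ofFinite I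
  obtain ⟨c, e⟩ := D.exists_tor hU L.t_mem
  obtain ⟨k, hk⟩ := exists_pow_eq_self_of_coprime (coprime_orderOf (p := p) (F := F) (g := L.t) (by
    rw [← e, ← map_pow, show c ^ (Fintype.card F - 1) = 1 from funext fun i => by
      simpa [Fintype.card_units] using pow_card_eq_one (x := c i), map_one]) (n + 1))
  have := (h.pow_left (p ^ (n + 1))).pow_left k
  rwa [(L.commute_t X).mul_pow, ← map_pow, reg_pow hX, map_one, mul_one, hk] at this

omit [Finite I] [Fact p.Prime] in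
theorem exists_reg (hF : 7 ≤ Fintype.card F) {v u : Γ} (hv : v ∈ R.op.US (Set.range L.ρ))
    (hu : u ∈ R.US (Set.range L.ρ)) : ∃ A X Y : SL(n + 1, F), Reg X.1 ∧ Reg Y.1 ∧ v = L.ψ A ∧
      v * u = L.ψ X * L.ψ Y := by
  have h1 : ∀ i ∈ Set.range L.ρ, R.X (R.simple i) ≤ L.ψ.range := by
    rintro _ ⟨i, rfl⟩ x hx
    obtain ⟨a, rfl⟩ := (D.memX _ _).1 hx
    exact ⟨_, (L.ψ_x i a).1⟩
  have h2 : ∀ i ∈ Set.range L.ρ, R.X (R.neg (R.simple i)) ≤ L.ψ.range := by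
    rintro _ ⟨i, rfl⟩ x hx
    obtain ⟨a, rfl⟩ := (D.memY _ _).1 hx
    exact ⟨_, (L.ψ_x i a).2⟩
  obtain ⟨A, rfl⟩ := US_le_of_simple (R := R.op) h2 (fun i hi => show R.X (R.neg (R.neg (R.simple i))) ≤ _ by
    rw [R.neg_neg]; exact h1 i hi) hv
  obtain ⟨B, rfl⟩ := US_le_of_simple h1 h2 hu
  have h4 : 4 ≤ Cardinal.mk F := by rw [Cardinal.mk_fintype]; exact_mod_cast (by omega : 4 ≤ _)
  by_cases h : ∀ c : F, (A * B).1 ≠ c • 1
  · obtain ⟨X, Y, hX, hY, e⟩ := exists_reg_mul_sl h4 (Or.inr h)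
    exact ⟨A, X, Y, hX, hY, rfl, by rw [← map_mul, e, map_mul]⟩
  obtain ⟨X, Y, hX, hY, e⟩ := exists_reg_mul_sl (n := n) h4 (Or.inl rfl)
  refine ⟨A, X, Y, hX, hY, rfl, ?_⟩
  obtain ⟨c, hc⟩ := not_forall.1 h
  rw [not_not] at hc
  have hc0 : c ≠ 0 := by
    rintro rfl
    simpa [hc] using (A * B).2
  have h5 : Commute A B := mul_right_cancel (b := B) (by
    rw [mul_assoc B]
    exact Subtype.ext (show (A * B).1 * B.1 = B.1 * (A * B).1 by simp only [hc]; simp))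
  have hp : ∀ u ∈ R.U, IsPEl p u := fun u hu => (hU ⟨u, hu⟩).imp fun k hk => congrArg Subtype.val hk
  obtain ⟨k, hk⟩ := IsPEl.mul_of_commute (by
    simpa [mul_assoc] using (hp _ (n0_conj_mem_U.2 (US_le_U (R := R.op) _ hv))).conj R.n0⁻¹)
    (hp _ (US_le_U _ hu)) (h5.map L.ψ)
  obtain ⟨l, hl⟩ := exists_pow_eq_self_of_coprime (coprime_orderOf (p := p) (F := F) (g := L.ψ A * L.ψ B) (by
    rw [← map_mul, ← map_pow, show (A * B) ^ (Fintype.card F - 1) = 1 from Subtype.ext (by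
      rw [Matrix.SpecialLinearGroup.coe_pow, hc, smul_pow, FiniteField.pow_card_sub_one_eq_one c hc0]
      simp), map_one]) k)
  rw [← hl, hk, one_pow, ← map_mul, ← e, map_one]

include L in
theorem main [Finite Γ] (hF : 7 ≤ Fintype.card F) : ∃ x : Γ, ∀ g, ∃ z ∈ Subgroup.center Γ, ∃ a b,
    IsConj x a ∧ IsConj x b ∧ g = z * (a * b) := by
  classical
  have := Fintype.ofFinite I
  refine ⟨L.t * L.ψ ((List.finRange n).map fun i => xA F (srA i) 1).prod, fun g => ?_⟩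
  by_cases hg : g ∈ Subgroup.center Γ
  · have h1 : ∀ i, ∃ j c, c ≠ 0 ∧ R.w L.m (R.simple (L.ρ i)) = R.neg (R.simple (L.ρ j)) ∧
        L.m * D.x (L.ρ i) 1 * L.m⁻¹ = D.y (L.ρ j) c := fun i => by
      obtain ⟨j, hj⟩ := L.m_ρ i
      obtain ⟨c, hc⟩ := (D.memY _ _).1 (hj ▸ R.conj_X L.m_mem (D.x_mem (L.ρ i) 1))
      refine ⟨j, c, ?_, hj, hc⟩
      rintro rfl
      rw [(D.rel _).y_zero, conj_eq_one_iff] at hc
      exact one_ne_zero (D.x_eq_one hc)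
    choose σ c hc hσ e using h1
    have hY := reg_prod_y (σ := σ) (fun i j h => L.ρ_inj (simple_injective ((R.w L.m).injective
      (by rw [hσ, hσ, h])))) hc
    have h2 : ∀ l : List (Fin n), L.m * L.ψ (l.map fun i => xA F (srA i) 1).prod * L.m⁻¹ =
        L.ψ (l.map fun i => xA F (srA (σ i)).ng (c i)).prod := fun l => by
      induction l with
      | nil => simp
      | cons i l ih => simp [L.ψ_x, ← e, ← ih, mul_assoc]
    refine ⟨_, mul_mem hg (inv_mem L.m_t), _, _, isConj_iff.2 ⟨L.m, rfl⟩,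
      L.isConj hU reg_prod_x (reg_inv hY), ?_⟩
    rw [(L.commute_t _⁻¹).eq, map_inv, ← h2]
    group
  obtain ⟨_, hv', _, hu', h1⟩ := D.gauss hF hU hg (mul_mem L.t_mem L.t_mem)
  obtain ⟨q, hq, v, hv, rfl⟩ := factor_Q_US (R := R.op) (Set.range L.ρ) hv'
  obtain ⟨u, hu, q', hq', rfl⟩ := factor_US_Q (Set.range L.ρ) hu'
  obtain ⟨A, X, Y, hX, hY, rfl, e⟩ := L.exists_reg hU hF hv hu
  have hm := fun X => mul_mem (H_le_L _ L.t_mem) (L.ψ_mem X)
  obtain ⟨a, -, ha⟩ := Th.exists_twist (fun w hw => conj_L_Q_op (hm X) hw) (fun w hw h =>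
    eq_one_of_commute_Q (R := R.op) L.t_mem (fun r hr => L.fpf _ (by rwa [R.supp_neg])) w hw
      (L.commute_of hU hX h)) hq
  obtain ⟨b, -, hb⟩ := Th.exists_twist (fun w hw => conj_L_Q (inv_mem (hm Y)) hw) (fun w hw h =>
    eq_one_of_commute_Q L.t_mem L.fpf w hw (L.commute_of hU hY (Commute.inv_left_iff.1 h))) (inv_mem hq')
  obtain ⟨y, rfl⟩ := isConj_iff.1 h1.symm
  refine ⟨1, one_mem _, _, _, (L.isConj hU reg_prod_x hX).trans (isConj_iff.2 ⟨y * a, rfl⟩),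
    (L.isConj hU reg_prod_x hY).trans (isConj_iff.2 ⟨y * b, rfl⟩), ?_⟩
  have h2 : L.ψ A * (L.t * L.t) * u = L.t * L.ψ X * (L.t * L.ψ Y) := by
    rw [← ((L.commute_t A).mul_left (L.commute_t A)).eq, mul_assoc, e, mul_assoc, mul_assoc,
      ← mul_assoc (L.ψ X), ← (L.commute_t X).eq, mul_assoc]
  calc _ = y * (q * (L.ψ A * (L.t * L.t) * u) * q') * y⁻¹ := by group
    _ = y * (q * (L.t * L.ψ X) * (q'⁻¹ * (L.t * L.ψ Y)⁻¹)⁻¹) * y⁻¹ := by rw [h2]; group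
    _ = _ := by rw [ha, hb]; group

include L in
theorem thSq [Finite Γ] (hF : 7 ≤ Fintype.card F) {G : Type*} [Group G] (π : Γ →* G)
    (h1 : Function.Surjective π) (h2 : Subgroup.center Γ ≤ π.ker) : ThSq G := by
  obtain ⟨x, hx⟩ := L.main hU hF
  refine ⟨π x, fun g => ?_⟩
  obtain ⟨g, rfl⟩ := h1 g
  obtain ⟨z, hz, _, _, ha, hb, rfl⟩ := hx g
  obtain ⟨a, rfl⟩ := isConj_iff.1 ha
  obtain ⟨b, rfl⟩ := isConj_iff.1 hb
  exact ⟨π a, π b, by simp [show π z = 1 from h2 hz]⟩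

include L in
theorem thSq_quot [Finite Γ] (hF : 7 ≤ Fintype.card F) : ThSq (Γ ⧸ Subgroup.center Γ) :=
  L.thSq hU hF (QuotientGroup.mk' _) (QuotientGroup.mk'_surjective _) (QuotientGroup.ker_mk' _).ge

end LD

end Cfsg.Agent.Chev.Tq
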