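import Mathlib
import Cfsg.Agent.Chev.TqLevi
import Cfsg.Agent.Chev.CRSt

/-!
Thompson's conjecture for the linear and the exceptional Chevalley groups over fields with at least nine
elements.
-/

set_option autoImplicit false

namespace Cfsg.Agent.Chev.Tq

open StRoot Tim Cfsg.Agent.Ch Cfsg.Lie
open scoped MatrixGroups

theorem exists_gen {F : Type*} [Field F] [Fintype F] (hF : 9 ≤ Fintype.card F) :
    ∃ z : Fˣ, ∀ e : ℤ, e ≠ 0 → e.natAbs < 8 → z ^ e ≠ 1 := by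
  classical
  obtain ⟨z, hz⟩ := IsCyclic.exists_ofOrder_eq_natCard (α := Fˣ)
  refine ⟨z, fun e h0 h8 h => ?_⟩
  have := Nat.le_of_dvd (Int.natAbs_pos.2 h0) (Int.natCast_dvd.1 (orderOf_dvd_iff_zpow_eq_one.2 h))
  rw [hz, Nat.card_eq_fintype_card, Fintype.card_units] at this
  omega

theorem prod_mulSingle_div {F : Type*} [Field F] {n : ℕ} (δ : Fˣ) (i : Fin n) :
    (Pi.mulSingle 0 δ : Fin (n + 1) → Fˣ) i.castSucc / (Pi.mulSingle 0 δ : Fin (n + 1) → Fˣ) i.succ =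
      δ⁻¹ ^ (if (i : ℕ) = 0 then -1 else 0 : ℤ) := by
  simp only [Pi.mulSingle_apply, Fin.ext_iff, Fin.val_castSucc, Fin.val_succ, Fin.val_zero]
  split_ifs <;> simp_all

variable {ι Nd M : Type} [AddCommGroup M] [Fintype Nd] {K : Type*} [Field K] {G : Type*} [Group G]
  {R : StRoot ι Nd M} {x : ι → K → G} [Finite ι]

omit [Finite ι] in
theorem sl2Rel_st (h : R.IsSt x) (r : ι) : SL2Rel (x r) (x (R.ng r)) :=
  ⟨h.add r, h.add _, fun t ht u => by rw [div_eq_inv_mul, ← inv_pow]; exact h.nn_conj_self r ht u,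
    fun _ ht u => h.nn_conj_ng r ht u⟩

omit [Finite ι] in
theorem stH_st (h : R.IsSt x) (r : ι) (t : K) : stH (x r) (x (R.ng r)) t = R.hh x r t := by
  rw [hh, nn_neg (h.add _) (h.add _)]; rfl

/-- The rank one data of a strong model. -/
def stGD (h : R.IsStrong x) (hg : XS x Set.univ = ⊤)
    (hc : ∃ (i0 : Nd) (rk : Nd → ℕ), ∀ j ≠ i0, ∃ k, rk k < rk j ∧ R.A (R.sr k) (R.sr j) ≠ 0) :
    GD h.rootBN K where
  x i := x (R.sr i)
  y i := x (R.ng (R.sr i))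
  rel _ := sl2Rel_st h.toIsSt _
  memX i g := (h.add _).mem_rsub.trans (exists_congr fun _ => eq_comm)
  s_eq _ := rfl
  h_mem i μ hμ := by rw [stH_st h.toIsSt]; exact hh_mem_HH _ hμ
  A i j := R.A (R.sr i) (R.sr j)
  hx i j μ hμ t := by rw [stH_st h.toIsSt, h.toIsSt.hh_conj _ _ hμ]
  hy i j μ hμ t := by rw [stH_st h.toIsSt, h.toIsSt.hh_conj _ _ hμ, R.A_ng_right]
  A_self _ := R.A_self _
  A_le i j := by
    by_cases e : i = j
    · simp [e, R.A_self]
    have h1 := R.A_mul_lt (r := R.sr i) (s := R.sr j) (fun h => e (R.sr_inj h).symm)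
      fun h => R.not_pos_ng_sr i (h ▸ R.pos_sr j)
    rcases (R.A_sr_sr_nonpos e).eq_or_lt with h2 | h2
    · simp [h2]
    have := R.A_neg_comm h2
    have : -4 < R.A (R.sr i) (R.sr j) := by nlinarith
    omega
  conn := let ⟨i0, rk, h⟩ := hc; ⟨i0, rk, fun j hj => (h j hj).imp fun _ h =>
    ⟨h.1, h.2, fun e => h.2 (R.A_zero_comm e)⟩⟩
  gen := RootBN.U_sup_V.trans hg

theorem cc_of_mono {h : R.IsStrong x} {hg : XS x Set.univ = ⊤} {hc} {g : G} {c : ι → K}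
    (hm : R.Mono x g 1 c) {j : Nd} {a : Kˣ} (e : c (R.sr j) = a) : (stGD h hg hc).Cc g j a := fun t =>
  ⟨e ▸ hm.conj _ t, (hm.conj _ t).trans (by rw [hm.c_ng, e, Units.val_inv_eq_inv_val]; rfl)⟩

theorem thSq_st [Fintype K] [Finite G] (hK : 9 ≤ Fintype.card K) (h : R.IsStrong x) (hg : XS x Set.univ = ⊤)
    (hc : ∃ (i0 : Nd) (rk : Nd → ℕ), ∀ j ≠ i0, ∃ k, rk k < rk j ∧ R.A (R.sr k) (R.sr j) ≠ 0)
    (k : Nd → ℤ) (hk : ∀ σ : Equiv.Perm Nd, (∀ i j, R.A (R.sr (σ i)) (R.sr (σ j)) = R.A (R.sr i) (R.sr j)) →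
      ∀ i, k (σ i) = k i) {n : ℕ} (ρ : Fin n → Nd) (hL : n ≤ 1 ∨ R.SL ∧ R.Std)
    (hρ : ∀ i j, R.A (R.sr (ρ i)) (R.sr (ρ j)) =
      if i.val = j.val then 2 else if j.val = i.val + 1 ∨ i.val = j.val + 1 then -1 else 0)
    (hκ : ∃ κ, ∀ i, R.A (R.sr κ) (R.sr (ρ i)) = if (i : ℕ) = 0 then -1 else 0)
    (h0 : ∀ j, ∑ i, k i * R.A (R.sr i) (R.sr (ρ j)) = 0)
    (h1 : ∀ r j, (∀ i, ρ i ≠ j) → R.co r j ≠ 0 → ∑ i, k i * R.A (R.sr i) r ≠ 0 ∧
      (∑ i, k i * R.A (R.sr i) r).natAbs < 8) : ThSq (G ⧸ Subgroup.center G) := by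
  classical
  obtain ⟨p, _⟩ := CharP.exists K
  have := Fact.mk (CharP.char_is_prime K p)
  obtain ⟨z, hz⟩ := exists_gen hK
  have hS := h.toIsSt
  obtain ⟨ψ, hψ⟩ := exists_hom_of_edges (fun i => x (R.sr (ρ i))) (fun i => x (R.ng (R.sr (ρ i))))
    (fun _ => sl2Rel_st hS _) (fun i j e => by
      obtain ⟨hL, hS⟩ := hL.resolve_left (by omega)
      exact hL.edge hS h.toIsModel (by rw [hρ]; split_ifs <;> omega))
    fun i j e a b => by
      obtain ⟨hL, -⟩ := hL.resolve_left (by omega)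
      have : R.A (R.sr (ρ i)) (R.sr (ρ j)) = 0 := by rw [hρ]; split_ifs <;> omega
      refine ⟨?_, ?_, ?_⟩ <;> exact hL.commute h.toIsAB (by simp [R.A_ng_left, R.A_ng_right, this]) _ _
  let E : ι → ℤ := fun r => ∑ i, k i * R.A (R.sr i) r
  have ht := (hS.mono_tor hS.hmul_of_finite fun i => z ^ k i).congr (c' := fun r => ((z ^ E r : Kˣ) : K)) rfl
    fun r => by simp only [← zpow_mul, prod_zpow_eq_zpow_sum, E]
  have hn := RootBN.n0_mem (R := h.rootBN)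
  obtain ⟨c, hm⟩ := hS.mono_wN hn
  choose σ hσ using RootBN.exists_w_n0_simple (R := h.rootBN)
  replace hσ : ∀ i, R.wN x h.rootBN.n0 (R.sr i) = R.ng (R.sr (σ i)) := hσ
  let σ' := Equiv.ofBijective σ (Finite.injective_iff_bijective.1 fun i j e =>
    R.sr_inj ((R.wN x h.rootBN.n0).injective (by rw [hσ, hσ, e])))
  have hA : ∀ i r, R.A (R.sr (σ' i)) (R.wN x h.rootBN.n0 r) = -R.A (R.sr i) r := fun i r => by
    rw [← hm.aut.A (R.sr i), hσ, R.A_ng_left, neg_neg]; rfl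
  have hE : ∀ r, E (R.wN x h.rootBN.n0 r) = -E r := fun r => by
    simp only [E]
    rw [← σ'.sum_comp]
    simp only [hA, hk σ' fun i j => by
      rw [← neg_inj, ← hA i, hσ, R.A_ng_right]; rfl, mul_neg, Finset.sum_neg_distrib]
  refine LD.thSq_quot (D := stGD h hg hc) (p := p)
    { ψ := ψ
      ρ := ρ
      ρ_inj := fun i j e => by
        have := hρ i j
        rw [e, R.A_self] at this
        split_ifs at this <;> omega
      ψ_x := hψ
      diag := fun δ => let ⟨κ, hκ⟩ := hκ; ⟨Pi.mulSingle 0 δ, by simp, _, hh_mem_HH (R.sr κ) δ⁻¹.ne_zero,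
        fun i => cc_of_mono (hS.mono_hh _ δ⁻¹.ne_zero) (by rw [prod_mulSingle_div, hκ, Units.val_zpow_eq_zpow_val])⟩
      t := _
      t_mem := hS.tor_mem_HH _ _
      t_ρ := fun i => cc_of_mono ht (by simp [E, h0])
      fpf := fun r hr y hy e => ?_
      m := _
      m_mem := hn
      m_t := Subgroup.mem_center_iff.2 fun g => (Mono.commute_of_trivial ((((hm.mul ht).mul (hm.inv
        (R.isAut_of_mem_weyl (inv_mem (wN_mem_weyl _))))).mul ht).congr (by simp) fun r => ?_)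
          (hg ▸ Subgroup.mem_top g)).symm
      m_ρ := fun i => ?_ } h.toIsModel.isPGroup_UU (by omega)
  · obtain ⟨j, hj, hj'⟩ := Set.not_subset.1 hr
    obtain ⟨a, rfl⟩ := (h.add r).mem_rsub.1 hy
    obtain ⟨h2, h3⟩ := h1 r j (fun i e => hj' ⟨i, e⟩) hj
    have h4 := h.toIsModel.x_inj r ((ht.conj r a).symm.trans (mul_inv_eq_iff_eq_mul.2 e))
    rw [mul_left_eq_self₀, Units.val_eq_one] at h4
    rw [h4.resolve_left (hz _ h2 h3), (h.add r).zero]
  · obtain ⟨r, rfl⟩ := (R.wN x h.rootBN.n0).surjective r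
    simp [hE, hm.ne_zero, mul_right_comm, zpow_ne_zero]
  · by_contra! h2
    have h3 := hE (R.sr (ρ i))
    rw [hσ] at h3
    refine (h1 _ (σ (ρ i)) (fun j e => h2 j (by rw [e]; exact hσ _)) ?_).1 (h3.trans (by simp [E, h0]))
    simp [R.co_ng, R.co_sr]

theorem thSq_psl [Fintype K] (hK : 9 ≤ Fintype.card K) {n : ℕ} (hn : 2 ≤ n) :
    ThSq (Matrix.ProjectiveSpecialLinearGroup (Fin n) K) := by
  obtain ⟨m, rfl⟩ : ∃ m, n = m + 2 := ⟨n - 2, by omega⟩
  have hE : ∀ r : RtA (m + 2), ∑ i, 1 * (stA (m + 1)).A ((stA _).sr i) r = r.wt 0 - r.wt (Fin.last _) := by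
    intro r
    have := Fin.sum_univ_succ r.wt
    rw [Fin.sum_univ_castSucc] at this
    change ∑ i : Fin (m + 1), 1 * (r.wt i.castSucc - r.wt i.succ) = _
    simp only [one_mul, Finset.sum_sub_distrib]
    omega
  refine thSq_st hK (Cl.CT.isStrong_xA (m := m + 1)) XS_xA_univ
    ⟨0, Fin.val, fun j hj => ⟨⟨j - 1, by omega⟩, ?_⟩⟩ (fun _ => 1) (fun _ _ _ => rfl)
    (n := m - 1) (fun i => ⟨i + 1, by omega⟩) (Or.inr ⟨stA_sl, stA_std⟩) (fun i j => ?_) ⟨0, fun i => ?_⟩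
    (fun j => ?_) fun r j h1 h2 => ?_
  · have := Fin.val_ne_of_ne hj
    simp only [stA_A_sr, Fin.val_zero] at this ⊢
    split_ifs <;> omega
  · simp [stA_A_sr]
  · simp [stA_A_sr]
  · have := j.2
    rw [hE]
    simp only [RtA.wt, stA, srA, Fin.ext_iff, Fin.val_zero, Fin.val_last, Fin.val_castSucc, Fin.val_succ]
    split_ifs <;> omega
  · have h3 : (j : ℕ) = 0 ∨ (j : ℕ) = m := by
      by_contra! h
      exact h1 ⟨j - 1, by omega⟩ (Fin.ext (by simp; omega))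
    obtain ⟨⟨a, b⟩, hab⟩ := r
    have := a.2
    have := b.2
    simp only [hE, RtA.wt, Fin.ext_iff, Fin.val_zero, Fin.val_last]
    simp only [stA] at h2
    split_ifs at h2 ⊢ <;> omega

theorem thSq_chev [Fintype K] (hK : 9 ≤ Fintype.card K) (D : ChevalleyDatum) [hG : D.Good] (k : ℕ → ℤ)
    (v : ℕ → ℕ → ℤ) (hv0 : ∀ i : D.Nd, v 0 i = 1)
    (hv : ∀ s < 5, ∀ i : D.Nd, v (s + 1) i = ∑ j : D.Nd, D.cartan i (D.simple j) * v s j)
    (hk : ∀ i j : D.Nd, v 5 i = v 5 j → k i = k j) (n a : ℕ) (ha : n + a ≤ D.rank) (hL : n ≤ 1 ∨ D.stRoot.SL)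
    (hρ : ∀ i j : Fin n, D.cartan (i + a) (D.simple (j + a)) =
      if i.val = j.val then 2 else if j.val = i.val + 1 ∨ i.val = j.val + 1 then -1 else 0)
    (hκ : ∃ κ : D.Nd, ∀ i : Fin n, D.cartan κ (D.simple (i + a)) = if (i : ℕ) = 0 then -1 else 0)
    (h0 : ∀ j : Fin n, ∑ i : D.Nd, k i * D.cartan i (D.simple (j + a)) = 0)
    (h1 : ∀ r : D.Rt, (∀ j : D.Nd, j < a ∨ n + a ≤ j → D.co r j = 0) ∨ ∑ i : D.Nd, k i * D.cartan i r ≠ 0 ∧
      (∑ i : D.Nd, k i * D.cartan i r).natAbs < 8) : ThSq (D.group K) := by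
  refine (thSq_st hK (D.isStrong_XG K) (D.XS_XG_univ K) ?_ (fun i => k i) (fun σ hσ i => hk _ _ ?_)
    (fun i : Fin n => ⟨i + a, by omega⟩) (hL.imp_right fun h => ⟨h, D.std⟩) (by simpa only [D.stRoot_A_sr_sr] using hρ)
    (by simpa only [D.stRoot_A_sr_sr] using hκ) (by simpa only [D.stRoot_A_sr_sr] using h0)
    fun r j h2 h3 => ?_).of_equiv ((QuotientGroup.quotientMulEquivOfEq (D.center_group_eq_bot K)).trans
      QuotientGroup.quotientBot).symm
  · obtain ⟨rk, h⟩ := hG.connected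
    have := hG.two_le_rank
    refine ⟨⟨0, by omega⟩, fun i => rk i, fun j hj => ?_⟩
    obtain ⟨k, h1, h2, h3⟩ := h j j.2 (Fin.val_ne_of_ne hj)
    exact ⟨⟨k, h1⟩, h2, by rwa [D.stRoot_A_sr_sr]⟩
  · simp only [D.stRoot_A_sr_sr] at hσ
    suffices ∀ s ≤ 5, ∀ i, v s (σ i) = v s i from this 5 le_rfl i
    intro s hs
    induction s with
    | zero => simp [hv0]
    | succ s ih => intro i; rw [hv s hs, hv s hs, ← Equiv.sum_comp σ]; simp only [hσ, ih (by omega)]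
  · simp only [D.stRoot_A_sr]
    refine (h1 r).resolve_left fun h => h3 ((D.coef_eq_zero_iff r j).2 (h j ?_))
    by_contra! h4
    exact h2 ⟨j - a, by omega⟩ (Fin.ext (by simp; omega))

/-- A table of integers. -/
def tb (l : List (List ℤ)) (a b : ℕ) : ℤ := (l.getD a []).getD b 0

variable [Fintype K] (hK : 9 ≤ Fintype.card K)
include hK

theorem thSq_G2 : ThSq (chevG2.group K) :=
  thSq_chev hK _ (tb [[3, 5]] 0) (tb [[1, 1], [-1, 1], [-5, 3], [-19, 11], [-71, 41], [-265, 153]])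
    (by decide +kernel) (by decide +kernel) (by decide +kernel) 0 0 (by decide) (Or.inl zero_le_one)
    (by decide +kernel) (by decide +kernel) (by decide +kernel) (by decide +kernel)

theorem thSq_F4 : ThSq (chevF4.group K) :=
  thSq_chev hK _ (tb [[5, 9, 13, 7]] 0) (tb [[1, 1, 1, 1], [1, -1, 0, 1], [3, -3, 0, 2], [9, -9, 1, 4],
      [27, -29, 7, 7], [83, -99, 36, 7]])
    (by decide +kernel) (by decide +kernel) (by decide +kernel) 1 1 (by decide) (Or.inl le_rfl)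
    (by decide +kernel) (by decide +kernel) (by decide +kernel) (by decide +kernel)

theorem thSq_E6 : ThSq (chevE6.group K) :=
  thSq_chev hK _ (tb [[3, 4, 5, 7, 5, 3]] 0) (tb [[1, 1, 1, 1, 1, 1], [1, 1, 0, -1, 0, 1],
      [2, 3, 0, -3, 0, 2], [4, 9, 1, -9, 1, 4], [7, 27, 7, -29, 7, 7], [7, 83, 36, -99, 36, 7]])
    (by decide +kernel) (by decide +kernel) (by decide +kernel) 3 2 (by decide) (Or.inr slE6)
    (by decide +kernel) (by decide +kernel) (by decide +kernel) (by decide +kernel)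

theorem thSq_E7 : ThSq (chevE7.group K) :=
  thSq_chev hK _ (tb [[6, 9, 11, 16, 12, 8, 4]] 0) (tb [[1, 1, 1, 1, 1, 1, 1], [1, 1, 0, -1, 0, 0, 1],
      [2, 3, 0, -3, 1, -1, 2], [4, 9, 1, -10, 6, -5, 5], [7, 28, 8, -36, 27, -21, 15],
      [6, 92, 45, -135, 111, -84, 51]])
    (by decide +kernel) (by decide +kernel) (by decide +kernel) 5 2 (by decide) (Or.inr slE7)
    (by decide +kernel) (by decide +kernel) (by decide +kernel) (by decide +kernel)

theorem thSq_E8 : ThSq (chevE8.group K) :=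
  thSq_chev hK _ (tb [[9, 13, 17, 25, 20, 15, 10, 5]] 0) (tb [[1, 1, 1, 1, 1, 1, 1, 1],
      [1, 1, 0, -1, 0, 0, 0, 1], [2, 3, 0, -3, 1, 0, -1, 2], [4, 9, 1, -10, 5, 0, -4, 5],
      [7, 28, 8, -35, 20, -1, -13, 14], [6, 91, 44, -126, 76, -9, -39, 41]])
    (by decide +kernel) (by decide +kernel) (by decide +kernel) 6 2 (by decide) (Or.inr slE8)
    (by decide +kernel) (by decide +kernel) (by decide +kernel) (by decide +kernel)

end Cfsg.Agent.Chev.Tq
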