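import Mathlib
import Cfsg.Agent.Chev.TqSt
import Cfsg.Agent.Ch.EichR
import Cfsg.Agent.Cl.EichClass

/-!
Thompson's conjecture for the symplectic and the split orthogonal groups over fields with at least nine
elements.
-/

set_option autoImplicit false

namespace Cfsg.Agent.Chev.Tq

open Tim Cfsg.Agent.Ch Cfsg.Agent.Ch.BakForm Cfsg.Agent.Cl.EB

variable {K V : Type*} [Field K] [AddCommGroup V] [Module K V] {F : BakForm K V} {m : ℕ}
  {f : F.Frame (Fin m)}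

/-- The coordinates of the weight `e_a`. -/
def dl (a x : Jx m) : ℤ := if a.1 = x.1 then (if a.2 = x.2 then 1 else -1) else 0

theorem dl_bar (a x : Jx m) : dl a (bar x) = -dl a x := by
  obtain ⟨i, b⟩ := a
  obtain ⟨j, c⟩ := x
  cases b <;> cases c <;> simp [dl, bar, apply_ite Neg.neg]

theorem dl_self (a : Jx m) : dl a a = 1 := by simp [dl]

theorem dl_ne {a x : Jx m} (h : a.1 ≠ x.1) : dl a x = 0 := if_neg h

variable (f) in
/-- A diagonal element with eigenvalues `μ ^ φ a`. -/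
structure Dg (g : F.EG) (μ : Kˣ) (φ : Jx m → ℤ) : Prop where
  anti : Anti φ
  v : ∀ a, g.1 (f.v a) = ((μ ^ φ a : Kˣ) : K) • f.v a
  V0 : ∀ w ∈ f.V0, g.1 w = w

namespace Dg

variable {g g' : F.EG} {μ : Kˣ} {φ φ' : Jx m → ℤ}

theorem mul (h : Dg f g μ φ) (h' : Dg f g' μ φ') {ψ : Jx m → ℤ} (e : ∀ a, ψ a = φ a + φ' a) :
    Dg f (g * g') μ ψ :=
  ⟨fun a => by rw [e, e, h.anti, h'.anti, neg_add], fun a => by
    rw [EG_mul_apply, h'.v, map_smul, h.v, smul_smul, e, zpow_add, mul_comm, Units.val_mul],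
    fun w hw => by rw [EG_mul_apply, h'.V0 w hw, h.V0 w hw]⟩

theorem mem_HH (h : Dg f g μ φ) : g ∈ HH f := Cl.EB.mem_HH.2 fun a => ⟨_, h.v a⟩

variable (hσ : ∀ x, F.σ x = x)
include hσ

theorem conj_X (h : Dg f g μ φ) {a b : Jx m} (hab : a ≠ bar b) (t : K) :
    g * f.X a (bar b) t * g⁻¹ = f.X a (bar b) ((μ ^ (φ a + φ b) : Kˣ) * t) := by
  rw [f.conj_X hab t hab (h.v a) (h.v _), F.η_mul_η, hσ, bar_bar, one_mul, zpow_add, Units.val_mul]

theorem conj_T (h : Dg f g μ φ) {a : Jx m} {w : V} (hw : w ∈ f.V0) {s : K} (hs : F.Val (f.v a) w s) :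
    g * F.T (f.v a) w s * g⁻¹ =
      F.T (f.v a) (((μ ^ φ a : Kˣ) : K) • w) ((μ ^ (φ a + φ a) : Kˣ) * s) := by
  rw [hs.T_conj, h.v, h.V0 w hw, hs.T_smul, hσ, zpow_add, Units.val_mul]

end Dg

theorem dg_stH (hσ : ∀ x, F.σ x = x) {a b : Jx m} (h : a.1 ≠ b.1) (μ : Kˣ) :
    Dg f (stH (f.X a (bar b)) (f.X (bar b) a) μ) μ fun e => dl a e + dl b e := by
  have h' : a.1 ≠ (bar b).1 := h
  refine ⟨fun e => by rw [dl_bar, dl_bar, neg_add], fun e => ?_, fun w => Frame.stH_fix_V0 h' μ.ne_zero⟩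
  by_cases h1 : e.1 = a.1
  · rcases fst_eq_iff.1 h1 with rfl | rfl
    · simp [f.stH_X_left h' μ.ne_zero, dl_self, dl_ne h.symm]
    · simp [f.stH_X_bar_left h' μ.ne_zero, dl_bar, dl_self, dl_ne h.symm, hσ]
  by_cases h2 : e.1 = b.1
  · rcases fst_eq_iff.1 h2 with rfl | rfl
    · simpa [dl_self, dl_ne h, hσ] using f.stH_X_bar_right h' μ.ne_zero
    · simp [f.stH_X_right h' μ.ne_zero, dl_bar, dl_self, dl_ne h]
  simp [Frame.stH_fix_v h' μ.ne_zero h1 h2, dl_ne (Ne.symm h1), dl_ne (Ne.symm h2)]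

variable (f) in
/-- A rank one group with root `e_a + κ e_b` and coroot `e_a + l e_b`. -/
structure Node (a b : Jx m) (κ l : ℤ) (x y : K → F.EG) : Prop where
  rel : SL2Rel x y
  mem : ∀ g, g ∈ Xp f a b ↔ ∃ t, g = x t
  s_eq : nR f a b = stW x y 1
  dg : ∀ μ : Kˣ, Dg f (stH x y μ) μ fun e => dl a e + l * dl b e
  cj : ∀ {g μ φ}, Dg f g μ φ → ∀ t, g * x t * g⁻¹ = x ((μ ^ (φ a + κ * φ b) : Kˣ) * t) ∧
    g * y t * g⁻¹ = y (((μ ^ (φ a + κ * φ b))⁻¹ : Kˣ) * t)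

variable (hσ : ∀ x, F.σ x = x)
include hσ

theorem node_ne {a b : Jx m} (h : a.1 ≠ b.1) : Node f a b 1 1 (f.X a (bar b)) (f.X (bar b) a) where
  rel := f.sl2Rel_X (b := bar b) h
  mem _ := mem_Xr_ne h (ok_of_fst_ne h)
  s_eq := nR_of_ne (ne_of_fst h)
  dg μ := by simpa only [one_mul] using dg_stH hσ h μ
  cj hg t := ⟨by rw [hg.conj_X hσ (ne_bar_of_fst h), one_mul], by
    have := hg.conj_X hσ (a := bar b) (b := bar a) (by simpa using (ne_bar_of_fst h).symm) t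
    rw [bar_bar] at this
    rw [this, hg.anti, hg.anti, one_mul, ← zpow_neg, neg_add, add_comm]⟩

theorem node_long (hV : f.V0 = ⊥) (hΛ : F.Λ = ⊤) (a : Jx m) : ∃ x y, Node f a a 1 0 x y := by
  have d : ¬ IsD f := fun d => one_ne_zero (d 0 (zero_mem _) 1 (hΛ ▸ trivial))
  have v : ∀ a s, F.Val (f.v a) 0 s := fun a s => (f.sing a).val_zero (hΛ ▸ trivial)
  obtain ⟨w, hw, s, hs, -, e⟩ := exists_nR_self d a
  obtain rfl : w = 0 := by rwa [hV] at hw
  obtain ⟨h, hW⟩ := Frame.sl2Rel_long (f := f) (a := a) (RingHom.id K) hσ (fun _ _ _ _ => hΛ ▸ trivial)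
    (hΛ ▸ trivial) hs
  simp only [RingHom.id_apply] at h hW
  refine ⟨_, _, h, fun g => (mem_Xr_self (ok_self d a)).trans ⟨?_, fun ⟨t, e⟩ => ⟨0, zero_mem _, _, v _ _, e⟩⟩,
    by rw [e, hW 1 one_ne_zero, one_mul], fun μ => ?_, fun hg t => ⟨?_, ?_⟩⟩
  · rintro ⟨w, hw, s', v', rfl⟩
    obtain rfl : w = 0 := by rwa [hV] at hw
    exact ⟨s' / s, by rw [div_mul_cancel₀ _ hs]⟩
  · have h1 := mul_ne_zero μ.ne_zero hs
    rw [stH, hW _ μ.ne_zero, hW 1 one_ne_zero, one_mul, ← Frame.hY]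
    refine ⟨fun e => by simp [dl_bar], fun e => ?_, fun _ => Frame.hY_zero_V0 (hΛ ▸ trivial) h1 (hΛ ▸ trivial) hs⟩
    by_cases h2 : e.1 = a.1
    · rcases fst_eq_iff.1 h2 with rfl | rfl
      · simp [Frame.hY_self (zero_mem _) (v _ _) h1 (zero_mem _) (v _ _) hs, dl_self, hs]
      · simp [Frame.hY_bar (zero_mem _) (v _ _) h1 (zero_mem _) (v _ _) hs, dl_bar, dl_self, hs, hσ]
    simp [Frame.hY_of_ne (zero_mem _) (v _ _) h1 (zero_mem _) (v _ _) hs (Ne.symm h2), dl_ne (Ne.symm h2)]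
  · rw [hg.conj_T hσ (zero_mem _) (v _ _), smul_zero, one_mul, mul_assoc]
  · rw [hg.conj_T hσ (zero_mem _) (v _ _), smul_zero, one_mul, hg.anti, ← neg_add, zpow_neg]
    simp only [mul_assoc]

theorem node_short (hε : F.ε = 1) (hΛ : F.Λ = ⊥) (hV : Module.finrank K f.V0 = 1) (a : Jx m) :
    ∃ x y, Node f a a 0 1 x y := by
  have hT : ∀ {z w s}, F.Val z w s → s = -F.Q w := fun {z w s} h => by
    have := h.ok
    rw [hΛ, AddSubgroup.mem_bot, hε, one_mul] at this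
    exact eq_neg_of_add_eq_zero_left this
  have v : ∀ a, ∀ w ∈ f.V0, F.Val (f.v a) w (-F.Q w) := fun a w hw => by simpa [hε] using Frame.val_V0 hw a
  obtain ⟨⟨w₀, hw₀⟩, h0, h1⟩ := finrank_eq_one_iff'.1 hV
  have d : ¬ IsD f := fun d => h0 (Subtype.ext (Frame.eq_zero_of_val hw₀ (d _ hw₀ _ (v a _ hw₀).ok ▸ v a _ hw₀)))
  obtain ⟨w, hw, s, hs, v', e⟩ := exists_nR_self d a
  have hw' : ∀ u ∈ f.V0, ∃ t : K, t • w = u := fun u hu => by
    obtain ⟨c, hc⟩ := h1 ⟨w, hw⟩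
    obtain ⟨c', hc'⟩ := h1 ⟨u, hu⟩
    obtain rfl : c • w₀ = w := congrArg Subtype.val hc
    obtain rfl : c' • w₀ = u := congrArg Subtype.val hc'
    have : c ≠ 0 := by
      rintro rfl
      rw [zero_smul] at v'
      exact hs (by simpa [hΛ] using v'.mem_of_zero)
    exact ⟨c' / c, by rw [smul_smul, div_mul_cancel₀ _ this]⟩
  have hQ : ∀ (t : K) u, F.Q (t • u) = t * t * F.Q u := fun t u => by
    simpa [hΛ, hσ, sub_eq_zero] using F.Q_smul t u
  have m1 : ∀ t : K, t • w ∈ f.V0 := fun t => f.V0.smul_mem t hw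
  obtain ⟨h, hW⟩ := Frame.sl2Rel_short (f := f) (a := a) hσ hε hΛ (AlgHom.id K K) (fun _ => rfl)
    (LinearMap.toSpanSingleton K V w) m1 hs fun t => by simp [hQ, hT v']
  simp only [LinearMap.toSpanSingleton_apply, AlgHom.coe_id, id] at h hW
  refine ⟨_, _, h, fun g => (mem_Xr_self (ok_self d a)).trans ⟨?_, fun ⟨t, e⟩ => ⟨_, m1 _, _, v _ _ (m1 _), e⟩⟩,
    by rw [e, (hW 1 one_ne_zero).1, one_smul, hT v'], fun μ => ?_, fun hg t => ⟨?_, ?_⟩⟩
  · rintro ⟨u, hu, s', v'', rfl⟩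
    obtain ⟨t, rfl⟩ := hw' u hu
    exact ⟨t, by rw [hT v'']⟩
  · obtain ⟨e1, n1, r1⟩ := hW _ μ.ne_zero
    obtain ⟨e2, n2, r2⟩ := hW 1 one_ne_zero
    have n3 : F.Q w ≠ 0 := by simpa using n2
    rw [stH, e1, e2, ← Frame.hY]
    refine ⟨fun e => by simp [dl_bar], fun e => ?_, fun u hu => ?_⟩
    · by_cases h2 : e.1 = a.1
      · rcases fst_eq_iff.1 h2 with rfl | rfl
        · rw [Frame.hY_self (m1 _) (v _ _ (m1 _)) n1 (m1 _) (v _ _ (m1 _)) n2]
          simp [dl_self, hQ, n3, zpow_ofNat, pow_two]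
        · rw [Frame.hY_bar (m1 _) (v _ _ (m1 _)) n1 (m1 _) (v _ _ (m1 _)) n2]
          simp [dl_bar, dl_self, hQ, hσ, n3, zpow_ofNat, pow_two]
      rw [Frame.hY_of_ne (m1 _) (v _ _ (m1 _)) n1 (m1 _) (v _ _ (m1 _)) n2 (Ne.symm h2)]
      simp [dl_ne (Ne.symm h2)]
    obtain ⟨t, rfl⟩ := hw' u hu
    rw [Frame.hY, EG_mul_apply, EG_inv_apply_eq (x := (-t) • w) (by rw [r2]; simp), r1, mul_div_cancel_left₀ _ μ.ne_zero, neg_neg]
  · rw [hg.conj_T hσ (m1 _) (v _ _ (m1 _)), smul_smul]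
    simp [hQ, zpow_add₀, mul_left_comm, mul_assoc]
  · have m2 := f.V0.smul_mem s⁻¹ (m1 t)
    rw [hg.conj_T hσ m2 (v _ _ m2), hg.anti, smul_comm, smul_smul _ t]
    simp [hQ, zpow_add₀, mul_left_comm, mul_assoc]

omit hσ

variable (f) in
/-- A monomial element which changes the signs in `S`. -/
def Flip (g : F.EG) (S : ℕ → Prop) : Prop :=
  g ∈ NN f ∧ ∀ a, (S a.1 → (pm f g).1 a = bar a) ∧ (¬ S a.1 → (pm f g).1 a = a)

theorem Flip.mul {g g' : F.EG} {S S' T : ℕ → Prop} (h : Flip f g S) (h' : Flip f g' S')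
    (e : ∀ i < m, T i ↔ ¬ (S i ↔ S' i)) : Flip f (g * g') T := by
  refine ⟨mul_mem h.1 h'.1, fun a => ?_⟩
  rw [pm_mul h.1 h'.1, Subgroup.coe_mul, Equiv.Perm.mul_apply, e _ a.1.2]
  have := h.2 a
  have := h'.2 a
  have := h.2 (bar a)
  by_cases S a.1 <;> by_cases S' a.1 <;> simp_all

theorem exists_flip₁ (d : ¬ IsD f) (i : Fin m) : ∃ g, Flip f g (· = i) := by
  have h := isMon_nR (ok_self d (i, true))
  refine ⟨_, h.mem_NN (ok_self d _), fun ⟨j, c⟩ => ?_⟩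
  rw [h.pm_eq, rf_apply, rfF]
  cases c <;> simp +contextual [bar, Fin.val_inj]

theorem exists_flip₂ {i j : Fin m} (hij : i ≠ j) : ∃ g, Flip f g fun k => k = i ∨ k = j := by
  have h := fun c => isMon_nR (f := f) (ok_of_fst_ne (a := (i, true)) (b := (j, c)) hij)
  refine ⟨_, mul_mem ((h true).mem_NN (ok_of_fst_ne hij)) ((h false).mem_NN (ok_of_fst_ne hij)),
    fun ⟨k, c⟩ => ?_⟩
  rw [((h true).mul (h false)).pm_eq]
  change (_ → rfF _ _ (rfF _ _ _) = _) ∧ (_ → rfF _ _ (rfF _ _ _) = _)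
  by_cases h1 : k = i
  · cases c <;> simp [rfF, bar, h1, hij, hij.symm]
  by_cases h2 : k = j <;> cases c <;> simp [rfF, bar, h1, h2, hij, hij.symm, Fin.val_inj]

/-- The exponents of a central element of the Levi factor. -/
def tau (k : ℕ) (c : ℤ) (x : Jx m) : ℤ :=
  (if x.2 then 1 else -1) * if x.1 < k then 1 else if (x.1 : ℕ) + 1 = m then c else 0

include hσ

theorem exists_flip (μ : Kˣ) {k : ℕ} (hk : k < m) : ∃ g t c, (c = 0 ∨ c = 1) ∧ Dg f t μ (tau k c) ∧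
    Flip f g fun i => i < k ∨ i + 1 = m ∧ c ≠ 0 := by
  induction k with
  | zero => exact ⟨1, 1, 0, Or.inl rfl, ⟨fun _ => by simp only [tau, Nat.not_lt_zero, if_false, ite_self, mul_zero, neg_zero], fun _ => by simp [tau],
      fun _ _ => rfl⟩, one_mem _, fun a => by simp [IsMon.one.pm_eq]⟩
  | succ k ih =>
    obtain ⟨g, t, c, hc, ht, h⟩ := ih (by omega)
    have n : (⟨k, by omega⟩ : Fin m) ≠ ⟨m - 1, by omega⟩ := Fin.ne_of_val_ne (by simp; omega)
    obtain ⟨g', h'⟩ := exists_flip₂ (f := f) n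
    refine ⟨_, _, 1 - c, by omega, (dg_stH hσ (a := (_, true)) (b := (_, decide (c = 0))) n μ).mul ht
      fun ⟨i, b⟩ => ?_, h'.mul h fun i hi => by dsimp only; omega⟩
    have := i.2
    rcases hc with rfl | rfl <;> cases b <;> simp [tau, dl, Fin.ext_iff] <;> split_ifs <;> omega

theorem exists_flip' (μ : Kˣ) (hm : 2 ≤ m) : ∃ g t b, (b = 0 ∧ IsD f ∨ b = 2 ∨ b = 3) ∧
    Dg f t μ (tau (m - 1) b) ∧ Flip f g fun i => i < m - 1 ∨ b ≠ 0 := by
  obtain ⟨g, t, c, hc, ht, h⟩ := exists_flip (f := f) hσ μ (k := m - 1) (by omega)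
  have n : (⟨m - 1, by omega⟩ : Fin m) ≠ ⟨0, by omega⟩ := Fin.ne_of_val_ne (by simp; omega)
  have h2 : Dg f _ μ (tau (m - 1) (c + 2)) := (dg_stH hσ (a := (_, true)) (b := (_, true)) n μ).mul
    ((dg_stH hσ (a := (_, true)) (b := (_, false)) n μ).mul ht fun _ => rfl) fun ⟨i, b⟩ => by
      have := i.2
      cases b <;> simp [tau, dl, Fin.ext_iff] <;> split_ifs <;> omega
  rcases hc with rfl | rfl
  · by_cases d : IsD f
    · exact ⟨g, t, 0, Or.inl ⟨rfl, d⟩, ht, by simpa using h⟩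
    obtain ⟨g', h'⟩ := exists_flip₁ d ⟨m - 1, by omega⟩
    exact ⟨_, _, _, by simp, h2, h'.mul h fun i hi => by dsimp only; omega⟩
  · exact ⟨g, _, _, by simp, h2, h.1, fun a => by have := a.1.2; convert h.2 a using 2 <;> omega⟩

omit hσ in
theorem cartan_facts {D : Prop} (hm : 2 ≤ m) (hD : D → 3 ≤ m) {κ₀ : ℤ} (h₀ : κ₀ = 0 ∨ κ₀ = 1) {κ l : Fin m → ℤ}
    (h : ∀ i, (sp D i).1 ≠ (sq i).1 ∧ κ i = 1 ∧ l i = 1 ∨ sp D i = sq i ∧ κ i = κ₀ ∧ l i = 1 - κ₀)
    {A : Fin m → Fin m → ℤ} (hA : ∀ i j, A i j = dl (sp D i) (sp D j) + l i * dl (sq i) (sp D j) +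
      κ j * (dl (sp D i) (sq j) + l i * dl (sq i) (sq j))) : (∀ i, A i i = 2) ∧ (∀ i j, (A i j).natAbs ≤ 3) ∧
      ∃ (i0 : Fin m) (rk : Fin m → ℕ), ∀ j ≠ i0, ∃ k, rk k < rk j ∧ A k j ≠ 0 ∧ A j k ≠ 0 := by
  classical
  refine ⟨fun i => ?_, fun i j => ?_, ⟨0, by omega⟩, Fin.val, fun j hj => ?_⟩
  · rcases h i with ⟨h1, h2, h3⟩ | ⟨h1, h2, h3⟩
    · simp [hA, dl_self, dl_ne h1, dl_ne h1.symm, h2, h3]
    · rcases h₀ with rfl | rfl <;> simp [hA, dl_self, h1, h2, h3]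
  · rcases h i with ⟨h1, -, h3⟩ | ⟨h1, -, h3⟩ <;> rcases h j with ⟨h4, h5, -⟩ | ⟨h4, h5, -⟩ <;>
      rcases h₀ with rfl | rfl <;> simp only [hA, h3, h5, dl] <;> grind
  have : (j : ℕ) ≠ 0 := Fin.val_ne_of_ne hj
  have := j.2
  have h1 : ∀ i : Fin m, (i : ℕ) + 1 < m → κ i = 1 ∧ l i = 1 := fun i hi =>
    ((h i).resolve_right fun e => by simpa [sp, Cl.EB.sq, hi, hi.ne] using e.1).2
  by_cases h2 : (j : ℕ) + 1 < m
  · refine ⟨⟨j - 1, by omega⟩, by simp; omega, ?_⟩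
    have h3 : (j : ℕ) - 1 + 1 < m := by omega
    simp only [hA, h1 j h2, h1 ⟨j - 1, by omega⟩ h3, sp, Cl.EB.sq, h2, h3, h2.ne, h3.ne, dl, Fin.ext_iff, and_false,
      if_false, dif_pos]
    grind
  by_cases d : D
  · have := hD d
    refine ⟨⟨j - 2, by omega⟩, by simp; omega, ?_⟩
    have h3 : (j : ℕ) - 2 + 1 < m := by omega
    have h4 : (j : ℕ) + 1 = m := by omega
    have h5 := (h j).resolve_right fun e => by
      have := congrArg (fun a => a.1.1) e.1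
      simp [sp, Cl.EB.sq, d, h4] at this
      omega
    simp only [hA, h5.2, h1 ⟨j - 2, by omega⟩ h3, sp, Cl.EB.sq, h3, h4, d, h3.ne, dl, Fin.ext_iff, and_false,
      if_false, dif_pos, and_self, if_true]
    grind
  · refine ⟨⟨j - 1, by omega⟩, by simp; omega, ?_⟩
    have h3 : (j : ℕ) - 1 + 1 < m := by omega
    have h5 := (h j).resolve_left fun e => by simpa [sp, Cl.EB.sq, d, h2] using e.1
    simp only [hA, h5.2, h1 ⟨j - 1, by omega⟩ h3, sp, Cl.EB.sq, h2, h3, d, dl, Fin.ext_iff, false_and,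
      if_false, dif_pos, dif_neg, not_false_iff]
    grind

theorem thSq_EG [Fintype K] [FiniteDimensional K V] (hK : 9 ≤ Fintype.card K) {n : ℕ} (f : F.Frame (Fin (n + 2)))
    (hD : IsD f → 3 ≤ n + 2) {κ₀ : ℤ} (h₀ : κ₀ = 0 ∨ κ₀ = 1)
    (hl : ¬ IsD f → ∀ a, ∃ x y, Node f a a κ₀ (1 - κ₀) x y) {G : Type*} [Group G] (e : G ≃* F.EG) :
    ThSq (G ⧸ Subgroup.center G) := by
  classical
  obtain ⟨p, _⟩ := CharP.exists K
  have := Fact.mk (CharP.char_is_prime K p)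
  have := F.finite_EG
  obtain ⟨z, hz⟩ := exists_gen hK
  have hm : IsD f → n + 2 ≠ 1 := fun _ => by omega
  have h : ∀ i, ∃ κ l x y, Node f (sp (IsD f) i) (Cl.EB.sq i) κ l x y ∧ (((sp (IsD f) i).1 ≠ (Cl.EB.sq i).1 ∧ κ = 1 ∧ l = 1) ∧
      x = f.X (sp (IsD f) i) (bar (Cl.EB.sq i)) ∧ y = f.X (bar (Cl.EB.sq i)) (sp (IsD f) i) ∨
        sp (IsD f) i = Cl.EB.sq i ∧ κ = κ₀ ∧ l = 1 - κ₀) := fun i => by
    rcases (ok_sp_sq hm i).cases with ⟨e, d⟩ | h
    · obtain ⟨x, y, h⟩ := hl d (Cl.EB.sq i)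
      exact ⟨_, _, x, y, e ▸ h, Or.inr ⟨e, rfl, rfl⟩⟩
    · exact ⟨_, _, _, _, node_ne hσ h, Or.inl ⟨⟨h, rfl, rfl⟩, rfl, rfl⟩⟩
  choose κ l x y hN h using h
  obtain ⟨h1, h2, h3⟩ := cartan_facts (by omega) hD h₀ (fun i => (h i).imp_left And.left) fun _ _ => rfl
  let D : GD (rootBN hm) K :=
    { x := x
      y := y
      rel := fun i => (hN i).rel
      memX := fun i => (hN i).mem
      s_eq := fun i => (hN i).s_eq
      h_mem := fun i μ hμ => ((hN i).dg (Units.mk0 μ hμ)).mem_HH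
      A := _
      hx := fun i j μ hμ t => by simpa using ((hN j).cj ((hN i).dg (Units.mk0 μ hμ)) t).1
      hy := fun i j μ hμ t => by simpa [-neg_add_rev] using ((hN j).cj ((hN i).dg (Units.mk0 μ hμ)) t).2
      A_self := h1
      A_le := h2
      conn := h3
      gen := rootBN_gen hm }
  have e1 : ∀ i : Fin n, sp (IsD f) i.castSucc.castSucc = (i.castSucc.castSucc, true) := fun i =>
    if_neg fun h => by have := i.2; have := h.2; simp at this; omega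
  have e2 : ∀ i : Fin n, Cl.EB.sq i.castSucc.castSucc = (i.succ.castSucc, false) := fun i => dif_pos (by simp)
  have h4 := fun i : Fin n => (h i.castSucc.castSucc).resolve_right fun h => by simpa [e1, e2] using h.1
  have hc : ∀ {g μ φ} (_ : Dg f g μ φ) (i : Fin n), D.Cc g i.castSucc.castSucc
      (μ ^ (φ (i.castSucc.castSucc, true) + φ (i.succ.castSucc, false))) := fun hg i t => by
    simpa only [e1, e2, (h4 i).1.2.1, one_mul] using (hN i.castSucc.castSucc).cj hg t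
  obtain ⟨ψ, hψ⟩ := exists_hom_of_slRel (y := fun r => f.X (r.1.1.castSucc, true) (r.1.2.castSucc, true))
    ⟨fun a => f.X_add (by simpa using a.2), fun a b t u h5 h6 => ((f.val_X (by simpa using b.2) u).commute_of_fix
      (f.X_fix (by simpa using a.2) _ (f.co_of_ne (by simpa using h6)) (f.co_of_ne (by simp [bar])))
      (f.X_fix (by simpa using a.2) _ (by simp [f.co_v, bar]) (by simp [f.co_v, bar, h5]))),
      fun a b h5 t u h6 => by
        rw [← h6]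
        exact f.X_comm (by simpa using a.2) (by simpa [h6] using b.2) (by simpa using h5) t u⟩
    fun r => f.sl2Rel_X (by simpa using r.2)
  obtain ⟨g, t, b, hb, ht, hg⟩ := exists_flip' (f := f) hσ z (by omega)
  have hg' := isMon_pm hg.1
  replace ht : Dg f t z (tau (n + 1) b) := ht
  refine LD.thSq (D := D) (p := p)
    { ψ := ψ
      ρ := fun i => i.castSucc.castSucc
      ρ_inj := fun i j h => by simpa using h
      ψ_x := fun i a => by simp only [D, (h4 i).2, e1, e2]; exact hψ i a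
      diag := fun δ => ⟨Pi.mulSingle 0 δ, by simp, _, (dg_stH hσ (a := (0, true)) (b := (Fin.last _, false))
        (by simp) δ).mem_HH, fun i => ?_⟩
      t := t
      t_mem := ht.mem_HH
      t_ρ := fun i => by simpa [tau, i.2, i.2.le] using hc ht i
      fpf := fun r hr w hw e => ?_
      m := g
      m_mem := hg.1
      m_t := ?_
      m_ρ := fun i => ⟨i, ?_⟩ } (isPGroup_U hm p) (by omega) ((QuotientGroup.mk' _).comp e.symm.toMonoidHom)
    ((QuotientGroup.mk'_surjective _).comp e.symm.surjective) fun c hc => (QuotientGroup.eq_one_iff _).2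
      (Subgroup.mem_center_iff.2 fun a => e.injective (by simpa using Subgroup.mem_center_iff.1 hc (e a)))
  · convert hc (dg_stH hσ (a := (0, true)) (b := (Fin.last _, false)) (by simp) δ) i using 1
    have := i.2
    rw [prod_mulSingle_div]
    rw [inv_zpow', apply_ite Neg.neg]
    congr 1
    simp [dl, Fin.ext_iff]
    grind
  · obtain ⟨a, c, h', rfl⟩ := r.exists_mk
    have h5 : z ^ (tau (n + 1) b a + tau (n + 1) b c) ≠ 1 := by
      obtain ⟨j, hj, hj'⟩ := Set.not_subset.1 hr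
      have h6 : n ≤ j := by
        by_contra h6
        exact hj' ⟨⟨j, by omega⟩, rfl⟩
      obtain ⟨⟨a, ha⟩, a'⟩ := a
      obtain ⟨⟨c, hc⟩, c'⟩ := c
      have h7 := h'.1
      have h8 := h'.2
      change om _ _ _ + om _ _ _ ≠ 0 at hj
      apply hz <;> cases a' <;> cases c' <;> simp [tau, om, Cl.EB.ht, bar] at hj h7 h8 ⊢ <;> grind
    rw [← mul_inv_eq_iff_eq_mul] at e
    rcases h'.cases with ⟨rfl, -⟩ | hac
    · obtain ⟨u, hu, s, hs, rfl⟩ := (mem_Xr_self h').1 hw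
      by_contra h6
      have h7 := T_v_bar hu hs
      rw [← e, ht.conj_T hσ hu hs, T_v_bar (f.V0.smul_mem _ hu) (by
        simpa [hσ, zpow_add] using hs.smul_right ((z ^ tau (n + 1) b a : Kˣ) : K))] at h7
      simp only [mul_eq_mul_right_iff, mul_left_eq_self₀, Units.val_eq_one, h5, f.ne_zero_of_val hu hs h6, or_self,
        mul_eq_zero, F.ε_ne_zero, F.η_ne_zero] at h7
    · obtain ⟨u, rfl⟩ := (mem_Xr_ne hac h').1 hw
      rw [ht.conj_X hσ (ne_bar_of_fst hac), ← mul_inv_eq_one, ← f.X_neg (ne_bar_of_fst hac),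
        ← f.X_add (ne_bar_of_fst hac), f.X_eq_one_iff (b := bar c) hac, add_neg_eq_zero, mul_left_eq_self₀,
        Units.val_eq_one] at e
      rw [e.resolve_left h5, f.X_zero]
  · have : t * g * t = g := f.EG_ext (fun a => by
      obtain ⟨c, hc⟩ := hg' a
      have h5 : tau (n + 1) b a + tau (n + 1) b ((pm f g).1 a) = 0 := by
        by_cases h5 : a.1 < n + 1 ∨ b ≠ 0
        · rw [(hg.2 a).1 h5, ht.anti, add_neg_cancel]
        · rw [(hg.2 a).2 h5]
          simp_all [tau]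
      simp only [EG_mul_apply, ht.v, map_smul, hc, smul_smul]
      rw [mul_left_comm, ← Units.val_mul, ← zpow_add, h5]
      simp) fun w hw => by rw [EG_mul_apply, EG_mul_apply, ht.V0 w hw, ht.V0 _ (hg'.map_V0 hw)]
    rw [show g * t = t⁻¹ * g by rw [eq_inv_mul_iff_mul_eq, ← mul_assoc, this]]
    simp [one_mem]
  · simp only [rootBN_w, rootBN_simple, sr, act_mk, e1, e2]
    change _ = ng (mk _ _ _)
    rw [ng_mk, mk_eq_mk, (hg.2 _).1 (Or.inl (by simp)), (hg.2 _).1 (Or.inl (by simp))]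
    simp

omit hσ

variable [Fintype K] (hK : 9 ≤ Fintype.card K)
include hK

theorem thSq_psp (hm : 2 ≤ m) : ThSq (PSp m K) := by
  obtain ⟨n, rfl⟩ : ∃ n, m = n + 2 := ⟨m - 2, by omega⟩
  obtain ⟨f⟩ := bakSp_exists_frame (Cl.spB_nondegenerate (m := n + 2) (R := K)) Cl.spB_isAlt
    (m := n + 2) (by simp [two_mul])
  exact thSq_EG (fun _ => rfl) hK f (fun d => absurd (d 0 (zero_mem _) 1 trivial) one_ne_zero) (Or.inr rfl)
    (fun _ => node_long (fun _ => rfl) (bakSp_V0 f) rfl) (spEquivEG _ K)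

theorem thSq_odd (hm : 2 ≤ m) (h : Odd (Fintype.card K)) : ThSq (POmega K (quadFormOdd m K)) := by
  obtain ⟨n, rfl⟩ : ∃ n, m = n + 2 := ⟨m - 2, by omega⟩
  have h2 : (2 : K) ≠ 0 := Ring.two_ne_zero fun e => by
    have := FiniteField.even_card_of_char_two e
    grind
  obtain ⟨e⟩ := nonempty_Omega_equiv_EG (Cl.quad_odd_nondeg (m := n + 2) h2)
    (Cl.not_oExc_of_finrank (by simp; omega)) (by simp; omega)
  have h1 : Module.finrank K (frameOdd (n + 2) h2).V0 = 1 := by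
    have := (frameOdd (n + 2) h2).finrank_eq
    simp at this
    omega
  exact thSq_EG (fun _ => rfl) hK (frameOdd _ h2) (fun d => by rw [(isD_bakO_iff _).1 d, finrank_bot] at h1; omega) (Or.inl rfl)
    (fun _ => node_short (fun _ => rfl) rfl rfl h1) e

theorem thSq_plus (hm : 3 ≤ m) : ThSq (POmega K (quadFormPlus m K)) := by
  obtain ⟨n, rfl⟩ : ∃ n, m = n + 2 := ⟨m - 2, by omega⟩
  obtain ⟨e⟩ := nonempty_Omega_equiv_EG (Cl.quad_plus_nondeg (m := n + 2) (F := K))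
    (Cl.not_oExc_of_finrank (by simp; omega)) (by simp; omega)
  refine thSq_EG (fun _ => rfl) hK (framePlus _ K) (fun _ => hm) (Or.inl rfl)
    (fun d => absurd ((isD_bakO_iff _).2 (Submodule.finrank_eq_zero.1 ?_)) d) e
  have := (framePlus (n + 2) K).finrank_eq
  simp at this
  omega

end Cfsg.Agent.Chev.Tq
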