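import Mathlib
import Cfsg.Agent.Chev.BglCore
import Cfsg.Agent.Chev.C2Step
import Cfsg.Agent.Chev.EntSupp
import Cfsg.Agent.Chev.StTrans
import Cfsg.Agent.Chev.UComm

/-!
The parabolic subgroup of the highest root `θ`, its unipotent radical, and the coefficients of the elements
of the radical.
-/

set_option autoImplicit false

namespace Cfsg.Agent.Chev.TwMax

open Cfsg.Lie Cfsg.Lie.ChevalleyDatum Cfsg.Agent.Chev EntSupp
open scoped Matrix

variable {D : ChevalleyDatum} [hG : D.Good] {K : Type*} [Field K]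

/-- The level with respect to a root. -/
def lev (θ : D.Rt) : D.Lat →+ ℤ := D.dotF (D.cw θ)

omit hG in
theorem lev_wt (θ r : D.Rt) : lev θ (D.wt r) = D.pairing θ r := (D.pairing_eq_dot θ r).symm

omit hG in
theorem pairing_lin (θ : D.Rt) {u r s : D.Rt} {i j : ℤ} (e : D.wt u = i • D.wt r + j • D.wt s) :
    D.pairing θ u = i * D.pairing θ r + j * D.pairing θ s := by
  rw [← lev_wt, e, map_add, map_zsmul, map_zsmul, lev_wt, lev_wt, smul_eq_mul, smul_eq_mul]

variable (K) in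
/-- The parabolic subgroup of `θ`. -/
noncomputable def PP (θ : D.Rt) : Subgroup (GL D.Idx K) := (D.rootBN K).P {i | i ∈ Set.univ ∧ D.cartan i θ = 0}

variable (K) in
/-- The unipotent radical. -/
def QQ (θ : D.Rt) : Subgroup (GL D.Idx K) := D.XS K {r | 1 ≤ D.pairing θ r}

variable (K) in
/-- The opposite unipotent radical. -/
def QM (θ : D.Rt) : Subgroup (GL D.Idx K) := D.XS K {r | D.pairing θ r ≤ -1}

theorem XS_le_group (S : Set D.Rt) : D.XS K S ≤ D.group K := XS_le_iff.2 fun r _ t => D.X_mem_group K r t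

theorem conj_N_XS {n : GL D.Idx K} (hn : n ∈ D.monomialSubgroup K) {S T : Set D.Rt}
    (h : ∀ r ∈ S, D.wOf K n r ∈ T) {x : GL D.Idx K} (hx : x ∈ D.XS K S) : n * x * n⁻¹ ∈ D.XS K T := by
  rw [← rootBN_XS] at hx ⊢
  exact RootBN.conj_XS (R := D.rootBN K) hn h hx

theorem mem_Ent_of_fix {n : GL D.Idx K} (hn : n ∈ D.monomialSubgroup K) {ζ : D.Rt} (h : D.wOf K n ζ = ζ) :
    n ∈ Ent D K (halfSp D (lev ζ)) := by
  rintro (a | a) (b | b) hab
  · simp [wtI]
  · obtain ⟨c, hc⟩ := D.monomial_entry_wOf K hn b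
    simp [hc] at hab
  · exact absurd (D.monomial_entry_inl K ⟨n, hn⟩ a b) hab
  · obtain ⟨c, hc⟩ := D.monomial_entry_wOf K hn b
    have e : a = D.wOf K n b := by
      by_contra e
      simp [hc, e] at hab
    have := weyl_pairing (D.wOf_mem_weyl K n) ζ b
    rw [h] at this
    simp [mem_halfSp, wtI, e, lev_wt, this]

theorem mem_borel_of_halfSp {f : D.Lat →+ ℤ} (hf : ∀ r : D.Rt, D.IsPosRoot r → 0 < f (D.wt r))
    {g : GL D.Idx K} (hg : g ∈ D.group K) (h : g ∈ Ent D K (halfSp D f)) : g ∈ D.borelSubgroup K := by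
  obtain ⟨u, hu, n, hn, u', hu', rfl⟩ := RootBN.bruhat (R := D.rootBN K) hg
  have hU : ∀ u ∈ D.posUnipotent K, u ∈ Ent D K (halfSp D f) := fun u hu => by
    rw [posUnipotent_eq_XS] at hu
    exact mem_Ent_of_XS D K (fun r hr => (hf r hr).le) hu
  have h1 : n ∈ Ent D K (halfSp D f) := by
    have := mul_mem (mul_mem (hU _ (inv_mem hu)) h) (hU _ (inv_mem hu'))
    simpa [mul_assoc] using this
  have h3 : n ∈ D.diagonalSubgroup K := by
    refine RootBN.mem_H_of_pos (R := D.rootBN K) hn fun s hs => ?_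
    obtain ⟨c, hc⟩ := D.monomial_entry_wOf K hn s
    have h2 := h1 (Sum.inr (D.wOf K n s)) (Sum.inr s) (by rw [hc, if_pos rfl]; exact c.ne_zero)
    by_contra h4
    have h5 := hf _ ((D.isPos_ng _).2 h4)
    have h6 := hf s hs
    simp only [mem_halfSp, wtI, Sum.elim_inr, map_sub] at h2
    rw [wt_ng, map_neg] at h5
    change 0 < -f (D.wt (D.wOf K n s)) at h5
    omega
  exact mul_mem (mul_mem (RootBN.U_le_B (R := D.rootBN K) hu) (RootBN.H_le_B (R := D.rootBN K) h3))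
    (RootBN.U_le_B (R := D.rootBN K) hu')

section SL

variable (hL : D.stRoot.SL)
include hL

theorem sl_symm (r s : D.Rt) : D.pairing r s = D.pairing s r := by
  simpa only [stRoot_A] using hL.symm r s

theorem sl_le {r s : D.Rt} (h : s ≠ r) : D.pairing r s ≤ 1 := D.stRoot_A r s ▸ hL r s h

theorem sl_ge {r s : D.Rt} (h : s ≠ D.ng r) : -1 ≤ D.pairing r s := D.stRoot_A r s ▸ hL.ge h

theorem sl_eq {r s : D.Rt} (h : 2 ≤ D.pairing r s) : s = r := by
  by_contra e
  have := sl_le hL e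
  omega

theorem sl_eq_ng {r s : D.Rt} (h : D.pairing r s ≤ -2) : s = D.ng r := by
  by_contra e
  have := sl_ge hL e
  omega

theorem sl_commute {r s : D.Rt} (h : 0 ≤ D.pairing r s) (t u : K) : Commute (D.X K r t) (D.X K s u) := by
  refine D.X_commute K (fun e => ?_) (fun v e => ?_) t u
  · rw [e, pairing_ng_right, pairing_self] at h; omega
  · have h1 := pairing_lin r (i := 1) (j := 1) (by simpa using e)
    rw [pairing_self] at h1
    have h2 := sl_eq hL (r := r) (s := v) (by omega)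
    rw [h2] at e
    exact D.wt_ne_zero s (by simpa using e)

theorem sl_terms {r s : D.Rt} (h : D.pairing r s = -1) :
    ∃ C : ℤ, (C = 1 ∨ C = -1) ∧ D.commTerms r s = [((D.refl r s : ℕ), C, 1, 1)] := by
  have e : D.wt (D.refl r s) = D.wt r + D.wt s := by rw [wt_refl, h]; simp [add_comm]
  obtain ⟨h1, h2⟩ := D.ne_of_wt_eq_add e
  obtain ⟨l, e1, hl⟩ := D.commTerms_head e
  refine ⟨_, D.chainM_one_eq e fun v hv => ?_, ?_⟩
  · have h3 := pairing_lin r (u := v) (r := r) (s := s) (i := -1) (j := 1) (by rw [hv]; module)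
    rw [pairing_self, h] at h3
    have h4 := sl_eq_ng hL (r := r) (s := v) (by omega)
    rw [h4, pairing_ng_right, pairing_self] at h3
    omega
  · rw [e1]
    rcases l with _ | ⟨c, l⟩
    · rfl
    · have h3 := hl c (by simp)
      have h4 : c ∈ D.commTerms r s := by simp [e1]
      rw [D.commTerms_eq_of_sl hL h1 h2] at h4
      obtain ⟨q, -, rfl⟩ := List.mem_map.1 h4
      simp at h3

end SL

section top

variable {θ : D.Rt} (hθ : ∀ s, s ≤ θ)
include hθ

theorem dom_top (i : D.Nd) : 0 ≤ D.cartan i θ := by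
  by_contra h
  exact absurd (D.lt_sref_of_neg (not_le.1 h)) (not_lt.2 (hθ _))

theorem lev_nonneg {r : D.Rt} (hr : D.IsPosRoot r) : 0 ≤ D.pairing θ r := by
  have := pairing_nonneg_of_dom (J := Set.univ) (fun i _ => dom_top hθ i) hr (by simp)
  by_contra h
  have := (D.pairing_neg_comm θ r).1 (not_le.1 h)
  omega

theorem pos_of_lev {r : D.Rt} (hr : 1 ≤ D.pairing θ r) : D.IsPosRoot r := by
  by_contra h
  have := lev_nonneg hθ ((D.isPos_ng r).2 h)
  rw [pairing_ng_right] at this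
  omega

theorem QQ_le_U : QQ K θ ≤ D.posUnipotent K := by
  rw [posUnipotent_eq_XS]; exact XS_mono' fun _ hr => pos_of_lev hθ hr

theorem QM_le_V : QM K θ ≤ D.negUnipotent K := by
  rw [negUnipotent_eq_XS]
  exact XS_mono' fun r hr h => by have := lev_nonneg hθ h; rw [Set.mem_ofPred_eq] at hr; omega

omit hθ in
theorem lev_S : ∀ j ∈ {i : D.Nd | i ∈ Set.univ ∧ D.cartan i θ = 0}, lev θ (D.wt (D.sr j)) = 0 := fun j hj => by
  rw [lev_wt, pairing_eq_zero_comm, pairing_sr_left]; exact hj.2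

omit hθ in
theorem U_le_PP : D.posUnipotent K ≤ PP K θ := RootBN.U_le_P (R := D.rootBN K) _

omit hθ in
theorem H_le_PP : D.diagonalSubgroup K ≤ PP K θ :=
  (RootBN.H_le_B (R := D.rootBN K)).trans (RootBN.B_le_P _)

theorem conj_lev {k : ℤ} (hk : 0 < k) {p y : GL D.Idx K} (hp : p ∈ PP K θ)
    (hy : y ∈ D.XS K {r | k ≤ D.pairing θ r}) : p * y * p⁻¹ ∈ D.XS K {r | k ≤ D.pairing θ r} := by
  have := conj_mem_level D K (f := lev θ) (fun r hr => lev_wt θ r ▸ lev_nonneg hθ hr) lev_S hk hp y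
  simp only [lev_wt] at this
  exact this hy

theorem X_mem_PP {r : D.Rt} (hr : 0 ≤ D.pairing θ r) (t : K) : D.X K r t ∈ PP K θ := by
  by_cases h : D.IsPosRoot r
  · exact U_le_PP (X_mem_posUnipotent h t)
  have h1 := (D.isPos_ng r).2 h
  have h2 := lev_nonneg hθ h1
  rw [pairing_ng_right] at h2
  have h3 := supp_of_pairing_le (J := Set.univ) (fun i _ => dom_top hθ i) h1 (by simp)
    (by rw [pairing_ng_left, (D.pairing_eq_zero_comm θ r).1 (by omega)]; rfl)
  refine RootBN.L_le_P _ (RootBN.X_le_L (R := D.rootBN K) (r := r) ((D.rootBN_supp_subset K r _).2 fun i hi => ?_)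
    (D.X_mem_rootSubgroup K r t))
  simpa [cw_ng] using h3 i hi

theorem eq_one_of_PP_QM {x : GL D.Idx K} (h1 : x ∈ PP K θ) (h2 : x ∈ QM K θ) : x = 1 := by
  have h3 := mem_Ent_of_mem_P D K (f := lev θ) (fun r hr => lev_wt θ r ▸ lev_nonneg hθ hr) lev_S h1
  ext a b
  by_cases h : lev θ (D.wtI b) ≤ lev θ (D.wtI a)
  · rw [D.XS_entry_of_pos K (-lev θ) (fun r hr => by
      rw [Set.mem_ofPred_eq] at hr; rw [AddMonoidHom.neg_apply, lev_wt]; omega) h2 (by simpa using h),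
      Units.val_one, Matrix.one_apply]
  · rw [Units.val_one, Matrix.one_apply_ne (by rintro rfl; exact h le_rfl)]
    by_contra e
    have := h3 a b e
    rw [mem_halfSp, map_sub] at this
    omega

theorem mem_PP_of_conj {c : GL D.Idx K} (hc : c ∈ D.group K) {a a' : K} (ha : a ≠ 0)
    (h : c * D.X K θ a * c⁻¹ = D.X K θ a') : c ∈ PP K θ := by
  obtain ⟨u, hu, n, hn, u', hu', rfl⟩ := RootBN.bruhat (R := D.rootBN K) hc
  rw [conj_conj, conj_conj, (U_commute_top hθ hu' a).mul_inv_cancel] at h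
  have h1 : n * D.X K θ a * n⁻¹ = D.X K θ a' := by
    rw [← (U_commute_top hθ (inv_mem hu) a').mul_inv_cancel, ← h]; group
  have h2 : D.wOf K n θ = θ := by
    refine RootBN.eq_of_mem_X_X (R := D.rootBN K) (x := D.X K θ a')
      (h1 ▸ (D.rootBN K).conj_X hn (D.X_mem_rootSubgroup K θ a)) (D.X_mem_rootSubgroup K θ a') fun e => ha ?_
    rw [e, conj_eq_one_iff] at h1
    exact D.eq_zero_of_X_mem_XS_gt K (r := θ) (h1 ▸ one_mem _)
  exact (RootBN.mem_P_iff hu hn hu').2 (mem_NS_of_fix_J (J := Set.univ) (fun i _ => dom_top hθ i)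
    (by rw [RootBN.NS_univ]; exact hn) h2)

theorem factor_V {v : GL D.Idx K} (hv : v ∈ D.negUnipotent K) : ∃ x ∈ QM K θ, ∃ p ∈ PP K θ, v = x * p := by
  rw [negUnipotent_eq_XS] at hv
  refine ChevalleyDatum.XS_induction (P := fun v => ∃ x ∈ QM K θ, ∃ p ∈ PP K θ, v = x * p)
    ⟨1, one_mem _, 1, one_mem _, by simp⟩ ?_ hv
  rintro r hr t _ - ⟨x, hx, p, hp, rfl⟩
  by_cases h : D.pairing θ r ≤ -1
  · exact ⟨_, mul_mem (D.X_mem_XS K (by exact h) t) hx, p, hp, (mul_assoc _ _ _).symm⟩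
  have h1 := lev_nonneg hθ ((D.isPos_ng r).2 hr)
  rw [pairing_ng_right] at h1
  refine ⟨_, D.X_conj_mem_XS K (r := r) subset_rfl (fun h2 => ?_) (fun s hs u i j _ hj e => ?_) t hx, _,
    mul_mem (X_mem_PP hθ (r := r) (by omega) t) hp, by group⟩
  · rw [Set.mem_ofPred_eq, pairing_ng_right] at h2; omega
  · rw [Set.mem_ofPred_eq] at hs ⊢
    rw [pairing_lin θ e, show D.pairing θ r = 0 by omega]
    have h4 : (1 : ℤ) ≤ j := by exact_mod_cast hj
    nlinarith

theorem conj_PP_Ent {m p : GL D.Idx K} (hm : m ∈ D.monomialSubgroup K) (hp : p ∈ PP K θ) :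
    m * p * m⁻¹ ∈ Ent D K (halfSp D (lev (D.wOf K m θ))) := by
  obtain ⟨u, hu, n, hn, u', hu', rfl⟩ := RootBN.bruhat_P hp
  have hU : ∀ u ∈ D.posUnipotent K, m * u * m⁻¹ ∈ Ent D K (halfSp D (lev (D.wOf K m θ))) := fun u hu => by
    rw [posUnipotent_eq_XS] at hu
    refine mem_Ent_of_XS D K (S := {r | 0 ≤ D.pairing (D.wOf K m θ) r}) (fun r hr => by rw [mem_halfSp, lev_wt]; exact hr)
      (conj_N_XS hm (fun r hr => ?_) hu)
    rw [Set.mem_ofPred_eq, weyl_pairing (D.wOf_mem_weyl K m)]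
    exact lev_nonneg hθ hr
  have hn' := RootBN.NS_le_N _ hn
  rw [conj_three]
  refine mul_mem (mul_mem (hU u hu) (mem_Ent_of_fix (mul_mem (mul_mem hm hn') (inv_mem hm)) ?_)) (hU u' hu')
  have h1 : D.wOf K n θ = θ := by
    refine RootBN.NS_induction (R := D.rootBN K) (p := fun n => D.wOf K n θ = θ) (fun h hh => ?_)
      (fun i hi => ?_) (fun a ha b hb h1 h2 => ?_) hn
    · rw [D.wOf_H K hh]; rfl
    · rw [rootBN_s, D.wOf_nE K _ one_ne_zero, refl_sr]; exact D.sref_eq_self hi.2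
    · rw [D.wOf_mul K ha hb, Equiv.Perm.mul_apply, h2, h1]
  rw [D.wOf_mul K (mul_mem hm hn') (inv_mem hm), D.wOf_mul K hm hn', D.wOf_inv K hm]
  simp [h1]

variable (hL : D.stRoot.SL)
include hL

omit hθ in
theorem exists_of_lev_two {z : GL D.Idx K} (hz : z ∈ D.XS K {r | 2 ≤ D.pairing θ r}) : ∃ t, z = D.X K θ t :=
  exists_of_mem_XS_one (fun _ hr => sl_eq hL hr) hz

theorem conj_top {p : GL D.Idx K} (hp : p ∈ PP K θ) (a : K) : ∃ a', p * D.X K θ a * p⁻¹ = D.X K θ a' :=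
  exists_of_lev_two hL (conj_lev hθ two_pos hp (D.X_mem_XS K (by simp) a))

end top

/-! ### Coefficients -/

variable (K) in
/-- A node where the coroot does not vanish. -/
noncomputable def ci (r : D.Rt) : D.Nd := (D.exists_cw_ne_zero K r).choose

theorem ci_spec (r : D.Rt) : (D.cw r (ci K r) : K) ≠ 0 := (D.exists_cw_ne_zero K r).choose_spec

/-- The coefficient of `y` at the root `r`. -/
noncomputable def cf (r : D.Rt) (y : GL D.Idx K) : K :=
  y.val (Sum.inl (ci K r)) (Sum.inr (D.ng r)) / (D.cw r (ci K r) : K)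

theorem cf_X (r s : D.Rt) (t : K) : cf r (D.X K s t) = if r = s then t else 0 := by
  rw [cf, X_inl_inr]
  by_cases h : r = s
  · subst h; simp [ci_spec]
  · simp [h]

theorem cf_one (r : D.Rt) : cf r (1 : GL D.Idx K) = 0 := by simp [cf]

theorem cf_map (f : K →+* K) (r : D.Rt) (y : GL D.Idx K) :
    cf r (Matrix.GeneralLinearGroup.map f y) = f (cf r y) := by simp [cf]

variable {θ r : D.Rt} (hr : D.pairing θ r = 1)
include hr

theorem cf_mul {a b : GL D.Idx K} (ha : a ∈ QQ K θ) (hb : b ∈ QQ K θ) : cf r (a * b) = cf r a + cf r b := by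
  have hf : ∀ s ∈ {s : D.Rt | 1 ≤ D.pairing θ s}, 0 < lev θ (D.wt s) := fun s hs => by
    rw [lev_wt]; exact hs
  rw [cf, cf, cf, ← add_div, Units.val_mul, Matrix.mul_apply]
  congr 1
  have key : ∀ c, a.val (Sum.inl (ci K r)) c * b.val c (Sum.inr (D.ng r)) =
      (if c = Sum.inr (D.ng r) then a.val (Sum.inl (ci K r)) c else 0) +
        if Sum.inl (ci K r) = c then b.val c (Sum.inr (D.ng r)) else 0 := fun c => by
    by_cases h : 0 ≤ lev θ (D.wtI c)
    · rw [D.XS_entry_of_pos K (lev θ) hf ha (by simpa [wtI] using h), if_neg (c := c = _)]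
      · simp
      · rintro rfl
        simp [wtI, lev_wt, pairing_ng_right, hr] at h
    · rw [D.XS_entry_of_pos K (lev θ) hf hb (b := Sum.inr (D.ng r))
        (by simp only [wtI, Sum.elim_inr, lev_wt, pairing_ng_right, hr] at h ⊢; omega), if_neg (c := _ = c)]
      · simp
      · rintro rfl
        simp [wtI] at h
  simp [key, Finset.sum_add_distrib]

theorem cf_inv {a : GL D.Idx K} (ha : a ∈ QQ K θ) : cf r a⁻¹ = - cf r a := by
  rw [eq_neg_iff_add_eq_zero, ← cf_mul hr (inv_mem ha) ha, inv_mul_cancel, cf_one]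

theorem cf_eq_zero {S : Set D.Rt} (hS : ∀ s ∈ S, 1 ≤ D.pairing θ s) (h : r ∉ S) {y : GL D.Idx K}
    (hy : y ∈ D.XS K S) : cf r y = 0 := by
  refine ChevalleyDatum.XS_induction (P := fun y => cf r y = 0) (cf_one r) (fun s hs t g hg e => ?_) hy
  rw [cf_mul hr (D.X_mem_XS K (hS s hs) t) (XS_mono' hS hg), e, cf_X, if_neg (by rintro rfl; exact h hs), add_zero]

omit hr in
theorem eq_top_of_cf (hθ : ∀ s, s ≤ θ) (hL : D.stRoot.SL) {y : GL D.Idx K} (hy : y ∈ QQ K θ)
    (h : ∀ r : D.Rt, D.pairing θ r = 1 → cf r y = 0) : ∃ t, y = D.X K θ t := by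
  by_cases h1 : y = 1
  · exact ⟨0, by simp [h1]⟩
  obtain ⟨r, hr, c, hc, z, hz, rfl⟩ := exists_min_root (S := {r | 1 ≤ D.pairing θ r})
    (fun r hr s hs u i j hi hj e => by
      rw [Set.mem_ofPred_eq] at hr hs ⊢
      have h3 : (1 : ℤ) ≤ i := by exact_mod_cast hi
      have h4 : (1 : ℤ) ≤ j := by exact_mod_cast hj
      rw [pairing_lin θ e]; nlinarith) (fun r hr => pos_of_lev hθ hr) hy h1
  rcases (show 1 ≤ D.pairing θ r from hr).eq_or_lt with e | e
  · have := h r e.symm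
    rw [cf_mul e.symm (D.X_mem_XS K hr c) (XS_mono' (fun s hs => hs.1) hz), cf_X, if_pos rfl,
      cf_eq_zero e.symm (fun s hs => hs.1) (fun h => lt_irrefl _ h.2) hz, add_zero] at this
    exact absurd this hc
  · obtain rfl := sl_eq hL (r := θ) (s := r) e
    obtain ⟨t, rfl⟩ := exists_of_mem_XS_one (a := r) (fun s hs => absurd hs.2 (not_lt.2 (hθ s))) hz
    exact ⟨c + t, (D.X_add K _ _ _).symm⟩

omit hr in
theorem conj_QQ {δ : D.Rt} (hδ : D.pairing θ δ = 0) (u : K) {y : GL D.Idx K} (hy : y ∈ QQ K θ) :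
    D.X K δ u * y * (D.X K δ u)⁻¹ ∈ QQ K θ :=
  D.X_conj_mem_XS K subset_rfl (by simp [pairing_ng_right, hδ]) (fun s hs v i j _ hj e => by
    rw [Set.mem_ofPred_eq] at hs ⊢
    have h4 : (1 : ℤ) ≤ j := by exact_mod_cast hj
    rw [pairing_lin θ e, hδ]; nlinarith) u hy

theorem cf_conj_aux (hL : D.stRoot.SL) {δ : D.Rt} (hδ : D.pairing θ δ = 0) (u : K) (s : D.Rt)
    (hs : D.pairing θ s = 1) (c : K) (h1 : ∀ s' : D.Rt, 0 ≤ D.pairing δ s' → c = 0 ∨ s ≠ s')
    (h2 : ∀ (s' : D.Rt) (C : ℤ), D.pairing δ s' = -1 → D.commTerms δ s' = [((D.refl δ s' : ℕ), C, 1, 1)] →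
      ∀ t, (if r = D.refl δ s' then C * u * t else 0) = c * if s = s' then t else 0)
    {y : GL D.Idx K} (hy : y ∈ QQ K θ) : cf r (D.X K δ u * y * (D.X K δ u)⁻¹) = cf r y + c * cf s y := by
  refine ChevalleyDatum.XS_induction (P := fun y => cf r (D.X K δ u * y * (D.X K δ u)⁻¹) = cf r y + c * cf s y)
    (by simp [cf_one]) (fun s' hs' t g hg e => ?_) hy
  have h3 := D.X_mem_XS K hs' t
  rw [← conj_mul, cf_mul hr (conj_QQ hδ u h3) (conj_QQ hδ u hg), e, cf_mul hr h3 hg, cf_mul hs h3 hg]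
  suffices cf r (D.X K δ u * D.X K s' t * (D.X K δ u)⁻¹) = cf r (D.X K s' t) + c * cf s (D.X K s' t) by
    rw [this]; ring
  rw [Set.mem_ofPred_eq] at hs'
  rcases le_or_gt 0 (D.pairing δ s') with h | h
  · rw [(sl_commute hL h u t).mul_inv_cancel, cf_X s]
    rcases h1 s' h with e | e <;> simp [e]
  have h4 : D.pairing δ s' = -1 := by
    by_contra h5
    rw [sl_eq_ng hL (r := δ) (s := s') (by omega), pairing_ng_right, hδ] at hs'
    omega
  obtain ⟨C, -, e1⟩ := sl_terms hL h4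
  rw [conj1 e1, cf_mul hr h3 (D.X_mem_XS K (by
    rw [Set.mem_ofPred_eq, pairing_lin θ (u := D.refl δ s') (r := δ) (s := s') (i := 1) (j := 1)
      (by rw [wt_refl, h4]; module), hδ]; omega) _), cf_X _ (D.refl δ s'), cf_X s, h2 s' C h4 e1]

theorem cf_conj_of_ne (hL : D.stRoot.SL) {δ : D.Rt} (hδ : D.pairing θ δ = 0) (u : K) (h : D.pairing δ r ≠ 1)
    {y : GL D.Idx K} (hy : y ∈ QQ K θ) : cf r (D.X K δ u * y * (D.X K δ u)⁻¹) = cf r y := by
  simpa using cf_conj_aux hr hL hδ u r hr 0 (fun _ _ => Or.inl rfl) (fun s' C h1 _ t => by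
    rw [if_neg, zero_mul]
    rintro rfl
    rw [pairing_refl_self, h1] at h
    exact h rfl) hy

theorem cf_conj (hL : D.stRoot.SL) {δ s : D.Rt} (hδ : D.pairing θ δ = 0) (u : K) {C : ℤ}
    (h : D.commTerms δ s = [((r : ℕ), C, 1, 1)]) {y : GL D.Idx K} (hy : y ∈ QQ K θ) :
    cf r (D.X K δ u * y * (D.X K δ u)⁻¹) = cf r y + C * u * cf s y := by
  obtain ⟨h1, h2⟩ := ne_of_commTerms (r := δ) (s := s) (by simp [h])
  obtain ⟨v, e, -, -, e'⟩ := D.commTerms_spec h1 h2 (c := ((r : ℕ), C, 1, 1)) (by simp [h])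
  obtain rfl : r = v := Fin.ext e
  have h3 := pairing_lin θ e'
  have h4 := pairing_lin δ e'
  simp only [Nat.cast_one, one_mul, pairing_self, hr, hδ] at h3 h4
  have h5 : D.pairing δ s = -1 := by
    have a1 := sl_ge hL h2
    have a2 := sl_le hL (r := δ) (s := r) (by rintro rfl; omega)
    omega
  have h6 : r = D.refl δ s := D.wt_inj (by rw [wt_refl, h5, e']; module)
  refine cf_conj_aux hr hL hδ u s (by omega) _ (fun s' h7 => Or.inr (by rintro rfl; omega))
    (fun s' C' _ h8 t => ?_) hy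
  by_cases e2 : s = s'
  · subst e2
    rw [h, ← h6] at h8
    simp only [List.cons.injEq, Prod.mk.injEq, and_true, true_and] at h8
    simp [← h6, h8]
  · simp [h6, e2]

end Cfsg.Agent.Chev.TwMax
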