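import Mathlib
import Cfsg.Agent.Chev.TwMaxA
import Cfsg.Agent.Chev.TwGen

/-!
Overgroups in a twisted group of the points over the fixed field: the geometry of the long root subgroups.
-/

set_option autoImplicit false

namespace Cfsg.Agent.Chev.TwMax

open Cfsg.Lie Cfsg.Lie.ChevalleyDatum Cfsg.Agent.Chev EntSupp
open scoped Matrix

variable {D : ChevalleyDatum} [hG : D.Good] {K : Type*} [Field K] {J : Type} (T : D.Twist K J)

/-- The field automorphism on matrices. -/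
def Fr : GL D.Idx K →* GL D.Idx K := Matrix.GeneralLinearGroup.map (T.f : K →+* K)

/-- The points of the twisted group over the fixed field. -/
def MM : Subgroup (GL D.Idx K) := T.G1 ⊓ (Fr T).eqLocus (MonoidHom.id _)

/-- The subgroup generated by the representatives of the simple reflections. -/
def NM : Subgroup (GL D.Idx K) := Subgroup.closure (Set.range T.t)

/-- The orbit of a root. -/
def Orb (r : D.Rt) : Set D.Rt := {s | ∃ k : ℕ, (T.ρ ^ k) r = s}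

variable {T}

theorem mem_MM {g : GL D.Idx K} : g ∈ MM T ↔ g ∈ T.G1 ∧ Fr T g = g := Iff.rfl

theorem Fr_X (r : ℕ) (t : K) : Fr T (D.X K r t) = D.X K r (T.f t) := glMap_X _ r t

theorem Fr_mem_group {g : GL D.Idx K} (hg : g ∈ D.group K) : Fr T g ∈ D.group K := glMap_mem_group D _ hg

theorem Fr_XS {S : Set D.Rt} {x : GL D.Idx K} (hx : x ∈ D.XS K S) : Fr T x ∈ D.XS K S :=
  D.XS_monoid_induction K (P := fun x => Fr T x ∈ D.XS K S) (by simp)
    (fun r hr t => by rw [Fr_X]; exact D.X_mem_XS K hr _) (fun a b ha hb => by rw [map_mul]; exact mul_mem ha hb) hx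

theorem σ_XS {S S' : Set D.Rt} (h : ∀ r ∈ S, T.ρ r ∈ S') {x : GL D.Idx K} (hx : x ∈ D.XS K S) :
    T.σ x ∈ D.XS K S' := by
  rw [← rootBN_XS] at hx ⊢
  exact T.rootAut.map_XS h hx

theorem σ_eq {g : GL D.Idx K} (hg : g ∈ T.G1) : T.σ g = g := (T.mem_Fix.1 (T.G1_le_Fix hg)).2

theorem f_pow_fix {t : K} (ht : T.f t = t) (k : ℕ) : (T.f ^ k) t = t := by
  induction k with
  | zero => rfl
  | succ k ih => rw [T.f_pow_succ, ih, ht]

theorem y_mem_MM (j : J) {t : K} (ht : T.f t = t) : T.y j t ∈ MM T :=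
  ⟨T.y_mem_G1 j (f_pow_fix ht _), by
    change Fr T _ = T.y j t
    rw [Twist.y, map_cprod]
    exact cprod_congr fun k _ => by rw [Fr_X, f_pow_fix ht, ht]⟩

theorem ym_mem_MM (j : J) {t : K} (ht : T.f t = t) : T.ym j t ∈ MM T :=
  ⟨T.ym_mem_G1 j (f_pow_fix ht _), by
    change Fr T _ = T.ym j t
    rw [Twist.ym, map_cprod]
    exact cprod_congr fun k _ => by rw [Fr_X, f_pow_fix ht, ht]⟩

theorem fix_of_y {j : J} {t : K} (h : Fr T (T.y j t) = T.y j t) : T.f t = t := by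
  have e : Fr T (T.y j t) = T.Y j fun k => T.f ((T.f ^ k) t) := by
    rw [Twist.y, map_cprod]; exact cprod_congr fun k _ => Fr_X _ _
  exact T.eq_of_Y_eq (e.symm.trans h) (T.d_pos j)

theorem t_mem_MM (j : J) : T.t j ∈ MM T := by
  rw [Twist.t, T.nn_eq]
  exact mul_mem (mul_mem (y_mem_MM j (by simp)) (ym_mem_MM j (by simp))) (y_mem_MM j (by simp))

theorem t_mem_NM (j : J) : T.t j ∈ NM T := Subgroup.subset_closure ⟨j, rfl⟩

theorem NM_le_MM : NM T ≤ MM T := (Subgroup.closure_le _).2 (by rintro _ ⟨j, rfl⟩; exact t_mem_MM j)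

theorem NM_le_Nsgn : NM T ≤ D.Nsgn K := (Subgroup.closure_le _).2 (by rintro _ ⟨j, rfl⟩; exact T.t_mem_Nsgn j)

theorem NM_le_N : NM T ≤ D.monomialSubgroup K := NM_le_Nsgn.trans (D.Nsgn_le K)

theorem NM_le_G1 : NM T ≤ T.G1 := NM_le_MM.trans inf_le_left

theorem w_ρ {n : GL D.Idx K} (hn : n ∈ D.monomialSubgroup K) (hn' : n ∈ T.G1) (r : D.Rt) :
    D.wOf K n (T.ρ r) = T.ρ (D.wOf K n r) := T.rootAut.w_comm hn (T.G1_le_Fix hn') r

theorem w_inv_w {n : GL D.Idx K} (hn : n ∈ D.monomialSubgroup K) (r : D.Rt) : D.wOf K n⁻¹ (D.wOf K n r) = r := by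
  rw [D.wOf_inv K hn]; simp

theorem w_w_inv {n : GL D.Idx K} (hn : n ∈ D.monomialSubgroup K) (r : D.Rt) : D.wOf K n (D.wOf K n⁻¹ r) = r := by
  rw [D.wOf_inv K hn]; simp

theorem w_mul {n m : GL D.Idx K} (hn : n ∈ D.monomialSubgroup K) (hm : m ∈ D.monomialSubgroup K) (r : D.Rt) :
    D.wOf K (n * m) r = D.wOf K n (D.wOf K m r) := by rw [D.wOf_mul K hn hm]; rfl

theorem self_mem_Orb (r : D.Rt) : r ∈ Orb T r := ⟨0, rfl⟩

theorem Orb_induction {r : D.Rt} {P : D.Rt → Prop} (h0 : P r) (h : ∀ s, P s → P (T.ρ s)) : ∀ s ∈ Orb T r, P s := by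
  rintro _ ⟨k, rfl⟩
  induction k with
  | zero => exact h0
  | succ k ih => rw [pow_succ']; exact h _ ih

theorem ρ_mem_Orb {r s : D.Rt} (h : s ∈ Orb T r) : T.ρ s ∈ Orb T r := by
  obtain ⟨k, rfl⟩ := h
  exact ⟨k + 1, by rw [pow_succ']; rfl⟩

theorem Orb_trans {r s u : D.Rt} (h : s ∈ Orb T r) (h' : u ∈ Orb T s) : u ∈ Orb T r :=
  Orb_induction h (fun _ => ρ_mem_Orb) u h'

theorem Orb_symm {r s : D.Rt} (h : s ∈ Orb T r) : r ∈ Orb T s := by
  obtain ⟨k, rfl⟩ := h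
  refine ⟨k * (orderOf T.ρ - 1), ?_⟩
  have := orderOf_pos T.ρ
  rw [← Equiv.Perm.mul_apply, ← pow_add, show k * (orderOf T.ρ - 1) + k = orderOf T.ρ * k by
    obtain ⟨m, e⟩ := Nat.exists_eq_succ_of_ne_zero this.ne'; rw [e]; simp; ring, pow_mul, pow_orderOf_eq_one]
  simp

theorem Orb_eq {r s : D.Rt} (h : s ∈ Orb T r) : Orb T s = Orb T r :=
  Set.ext fun _ => ⟨Orb_trans h, Orb_trans (Orb_symm h)⟩

theorem eq_of_Orb {r s : D.Rt} (hr : T.ρ r = r) (h : s ∈ Orb T r) : s = r :=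
  Orb_induction (P := fun s => s = r) rfl (fun _ e => by rw [e, hr]) s h

theorem w_Orb {n : GL D.Idx K} (hn : n ∈ D.monomialSubgroup K) (hn' : n ∈ T.G1) {r : D.Rt} :
    ∀ s ∈ Orb T r, D.wOf K n s ∈ Orb T (D.wOf K n r) :=
  Orb_induction (self_mem_Orb _) fun s h => by rw [w_ρ hn hn']; exact ρ_mem_Orb h

theorem pairing_Orb {θ r : D.Rt} (hθ : T.ρ θ = θ) : ∀ s ∈ Orb T r, D.pairing θ s = D.pairing θ r :=
  Orb_induction rfl fun s h => by rw [← h, ← T.pairing_ρ θ s, hθ]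

theorem ρ_p (j : J) (k : ℕ) : T.ρ (T.p j k) = T.p j (k + 1) := by
  rw [Twist.p, Twist.p, T.node_succ, T.ρ_sr]

theorem mem_Orb_p {j : J} {s : D.Rt} : s ∈ Orb T (T.p j 0) ↔ ∃ k < T.d j, s = T.p j k := by
  constructor
  · refine Orb_induction (P := fun s => ∃ k < T.d j, s = T.p j k) ⟨0, T.d_pos j, rfl⟩ ?_ s
    rintro _ ⟨k, hk, rfl⟩
    rw [ρ_p]
    rcases (Nat.succ_le_of_lt hk).eq_or_lt with e | e
    · exact ⟨0, T.d_pos j, by rw [Twist.p, Twist.p, ← T.node_d, ← e]⟩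
    · exact ⟨k + 1, e, rfl⟩
  · rintro ⟨k, -, rfl⟩
    induction k with
    | zero => exact self_mem_Orb _
    | succ k ih => rw [← ρ_p]; exact ρ_mem_Orb ih

theorem XS_Orb_p (j : J) : D.XS K (Orb T (T.p j 0)) = (D.rootBN K).US (T.S j) := by
  rw [RootBN.US, rootBN_XS]
  congr 1
  ext s
  rw [mem_Orb_p, ← T.pos_supp_iff]; rfl

variable (T) in
/-- The root data used in the maximality proof: `θ` is the highest root, `a` the highest root that is not fixed. -/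
structure Data (θ a : D.Rt) (j0 j1 : J) : Prop where
  top : ∀ s, s ≤ θ
  sl : D.stRoot.SL
  fix : T.ρ θ = θ
  up : ∃ μ : ℕ → ℕ, ∀ r, r = θ ∨ r ∈ Orb T a ∨ ∃ j, μ (D.wOf K (T.t j) r) < μ r
  na : T.ρ a ≠ a
  la : D.pairing θ a = 1
  d0 : T.d j0 = 1
  l0 : D.pairing θ (T.p j0 0) = 1
  n1 : T.ρ (T.p j1 0) ≠ T.p j1 0
  fd : ∀ t, (T.f ^ T.d j1) t = t
  reg : ∃ L : List D.Rt, (∀ r ∈ L, T.ρ r = r) ∧
    ∀ s : D.Rt, D.IsPosRoot s → 0 < (L.map fun r : D.Rt => D.pairing r s).sum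

namespace Data

variable {θ a : D.Rt} {j0 j1 : J} (h : Data T θ a j0 j1)
include h

theorem exists_up (r : D.Rt) : ∃ n ∈ NM T, D.wOf K n r = θ ∨ D.wOf K n r ∈ Orb T a := by
  obtain ⟨μ, hμ⟩ := h.up
  induction hn : μ r using Nat.strong_induction_on generalizing r with
  | _ n ih =>
    rcases hμ r with e | e | ⟨j, e⟩
    · exact ⟨1, one_mem _, Or.inl (by rw [wOf_one]; exact e)⟩
    · exact ⟨1, one_mem _, Or.inr (by rw [wOf_one]; exact e)⟩
    · obtain ⟨n, hn, e'⟩ := ih _ (hn ▸ e) _ rfl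
      exact ⟨n * T.t j, mul_mem hn (t_mem_NM j), by rwa [w_mul (NM_le_N hn) (T.t_mem_N j)]⟩

theorem exists_top {r : D.Rt} (hr : T.ρ r = r) : ∃ n ∈ NM T, D.wOf K n r = θ := by
  obtain ⟨n, hn, e | e⟩ := h.exists_up r
  · exact ⟨n, hn, e⟩
  · have h1 : T.ρ (D.wOf K n r) = D.wOf K n r := by rw [← w_ρ (NM_le_N hn) (NM_le_G1 hn), hr]
    exact absurd (eq_of_Orb h1 (Orb_symm e) ▸ h1) h.na

theorem exists_orb {r : D.Rt} (hr : T.ρ r ≠ r) : ∃ n ∈ NM T, D.wOf K n r ∈ Orb T a := by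
  obtain ⟨n, hn, e | e⟩ := h.exists_up r
  · refine absurd ((D.wOf K n).injective ?_) hr
    rw [w_ρ (NM_le_N hn) (NM_le_G1 hn), e, h.fix]
  · exact ⟨n, hn, e⟩

theorem fix0 : T.ρ (T.p j0 0) = T.p j0 0 := by
  rw [ρ_p, Twist.p, Twist.p, ← T.node_d, h.d0]

theorem y0 (t : K) : T.y j0 t = D.X K (T.p j0 0) t := T.y_of_d_eq_one h.d0 t

theorem X_mem_MM {r : D.Rt} (hr : T.ρ r = r) {t : K} (ht : T.f t = t) : D.X K r t ∈ MM T := by
  obtain ⟨n, hn, e⟩ := h.exists_top hr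
  obtain ⟨m, hm, e'⟩ := h.exists_top h.fix0
  have h1 : T.Full (MM T) (T.p j0 0) := fun t ht => h.y0 t ▸ y_mem_MM j0 ht
  have h2 := mul_mem (inv_mem hn) hm
  have h3 := h1.conj (NM_le_Nsgn h2) fun x hx => conj_mem' (NM_le_MM h2) hx
  rw [w_mul (NM_le_N (inv_mem hn)) (NM_le_N hm), e', ← e, w_inv_w (NM_le_N hn)] at h3
  exact h3 t ht

theorem σ_X {r : D.Rt} (hr : T.ρ r = r) (t : K) : T.σ (D.X K r t) = D.X K r (T.f t) := by
  obtain ⟨ε, -, e, -⟩ := T.exists_eps r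
  have h1 := e 1
  rw [σ_eq (h.X_mem_MM hr (map_one _)).1, hr] at h1
  have h2 := D.X_injective K r h1
  rw [map_one, mul_one] at h2
  rw [e, hr, ← h2, one_mul]

theorem X_mem_MM_of {r : D.Rt} (hr : T.ρ r = r) {t : K} (ht : D.X K r t ∈ T.G1) : D.X K r t ∈ MM T :=
  h.X_mem_MM hr (D.X_injective K r ((h.σ_X hr t).symm.trans (σ_eq ht)))

theorem top_mem : D.X K θ 1 ∈ MM T := h.X_mem_MM h.fix (map_one _)

theorem nE_mem : D.nE K θ 1 ∈ MM T :=
  nE_mem_of h.top_mem (h.X_mem_MM (by rw [T.ρ_ng, h.fix]) (by simp))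

/-- A long root subgroup which meets `M` is conjugate to `X_θ` in `M`. -/
theorem exists_mul_mem_PP {v : GL D.Idx K} (hv : v ∈ T.G1) {b : K} (hb : b ≠ 0)
    (hy : v * D.X K θ b * v⁻¹ ∈ MM T) : ∃ m ∈ MM T, m⁻¹ * v ∈ PP K θ := by
  obtain ⟨u, hu, -, n, hn, hnK, x, hx, -, rfl⟩ := T.sub.closed.nf hv
  obtain ⟨d, hd, -, m, hm, rfl⟩ := T.sub.exists_mul_closure hn hnK
  change m ∈ NM T at hm
  have hN := NM_le_N hm
  obtain ⟨x1, h1, y1, h2, rfl⟩ := RootBN.factor (R := D.rootBN K) (inv_mem hN) hu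
  obtain ⟨z, hz, p, hp, e⟩ := factor_V h.top (RootBN.conj_Um (inv_mem hN) h1)
  have h3 : p * (m⁻¹ * y1 * m⁻¹⁻¹) * (m⁻¹ * d * m⁻¹⁻¹) * x ∈ PP K θ :=
    mul_mem (mul_mem (mul_mem hp (U_le_PP (RootBN.conj_Up (inv_mem hN) h2)))
      (H_le_PP (D.conj_mem_diagonal K (inv_mem hN) hd))) (U_le_PP (RootBN.Um_le_U _ hx))
  have e1 : x1 * y1 * (d * m) * x = m * z * (p * (m⁻¹ * y1 * m⁻¹⁻¹) * (m⁻¹ * d * m⁻¹⁻¹) * x) := by
    rw [show x1 = m * (z * p) * m⁻¹ by rw [← e]; group]; group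
  generalize p * (m⁻¹ * y1 * m⁻¹⁻¹) * (m⁻¹ * d * m⁻¹⁻¹) * x = p' at h3 e1
  obtain ⟨b', e2⟩ := conj_top h.top h.sl h3 b
  have hb' : b' ≠ 0 := by
    rintro rfl
    rw [X_zero, conj_eq_one_iff, X_eq_one_iff] at e2
    exact hb e2
  rw [e1, conj_conj, e2, conj_conj] at hy
  have h4 : z * D.X K θ b' * z⁻¹ ∈ MM T := by
    simpa [mul_assoc] using conj_mem' (inv_mem (NM_le_MM hm)) hy
  have hzG : z ∈ D.group K := XS_le_group _ hz
  have key : ∀ z' ∈ QM K θ, z' * D.X K θ (T.f b') * z'⁻¹ = z * D.X K θ b' * z⁻¹ → z' = z := fun z' hz' e => by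
    have h5 := mul_mem (inv_mem hz) hz'
    have h6 := eq_one_of_PP_QM h.top (mem_PP_of_conj h.top (XS_le_group _ h5) (a := T.f b') (a' := b')
      (by simpa using hb') (by rw [conj_conj, e]; group)) h5
    exact (inv_mul_eq_one.1 h6).symm
  have h7 : Fr T z = z := key _ (Fr_XS hz) (by rw [← (mem_MM.1 h4).2]; simp [Fr_X])
  have h8 : T.σ z = z := key _ (σ_XS (fun r hr => by
    rwa [Set.mem_ofPred_eq, ← h.fix, T.pairing_ρ]) hz) (by
      rw [← σ_eq h4.1, T.σ_conj hzG (D.X_mem_group K _ _), h.σ_X h.fix])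
  refine ⟨m * z, mul_mem (NM_le_MM hm) ⟨T.V_Fix_le ⟨QM_le_V h.top hz, T.mem_Fix.2 ⟨hzG, h8⟩⟩, h7⟩, ?_⟩
  rw [e1, inv_mul_cancel_left]; exact h3

theorem mem_borel {c : GL D.Idx K} (hc : c ∈ D.group K) (hP : ∀ m ∈ MM T, m⁻¹ * c * m ∈ PP K θ) :
    c ∈ D.borelSubgroup K := by
  obtain ⟨L, h1, h2⟩ := h.reg
  have key : ∀ v, (L.map lev).sum v = (L.map fun r => lev r v).sum := fun v => by
    clear h1 h2
    induction L with
    | nil => rfl
    | cons r L ih => simp only [List.map_cons, List.sum_cons, AddMonoidHom.add_apply, ih]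
  refine mem_borel_of_halfSp (f := (L.map lev).sum) (fun s hs => by simpa only [key, lev_wt] using h2 s hs) hc
    fun x y hxy => ?_
  rw [mem_halfSp, key]
  refine List.sum_nonneg fun z hz => ?_
  obtain ⟨r, hr, rfl⟩ := List.mem_map.1 hz
  obtain ⟨n, hn, e⟩ := h.exists_top (h1 r hr)
  have h3 := conj_PP_Ent h.top (NM_le_N (inv_mem hn)) (hP _ (NM_le_MM (inv_mem hn)))
  rw [← e, w_inv_w (NM_le_N hn)] at h3
  exact h3 x y (by simpa [mul_assoc] using hxy)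

theorem eq_one_of_PP {c : GL D.Idx K} (hc : c ∈ D.group K) (hP : ∀ m ∈ MM T, m⁻¹ * c * m ∈ PP K θ) : c = 1 := by
  obtain ⟨n, hn, e⟩ := T.sub.exists_longest T.cover_S
  change n ∈ NM T at hn
  have hN := NM_le_N hn
  obtain ⟨u, hu, d, hd, rfl⟩ := (D.mem_borel_iff K c).1 (h.mem_borel hc hP)
  have h1 := h.mem_borel (c := n * (u * d) * n⁻¹) (conj_mem' (T.G1_le_group (NM_le_G1 hn)) hc) fun m hm => by
    simpa [mul_assoc] using hP _ (mul_mem (inv_mem (NM_le_MM hn)) hm)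
  have h2 : n * u * n⁻¹ = 1 := by
    refine RootBN.eq_one_of_mem_B_V (R := D.rootBN K) ?_ (RootBN.conj_Um hN ?_)
    · rw [rootBN_B]
      simpa [mul_assoc] using mul_mem h1 (inv_mem (RootBN.H_le_B (R := D.rootBN K) (D.conj_mem_diagonal K hN hd)))
    · rw [RootBN.Um_eq_of_w_eq e, RootBN.Um_n0]; exact hu
  rw [conj_eq_one_iff] at h2
  subst h2
  rw [one_mul] at hP ⊢
  refine D.eq_one_of_commute_simple K hd fun i => ?_
  obtain ⟨j, k, hk, rfl⟩ := T.cover i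
  obtain ⟨χ, hχ, rfl⟩ := D.exists_char_of_mem_diagonal K hd
  obtain ⟨n1, hn1, e1⟩ := h.exists_up (T.p j 0)
  have hθN := D.nE_mem_monomial K θ (one_ne_zero (α := K))
  have hm := mul_mem h.nE_mem (NM_le_MM hn1)
  have hmN := mul_mem hθN (NM_le_N hn1)
  generalize hm' : D.nE K θ 1 * n1 = m at hm hmN
  have e2 : D.charG K χ * T.y j 1 * (D.charG K χ)⁻¹ = T.Y j fun k => χ (T.p j k) := by
    rw [Twist.y, conj_cprod]
    exact cprod_congr fun k _ => by rw [D.charG_conj_X K hχ]; simp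
  have h3 : m * ((T.y j 1)⁻¹ * (D.charG K χ * T.y j 1 * (D.charG K χ)⁻¹)) * m⁻¹ = 1 := by
    refine eq_one_of_PP_QM h.top ?_ (conj_N_XS hmN (S := Orb T (T.p j 0)) (fun s hs => ?_) ?_)
    · simpa [mul_assoc] using mul_mem (hP _ (mul_mem (y_mem_MM j (map_one _)) (inv_mem hm)))
        (inv_mem (H_le_PP (D.conj_mem_diagonal K hmN hd)))
    · rw [Set.mem_ofPred_eq, ← hm', w_mul hθN (NM_le_N hn1), D.wOf_nE K θ one_ne_zero, pairing_refl_self,
        pairing_Orb h.fix _ (w_Orb (NM_le_N hn1) (NM_le_G1 hn1) s hs)]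
      rcases e1 with e1 | e1
      · rw [e1, pairing_self]; omega
      · rw [pairing_Orb h.fix _ e1, h.la]
    · rw [e2, XS_Orb_p]; exact mul_mem (inv_mem (T.y_mem_US j 1)) (T.Y_mem_US j _)
  rw [conj_eq_one_iff, inv_mul_eq_one, e2] at h3
  have h4 := T.eq_of_Y_eq h3 hk
  simp only [map_one] at h4
  change _ * D.X K (T.p j k) 1 * _ = D.X K (T.p j k) 1
  rw [D.charG_conj_X K hχ, ← h4, mul_one]

theorem eq_one_of_commute {c : GL D.Idx K} (hc : c ∈ D.group K)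
    (hC : ∀ m ∈ MM T, Commute c (m * D.X K θ 1 * m⁻¹)) : c = 1 :=
  h.eq_one_of_PP hc fun m hm => mem_PP_of_conj h.top (a := 1) (a' := 1)
    (mul_mem (mul_mem (inv_mem (T.G1_le_group hm.1)) hc) (T.G1_le_group hm.1)) one_ne_zero (by
      rw [conj_conj, conj_conj, (hC m hm).mul_inv_cancel]; group)

variable {H : Subgroup (GL D.Idx K)} (hM : MM T ≤ H) (hQ : H ⊓ QQ K θ ≤ MM T)
include hM hQ

theorem special {u n : GL D.Idx K} (hu : u ∈ D.posUnipotent K) (hu' : u ∈ T.G1) (hn : n ∈ D.monomialSubgroup K)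
    (hn' : n ∈ T.G1) (hl : D.pairing θ (D.wOf K n θ) = -1) (hx : u * n * D.X K θ 1 * (u * n)⁻¹ ∈ H) :
    u * n * D.X K θ 1 * (u * n)⁻¹ ∈ MM T := by
  obtain ⟨c, -, -, e⟩ := exists_mono hn θ
  obtain ⟨C, hC, e1⟩ := sl_terms h.sl hl
  have hθN := D.nE_mem_monomial K θ (one_ne_zero (α := K))
  have hn2 := mul_mem hθN hn
  obtain ⟨c', -, -, e'⟩ := exists_mono hn2 θ
  rw [w_mul hθN hn, D.wOf_nE K θ one_ne_zero] at e'
  have h1 := mul_mem (inv_mem hx) (conj_mem' (hM h.top_mem) hx)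
  have h2 := U_commute_top h.top hu (1 : K)
  rw [conj_conj u n, e, ← conj_conj, ← h2.eq, conj_conj, conj1 e1, ← conj_mul, inv_mul_cancel_left] at h1
  have h3 := hQ ⟨h1, conj_lev h.top one_pos (U_le_PP hu) (D.X_mem_XS K (by
    rw [Set.mem_ofPred_eq, pairing_refl_self, hl]; rfl) _)⟩
  have hv := mul_mem hu' (mul_mem h.nE_mem.1 hn')
  obtain ⟨m, hm, h4⟩ := h.exists_mul_mem_PP hv (b := (c'⁻¹ : Kˣ) * (C * 1 * (c * 1)))
    (by rcases hC with rfl | rfl <;> simp) (by rw [conj_conj, e']; simpa using h3)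
  have h5 : (D.nE K θ 1 * n)⁻¹ * (n * D.X K θ 1 * n⁻¹) * (D.nE K θ 1 * n)⁻¹⁻¹ ∈ QQ K θ := by
    refine conj_N_XS (inv_mem hn2) (S := {D.wOf K n θ}) ?_ (by rw [e]; exact D.X_mem_XS K (Set.mem_singleton _) _)
    rintro _ rfl
    rw [Set.mem_ofPred_eq, ← weyl_pairing (D.wOf_mem_weyl K (D.nE K θ 1 * n)), w_w_inv hn2, w_mul hθN hn,
      D.wOf_nE K θ one_ne_zero, sl_symm h.sl, pairing_lin _ (u := D.refl θ (D.wOf K n θ)) (r := θ)
        (s := D.wOf K n θ) (i := 1) (j := 1) (by rw [wt_refl, hl]; module), pairing_self, sl_symm h.sl, hl]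
    rfl
  have h6 := conj_lev h.top one_pos h4 h5
  have e2 : m⁻¹ * (u * (D.nE K θ 1 * n)) * ((D.nE K θ 1 * n)⁻¹ * (n * D.X K θ 1 * n⁻¹) * (D.nE K θ 1 * n)⁻¹⁻¹) *
      (m⁻¹ * (u * (D.nE K θ 1 * n)))⁻¹ = m⁻¹ * (u * n * D.X K θ 1 * (u * n)⁻¹) * m⁻¹⁻¹ := by group
  rw [e2] at h6
  simpa [mul_assoc] using conj_mem' hm (hQ ⟨conj_mem' (inv_mem (hM hm)) hx, h6⟩)

theorem mem_or_commute (hH : H ≤ T.G1) {g : GL D.Idx K} (hg : g ∈ H) :
    g * D.X K θ 1 * g⁻¹ ∈ MM T ∨ Commute (g * D.X K θ 1 * g⁻¹) (D.X K θ 1) := by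
  have hx := conj_mem' hg (hM h.top_mem)
  obtain ⟨u, hu, hu', n, hn, hn', x, hx', -, rfl⟩ := T.sub.closed.nf (hH hg)
  rw [conj_conj, (U_commute_top h.top (RootBN.Um_le_U _ hx') 1).mul_inv_cancel] at hx ⊢
  obtain ⟨c, -, -, e⟩ := exists_mono hn θ
  rcases lt_trichotomy (D.pairing θ (D.wOf K n θ)) 0 with hl | hl | hl
  · left
    by_cases hl' : D.pairing θ (D.wOf K n θ) = -1
    · exact h.special hM hQ hu hu' hn hn' hl' hx
    have e1 := sl_eq_ng h.sl (r := θ) (s := D.wOf K n θ) (by omega)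
    have ht := T.t_mem_N j0
    obtain ⟨x1, h1, y1, h2, rfl⟩ := RootBN.factor (R := D.rootBN K) ht hu
    obtain ⟨h3, h4⟩ := T.sub.closed.mem_of_mul ht (T.t_mem_G1 j0) h1 h2 hu'
    obtain ⟨s, hs, rfl⟩ := T.mem_US_G1_iff.1 ⟨T.sub.Um_t j0 ▸ h1, h3⟩
    rw [h.d0, pow_one] at hs
    have hm := mul_mem (t_mem_MM (T := T) j0) (inv_mem (y_mem_MM j0 hs))
    have e2 : T.t j0 * y1 * (T.t j0)⁻¹ * (T.t j0 * n) * D.X K θ 1 * (T.t j0 * y1 * (T.t j0)⁻¹ * (T.t j0 * n))⁻¹ =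
      T.t j0 * (T.y j0 s)⁻¹ * (T.y j0 s * y1 * n * D.X K θ 1 * (T.y j0 s * y1 * n)⁻¹) *
        (T.t j0 * (T.y j0 s)⁻¹)⁻¹ := by group
    have h5 := h.special hM hQ (RootBN.conj_Up ht h2) (conj_mem' (T.t_mem_G1 j0) h4) (mul_mem ht hn)
      (mul_mem (T.t_mem_G1 j0) hn') (by
        rw [w_mul ht hn, e1, T.wOf_t, h.d0, cprod_one_eq, sref_ng, pairing_ng_right, ← refl_sr,
          pairing_lin θ (u := D.refl _ θ) (r := θ) (s := T.p j0 0) (i := 1) (j := -1) (by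
            rw [wt_refl, sl_symm h.sl, ← Twist.p, h.l0]; module), pairing_self, h.l0]
        rfl) (e2 ▸ conj_mem' (hM hm) hx)
    rw [e2] at h5
    simpa [mul_assoc] using conj_mem' (inv_mem hm) h5
  · right
    rw [conj_conj, e, ← (U_commute_top h.top hu 1).mul_inv_cancel]
    exact ((sl_commute h.sl hl.ge _ _).symm.map (MulAut.conj u).toMonoidHom :)
  · left
    refine hQ ⟨hx, ?_⟩
    rw [conj_conj, e]
    exact conj_lev h.top one_pos (U_le_PP hu) (D.X_mem_XS K (by exact hl) _)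

theorem le_MM (hH : H ≤ T.G1) : H ≤ MM T := by
  have key : ∀ g ∈ H, g * D.X K θ 1 * g⁻¹ ∈ MM T := fun g hg => by
    by_contra h0
    refine h0 (h.eq_one_of_commute (T.G1_le_group (hH (conj_mem' hg (hM h.top_mem)))) (fun m hm => ?_) ▸ one_mem _)
    rcases h.mem_or_commute hM hQ hH (mul_mem (inv_mem (hM hm)) hg) with h1 | h1
    · exact absurd (by simpa [mul_assoc] using conj_mem' hm h1) h0
    · simpa [mul_assoc] using h1.map (MulAut.conj m).toMonoidHom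
  intro g hg
  have hg' := T.G1_le_group (hH hg)
  refine ⟨hH hg, (inv_mul_eq_one.1 (h.eq_one_of_commute (mul_mem (inv_mem hg') (Fr_mem_group hg'))
    fun m hm => ?_)).symm⟩
  have h1 := (mem_MM.1 (key _ (mul_mem hg (hM hm)))).2
  have h2 := (mem_MM.1 (conj_mem' hm h.top_mem)).2
  rw [conj_conj, map_mul, map_mul, map_inv, h2] at h1
  rw [Commute, SemiconjBy, mul_assoc, inv_mul_eq_iff_eq_mul, mul_inv_eq_iff_eq_mul.1 h1]
  group

end Data

end Cfsg.Agent.Chev.TwMax
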