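import Mathlib
import Cfsg.Agent.Chev.TwMaxB

/-!
Overgroups in a twisted group of the points over the fixed field: the unipotent radical.
-/

set_option autoImplicit false

namespace Cfsg.Agent.Chev.TwMax

open Cfsg.Lie Cfsg.Lie.ChevalleyDatum Cfsg.Agent.Chev EntSupp
open scoped Matrix

variable {D : ChevalleyDatum} [hG : D.Good] {K : Type*} [Field K] {J : Type} {T : D.Twist K J}

theorem span_two {f : RingAut K} (hf : ∀ x, f (f x) = x) {t : K} (ht : f t ≠ t) (x : K) :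
    ∃ a b, f a = a ∧ f b = b ∧ x = a + b * t := by
  have h1 := sub_ne_zero.2 ht
  have h2 := sub_ne_zero.2 ht.symm
  refine ⟨x - (f x - x) / (f t - t) * t, (f x - x) / (f t - t), ?_, ?_, by ring⟩
  · simp only [map_sub, map_mul, map_div₀, hf]; field_simp; ring
  · simp only [map_sub, map_div₀, hf]; field_simp; ring

theorem span_three {f : RingAut K} (hf : ∀ x, f (f (f x)) = x) {t : K} (ht : f t ≠ t) (x : K) :
    ∃ a b c, f a = a ∧ f b = b ∧ f c = c ∧ x = a + b * t + c * (f t * f (f t)) := by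
  have h1 : t - f t ≠ 0 := sub_ne_zero.2 ht.symm
  have h2 : f t - f (f t) ≠ 0 := sub_ne_zero.2 fun e => ht (f.injective e).symm
  have h3 : f (f t) - t ≠ 0 := sub_ne_zero.2 fun e => ht (by rw [← e, hf, e])
  have h4 : f ((t - f t) * (f t - f (f t)) * (f (f t) - t)) = (t - f t) * (f t - f (f t)) * (f (f t) - t) := by
    simp only [map_sub, map_mul, hf]; ring
  have h5 := mul_ne_zero (mul_ne_zero h1 h2) h3
  generalize hΔ : (t - f t) * (f t - f (f t)) * (f (f t) - t) = Δ at h4 h5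
  refine ⟨(x * t * (f t ^ 2 - f (f t) ^ 2) + f x * f t * (f (f t) ^ 2 - t ^ 2) +
      f (f x) * f (f t) * (t ^ 2 - f t ^ 2)) / Δ,
    -(x * t * (f t - f (f t)) + f x * f t * (f (f t) - t) + f (f x) * f (f t) * (t - f t)) / Δ,
    -(x * (f t - f (f t)) + f x * (f (f t) - t) + f (f x) * (t - f t)) / Δ, ?_, ?_, ?_, ?_⟩
  · simp only [map_div₀, h4, map_add, map_sub, map_mul, map_pow, hf]; congr 1; ring
  · simp only [map_div₀, h4, map_add, map_sub, map_mul, map_neg, hf]; congr 1; ring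
  · simp only [map_div₀, h4, map_add, map_sub, map_mul, map_neg, hf]; congr 1; ring
  · field_simp; rw [← hΔ]; ring

theorem fix_sign {f : RingAut K} {ε c : K} (hε : ε = 1 ∨ ε = -1) : f (ε * c) = ε * c ↔ f c = c := by
  rcases hε with rfl | rfl <;> simp

namespace Data

variable {θ a : D.Rt} {j0 j1 : J} (h : Data T θ a j0 j1)
include h

theorem Orb_le {r : D.Rt} (hr : D.pairing θ r = 1) : D.XS K (Orb T r) ≤ QQ K θ :=
  XS_mono' fun s hs => ((pairing_Orb h.fix s hs).trans hr).ge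

theorem σ_QQ {y : GL D.Idx K} (hy : y ∈ QQ K θ) : T.σ y ∈ QQ K θ :=
  σ_XS (fun r hr => by rwa [Set.mem_ofPred_eq, ← h.fix, T.pairing_ρ]) hy

theorem cf_σ {r : D.Rt} (hr : D.pairing θ r = 1) {ε : K} (hε : ∀ t, T.σ (D.X K r t) = D.X K (T.ρ r) (ε * T.f t))
    {y : GL D.Idx K} (hy : y ∈ QQ K θ) : cf (T.ρ r) (T.σ y) = ε * T.f (cf r y) := by
  have hr' : D.pairing θ (T.ρ r) = 1 := by rw [← h.fix, T.pairing_ρ, hr]
  refine ChevalleyDatum.XS_induction (P := fun y => cf (T.ρ r) (T.σ y) = ε * T.f (cf r y))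
    (by simp [T.σ_one, cf_one]) (fun s hs t g hg e => ?_) hy
  have h1 := D.X_mem_XS K hs t
  rw [T.σ_mul (D.X_mem_group K _ _) (XS_le_group _ hg), cf_mul hr' (h.σ_QQ h1) (h.σ_QQ hg), e, cf_mul hr h1 hg,
    map_add, mul_add, cf_X]
  congr 1
  split_ifs with e1
  · subst e1; rw [hε, cf_X, if_pos rfl]
  · obtain ⟨ε', -, e2, -⟩ := T.exists_eps s
    rw [e2, cf_X, if_neg (fun e3 => e1 (T.ρ.injective e3)), map_zero, mul_zero]

theorem cf_ρ {r : D.Rt} (hr : D.pairing θ r = 1) {y : GL D.Idx K} (hy : y ∈ QQ K θ) (hy' : y ∈ T.G1) :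
    ∃ ε : K, (ε = 1 ∨ ε = -1) ∧ cf (T.ρ r) y = ε * T.f (cf r y) := by
  obtain ⟨ε, h1, h2, -⟩ := T.exists_eps r
  exact ⟨ε, h1, by rw [← h.cf_σ hr h2 hy, σ_eq hy']⟩

theorem cf_Orb {r : D.Rt} (hr : D.pairing θ r = 1) {y : GL D.Idx K} (hy : y ∈ QQ K θ) (hy' : y ∈ T.G1)
    {P : K → Prop} (h0 : P (cf r y)) (h1 : ∀ c, P c → P (T.f c)) (h2 : ∀ c, P c → P (-c)) :
    ∀ s ∈ Orb T r, P (cf s y) := fun s hs =>
  (Orb_induction (P := fun s => D.pairing θ s = 1 ∧ P (cf s y)) ⟨hr, h0⟩ (fun s hs => by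
    obtain ⟨ε, hε, e⟩ := h.cf_ρ hs.1 hy hy'
    refine ⟨by rw [← h.fix, T.pairing_ρ, hs.1], ?_⟩
    rcases hε with rfl | rfl
    · simpa [e] using h1 _ hs.2
    · simpa [e] using h2 _ (h1 _ hs.2)) s hs).2

theorem cf_Orb_zero {r : D.Rt} (hr : D.pairing θ r = 1) {y : GL D.Idx K} (hy : y ∈ QQ K θ) (hy' : y ∈ T.G1)
    (h0 : cf r y = 0) : ∀ s ∈ Orb T r, cf s y = 0 :=
  h.cf_Orb hr hy hy' (P := fun c => c = 0) h0 (by simp) (by simp)

theorem cf_Orb_fix {r : D.Rt} (hr : D.pairing θ r = 1) {y : GL D.Idx K} (hy : y ∈ QQ K θ) (hy' : y ∈ T.G1)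
    (h0 : T.f (cf r y) = cf r y) : ∀ s ∈ Orb T r, T.f (cf s y) = cf s y :=
  h.cf_Orb hr hy hy' (P := fun c => T.f c = c) h0 (by simp) (by simp)

theorem cf_fix {r : D.Rt} (hr : D.pairing θ r = 1) (h0 : T.ρ r = r) {y : GL D.Idx K} (hy : y ∈ QQ K θ)
    (hy' : y ∈ T.G1) : T.f (cf r y) = cf r y := by
  have := h.cf_σ hr (ε := 1) (fun t => by rw [h.σ_X h0, h0, one_mul]) hy
  rw [h0, σ_eq hy', one_mul] at this
  exact this.symm

theorem rep {n : GL D.Idx K} (hn : n ∈ NM T) {j : J} {k : ℕ} (hk : k < T.d j) {r : D.Rt}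
    (e : D.wOf K n (T.p j k) = r) : (∀ t, n * T.y j t * n⁻¹ ∈ D.XS K (Orb T r)) ∧
      (∀ o ∈ T.G1, o ∈ D.XS K (Orb T r) → ∃ t, o = n * T.y j t * n⁻¹) ∧ (D.pairing θ r = 1 →
        ∃ ε : K, (ε = 1 ∨ ε = -1) ∧ ∀ t, cf r (n * T.y j t * n⁻¹) = ε * (T.f ^ k) t) := by
  have hN := NM_le_N hn
  have e1 : Orb T (T.p j k) = Orb T (T.p j 0) := Orb_eq (mem_Orb_p.2 ⟨k, hk, rfl⟩)
  have h1 : ∀ s ∈ Orb T (T.p j 0), D.wOf K n s ∈ Orb T r := fun s hs =>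
    e ▸ w_Orb hN (NM_le_G1 hn) s (e1 ▸ hs)
  refine ⟨fun t => conj_N_XS hN h1 (XS_Orb_p (T := T) j ▸ T.y_mem_US j t), fun o ho ho' => ?_, fun hr => ?_⟩
  · have h2 := conj_N_XS (inv_mem hN) (w_Orb (inv_mem hN) (NM_le_G1 (inv_mem hn))) ho'
    rw [← e, w_inv_w hN, e1, XS_Orb_p] at h2
    obtain ⟨t, -, e2⟩ := T.mem_US_G1_iff.1 ⟨h2, conj_mem' (NM_le_G1 (inv_mem hn)) ho⟩
    exact ⟨t, by rw [← e2]; group⟩
  · obtain ⟨ε, hε, e2⟩ := (NM_le_Nsgn hn).2 (T.p j k)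
    refine ⟨ε, hε, fun t => ?_⟩
    obtain ⟨z, hz, e3⟩ := exists_cprod_eq_mul (g := fun k => D.X K (T.p j k) ((T.f ^ k) t))
      (M := D.XS K {s | s ∈ Orb T (T.p j 0) ∧ s ≠ T.p j k}) hk fun k' hk' hne =>
        ⟨D.X_mem_XS K (And.intro (mem_Orb_p.2 ⟨k', hk', rfl⟩) fun e => hne
          (T.node_inj j k' hk' k hk (D.sr_injective e))) _,
        T.L1_comm j k hk k' hk' hne.symm _ (D.X_mem_L1 K _ _) _ (D.X_mem_L1 K _ _)⟩
    have h2 := conj_N_XS hN (T := {s | s ∈ Orb T r ∧ s ≠ r})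
      (fun s hs => ⟨h1 s hs.1, fun e4 => hs.2 ((D.wOf K n).injective (e4.trans e.symm))⟩) hz
    have h3 : ∀ s ∈ {s | s ∈ Orb T r ∧ s ≠ r}, 1 ≤ D.pairing θ s := fun s hs =>
      ((pairing_Orb h.fix s hs.1).trans hr).ge
    rw [Twist.y, e3, ← conj_mul, e2, e, cf_mul hr (D.X_mem_XS K hr.ge _) (XS_mono' h3 h2), cf_X, if_pos rfl,
      cf_eq_zero hr h3 (fun h => h.2 rfl) h2, add_zero]

theorem orb_rep {r : D.Rt} (hr : T.ρ r ≠ r) : ∃ n ∈ NM T, ∃ k < T.d j1, D.wOf K n (T.p j1 k) = r := by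
  obtain ⟨n, hn, e⟩ := h.exists_orb hr
  obtain ⟨m, hm, e'⟩ := h.exists_orb h.n1
  have h1 := w_Orb (NM_le_N (inv_mem hm)) (NM_le_G1 (inv_mem hm)) _ (Orb_trans (Orb_symm e') e)
  rw [w_inv_w (NM_le_N hm), mem_Orb_p] at h1
  obtain ⟨k, hk, e1⟩ := h1
  exact ⟨n⁻¹ * m, mul_mem (inv_mem hn) hm, k, hk, by
    rw [w_mul (NM_le_N (inv_mem hn)) (NM_le_N hm), ← e1, w_w_inv (NM_le_N hm), w_inv_w (NM_le_N hn)]⟩

theorem exists_cf {r : D.Rt} (hr : D.pairing θ r = 1) {c : K} (hc : T.ρ r = r → T.f c = c) :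
    ∃ o ∈ T.G1, o ∈ D.XS K (Orb T r) ∧ cf r o = c ∧ (T.f c = c → o ∈ MM T) := by
  by_cases h0 : T.ρ r = r
  · exact ⟨_, (h.X_mem_MM h0 (hc h0)).1, D.X_mem_XS K (self_mem_Orb r) c, by rw [cf_X, if_pos rfl],
      h.X_mem_MM h0⟩
  obtain ⟨n, hn, k, hk, e⟩ := h.orb_rep h0
  obtain ⟨h1, -, h2⟩ := h.rep hn hk e
  obtain ⟨ε, hε, h3⟩ := h2 hr
  refine ⟨_, conj_mem' (NM_le_G1 hn) (T.y_mem_G1 j1 (h.fd ((T.f ^ k).symm (ε * c)))), h1 _, ?_,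
    fun h4 => conj_mem' (NM_le_MM hn) (y_mem_MM j1 ?_)⟩
  · rw [h3, RingEquiv.apply_symm_apply]; rcases hε with rfl | rfl <;> simp
  · have h5 := (fix_sign hε).2 h4
    rw [(RingEquiv.symm_apply_eq _).2 (f_pow_fix h5 k).symm, h5]

variable {H : Subgroup (GL D.Idx K)} (hM : MM T ≤ H)
include hM

theorem kill {z : GL D.Idx K} (hz : z ∈ QQ K θ) (hz' : z ∈ T.G1)
    (h0 : ∀ r : D.Rt, D.pairing θ r = 1 → T.f (cf r z) = cf r z) : z ∈ H := by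
  classical
  induction hn : (Finset.univ.filter fun r : D.Rt => D.pairing θ r = 1 ∧ cf r z ≠ 0).card
    using Nat.strong_induction_on generalizing z with
  | _ n ih =>
    by_cases h1 : ∀ r : D.Rt, D.pairing θ r = 1 → cf r z = 0
    · obtain ⟨t, rfl⟩ := eq_top_of_cf h.top h.sl hz h1
      exact hM (h.X_mem_MM_of h.fix hz')
    push Not at h1
    obtain ⟨r, hr, h1⟩ := h1
    obtain ⟨m, hm, hm', e, hM'⟩ := h.exists_cf hr (c := cf r z) fun _ => h0 r hr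
    have h2 := h.Orb_le hr hm'
    have h3 := mul_mem (inv_mem h2) hz
    have h4 := mul_mem (inv_mem hm) hz'
    have h5 := h.cf_Orb_zero hr h3 h4 (by rw [cf_mul hr (inv_mem h2) hz, cf_inv hr h2, e, neg_add_cancel])
    have h6 : ∀ s : D.Rt, D.pairing θ s = 1 → s ∉ Orb T r → cf s (m⁻¹ * z) = cf s z := fun s hs hs' => by
      rw [cf_mul hs (inv_mem h2) hz, cf_inv hs h2,
        cf_eq_zero hs (fun u hu => ((pairing_Orb h.fix u hu).trans hr).ge) hs' hm', neg_zero, zero_add]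
    suffices h7 : m⁻¹ * z ∈ H by simpa using mul_mem (hM (hM' (h0 r hr))) h7
    refine ih _ (hn ▸ Finset.card_lt_card ⟨fun s hs => ?a, fun hs => ?b⟩) h3 h4 (fun s hs => ?c) rfl
    case a =>
      simp only [Finset.mem_filter, Finset.mem_univ, true_and] at hs ⊢
      exact ⟨hs.1, h6 s hs.1 (fun h => hs.2 (h5 s h)) ▸ hs.2⟩
    case b =>
      have := hs (x := r) (by simp [hr, h1])
      simp [h5 r (self_mem_Orb r)] at this
    case c =>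
      by_cases h8 : s ∈ Orb T r
      · rw [h5 s h8, map_zero]
      · rw [h6 s hs h8, h0 s hs]

variable (hH : H ≤ T.G1)
include hH

theorem pure {z : GL D.Idx K} (hz : z ∈ QQ K θ) (hz' : z ∈ H) {r : D.Rt} (hr : D.pairing θ r = 1)
    (h0 : ∀ s : D.Rt, D.pairing θ s = 1 → s ∉ Orb T r → T.ρ s ≠ s → T.f (cf s z) = cf s z) :
    ∃ o ∈ H, o ∈ D.XS K (Orb T r) ∧ cf r o = cf r z := by
  obtain ⟨o, ho, ho', e, -⟩ := h.exists_cf hr (c := cf r z) fun h1 => h.cf_fix hr h1 hz (hH hz')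
  have h2 := h.Orb_le hr ho'
  have h3 := mul_mem (inv_mem h2) hz
  have h4 := mul_mem (inv_mem ho) (hH hz')
  have h5 := h.cf_Orb_zero hr h3 h4 (by rw [cf_mul hr (inv_mem h2) hz, cf_inv hr h2, e, neg_add_cancel])
  have h6 := h.kill hM h3 h4 fun s hs => by
    by_cases h7 : s ∈ Orb T r
    · rw [h5 s h7, map_zero]
    by_cases h8 : T.ρ s = s
    · exact h.cf_fix hs h8 h3 h4
    rw [cf_mul hs (inv_mem h2) hz, cf_inv hs h2,
      cf_eq_zero hs (fun u hu => ((pairing_Orb h.fix u hu).trans hr).ge) h7 ho', neg_zero, zero_add, h0 s hs h7 h8]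
  exact ⟨o, by simpa using mul_mem hz' (inv_mem h6), ho', e⟩

theorem exists_y {z : GL D.Idx K} (hz : z ∈ QQ K θ) (hz' : z ∈ H) {r : D.Rt} (hr : D.pairing θ r = 1)
    (h0 : ∀ s : D.Rt, D.pairing θ s = 1 → s ∉ Orb T r → T.ρ s ≠ s → T.f (cf s z) = cf s z)
    (h1 : T.f (cf r z) ≠ cf r z) : ∃ t, T.f t ≠ t ∧ T.y j1 t ∈ H := by
  obtain ⟨o, ho, ho', e⟩ := h.pure hM hH hz hz' hr h0
  obtain ⟨n, hn, k, hk, e1⟩ := h.orb_rep fun h2 => h1 (h.cf_fix hr h2 hz (hH hz'))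
  obtain ⟨t, rfl⟩ := (h.rep hn hk e1).2.1 o (hH ho) ho'
  refine ⟨t, fun h2 => h1 ?_, by simpa [mul_assoc] using conj_mem' (inv_mem (hM (NM_le_MM hn))) ho⟩
  rw [← e]
  exact (cf_map (T.f : K →+* K) r _).symm.trans
    (congrArg (cf r) (mem_MM.1 (conj_mem' (NM_le_MM hn) (y_mem_MM j1 h2))).2)

omit hH in
theorem G1_le (h1 : ∀ t, T.y j1 t ∈ H) : T.G1 ≤ H := by
  have key : ∀ j t, (T.f ^ T.d j) t = t → T.y j t ∈ H := fun j t ht => by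
    by_cases h0 : T.ρ (T.p j 0) = T.p j 0
    · have h2 : T.y j t ∈ D.XS K (Orb T (T.p j 0)) := XS_Orb_p (T := T) j ▸ T.y_mem_US j t
      obtain ⟨s, e⟩ := exists_of_mem_XS_one (fun r hr => eq_of_Orb h0 hr) h2
      exact hM (e ▸ h.X_mem_MM_of h0 (e ▸ T.y_mem_G1 j ht))
    obtain ⟨n, hn, k, hk, e⟩ := h.orb_rep h0
    obtain ⟨s, e1⟩ := (h.rep hn hk e).2.1 _ (T.y_mem_G1 j ht) (XS_Orb_p (T := T) j ▸ T.y_mem_US j t)
    exact e1 ▸ conj_mem' (hM (NM_le_MM hn)) (h1 s)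
  refine (Subgroup.closure_le _).2 ?_
  rintro _ ⟨j, t, ht, rfl | rfl⟩
  · exact key j t ht
  · have := conj_mem' (hM (t_mem_MM j)) (key j (-t) (by rw [map_neg, ht]))
    rwa [T.t_conj_y, neg_neg] at this

omit hH in
theorem smul_mem {t c : K} (ht : T.y j1 t ∈ H) (hc : T.f c = c) : T.y j1 (c * t) ∈ H := by
  rcases eq_or_ne c 0 with rfl | h0
  · rw [zero_mul, T.y_zero]; exact one_mem _
  obtain ⟨n, hn, e⟩ := h.exists_orb h.n1
  have hN := NM_le_N hn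
  have h1 : T.ρ (D.wOf K n⁻¹ θ) = D.wOf K n⁻¹ θ := by rw [← w_ρ (inv_mem hN) (NM_le_G1 (inv_mem hn)), h.fix]
  have h2 : D.pairing (D.wOf K n⁻¹ θ) (T.p j1 0) = 1 := by
    rw [← weyl_pairing (D.wOf_mem_weyl K n), w_w_inv hN, pairing_Orb h.fix _ e, h.la]
  generalize D.wOf K n⁻¹ θ = β at h1 h2
  have h3 : T.ρ (D.ng β) = D.ng β := by rw [T.ρ_ng, h1]
  have h4 : D.hE K β c ∈ MM T := mul_mem (nE_mem_of (h.X_mem_MM h1 hc) (h.X_mem_MM h3 (by simp [hc])))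
    (nE_mem_of (h.X_mem_MM h1 (by simp)) (h.X_mem_MM h3 (by simp)))
  have h5 := conj_mem' (hM h4) ht
  rw [Twist.y, conj_cprod] at h5
  convert h5 using 1
  refine cprod_congr fun k hk => ?_
  rw [D.hE_conj_X K β _ h0, pairing_Orb h1 _ (mem_Orb_p.2 ⟨k, hk, rfl⟩), h2, zpow_one, map_mul, f_pow_fix hc]

omit hM hH in
theorem exists_cf_ne (hQ : ¬ H ⊓ QQ K θ ≤ MM T) (hH : H ≤ T.G1) :
    ∃ z ∈ H, z ∈ QQ K θ ∧ ∃ r : D.Rt, D.pairing θ r = 1 ∧ T.f (cf r z) ≠ cf r z := by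
  by_contra h0
  push Not at h0
  exact hQ fun z hz => h.kill le_rfl hz.2 (hH hz.1) (h0 z hz.1 hz.2)

theorem eq_G1_two (hf : ∀ x, T.f (T.f x) = x)
    (hE : ∀ r : D.Rt, D.pairing θ r = 1 → T.ρ r ≠ r → ∃ δ : D.Rt, T.ρ δ = δ ∧ D.pairing θ δ = 0 ∧
      D.pairing δ r = -1 ∧ ∀ s : D.Rt, D.pairing θ s = 1 → D.pairing δ s = 1 → T.ρ s = s ∨ s ∈ Orb T (D.refl δ r))
    (hQ : ¬ H ⊓ QQ K θ ≤ MM T) : T.G1 ≤ H := by
  obtain ⟨z, hz, hz', r, hr, h1⟩ := h.exists_cf_ne hQ hH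
  obtain ⟨δ, h2, h3, h4, h5⟩ := hE r hr fun h2 => h1 (h.cf_fix hr h2 hz' (hH hz))
  obtain ⟨C, hC, e⟩ := sl_terms h.sl h4
  have h6 := conj_QQ h3 (1 : K) hz'
  have h7 : D.pairing θ (D.refl δ r) = 1 := by
    rw [pairing_lin θ (u := D.refl δ r) (r := δ) (s := r) (i := 1) (j := 1) (by rw [wt_refl, h4]; module), h3, hr]
    rfl
  obtain ⟨t, ht, ht'⟩ := h.exists_y hM hH (mul_mem h6 (inv_mem hz'))
    (mul_mem (conj_mem' (hM (h.X_mem_MM h2 (map_one _))) hz) (inv_mem hz)) h7 (fun s hs h8 h9 => by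
      rw [cf_mul hs h6 (inv_mem hz'), cf_conj_of_ne hs h.sl h3 _ (fun e => by simpa [h8, h9] using h5 s hs e) hz',
        cf_inv hs hz', add_neg_cancel, map_zero]) (by
      rw [cf_mul h7 h6 (inv_mem hz'), cf_conj h7 h.sl h3 _ e hz', cf_inv h7 hz', add_neg_cancel_comm, mul_one,
        Ne, fix_sign (by rcases hC with rfl | rfl <;> simp)]
      exact h1)
  refine h.G1_le hM fun x => ?_
  obtain ⟨a, b, ha, hb, rfl⟩ := span_two hf ht x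
  rw [T.y_add]
  exact mul_mem (hM (y_mem_MM j1 ha)) (h.smul_mem hM ht' hb)

omit hM hH in
theorem maximal {t : K} (ht : T.f t ≠ t)
    (hL : ∀ H, MM T ≤ H → H ≤ T.G1 → ¬ H ⊓ QQ K θ ≤ MM T → T.G1 ≤ H) :
    MM T ≠ T.G1 ∧ ∀ H, MM T ≤ H → H ≤ T.G1 → H = MM T ∨ H = T.G1 := by
  refine ⟨fun e => ht (fix_of_y (mem_MM.1 (e ▸ T.y_mem_G1 j1 (h.fd t))).2), fun H h1 h2 => ?_⟩
  by_cases hQ : H ⊓ QQ K θ ≤ MM T
  · exact Or.inl (le_antisymm (h.le_MM h1 hQ h2) h1)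
  · exact Or.inr (le_antisymm h2 (hL H h1 h2 hQ))

end Data

end Cfsg.Agent.Chev.TwMax
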