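import Mathlib
import Cfsg.Agent.Chev.TwMaxC
import Cfsg.Agent.Chev.TwE6
import Cfsg.Agent.Chev.TwD4
import Cfsg.Agent.Chev.StData

/-!
The points over the fixed field form a maximal subgroup of `²E₆(q)` and of `³D₄(q)`.
-/

set_option autoImplicit false

namespace Cfsg.Agent.Chev.TwMax

open Cfsg.Lie Cfsg.Lie.ChevalleyDatum Cfsg.Agent.Chev

variable {K : Type*} [Field K] {f : RingAut K}

/-- The depth of a root. -/
def dep (D : ChevalleyDatum) (r : ℕ) : ℕ := (30 - (D.coroot.getD r #[]).toList.sum).toNat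

theorem ρE (r s : Fin 72) : (twE6 f).ρ r = s ↔
    ∀ i : Fin 6, chevE6.cartan ([5, 1, 4, 3, 2, 0].getD i 0) s = chevE6.cartan i r := e6Sym.ρ_eq_iff

theorem ρD (r s : Fin 24) : (twD4 f).ρ r = s ↔
    ∀ i : Fin 4, chevD4.cartan ([2, 1, 3, 0].getD i 0) s = chevD4.cartan i r := d4Sym.ρ_eq_iff

theorem dataE6 (hf : ∀ t, (f ^ 2) t = t) : Data (twE6 f) (e6r 71) (e6r 68) 0 2 where
  top := fun s => Nat.lt_succ_iff.1 s.2
  sl := slE6
  fix := (ρE _ _).2 (by decide +kernel)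
  up := ⟨dep chevE6, fun r => by
    have key : ∀ r : Fin 72, r = 71 ∨ r = 68 ∨ r = 66 ∨ ∃ j : Fin 4, dep chevE6
      (chevE6.actN (![[e6n 1], [e6n 3], [e6n 2, e6n 4], [e6n 0, e6n 5]] j) r) < dep chevE6 r := by decide +kernel
    rcases key r with e | e | e | ⟨j, e⟩
    · exact Or.inl e
    · exact Or.inr (Or.inl ⟨0, e.symm⟩)
    · exact Or.inr (Or.inl ⟨1, e ▸ (ρE _ _).2 (by decide +kernel)⟩)
    · exact Or.inr (Or.inr ⟨j, by rwa [Twist.wOf_t_val, twE6_lw]⟩)⟩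
  na := fun e => absurd ((ρE _ _).1 e) (by decide +kernel)
  la := by decide +kernel
  d0 := rfl
  l0 := by change chevE6.pairing 71 46 = 1; decide +kernel
  n1 := fun e => absurd ((ρE 42 42).1 e) (by decide +kernel)
  fd := hf
  reg := ⟨[71, 71, 71, 70, 70, 69, 69, 65].map e6r, fun r hr => (ρE _ _).2 (by revert r; decide +kernel),
    fun s hs => by
      rw [isPos_iff_le] at hs
      revert s
      change ∀ s : Fin 72, 72 ≤ 2 * (s : ℕ) → _
      decide +kernel⟩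

theorem maximal_E6 (hf : ∀ t, (f ^ 2) t = t) {t : K} (ht : f t ≠ t) : MM (twE6 f) ≠ (twE6 f).G1 ∧
    ∀ H, MM (twE6 f) ≤ H → H ≤ (twE6 f).G1 → H = MM (twE6 f) ∨ H = (twE6 f).G1 := by
  refine (dataE6 hf).maximal ht fun H h1 h2 => (dataE6 hf).eq_G1_two h1 h2 hf fun r hr _ => ?_
  have key : ∀ r : Fin 72, chevE6.pairing 71 r = 1 →
      (∀ i : Fin 6, chevE6.cartan ([5, 1, 4, 3, 2, 0].getD i 0) r = chevE6.cartan i r) ∨
      ∃ δ ∈ ([11, 27, 32, 39, 44, 60] : List (Fin 72)), chevE6.pairing δ r = -1 ∧ ∀ s : Fin 72,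
        chevE6.pairing 71 s = 1 → chevE6.pairing δ s = 1 →
        (∀ i : Fin 6, chevE6.cartan ([5, 1, 4, 3, 2, 0].getD i 0) s = chevE6.cartan i s) ∨
        (∀ i : Fin 6, chevE6.cartan i s = chevE6.cartan i r + chevE6.cartan i δ) ∨
        ∀ i : Fin 6, chevE6.cartan ([5, 1, 4, 3, 2, 0].getD i 0) s = chevE6.cartan i r + chevE6.cartan i δ := by
    decide +kernel
  obtain ⟨δ, h3, h4, h5⟩ := (key r hr).resolve_left fun e => ‹_ ≠ _› ((ρE r r).2 e)
  have h6 : ∀ i : Fin 6, chevE6.cartan i (chevE6.refl δ r) = chevE6.cartan i r + chevE6.cartan i δ := fun i => by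
    have := congrFun (chevE6.wt_refl δ r) i
    rw [h4] at this
    rw [neg_smul, one_smul, sub_neg_eq_add] at this
    exact this
  refine ⟨δ, (ρE _ _).2 (by clear h4 h5 h6; revert δ; decide +kernel), by clear h4 h5 h6; revert δ; decide +kernel,
    h4, fun s hs hs' => (h5 s hs hs').imp (ρE s s).2 ?_⟩
  rintro (e | e)
  · exact ⟨0, chevE6.wt_inj (funext fun i => (h6 i).trans (e i).symm)⟩
  · exact ⟨1, (ρE _ s).2 fun i => (e i).trans (h6 i).symm⟩

theorem dataD4 (hf : ∀ t, (f ^ 3) t = t) : Data (twD4 f) (d4r 23) (d4r 17) 0 1 where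
  top := fun s => Nat.lt_succ_iff.1 s.2
  sl := slD4
  fix := (ρD _ _).2 (by decide +kernel)
  up := ⟨dep chevD4, fun r => by
    have key : ∀ r : Fin 24, r = 23 ∨ r = 17 ∨ r = 20 ∨ r = 21 ∨ ∃ j : Fin 2, dep chevD4
      (chevD4.actN (![[d4n 1], [d4n 0, d4n 2, d4n 3]] j) r) < dep chevD4 r := by decide +kernel
    have h1 : (twD4 f).ρ (d4r 17) = d4r 20 := (ρD _ _).2 (by decide +kernel)
    have h2 : (twD4 f).ρ (d4r 20) = d4r 21 := (ρD _ _).2 (by decide +kernel)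
    rcases key r with e | e | e | e | ⟨j, e⟩
    · exact Or.inl e
    · exact Or.inr (Or.inl ⟨0, e.symm⟩)
    · exact Or.inr (Or.inl ⟨1, e ▸ h1⟩)
    · exact Or.inr (Or.inl (e ▸ (h2 ▸ h1 ▸ ρ_mem_Orb (ρ_mem_Orb (self_mem_Orb _)) : d4r 21 ∈ _)))
    · exact Or.inr (Or.inr ⟨j, by rwa [Twist.wOf_t_val, twD4_lw]⟩)⟩
  na := fun e => absurd ((ρD _ _).1 e) (by decide +kernel)
  la := by decide +kernel
  d0 := rfl
  l0 := by change chevD4.pairing 23 14 = 1; decide +kernel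
  n1 := fun e => absurd ((ρD 18 18).1 e) (by decide +kernel)
  fd := hf
  reg := ⟨[22, 23, 23].map d4r, fun r hr => (ρD _ _).2 (by revert r; decide +kernel),
    fun s hs => by
      rw [isPos_iff_le] at hs
      revert s
      change ∀ s : Fin 24, 24 ≤ 2 * (s : ℕ) → _
      decide +kernel⟩

theorem d4_cases (s : chevD4.Rt) (hs : chevD4.pairing (d4r 23) s = 1) (h : (twD4 f).ρ s ≠ s) :
    s ∈ Orb (twD4 f) (d4r 16) ∨ s ∈ Orb (twD4 f) (d4r 17) := by
  have key : ∀ s : Fin 24, chevD4.pairing 23 s = 1 → (s = 14 ∨ s = 22) ∨ (s = 16 ∨ s = 15 ∨ s = 19) ∨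
    s = 17 ∨ s = 20 ∨ s = 21 := by decide +kernel
  have h1 : (twD4 f).ρ (d4r 17) = d4r 20 := (ρD _ _).2 (by decide +kernel)
  have h2 : (twD4 f).ρ (d4r 20) = d4r 21 := (ρD _ _).2 (by decide +kernel)
  have h3 : (twD4 f).ρ (d4r 16) = d4r 15 := (ρD _ _).2 (by decide +kernel)
  have h4 : (twD4 f).ρ (d4r 15) = d4r 19 := (ρD _ _).2 (by decide +kernel)
  rcases key s hs with (rfl | rfl) | (rfl | rfl | rfl) | rfl | rfl | rfl
  · exact absurd ((ρD _ _).2 (by decide +kernel)) h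
  · exact absurd ((ρD _ _).2 (by decide +kernel)) h
  · exact Or.inl (self_mem_Orb _)
  · exact Or.inl ⟨1, h3⟩
  · exact Or.inl (h4 ▸ h3 ▸ ρ_mem_Orb (ρ_mem_Orb (self_mem_Orb _)) : d4r 19 ∈ _)
  · exact Or.inr (self_mem_Orb _)
  · exact Or.inr ⟨1, h1⟩
  · exact Or.inr (h2 ▸ h1 ▸ ρ_mem_Orb (ρ_mem_Orb (self_mem_Orb _)) : d4r 21 ∈ _)

theorem d4_conj (t : K) {z : GL chevD4.Idx K} (hz : z ∈ QQ K (d4r 23)) :
    (twD4 f).y 1 t * z * ((twD4 f).y 1 t)⁻¹ ∈ QQ K (d4r 23) ∧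
    cf (d4r 16) ((twD4 f).y 1 t * z * ((twD4 f).y 1 t)⁻¹) = cf (d4r 16) z + f t * cf (d4r 14) z ∧
    cf (d4r 17) ((twD4 f).y 1 t * z * ((twD4 f).y 1 t)⁻¹) = cf (d4r 17) z + f (f t) * cf (d4r 16) z +
      f t * (cf (d4r 15) z + f (f t) * cf (d4r 14) z) := by
  have l0 : chevD4.pairing (d4r 23) (d4r 18) = 0 := by decide +kernel
  have l1 : chevD4.pairing (d4r 23) (d4r 13) = 0 := by decide +kernel
  have l2 : chevD4.pairing (d4r 23) (d4r 12) = 0 := by decide +kernel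
  have m14 : chevD4.pairing (d4r 23) (d4r 14) = 1 := by decide +kernel
  have m15 : chevD4.pairing (d4r 23) (d4r 15) = 1 := by decide +kernel
  have m16 : chevD4.pairing (d4r 23) (d4r 16) = 1 := by decide +kernel
  have m17 : chevD4.pairing (d4r 23) (d4r 17) = 1 := by decide +kernel
  have h2 := conj_QQ l2 (f (f t)) hz
  have h1 := conj_QQ l1 (f t) h2
  have e : (twD4 f).y 1 t = chevD4.X K (d4r 18) t * (chevD4.X K (d4r 13) (f t) * chevD4.X K (d4r 12) (f (f t))) :=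
    (twD4_y f t).2
  rw [e, conj_conj, conj_conj]
  refine ⟨conj_QQ l0 t h1, ?_, ?_⟩
  · rw [cf_conj_of_ne m16 slD4 l0 _ (by decide +kernel) h1,
      cf_conj m16 slD4 l1 _ (s := d4r 14) (C := 1) (by decide +kernel) h2,
      cf_conj_of_ne m16 slD4 l2 _ (by decide +kernel) hz, cf_conj_of_ne m14 slD4 l2 _ (by decide +kernel) hz]
    simp
  · rw [cf_conj_of_ne m17 slD4 l0 _ (by decide +kernel) h1,
      cf_conj m17 slD4 l1 _ (s := d4r 15) (C := 1) (by decide +kernel) h2,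
      cf_conj m17 slD4 l2 _ (s := d4r 16) (C := 1) (by decide +kernel) hz,
      cf_conj m15 slD4 l2 _ (s := d4r 14) (C := 1) (by decide +kernel) hz]
    simp

theorem d4_σ (t : K) : (twD4 f).σ (chevD4.X K (d4r 16) t) = chevD4.X K ((twD4 f).ρ (d4r 16)) (1 * f t) := by
  have h1 := conj1 (F := K) (r := d4r 13) (s := d4r 14) (v := 16) (C := 1) (by decide +kernel) 1 t
  have h2 := conj1 (F := K) (r := d4r 12) (s := d4r 14) (v := 15) (C := 1) (by decide +kernel) 1 (f t)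
  have h3 : (twD4 f).σ (chevD4.X K (d4r 13) 1) = chevD4.X K (d4r 12) (f 1) := (twD4 f).σ_X_sr (d4n 2) 1
  have h4 : (twD4 f).σ (chevD4.X K (d4r 14) t) = chevD4.X K (d4r 14) (f t) := (twD4 f).σ_X_sr (d4n 1) t
  have h5 := congrArg (twD4 f).σ h1
  rw [(twD4 f).σ_conj (chevD4.X_mem_group K _ _) (chevD4.X_mem_group K _ _), h3, h4, map_one, h2,
    (twD4 f).σ_mul (chevD4.X_mem_group K _ _) (chevD4.X_mem_group K _ _), h4, mul_right_inj] at h5
  rw [show (twD4 f).ρ (d4r 16) = d4r 15 from (ρD _ _).2 (by decide +kernel)]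
  simp only [Int.cast_one, one_mul] at h5
  rw [one_mul]
  exact h5.symm

theorem maximal_D4 (hf : ∀ t, (f ^ 3) t = t) {t : K} (ht : f t ≠ t) : MM (twD4 f) ≠ (twD4 f).G1 ∧
    ∀ H, MM (twD4 f) ≤ H → H ≤ (twD4 f).G1 → H = MM (twD4 f) ∨ H = (twD4 f).G1 := by
  have h := dataD4 hf
  have hf' : ∀ t, f (f (f t)) = t := hf
  have m14 : chevD4.pairing (d4r 23) (d4r 14) = 1 := by decide +kernel
  have m16 : chevD4.pairing (d4r 23) (d4r 16) = 1 := by decide +kernel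
  have m17 : chevD4.pairing (d4r 23) (d4r 17) = 1 := by decide +kernel
  have f14 : (twD4 f).ρ (d4r 14) = d4r 14 := (ρD _ _).2 (by decide +kernel)
  have hX : ∀ c : K, chevD4.X K (d4r 14) c ∈ QQ K (d4r 23) := fun c => chevD4.X_mem_XS K m14.ge c
  refine h.maximal ht fun H h1 h2 hQ => ?_
  have hfix : ∀ z ∈ H, z ∈ QQ K (d4r 23) → f (cf (d4r 16) z) = cf (d4r 16) z → ∀ s : chevD4.Rt,
      chevD4.pairing (d4r 23) s = 1 → s ∉ Orb (twD4 f) (d4r 17) → (twD4 f).ρ s ≠ s → f (cf s z) = cf s z :=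
    fun z hz hz' e s hs h3 h4 => h.cf_Orb_fix m16 hz' (h2 hz) e s ((d4_cases s hs h4).resolve_right h3)
  obtain ⟨t, ht, ht'⟩ : ∃ t, f t ≠ t ∧ (twD4 f).y 1 t ∈ H := by
    obtain ⟨z, hz, hz', r, hr, h3⟩ := h.exists_cf_ne hQ h2
    by_cases h4 : f (cf (d4r 16) z) = cf (d4r 16) z
    · refine h.exists_y h1 h2 hz' hz m17 (hfix z hz hz' h4) fun h5 => h3 ?_
      rcases d4_cases r hr fun e => h3 (h.cf_fix hr e hz' (h2 hz)) with h6 | h6
      · exact h.cf_Orb_fix m16 hz' (h2 hz) h4 r h6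
      · exact h.cf_Orb_fix m17 hz' (h2 hz) h5 r h6
    have h5 := mul_mem (inv_mem (h1 (h.X_mem_MM f14 (h.cf_fix m14 f14 hz' (h2 hz))))) hz
    have h6 := mul_mem (inv_mem (hX (cf (d4r 14) z))) hz'
    have h7 : cf (d4r 14) ((chevD4.X K (d4r 14) (cf (d4r 14) z))⁻¹ * z) = 0 := by
      rw [cf_mul m14 (inv_mem (hX _)) hz', cf_inv m14 (hX _), cf_X, if_pos rfl, neg_add_cancel]
    have h8 : cf (d4r 16) ((chevD4.X K (d4r 14) (cf (d4r 14) z))⁻¹ * z) = cf (d4r 16) z := by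
      rw [cf_mul m16 (inv_mem (hX _)) hz', cf_inv m16 (hX _), cf_X, if_neg (by decide), neg_zero, zero_add]
    rw [← h8] at h4
    generalize (chevD4.X K (d4r 14) (cf (d4r 14) z))⁻¹ * z = y at h4 h5 h6 h7
    obtain ⟨e1, e2, e3⟩ := d4_conj (f := f) 1 h6
    have e4 := h.cf_σ m16 d4_σ h6
    rw [σ_eq (h2 h5), show (twD4 f).ρ (d4r 16) = d4r 15 from (ρD _ _).2 (by decide +kernel), one_mul] at e4
    have h9 := mul_mem (conj_mem' (h1 (y_mem_MM 1 (map_one _))) h5) (inv_mem h5)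
    have h10 := mul_mem e1 (inv_mem h6)
    refine h.exists_y h1 h2 h10 h9 m17 (hfix _ h9 h10 ?_) fun e => h4 ?_
    · rw [cf_mul m16 e1 (inv_mem h6), e2, cf_inv m16 h6, h7]; simp
    · rw [cf_mul m17 e1 (inv_mem h6), e3, cf_inv m17 h6, h7, e4] at e
      simp only [map_one, one_mul, mul_zero, add_zero, twD4_f, map_add, map_neg] at e
      have e5 : f (f (cf (d4r 16) y)) = cf (d4r 16) y := by linear_combination e
      rw [← e5, hf', e5]
  have hn := mul_mem (t_mem_NM (T := twD4 f) 1) (t_mem_NM 0)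
  have w1 : chevD4.wOf K ((twD4 f).t 0) ((twD4 f).p 1 1) = d4r 16 := Fin.ext (by
    rw [Twist.wOf_t_val, twD4_lw]; change chevD4.actN [d4n 1] 13 = 16; decide +kernel)
  have w2 : chevD4.wOf K ((twD4 f).t 1 * (twD4 f).t 0) ((twD4 f).p 1 0) = d4r 17 := Fin.ext (by
    rw [w_mul ((twD4 f).t_mem_N 1) ((twD4 f).t_mem_N 0), Twist.wOf_t_val, Twist.wOf_t_val, twD4_lw]
    change chevD4.actN [d4n 0, d4n 2, d4n 3] (chevD4.actN [d4n 1] 18) = 17
    decide +kernel)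
  obtain ⟨a1, -, a2⟩ := h.rep (t_mem_NM 0) (j := 1) (k := 1) (by change 1 < 3; decide) w1
  obtain ⟨ε, hε, a2⟩ := a2 m16
  obtain ⟨-, b1, b2⟩ := h.rep hn (j := 1) (k := 0) (by change 0 < 3; decide) w2
  obtain ⟨η, hη, b2⟩ := b2 m17
  obtain ⟨e1, e2, e3⟩ := d4_conj (f := f) t (hX 1)
  simp only [cf_X] at e2 e3
  rw [if_neg (by decide), if_pos trivial] at e2
  rw [if_neg (by decide), if_neg (by decide), if_neg (by decide), if_pos trivial] at e3
  have c1 := a1 (-ε * t)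
  have c2 := h.Orb_le m16 c1
  have c3 := mul_mem (conj_mem' ht' (h1 (h.X_mem_MM f14 (map_one _))))
    (conj_mem' (h1 (t_mem_MM 0)) (h.smul_mem h1 ht' (c := -ε) (by rcases hε with rfl | rfl <;> simp)))
  obtain ⟨o, ho, ho', e4⟩ := h.pure h1 h2 (mul_mem e1 c2) c3 m17 (hfix _ c3 (mul_mem e1 c2) (by
    rw [cf_mul m16 e1 c2, e2, a2]
    rcases hε with rfl | rfl <;> simp [twD4_f]))
  obtain ⟨u, rfl⟩ := b1 o (h2 ho) ho'
  rw [b2, cf_mul m17 e1 c2, e3, cf_eq_zero m17 (fun s hs => ((pairing_Orb h.fix s hs).trans m16).ge) (fun e => ?_) c1]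
    at e4
  · have c4 := h.smul_mem h1 (t := u) (c := η) (by
      simpa [mul_assoc] using conj_mem' (inv_mem (h1 (NM_le_MM hn))) ho) (by rcases hη with rfl | rfl <;> simp)
    rw [show η * u = f t * f (f t) by simpa using e4] at c4
    refine h.G1_le h1 fun x => ?_
    obtain ⟨a, b, c, ha, hb, hc, rfl⟩ := span_three hf' ht x
    rw [Twist.y_add, Twist.y_add]
    exact mul_mem (mul_mem (h1 (y_mem_MM 1 ha)) (h.smul_mem h1 ht' hb)) (h.smul_mem h1 c4 hc)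
  · have := pairing_Orb (θ := d4r 22) ((ρD _ _).2 (by decide +kernel)) _ e
    revert this
    decide +kernel

theorem eq_MM {D : ChevalleyDatum} [D.Good] {J : Type} {T : D.Twist K J} {q : ℕ} (hf : ∀ t, T.f t = t ^ q)
    {M : Subgroup (GL D.Idx K)}
    (hM : ∀ g, g ∈ M ↔ g ∈ T.G1 ∧ ∀ i j, (g : Matrix D.Idx D.Idx K) i j ^ q = (g : Matrix D.Idx D.Idx K) i j) :
    M = MM T := by
  ext g
  rw [hM, mem_MM, Units.ext_iff, ← Matrix.ext_iff]
  simp [Fr, hf]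

theorem exists_pow_ne [Fintype K] {q n : ℕ} (hq : 1 < q) (hn : 1 < n) (hK : Fintype.card K = q ^ n) :
    ∃ t : K, t ^ q ≠ t := by
  by_contra h
  push Not at h
  have h1 : Fintype.card K ≤ q := by
    classical
    have h2 := FiniteField.X_pow_card_sub_X_natDegree_eq K hq
    rw [← h2, ← Finset.card_univ]
    refine (Finset.card_le_card fun t _ => ?_).trans ((Multiset.toFinset_card_le _).trans (Polynomial.card_roots' _))
    simp [FiniteField.X_pow_card_sub_X_ne_zero K hq, h]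
  have := Nat.pow_lt_pow_right hq hn
  rw [pow_one] at this
  omega

end Cfsg.Agent.Chev.TwMax
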