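import Mathlib
import Cfsg.Agent.Chev.UComm
import Cfsg.Agent.Chev.SimCoef
import Cfsg.Agent.GT.Frattini

/-!
# Weakly closed unipotent subgroups of Chevalley groups (Guralnick, Malle, Röhrle)
-/

set_option autoImplicit false

namespace Cfsg.Lie.ChevalleyDatum

open Cfsg.Agent Cfsg.Agent.Chev
open scoped commutatorElement

variable {D : ChevalleyDatum} [hG : D.Good] {F : Type*} [Field F]

theorem SimC.mul {i : D.Nd} {a b : F} {v w : GL D.Idx F} (h : D.SimC i a v) (h' : D.SimC i b w) :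
    D.SimC i (a + b) (v * w) := by
  obtain ⟨m, hm, rfl⟩ := h
  obtain ⟨n, hn, rfl⟩ := h'
  exact ⟨_, mul_mem (conj_Up_s i (inv_mem (X_sr_mem_U i b)) hm) hn, by rw [X_add]; group⟩

theorem exists_simC (i : D.Nd) {v : GL D.Idx F} (hv : v ∈ D.posUnipotent F) : ∃ a, D.SimC i a v := by
  obtain ⟨x, hx, y, hy, rfl⟩ := RootBN.factor_simple (R := D.rootBN F) i hv
  obtain ⟨t, rfl⟩ := (D.mem_rootSubgroup_iff F _ x).1 hx
  exact ⟨t, y, hy, rfl⟩

theorem commutator_le_Up (i : D.Nd) :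
    ⁅D.posUnipotent F, D.posUnipotent F⁆ ≤ (D.rootBN F).Up ((D.rootBN F).s i) := by
  rw [Subgroup.commutator_le]
  intro v hv w hw
  obtain ⟨a, ha⟩ := exists_simC i hw
  obtain ⟨b, hb⟩ := exists_simC i (inv_mem hw)
  obtain ⟨m, hm, e⟩ := (ha.conj hv).mul hb
  have h0 := (ha.mul hb).eq_zero (by rw [mul_inv_cancel]; exact one_mem _)
  rw [commutatorElement_def, e, h0, X_zero, one_mul]
  exact hm

variable (D F) in
/-- The map `t ↦ ∏ x_{p_j}(t_j)` to the abelianisation of `U`. -/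
def abU : Multiplicative (D.Nd → F) →* Abelianization (D.posUnipotent F) where
  toFun c := ∏ j, Abelianization.of ⟨D.X F (D.sr j) (c.toAdd j), X_mem_posUnipotent (D.sr_pos j) _⟩
  map_one' := Finset.prod_eq_one fun j _ => by
    rw [← map_one Abelianization.of]; exact congrArg _ (Subtype.ext (D.X_zero F _))
  map_mul' a b := by
    rw [← Finset.prod_mul_distrib]
    refine Finset.prod_congr rfl fun j _ => ?_
    rw [← map_mul]; exact congrArg _ (Subtype.ext (D.X_add F _ _ _))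

theorem abU_single (j : D.Nd) (t : F) : D.abU F (Multiplicative.ofAdd (Pi.single j t)) =
    Abelianization.of ⟨D.X F (D.sr j) t, X_mem_posUnipotent (D.sr_pos j) _⟩ := by
  simp only [abU, MonoidHom.coe_mk, OneHom.coe_mk]
  rw [Finset.prod_eq_single j (fun k _ hk => ?_) (by simp)]
  · simp
  · rw [← map_one Abelianization.of]
    exact congrArg _ (Subtype.ext (by simp [hk]))

omit hG in
theorem of_eq_one {u : D.posUnipotent F} (h : u.1 ∈ ⁅D.posUnipotent F, D.posUnipotent F⁆) :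
    Abelianization.of u = 1 := by
  rw [← MonoidHom.mem_ker, Abelianization.ker_of, ← Subgroup.mem_map_iff_mem
    (D.posUnipotent F).subtype_injective, Subgroup.map_subtype_commutator]
  exact h

theorem abU_surjective (hU : D.UComm F) : Function.Surjective (D.abU F) := by
  have : D.posUnipotent F ≤ ((D.abU F).range.comap Abelianization.of).map
      (D.posUnipotent F).subtype := by
    refine (D.posUnipotent_eq_closure F).trans_le ((Subgroup.closure_le _).2 ?_)
    rintro _ ⟨r, t, hr, rfl⟩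
    refine ⟨⟨_, X_mem_posUnipotent hr t⟩, ?_, rfl⟩
    by_cases h : ∃ i, r = D.sr i
    · obtain ⟨i, rfl⟩ := h
      exact ⟨_, abU_single i t⟩
    · exact ⟨1, by rw [map_one, of_eq_one (hU r hr (not_exists.1 h) t)]⟩
  intro a
  obtain ⟨u, rfl⟩ : ∃ u, Abelianization.of u = a := QuotientGroup.mk_surjective a
  obtain ⟨v, hv, e⟩ := this u.2
  exact Subtype.ext e ▸ hv

theorem mem_of_mul_sq [Finite F] {S : AddSubgroup F} (h : ∀ c : F, ∀ a ∈ S, c ^ 2 * a ∈ S) {a : F}
    (ha : a ∈ S) (h0 : a ≠ 0) (t : F) : t ∈ S := by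
  by_cases h2 : ringChar F = 2
  · obtain ⟨c, hc⟩ := FiniteField.isSquare_of_char_two h2 (t / a)
    simpa [sq, ← hc, h0] using h c a ha
  · have := Ring.two_ne_zero h2
    convert sub_mem (h ((t / a + 1) / 2) a ha) (h ((t / a - 1) / 2) a ha) using 1
    field_simp
    ring

theorem conj_mem_posUnipotent {h g : GL D.Idx F} (hh : h ∈ D.diagonalSubgroup F)
    (hg : g ∈ D.posUnipotent F) : h * g * h⁻¹ ∈ D.posUnipotent F := by
  rw [posUnipotent_eq_XS] at hg ⊢
  exact D.conj_mem_XS_of_diagonal F hh hg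

variable (D) in
/-- The simple root coefficients of the elements of `X`. -/
def abV (X : Subgroup (GL D.Idx F)) : AddSubgroup (D.Nd → F) := AddSubgroup.toSubgroup.symm
  (((X.subgroupOf (D.posUnipotent F)).map Abelianization.of).comap (D.abU F))

variable {X : Subgroup (GL D.Idx F)}

theorem mem_abV {a : D.Nd → F} : a ∈ D.abV X ↔ ∃ x : D.posUnipotent F, x.1 ∈ X ∧
    Abelianization.of x = D.abU F (Multiplicative.ofAdd a) := Iff.rfl

theorem abV_conj (hH : ∀ h ∈ D.diagonalSubgroup F, ∀ x ∈ X, h * x * h⁻¹ ∈ X) (r : D.Rt) (c : Fˣ)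
    {a : D.Nd → F} (ha : a ∈ D.abV X) :
    (fun j => (c : F) ^ D.pairing r (D.sr j) * a j) ∈ D.abV X := by
  obtain ⟨x, hx, e⟩ := mem_abV.1 ha
  have hh := D.hE_mem_diagonal F r c.ne_zero
  let ψ : D.posUnipotent F →* D.posUnipotent F := ((MulAut.conj (D.hE F r c)).toMonoidHom.comp
    (D.posUnipotent F).subtype).codRestrict _ fun u => conj_mem_posUnipotent hh u.2
  refine mem_abV.2 ⟨ψ x, hH _ hh _ hx, ?_⟩
  rw [← Abelianization.map_of, e]
  simp only [abU, MonoidHom.coe_mk, OneHom.coe_mk, map_prod, Abelianization.map_of]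
  exact Finset.prod_congr rfl fun j _ => congrArg _
    (Subtype.ext (D.hE_conj_X F r (D.sr j) c.ne_zero _))

theorem exists_mem_abV (hU : D.UComm F) (hXU : X ≤ D.posUnipotent F) {i : D.Nd}
    (hi : ¬X ≤ (D.rootBN F).Up ((D.rootBN F).s i)) : ∃ a ∈ D.abV X, a i ≠ 0 := by
  obtain ⟨x, hx, hx'⟩ := SetLike.not_le_iff_exists.1 hi
  obtain ⟨a, ha⟩ := abU_surjective hU (Abelianization.of ⟨x, hXU hx⟩)
  refine ⟨a.toAdd, mem_abV.2 ⟨_, hx, ha.symm⟩, fun h0 => hx' ?_⟩
  have : D.abU F a ∈ (((D.rootBN F).Up ((D.rootBN F).s i)).subgroupOf (D.posUnipotent F)).map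
      Abelianization.of := by
    simp only [abU, MonoidHom.coe_mk, OneHom.coe_mk]
    refine Subgroup.prod_mem _ fun j _ => Subgroup.mem_map_of_mem _ (Subgroup.mem_subgroupOf.2 ?_)
    by_cases e : j = i
    · simp only [e, h0, X_zero, one_mem]
    · rw [RootBN.Up_s]
      exact RootBN.X_le_XS (R := D.rootBN F) (r := D.sr j)
        (S := {r | (D.rootBN F).pos r ∧ r ≠ (D.rootBN F).simple i})
        (And.intro (D.sr_pos j) fun h => e (D.sr_injective h)) (D.X_mem_rootSubgroup F _ _)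
  rw [ha, ← Subgroup.mem_comap, Subgroup.comap_map_eq_self] at this
  · exact this
  · rw [Abelianization.ker_of, Subgroup.subgroupOf, ← Subgroup.map_le_iff_le_comap,
      Subgroup.map_subtype_commutator]
    exact commutator_le_Up i

variable [Finite F] (hU : D.UComm F) (hsep : ∀ i j : D.Nd, i ≠ j → ∃ r : D.Rt,
    D.pairing r (D.sr j) = 0 ∧ ∃ c : Fˣ, c ^ D.pairing r (D.sr i) ≠ 1) (hXU : X ≤ D.posUnipotent F)
include hU hsep hXU

theorem single_mem_abV (hH : ∀ h ∈ D.diagonalSubgroup F, ∀ x ∈ X, h * x * h⁻¹ ∈ X) {i : D.Nd}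
    (hi : ¬X ≤ (D.rootBN F).Up ((D.rootBN F).s i)) (t : F) : Pi.single i t ∈ D.abV X := by
  have h3 : ∀ T : Finset D.Nd, i ∉ T → ∃ a ∈ D.abV X, a i ≠ 0 ∧ ∀ j ∈ T, a j = 0 := fun T => by
    induction T using Finset.induction_on with
    | empty => simpa using exists_mem_abV hU hXU hi
    | insert j T hj ih =>
      intro hT
      obtain ⟨a, ha, h4, h5⟩ := ih fun h => hT (Finset.mem_insert_of_mem h)
      obtain ⟨r, hr, c, hc⟩ := hsep i j fun e => hT (e ▸ Finset.mem_insert_self _ _)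
      refine ⟨_, sub_mem (abV_conj hH r c ha) ha, fun h => hc (Units.ext ?_),
        (Finset.forall_mem_insert _ _ _).2 ⟨by simp [hr], fun k hk => by simp [h5 k hk]⟩⟩
      simpa [sub_eq_zero, h4] using h
  obtain ⟨a, ha, h4, h5⟩ := h3 (Finset.univ.erase i) (Finset.notMem_erase _ _)
  refine mem_of_mul_sq (S := (D.abV X).comap (AddMonoidHom.single (fun _ => F) i))
    (fun c b hb => ?_) (a := a i) ?_ h4 t
  · by_cases h0 : c = 0
    · simp [h0]
    · change Pi.single i _ ∈ D.abV X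
      convert abV_conj hH (D.sr i) (Units.mk0 c h0) (a := Pi.single i b) hb using 1
      funext j
      by_cases e : j = i <;> simp [e, zpow_ofNat]
  · change Pi.single i _ ∈ D.abV X
    convert ha
    funext j
    by_cases e : j = i <;> simp [e, h5]

/-- A subgroup of `U` normalised by `H` covers `U` up to the simple roots which do not occur. -/
theorem sup_US_eq (hH : ∀ h ∈ D.diagonalSubgroup F, ∀ x ∈ X, h * x * h⁻¹ ∈ X) :
    X ⊔ (D.rootBN F).US {i | X ≤ (D.rootBN F).Up ((D.rootBN F).s i)} = D.posUnipotent F := by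
  have hY : X ⊔ (D.rootBN F).US {i | X ≤ (D.rootBN F).Up ((D.rootBN F).s i)} ≤
      D.posUnipotent F :=
    sup_le hXU (RootBN.US_le_U _)
  have := D.isNilpotent_posUnipotent F
  refine le_antisymm hY (Subgroup.subgroupOf_eq_top.1 (frattini_nongenerating
    (eq_top_iff.2 (le_trans ?_ (sup_le_sup_left GT.commutator_le_frattini_of_isNilpotent _)))))
  rw [← Abelianization.ker_of, ← Subgroup.comap_map_eq]
  intro u _
  obtain ⟨a, ha⟩ := abU_surjective hU (Abelianization.of u)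
  rw [Subgroup.mem_comap, ← ha, ← ofAdd_toAdd a, ← Finset.univ_sum_single a.toAdd, ofAdd_sum,
    map_prod]
  refine Subgroup.prod_mem _ fun i _ => ?_
  by_cases hi : X ≤ (D.rootBN F).Up ((D.rootBN F).s i)
  · rw [abU_single]
    refine Subgroup.mem_map_of_mem _ (Subgroup.mem_subgroupOf.2 ?_)
    refine Subgroup.mem_sup_right (RootBN.X_le_XS (R := D.rootBN F) (r := D.sr i)
      (S := {r | (D.rootBN F).pos r ∧ (D.rootBN F).supp r ⊆
        {i | X ≤ (D.rootBN F).Up ((D.rootBN F).s i)}})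
      (And.intro (D.sr_pos i) fun j hj => ?_) (D.X_mem_rootSubgroup F _ _))
    by_cases e : j = i
    · exact e ▸ hi
    · simp [rootBN_supp, cw_sr, e] at hj
  · exact Subgroup.map_mono (Subgroup.comap_mono le_sup_left) 
      (single_mem_abV hU hsep hXU hH hi _)

/-- **Weakly closed unipotent subgroups are unipotent radicals.** -/
theorem eq_Q_of_weaklyClosed
    (hwc : ∀ g ∈ D.group F, (∀ x ∈ X, g * x * g⁻¹ ∈ D.posUnipotent F) → ∀ x ∈ X, g * x * g⁻¹ ∈ X) :
    ∃ J, X = (D.rootBN F).Q J := by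
  set R := D.rootBN F
  have hH : ∀ h ∈ D.diagonalSubgroup F, ∀ x ∈ X, h * x * h⁻¹ ∈ X := fun h hh =>
    hwc h (R.H_le_G hh) fun x hx => conj_mem_posUnipotent hh (hXU hx)
  have h1 := sup_US_eq hU hsep hXU hH
  set J := {i | X ≤ R.Up (R.s i)}
  have h2 : ∀ n ∈ R.NS J, ∀ x ∈ X, n * x * n⁻¹ ∈ X := fun n hn =>
    RootBN.NS_induction (S := J) (p := fun n => ∀ x ∈ X, n * x * n⁻¹ ∈ X) hH (fun i hi =>
      hwc _ (R.N_le_G (R.s_mem i)) fun x hx => ((RootBN.mem_Up_iff (R.s_mem i)).1 (hi hx)).2)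
      (fun a _ b _ ha hb x hx => by simpa [mul_assoc] using ha _ (hb x hx)) hn
  have h3 : X ≤ R.Q J := fun x hx => RootBN.Up_nS (R := R) J ▸
    (RootBN.mem_Up_iff (RootBN.nS_mem_N J)).2 ⟨hXU hx, hXU (h2 _ (RootBN.nS_mem J) x hx)⟩
  refine ⟨J, le_antisymm h3 fun q hq => ?_⟩
  have h4 : R.US J ≤ Subgroup.normalizer (X : Set (GL D.Idx F)) :=
    le_normalizer_of_conj_mem fun u hu => hwc u (R.U_le_G (RootBN.US_le_U J hu)) fun x hx =>
      mul_mem (mul_mem (RootBN.US_le_U J hu) (hXU hx)) (inv_mem (RootBN.US_le_U J hu))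
  obtain ⟨u, hu, x, hx, rfl⟩ := exists_mul_of_mem_sup h4 (h1.ge (RootBN.Q_le_U J hq))
  rwa [RootBN.eq_one_of_mem_US_Q hu ((mul_mem_cancel_right (h3 hx)).1 hq), one_mul]

end Cfsg.Lie.ChevalleyDatum
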